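import Cfsg.Agent.FT.BG04p
import Cfsg.Agent.FT.X2a
import Cfsg.Agent.H16.Derang

/-! `2`-elements acting on a `q`-group of class two through a single hyperbolic plane. -/

set_option autoImplicit false
set_option linter.unusedSectionVars false
set_option linter.style.haveILetI false

namespace Cfsg.Agent.H1

open Cfsg Subgroup Cfsg.Agent.FT
open scoped commutatorElement

variable {G : Type*} [Group G] [Finite G] {D K M S T X Y : Subgroup G} {q : ℕ} {e g h s t : G}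

theorem dvd_card_sub (hX : T ≤ N(X)) (hY : T ≤ N(Y)) (hle : Y ≤ X) {d : ℕ}
    (h : ∀ x ∈ X, x ∉ Y → d ∣ C[x].relIndex T) : d ∣ #X - #Y := by
  letI : MulAction T G := MulAction.compHom G (MulAut.conj.comp T.subtype)
  have := H16.dvd_ncard_of_orbits (G := T) (d := d) ((X : Set G) \ Y) (Set.toFinite _)
    (fun t x hx => ⟨conj_mem (hX t.2) hx.1, fun c => hx.2 (by
      have := conj_mem' (hY t.2) c
      change (t : G)⁻¹ * (t * x * (t : G)⁻¹) * t ∈ Y at this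
      simpa [mul_assoc] using this)⟩) fun x hx => by
      rw [← MulAction.index_stabilizer]
      convert h x hx.1 hx.2 using 1
      refine congrArg index (Subgroup.ext fun t => ?_)
      exact mul_inv_eq_iff_eq_mul.trans mem_cen1.symm
  rwa [Set.ncard_diff hle] at this

/-- a `2`-group `S` acting on a `q`-group `D` of class two and centralising `Z(D)` -/
structure PCx (q : ℕ) (D S : Subgroup G) : Prop where
  prime : q.Prime
  ne : q ≠ 2
  pD : PGrp q D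
  pS : PGrp 2 S
  der : ⁅D, D⁆ ≤ C(D)
  nrm : S ≤ N(D)
  cen : S ≤ C(Z(D))

/-- the support of `g` on `D` -/
def Pln (D : Subgroup G) (g : G) : Subgroup G := ⁅D, ⟪g⟫⁆ ⊔ Z(D)

/-- `g` has order `q + 1` and acts regularly on its support, a plane -/
structure Pl (q : ℕ) (D : Subgroup G) (g : G) : Prop where
  ord : orderOf g = q + 1
  reg : ∀ x ∈ ⟪g⟫, x ≠ 1 → D ⊓ C[x] ≤ C[g]
  idx : Z(D).relIndex (Pln D g) = q ^ 2

theorem z_le_pln (D : Subgroup G) (g : G) : Z(D) ≤ Pln D g := le_sup_right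

theorem cj_pln (hh : h ∈ N(D)) : cj h (Pln D g) = Pln D (h * g * h⁻¹) := by
  rw [Pln, cj_sup, cj_comm, cj_center, cj_zpowers, cj_of_mem_nrm hh, Pln]

theorem Pl.cj (H : Pl q D g) (hh : h ∈ N(D)) : Pl q D (h * g * h⁻¹) := by
  refine ⟨(orderOf_conj h g).trans H.ord, fun x hx h1 => ?_, ?_⟩
  · obtain ⟨x, c, rfl⟩ := mem_cj'.1 (cj_zpowers h g ▸ hx)
    rw [← cj_cen1, ← cj_cen1, ← cj_of_mem_nrm hh, ← cj_inf]
    exact cj_mono _ (H.reg x c fun e => h1 (by simp [e]))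
  · rw [← cj_pln hh, ← H.idx, ← relIndex_cj h Z(D) (Pln D g), cj_center, cj_of_mem_nrm hh]

theorem Pl.eq (H : Pl q D g) (H' : Pl q D h) (hle : Pln D g ≤ Pln D h) : Pln D g = Pln D h :=
  eq_of_card_eq hle (by rw [← card_mul_relIndex (z_le_pln D g), ← card_mul_relIndex (z_le_pln D h), H.idx, H'.idx])

namespace PCx

variable (c : PCx q D S)
include c

theorem mono (hM : M ≤ S) : PCx q D M := ⟨c.1, c.2, c.3, c.4.mono hM, c.5, hM.trans c.6, hM.trans c.7⟩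

theorem cop (hX : X ≤ D) (hs : s ∈ S) : Cop X ⟪s⟫ := (c.pD.cop_of_ne c.pS c.ne).mono hX (zpowers_le.2 hs)

theorem pln_le (hs : s ∈ S) : Pln D s ≤ D := sup_le (comm_le_left (zpowers_le.2 (c.nrm hs))) inf_le_left

theorem z_le (hs : s ∈ S) : Z(D) ≤ C[s] := (centsC c.cen).trans (cen_le_cen1 hs)

theorem prod (hs : s ∈ S) (hX : X ≤ D) (hn : s ∈ N(X)) : MulEq ⁅X, ⟪s⟫⁆ (X ⊓ C[s]) X :=
  cen_zpowers s ▸ coprime_cent_prod (zpowers_le.2 hn) (c.cop hX hs) (c.pD.mono hX).sol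

theorem comm_cen (hs : s ∈ S) (hX : X ≤ D) : ⁅X, ⟪s⟫⁆ ≤ C(D ⊓ C[s]) := by
  refine comm_eq_bot.1 (three_subgroup ?_ (comm_eq_bot'.2 ?_))
  · rw [comm_eq_bot'.2 (inf_le_right.trans (cen_zpowers s).ge), commutator_bot_left]
  · exact centsS ((commSS inf_le_left hX).trans (le_inf (der_le D) c.der)) ((zpowers_le.2 hs).trans c.cen)

theorem pln_cen (hs : s ∈ S) : Pln D s ≤ C(D ⊓ C[s]) := sup_le (c.comm_cen hs le_rfl) (center_le_cen inf_le_left)

theorem mem_z (hs : s ∈ S) (h1 : e ∈ D) (h2 : e ∈ C(⁅D, ⟪s⟫⁆)) (h3 : e ∈ C(D ⊓ C[s])) : e ∈ Z(D) :=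
  ⟨h1, by rw [← (c.prod hs le_rfl (c.nrm hs)).sup, cen_sup]; exact ⟨h2, h3⟩⟩

theorem inf_cen (hs : s ∈ S) : Pln D s ⊓ C[s] = Z(D) := le_antisymm (fun _ h => c.mem_z hs (c.pln_le hs h.1)
  (centsC (c.comm_cen hs le_rfl) ⟨c.pln_le hs h.1, h.2⟩) (c.pln_cen hs h.1)) (le_inf le_sup_right (c.z_le hs))

theorem perp (hs : s ∈ S) : D ⊓ C(Pln D s) = D ⊓ C[s] := by
  refine le_antisymm (fun x hx => ⟨hx.1, ?_⟩) (le_inf inf_le_left (centsC (c.pln_cen hs)))
  obtain ⟨a, ha, b, hb, rfl⟩ := (c.prod hs le_rfl (c.nrm hs)).mul x hx.1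
  have := (mul_mem_cancel_right (centsC (c.pln_cen hs) hb)).1 hx.2
  exact mul_mem (c.z_le hs (c.mem_z hs (c.pln_le hs (mem_sup_left ha)) (cen_anti le_sup_left this)
    (c.comm_cen hs le_rfl ha))) hb.2

theorem center (hs : s ∈ S) : Z(Pln D s) = Z(D) := le_antisymm (fun _ h => (c.inf_cen hs).le
  ⟨h.1, ((c.perp hs).le ⟨c.pln_le hs h.1, h.2⟩).2⟩) (le_inf le_sup_right (center_le_cen (c.pln_le hs)))

theorem line (H : Pl q D g) (hX : X ≤ Pln D g) (h1 : X ≠ Pln D g) (hZ : Z(D) ≤ X) (he : e ∈ X) (h2 : e ∉ Z(D)) :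
    Z(D).relIndex X = q ∧ X = Z(D) ⊔ ⟪e⟫ := by
  have a1 := relIndex_mul hZ hX
  have a2 := one_lt_relIndex (A := Z(D)) (B := X) fun d => h2 (d he)
  have a3 := one_lt_relIndex (A := X) (B := Pln D g) fun d => h1 (hX.antisymm d)
  rw [H.idx] at a1
  have a4 : Z(D).relIndex X = q := by
    obtain ⟨i, hi, a⟩ := (Nat.dvd_prime_pow c.prime).1 (Dvd.intro _ a1)
    rw [a] at a1 a2 ⊢
    interval_cases i
    · simp at a2
    · simp
    · have := Nat.pow_pos (n := 2) c.prime.pos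
      nlinarith
  exact ⟨a4, ((eq_or_eq_of_prime_relIndex (a4 ▸ c.prime) le_sup_left (sup_le hZ (zpowers_le.2 he))).resolve_left
    fun d => h2 (d.le (mem_sup_right (mem_zpowers e)))).symm⟩

theorem semi (H : Pl q D g) (hg : g ∈ S) (hs : s ∈ S) (hn : s ∈ N(Pln D g)) (he : e ∈ Pln D g ⊓ C[s])
    (h2 : e ∉ Z(D)) : Pln D g ≤ C[s] := by_contra fun h0 => h2 ((c.center hg).le ⟨he.1, by
  rw [← (c.prod hs (c.pln_le hg) hn).sup, cen_sup, (c.line H inf_le_left (fun d => h0 (inf_eq_left.1 d))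
    (le_inf le_sup_right (c.z_le hs)) he h2).2, cen_sup, cen_zpowers]
  exact ⟨centsC (c.comm_cen hs (c.pln_le hg)) ⟨c.pln_le hg he.1, he.2⟩,
    centsC inf_le_right (c.pln_le hg he.1), self_mem_cen1 e⟩⟩)

theorem sym (hg : g ∈ S) (hh : h ∈ S) (H : Pln D g ≤ C[h]) : Pln D h ≤ C[g] :=
  (le_inf (c.pln_le hh) (centsC (((le_inf (c.pln_le hg) H).trans (c.perp hh).ge).trans inf_le_right))).trans
    ((c.perp hg).le.trans inf_le_right)

end PCx

theorem PCx.pair (n : ℕ) : ∀ {S : Subgroup G} {g h : G}, #S = n → PCx q D S → g ∈ S → h ∈ S → Pl q D g → Pl q D h →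
    Pln D g = Pln D h ∨ Pln D g ≤ C[h] := by
  induction n using Nat.strong_induction_on with | _ n ih =>
  intro S g h hn c hg hh H H'
  rcases (zpowers_le.2 hg).eq_or_lt with e | e
  · exact .inl (H'.eq H (sup_le_sup_right (commSS le_rfl (zpowers_le.2 (e.ge hh))) _)).symm
  obtain ⟨M, a1, a2⟩ := exists_maxIn e
  have a3 := c.pS.maxIn_nml a2
  have a4 := a3.conj_mem hh (a1 (mem_zpowers g))
  have nD := c.nrm hh
  rcases ih _ (hn ▸ card_lt a2.lt) rfl (c.mono a3.le) (a1 (mem_zpowers g)) a4 H (H.cj nD) with d | d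
  · have b1 : h ∈ N(Pln D g) := cj_eq_self.1 ((cj_pln nD).trans d.symm)
    refine or_iff_not_imp_right.2 fun b2 => H.eq H' ?_
    rw [← (c.prod hh (c.pln_le hg) b1).sup]
    exact sup_le_sup (commSS (c.pln_le hg) le_rfl) fun e he => by_contra fun b3 => b2 (c.semi H hg hh b1 he b3)
  exfalso
  have b1 : Pln D g ≤ C(Pln D (h * g * h⁻¹)) :=
    ((le_inf (c.pln_le hg) d).trans (c.perp (a3.le a4)).ge).trans inf_le_right
  obtain ⟨u, u1, u2⟩ : ∃ u ∈ Pln D g, u ∉ Z(D) := SetLike.not_le_iff_exists.1 fun b => by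
    have := H.idx
    rw [relIndex_eq_one.2 b] at this
    exact (Nat.one_lt_pow two_ne_zero c.prime.one_lt).ne this
  have u3 : h * u * h⁻¹ ∈ Pln D (h * g * h⁻¹) := cj_pln nD ▸ conj_mem_cj.2 u1
  obtain ⟨a, ha, b, hb, rfl⟩ := (c.prod hh le_rfl nD).mul u (c.pln_le hg u1)
  have b2 : a ∉ Z(D) := fun b2 => u2 ((c.center (a3.le a4)).le ⟨by
    rwa [mem_cen1.1 (cen1_comm.1 (mul_mem (c.z_le hh b2) hb.2)), mul_inv_cancel_right] at u3, b1 u1⟩)
  have b3 : h * a * h⁻¹ ∈ ⁅D, ⟪h⟫⁆ := conj_mem (norm_comm_right _ _ (mem_zpowers h)) ha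
  have b4 : h * a * h⁻¹ ∈ C[a] := by
    have k1 := mem_cen.1 (b1 u1) _ u3
    have k2 := mem_cen.1 (c.comm_cen hh le_rfl ha) b hb
    have k3 := mem_cen.1 (c.comm_cen hh le_rfl b3) b hb
    rw [show h * (a * b) * h⁻¹ = h * a * h⁻¹ * (h * b * h⁻¹) by group, ← mem_cen1.1 hb.2, mul_inv_cancel_right] at k1
    generalize h * a * h⁻¹ = a' at *
    rw [mem_cen1, ← mul_left_inj (b * b)]
    calc a' * a * (b * b) = a' * b * (a * b) := by rw [mul_assoc, mul_assoc, ← mul_assoc b a b, k2, mul_assoc a]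
      _ = _ := by rw [k1, mul_assoc, mul_assoc, ← mul_assoc b, k3, mul_assoc]
  have b5 : Pln D h ⊓ C[a] ≠ Pln D h := fun b5 => b2 ((c.center hh).le ⟨mem_sup_left ha,
    le_cen1.1 (inf_eq_left.1 b5)⟩)
  have aD := c.pln_le hh (mem_sup_left ha)
  have b6 : Z(D) ≤ Pln D h ⊓ C[a] := le_inf le_sup_right (inf_le_right.trans (cen_le_cen1 aD))
  obtain ⟨b7, b8⟩ := c.line H' inf_le_left b5 b6 ⟨mem_sup_left ha, self_mem_cen1 a⟩ b2
  have nZ := norms_center (zpowers_le.2 nD) (mem_zpowers h)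
  have b9 := (c.line H' inf_le_left b5 b6 ⟨mem_sup_left b3, b4⟩ fun k => b2 (by
    simpa [mul_assoc] using conj_mem' nZ k)).2
  have c1 : Pln D h ⊓ C[a] ≤ Pln D h := inf_le_left
  generalize Pln D h ⊓ C[a] = X at *
  have c2 : h ∈ N(X) := cj_eq_self.1 (by
    nth_rw 1 [b8]
    rw [cj_sup, cj_of_mem_nrm nZ, cj_zpowers, ← b9])
  have c3 := zpowers_le.2 c2
  have c4 := coprime_abel_cent_TI c3 (c.cop (c1.trans (c.pln_le hh)) hh) (b8 ▸ (ab_center D).sup (ab_zpowers a)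
    (zpowers_le.2 (centsC inf_le_right aD)))
  rw [cen_zpowers] at c4
  obtain ⟨x, x1, x2⟩ := exists_ne_one (H := ⁅X, ⟪h⟫⁆) fun k => b2 ((c.inf_cen hh).le ⟨mem_sup_left ha,
    cen_zpowers h ▸ comm_eq_bot.1 k (b8.ge (mem_sup_right (mem_zpowers a)))⟩)
  have c5 := x2_relIndex_cen1_lt (norm_comm_right X ⟪h⟫) x1 x2
  have c6 := card_mul_le b6 (comm_le_left c3)
  rw [← card_mul_relIndex b6, b7, eq_bot_of_le (inf_le_inf_right _ (c.z_le hh)) ((inf_comm _ _).trans c4), card_bot',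
    mul_one] at c6
  rw [← inf_relIndex_right, show C[x] ⊓ ⟪h⟫ = ⊥ from eq_bot_iff.2 fun y hy => by_contra fun k => x2 (c4.le ⟨x1,
    H'.reg y hy.2 k ⟨c.pln_le hh (c1 (comm_le_left c3 x1)), cen1_comm.1 hy.1⟩⟩), relIndex_bot_left, Nat.card_zpowers,
    H'.ord] at c5
  have := Nat.le_of_mul_le_mul_left c6 (card_pos _)
  omega

theorem PCx.comm (c : PCx q D S) (hg : g ∈ S) (ht : t ∈ S) (H : Pl q D g) : ⁅t * g * t⁻¹, g⁆ ∈ C(D) := by
  have hg' : t * g * t⁻¹ ∈ S := mul_mem (mul_mem ht hg) (inv_mem ht)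
  rcases PCx.pair _ rfl c hg hg' H (H.cj (c.nrm ht)) with d | d
  swap
  · refine comm_eq_bot.1 (three_subgroup (comm_eq_bot.2 ?_) (comm_eq_bot.2 ?_))
      (commutator_mem_commutator (mem_zpowers _) (mem_zpowers _))
    · rw [commC, cen_zpowers]; exact le_sup_left.trans d
    · rw [cen_zpowers]; exact le_sup_left.trans (c.sym hg hg' d)
  rw [← (c.prod hg le_rfl (c.nrm hg)).sup, cen_sup]
  have a0 : ∀ s ∈ S, s ∈ C(D ⊓ C(Pln D s)) := fun s hs => c.perp hs ▸ le_cen1.1 inf_le_right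
  refine ⟨cen_anti (le_sup_left : _ ≤ Pln D g) ?_, by
    have k := a0 _ hg'
    have k' := a0 _ hg
    rw [← d] at k
    rw [c.perp hg] at k k'
    exact Subgroup.mul_mem _ (mul_mem (mul_mem k k') (inv_mem k)) (inv_mem k')⟩
  have nZ := norms_center c.nrm
  have a1 : t ∈ S ⊓ N(Pln D g) := ⟨ht, cj_eq_self.1 ((cj_pln (c.nrm ht)).trans d.symm)⟩
  have a2 : g ∈ S ⊓ N(Pln D g) := ⟨hg, normsY (norm_comm_right _ _) ((zpowers_le.2 hg).trans nZ) (mem_zpowers g)⟩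
  have a3 := subcent_nml (inf_le_right : S ⊓ N(Pln D g) ≤ _)
  have a4 := dvd_card_sub (d := (S ⊓ N(Pln D g) ⊓ C(Pln D g)).relIndex (S ⊓ N(Pln D g))) inf_le_right
    (inf_le_left.trans nZ) (z_le_pln D g) fun x h1 h2 => by
      rw [← inf_relIndex_right C[x]]
      refine relIndex_dvd_of_le (le_inf inf_le_right fun s hs => ?_) _
      exact le_cen1.1 (c.semi H hg hs.2.1 hs.2.2 ⟨h1, cen1_comm.1 hs.1⟩ h2)
  have a5 : S ⊓ N(Pln D g) ⊓ C(Pln D g) ⊓ ⟪g⟫ = ⊥ := eq_bot_iff.2 fun y hy => by_contra fun k => by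
    have := H.idx
    rw [relIndex_eq_one.2 ((le_inf le_rfl ((le_inf (c.pln_le hg) (le_cen1.2 hy.1.2)).trans (H.reg y hy.2 k))).trans
      (c.inf_cen hg).le)] at this
    exact (Nat.one_lt_pow two_ne_zero c.prime.one_lt).ne this
  have pT := c.pS.mono (inf_le_left : S ⊓ N(Pln D g) ≤ S)
  have a6 : S ⊓ N(Pln D g) ⊓ C(Pln D g) ≤ C(Pln D g) := inf_le_right
  generalize S ⊓ N(Pln D g) ⊓ C(Pln D g) = K at *
  generalize S ⊓ N(Pln D g) = T at *
  have b1 := zpowers_le.2 (a3.nrm a2)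
  have b2 : K ⊔ ⟪g⟫ ≤ T := sup_le a3.le (zpowers_le.2 a2)
  rw [← relIndex_mul le_sup_left b2, relIndex_sup_norm b1, ← inf_relIndex_right, a5, relIndex_bot_left,
    Nat.card_zpowers, H.ord, ← card_mul_relIndex (z_le_pln D g), H.idx, ← Nat.mul_sub_one,
    ← one_pow 2, Nat.sq_sub_sq, one_pow, mul_left_comm, Nat.mul_dvd_mul_iff_left q.add_one_pos] at a4
  obtain ⟨i, hi⟩ := (pT.piNat.of_dvd (relIndex_dvd (K ⊔ ⟪g⟫) T)).exists_pow (relIndex_pos _ _).ne'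
  have b3 : K ⊔ ⟪g⟫ ⊴ T := by
    rcases i with _ | _ | i
    · exact (b2.antisymm (relIndex_eq_one.1 hi)).symm ▸ Nml.refl T
    · exact pT.nml_of_relIndex Nat.prime_two b2 hi
    obtain ⟨j, hj⟩ := (pT.piElt a2).exists_pow
    obtain ⟨l, -, hl⟩ := (Nat.dvd_prime_pow Nat.prime_two).1 (orderOf_dvd_of_pow_eq_one hj)
    obtain ⟨m, hm⟩ := (c.pD.mono (inf_le_left : Z(D) ≤ D)).exists_pow (card_ne_zero _)
    rw [hi, hm] at a4
    have k1 := (((Nat.coprime_primes Nat.prime_two c.prime).2 c.ne.symm).pow (i + 1 + 1) m).dvd_of_dvd_mul_left a4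
    have k2 := lt_of_le_of_ne c.prime.two_le c.ne.symm
    rw [H.ord] at hl
    rcases l with _ | _ | l
    · omega
    · omega
    · obtain ⟨r, hr⟩ := k1
      rw [pow_succ, pow_succ] at hl hr
      rw [mul_right_comm, mul_right_comm (2 ^ i)] at hr
      omega
  obtain ⟨k, hk, x, hx, e⟩ := (mem_sup_norm b1).1 (b3.conj_mem a1 (mem_sup_right (mem_zpowers g)))
  rw [e, commutatorElement_def, mul_inv_rev, mul_assoc k, (ab_zpowers g).comm hx (mem_zpowers g)]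
  simpa [mul_assoc, Pln] using a6 (mul_mem hk (conj_mem (a3.nrm a2) (inv_mem hk)))

end Cfsg.Agent.H1
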