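import Cfsg.Agent.H1.HHR
import Cfsg.Agent.H1.Plane
import Cfsg.Agent.H1.Wt
import Cfsg.Agent.S3784

/-! Gross's Theorem B* and the bound `l₂ ≤ 2 e₂ - 1`. -/

set_option autoImplicit false
set_option linter.unusedSectionVars false
set_option linter.style.haveILetI false

namespace Cfsg.Agent.H1

open Cfsg Module Subgroup Cfsg.Agent.H28 Cfsg.Agent.FT Function Polynomial
open scoped commutatorElement

universe u v

variable {k : Type*} [Field k] {G : Type u} [Group G] [Finite G] {V : Type v} [AddCommGroup V]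
  [Module k V] [FiniteDimensional k V] {ρ : Representation k G V} {D H L S : Subgroup G} {g y : G}
  {W : Submodule k V} {n q : ℕ}

theorem rel_coeff (T : End k V) {m : ℕ} (h1 : (T - 1) ^ (m + 1) = 0) (h2 : (T - 1) ^ m ≠ 0)
    (h3 : ∑ i ∈ Finset.range (m + 2), T ^ i = 0) (c : ℕ → k) (h4 : ∑ i ∈ Finset.range (m + 2), c i • T ^ i = 0) :
    ∀ i < m + 2, c i = c (m + 1) := by
  obtain ⟨j, a1, a2⟩ := (dvd_prime_pow (prime_X_sub_C (1 : k)) (m + 1)).1 (minpoly.dvd k T (by simpa using h1))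
  have a3 : (T - 1) ^ j = 0 := by simpa using aeval_eq_zero_of_dvd_aeval_eq_zero a2.dvd (minpoly.aeval k T)
  obtain rfl : j = m + 1 := a1.antisymm (by_contra fun e => h2 (pow_eq_zero_of_le (by omega) a3))
  have a4 : ∑ i ∈ Finset.range (m + 1), monomial i (c i - c (m + 1)) = 0 := by_contra fun e => by
    refine (minpoly.degree_le_of_ne_zero k T e ?_).not_gt ?_
    · have : ∑ i ∈ Finset.range (m + 2), (c i - c (m + 1)) • T ^ i = 0 := by
        simp [sub_smul, ← Finset.smul_sum, h3, h4]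
      simpa [Finset.sum_range_succ _ (m + 1), aeval_monomial, Algebra.smul_def, sub_mul] using this
    · rw [degree_eq_degree_of_associated a2, degree_pow, degree_X_sub_C, nsmul_one]
      exact (degree_sum_le _ _).trans_lt ((Finset.sup_lt_iff (WithBot.bot_lt_coe _)).2 fun i hi =>
        (degree_monomial_le _ _).trans_lt (by exact_mod_cast Finset.mem_range.1 hi))
  intro i hi
  rcases (Nat.le_of_lt_succ hi).eq_or_lt with rfl | hi
  · rfl
  simpa [coeff_monomial, hi, sub_eq_zero] using congrArg (coeff · i) a4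

theorem mem_zpowers_of_ne {p : ℕ} (hp : p.Prime) (h1 : g ^ p ^ (n + 1) = 1) (hy : y ∈ ⟪g⟫) (h2 : y ≠ 1) :
    g ^ p ^ n ∈ ⟪y⟫ := by
  obtain ⟨j, rfl⟩ := (mem_powers_iff_mem_zpowers.2 hy : y ∈ Submonoid.powers g)
  refine pow_mem_of_not_dvd hp (mem_zpowers _) (h1 ▸ one_mem _) ?_
  rintro ⟨l, rfl⟩
  exact h2 (by simp only [pow_mul, h1, one_pow])

variable [CharP k 2]

theorem pl_of_exc [IsAlgClosed k] (c : PCx q D S) (hg : g ∈ S) (h0 : (⊤ : Submodule k V) ≠ ⊥)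
    (hsc : ∀ z ∈ Z(D), z ≠ 1 → ∃ a : k, a ≠ 1 ∧ ∀ v ∈ (⊤ : Submodule k V), ρ z v = a • v)
    (h1 : g ^ 2 ^ (n + 1) = 1) (h2 : ∑ i ∈ Finset.range (2 ^ (n + 1)), ρ g ^ i = 0) (h3 : g ^ 2 ^ n ∉ C(D)) :
    Pl q D g ∧ n ≠ 0 := by
  have hy : g ^ 2 ^ n ∈ S := pow_mem hg _
  have ho : orderOf g = 2 ^ (n + 1) := orderOf_eq_prime_pow (fun e => h3 (e ▸ one_mem _)) h1
  have a0 := fun y => mem_zpowers_of_ne (y := y) Nat.prime_two h1
  have a1 : ⟪g⟫ ≤ C[g ^ 2 ^ n] := (zpowers_le_cen1 g).trans (cen1_le_cen1_pow g _)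
  have a2 : g ^ 2 ^ n ∈ ⟪g⟫ := pow_mem (mem_zpowers g) _
  generalize g ^ 2 ^ n = y at *
  have gS := zpowers_le.2 hg
  have a3 : ⟪g⟫ ≤ N(⁅D, ⟪y⟫⁆) := normsR (gS.trans c.nrm) (norms_zpowers_of_cen1 a1)
  have a4 : ⟪g⟫ ≤ N(Pln D y) := normsY a3 (gS.trans (norms_center c.nrm))
  have a5 := c.pln_le hy
  have a6 := c.center hy
  have hc : (#(Pln D y) : k) ≠ 0 := by
    obtain ⟨a, ha⟩ := (c.pD.mono a5).exists_pow (card_ne_zero _)
    rw [ha, Nat.cast_pow]
    exact pow_ne_zero a fun e => c.ne ((Nat.prime_dvd_prime_iff_eq Nat.prime_two c.prime).1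
      ((CharP.cast_eq_zero_iff k 2 q).1 e)).symm
  have hder : ⁅Pln D y, Pln D y⁆ ≤ C(Pln D y) := (der_mono a5).trans (c.der.trans (cen_anti a5))
  have hreg : ∀ x ∈ ⟪g⟫, x ≠ 1 → ∀ a ∈ Pln D y, ⁅a, x⁆ ∈ Z(Pln D y) → a ∈ Z(Pln D y) := fun x b1 b2 a b3 b4 => by
    rw [a6] at b4 ⊢
    have := commutatorElement_eq_one_iff_mul_comm.1 (commutator_eq_one_of_coprime
      (mem_cen.1 (c.cen (gS b1)) _ b4).symm (((c.cop le_rfl (gS b1)).coprime_dvd_left
        (orderOf_dvd_natCard D b4.1)).coprime_dvd_right (orderOf_dvd_natCard _ (mem_zpowers x))))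
    exact (c.inf_cen hy).le ⟨b3, cen1_le_cen1_of_mem_zpowers (a0 x b1 b2) (mem_cen1.2 this)⟩
  have hZ : ⟪g⟫ ≤ C(Z(Pln D y)) := a6.symm ▸ gS.trans c.cen
  obtain ⟨W, -, e2, e3⟩ := exists_rSimple_invariant ρ h0 (rInv_top _ _) (a4 (mem_zpowers g)) hder
    (fun z hz => (mem_cen.1 (hZ (mem_zpowers g)) z hz).symm) (fun e a ha h3 => (hreg g (mem_zpowers g) e a ha
      ⟨comm_le_left a4 (commutator_mem_commutator ha (mem_zpowers g)), h3⟩).2) (a6.symm ▸ hsc) hc
  haveI := e2.isIrreducible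
  obtain ⟨e4, e5⟩ := class_two_aux hder (a6.symm ▸ hsc) e2.2.1 le_top
  have e6 : finrank k W ^ 2 = Z(D).relIndex (Pln D y) := by
    rw [← a6, center_eq_map, relIndex, so_map, ← finrank_sq_eq_index (subRep ρ _ W e2.2.1) e4 e5]
  have e7 : finrank k W ≠ 1 := fun e => h3 (zpowers_le.1 (coprime_commGG1P (zpowers_le.2 (c.nrm hy))
    (c.cop le_rfl hy) (comm_eq_bot.2 (le_sup_left.trans ((relIndex_eq_one.1 (e6.symm.trans (by rw [e, one_pow]))).trans
      ((c.z_le hy).trans (cen_zpowers y).ge))))))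
  have crit := fun r hr => (crit_sub (r := r) inf_le_left (sup_le (centsC inf_le_right) hZ) e2 e3 a4 hreg
    (eq_bot_of_le (inf_le_inf_left _ (inf_le_left.trans a5)) (c.cop le_rfl hg).symm'.inf) hc hr)
  obtain ⟨m, hm⟩ : ∃ m, 2 ^ (n + 1) = m + 2 := ⟨2 ^ (n + 1) - 2, by
    have := Nat.le_self_pow n.add_one_ne_zero 2; omega⟩
  have b1 : (ρ g - 1) ^ (m + 1) = 0 := by rw [← h2, ← sub_one_pow_pred, hm]; rfl
  have b2 := ((crit (m + 1) (fun w _ => by rw [b1]; rfl) (by omega)).resolve_left e7).1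
  obtain ⟨i, hi⟩ := ((c.pD.mono a5).piNat.of_dvd (relIndex_dvd Z(D) _)).exists_pow (relIndex_pos _ _).ne'
  obtain ⟨j, -, hj⟩ := (Nat.dvd_prime_pow c.prime).1 ((dvd_pow_self _ two_ne_zero).trans (e6.trans hi).dvd)
  have b3 : finrank k W = q := by
    rcases S3784.result 2 q (n + 1) j Nat.prime_two c.prime (by omega) (Nat.pos_of_ne_zero fun e => e7 (by
      rw [hj, e, pow_zero])) (by omega) with b | b | b
    · rw [hj, b.2.1, pow_one]
    · exact absurd b.1 c.ne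
    · rw [pow_succ] at b; omega
  have b4 : q ≠ 1 := c.prime.one_lt.ne'
  have b5 : D ⊓ C[y] ≤ C[g] := by
    have d1 : ⟪g⟫ ≤ N(D ⊓ C[y]) := normsI (gS.trans c.nrm) (norms_cen1 a1)
    have d2 := comm_le_left d1
    suffices ⁅D ⊓ C[y], ⟪g⟫⁆ ≤ rcent ρ W by
      rw [← cen_zpowers g, ← comm_eq_bot]
      by_contra d3
      obtain ⟨z, d4, d5⟩ := exists_ne_one (c.pD.nil.meet_center ⟨d2.trans inf_le_left, by
        nth_rw 1 [← (c.prod hy le_rfl (c.nrm hy)).sup]
        exact sup_le (cents_norm ((c.comm_cen hy le_rfl).trans (cen_anti d2))) (norm_comm_left _ _)⟩ d3)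
      obtain ⟨a, d6, d7⟩ := hsc z d4.2 d5
      obtain ⟨w, d8, d9⟩ := Submodule.exists_mem_ne_zero_of_ne_bot e2.1
      exact d6 (smul_left_injective k d9 ((d7 w trivial).symm.trans ((this d4.1 w d8).trans (one_smul k w).symm)))
    refine bg4_comm_zpowers_le' (rInv_norms_rcent (rInv_zpowers e3) (mem_zpowers g)) fun s hs w hw => ?_
    let T : End k W := (ρ g).restrict e3
    have hT : ∀ (i : ℕ) (w : W), ((T ^ i) w : V) = (ρ g ^ i) w := fun i w => by rw [End.pow_restrict]; rfl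
    have hT' : ∀ (i : ℕ) (w : W), (((T - 1) ^ i) w : V) = ((ρ g - 1) ^ i) w := fun i w => by
      rw [show T - 1 = (ρ g - 1).restrict fun w hw => W.sub_mem (e3 w hw) hw from rfl, End.pow_restrict]; rfl
    have key : ∀ a : End k W, ∀ w : W, ∑ i ∈ Finset.range (m + 2),
        ρ (g ^ i * s⁻¹ * (g ^ i)⁻¹) (a ((T ^ i) w)) = 0 := fun a w => by
      have ha : a ∈ Submodule.span k (Set.range (subRep ρ _ W e2.2.1)) := by rw [span_range_eq_top]; trivial
      induction ha using Submodule.span_induction with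
      | mem a ha =>
        obtain ⟨e, rfl⟩ := ha
        have := congr(ρ e ($h2 (ρ s⁻¹ w)))
        rw [hm, LinearMap.zero_apply, map_zero, LinearMap.sum_apply, map_sum] at this
        refine (Finset.sum_congr rfl fun i _ => ?_).trans this
        change ρ _ (ρ e ((T ^ i) w : V)) = _
        rw [hT, ← map_pow, ← End.mul_apply, ← End.mul_apply, ← End.mul_apply, ← End.mul_apply, ← map_mul, ← map_mul,
          ← map_mul, ← map_mul, mem_cen.1 (c.pln_cen hy e.2) _ (conj_mem (d1 (pow_mem (mem_zpowers g) i)) (inv_mem hs))]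
        simp [mul_assoc]
      | zero => simp
      | add a b _ _ ha hb => simp only [LinearMap.add_apply, Submodule.coe_add, map_add, Finset.sum_add_distrib, ha, hb,
          add_zero]
      | smul r a _ ha => simp only [LinearMap.smul_apply, Submodule.coe_smul, map_smul, ← Finset.smul_sum, ha,
          smul_zero]
    have d3 : ∀ ψ : Dual k V, ∀ i < m + 2, ψ (ρ (g ^ i * s⁻¹ * (g ^ i)⁻¹) w) = _ := fun ψ =>
      rel_coeff T (m := m) (LinearMap.ext fun w => Subtype.ext (by rw [hT', b1]; rfl)) (fun e => by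
        have := ((crit m (fun w hw => by rw [← hT' m ⟨w, hw⟩, e]; rfl) (by omega)).resolve_left e7).2
        omega) (LinearMap.ext fun w => Subtype.ext (by
          simpa [hT, hm] using congr($h2 w))) _ (LinearMap.ext fun u => (forall_dual_apply_eq_zero_iff k _).1
            fun f => by simpa [mul_comm] using congrArg ψ (key (f.smulRight ⟨w, hw⟩) u))
    have d4 : ρ s⁻¹ w = ρ (g * s⁻¹ * g⁻¹) w := sub_eq_zero.1 ((forall_dual_apply_eq_zero_iff k _).1 fun ψ => by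
      simpa [sub_eq_zero] using (d3 ψ 0 (by omega)).trans (d3 ψ 1 (by omega)).symm)
    rw [commutatorElement_def, mul_assoc, mul_assoc, map_mul, End.mul_apply, ← mul_assoc, ← d4, ← End.mul_apply,
      ← map_mul, mul_inv_cancel, map_one, End.one_apply]
  refine ⟨⟨by omega, fun x d1 d2 => (inf_le_inf_left D (cen1_le_cen1_of_mem_zpowers (a0 x d1 d2))).trans b5, ?_⟩,
    fun e => ?_⟩
  · rw [← b3, e6, Pln, Pln, (c.prod hy le_rfl (c.nrm hy)).comm_eq_of_cents (cen_zpowers g ▸ b5),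
      (comm_le_left a3).antisymm ((coprime_commGid (zpowers_le.2 (c.nrm hy)) (c.cop le_rfl hy)).ge.trans
        (commSS le_rfl (zpowers_le.2 a2)))]
  · rw [e] at ho; omega

omit [CharP k 2] in
theorem sq_mem_ppCore {G' : Type u} [Group G'] [Finite G'] (f : H →* G') (hf : Surjective f)
    (hs : IsPSolvable 2 G') (hg : g ∈ H) (h2 : PiElt {2} g)
    (h : ∀ S ≤ H, PGrp 2 S → g ∈ S → ∀ t ∈ S, ⁅t * g * t⁻¹, g⁆ ∈ pker f) : pfun f g ^ 2 ∈ pPrimePCore 2 G' := by
  obtain ⟨G'', _, _, f', V, a1, a2, a3⟩ := exists_hred Nat.prime_two hs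
  obtain ⟨S, a4, a5⟩ := h2.zpowers.exists_syl (zpowers_le.2 hg)
  have e : ∀ x ∈ H, pfun (f'.comp f) x = f' (pfun f x) := fun x hx => by rw [pfun_of_mem _ hx, pfun_of_mem _ hx]; rfl
  have a6 := a4.pmap (f'.comp f) le_rfl
  rw [pmap_dom, MonoidHom.range_eq_top.2 (by exact a1.comp hf)] at a6
  haveI := a2.normal
  refine a3.le (a2.cen (mem_cen.2 fun v hv => ?_))
  obtain ⟨t, b1, b2, rfl⟩ := mem_pmap.1 (a6.ge_of_nml (a2.abe.pGrp Nat.prime_two) (nml_top_iff.2 ‹_›) hv)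
  have b3 := congrArg f' (mem_pker.1 (h S a4.le a4.pi (zpowers_le.1 a5) t b1)).2
  rw [pfun_comm _ (mul_mem (mul_mem b2 hg) (inv_mem b2)) hg, pfun_conj _ b2 hg, map_commutatorElement, map_one,
    map_mul, map_mul, map_inv, commutatorElement_eq_one_iff_mul_comm] at b3
  rw [e t b2] at hv ⊢
  rw [map_pow]
  generalize f' (pfun f t) = v at *
  generalize f' (pfun f g) = x at *
  have b4 := a2.abe.pow (mul_mem hv (‹V.Normal›.conj_mem _ (inv_mem hv) x))
  calc v * x ^ 2 = v * x * v⁻¹ * (v * x * v⁻¹) * v := by rw [sq]; group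
    _ = (v * (x * v⁻¹ * x⁻¹)) * (x * (v * x * v⁻¹)) * x⁻¹ * x * v := by group
    _ = (v * (x * v⁻¹ * x⁻¹)) ^ 2 * (x ^ 2 * v) := by rw [← b3, sq, sq]; group
    _ = _ := by rw [b4, one_mul]

/-- exceptional involutions -/
def Exc (ρ : Representation k G V) (W : Submodule k V) (H : Subgroup G) (y : G) : Prop :=
  ∃ g ∈ H, ∃ n, y = g ^ 2 ^ n ∧ g ^ 2 ^ (n + 1) = 1 ∧ ∀ w ∈ W, ∑ i ∈ Finset.range (2 ^ (n + 1)), ρ (g ^ i) w = 0

theorem Exc.le : closure {y | Exc ρ W H y} ≤ H := (closure_le _).2 fun _ ⟨_, h, _, e, _⟩ => e ▸ pow_mem h _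

theorem Exc.wsp {Z : Subgroup G} {c : G → k} (h : Exc ρ ⊤ H y) (hn : H ≤ N(Z)) (h0 : wsp ρ Z c ≠ ⊥) :
    Exc ρ (wsp ρ Z c) (H ⊓ wst Z c) y := by
  classical
  obtain ⟨g, a1, n, rfl, a2, a3⟩ := h
  obtain ⟨j, b1, b2, b3⟩ : ∃ j ≤ n + 1, g ^ 2 ^ j ∈ wst Z c ∧ ∀ m, g ^ m ∈ wst Z c → 2 ^ j ∣ m := by
    by_cases e : g ∈ wst Z c
    · exact ⟨0, by omega, by simpa, by simp⟩
    obtain ⟨i, b1, b2, b3⟩ := exists_last_pow e (a2 ▸ one_mem _)
    exact ⟨i + 1, b1, b2, fun m hm => by_contra fun d => b3 (pow_mem_of_not_dvd Nat.prime_two hm b2 d)⟩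
  obtain ⟨l, hl⟩ := Nat.exists_eq_add_of_le b1
  have b4 : ∀ w ∈ H1.wsp ρ Z c, ∑ i ∈ Finset.range (2 ^ l), ρ ((g ^ 2 ^ j) ^ i) w = 0 := fun w hw => by
    have d := a3 w trivial
    rw [← Finset.sum_filter_add_sum_filter_not _ (fun i => g ^ i ∈ wst Z c)] at d
    refine Eq.trans ?_ (wsp_indep (fun i => wcj (g ^ i) c) _ (fun i hi => ?_) _ _
      (fun i _ => map_mem_wsp (hn (pow_mem a1 i)) hw)
      (Submodule.sum_mem _ fun i hi => rInv_wsp le_rfl _ (Finset.mem_filter.1 hi).2 w hw) d)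
    · refine Finset.sum_bij (fun i _ => 2 ^ j * i) (fun i hi => Finset.mem_filter.2 ⟨?_, pow_mul g _ i ▸ pow_mem b2 i⟩)
        (fun _ _ _ _ e => Nat.eq_of_mul_eq_mul_left (by positivity) e) (fun i hi => ?_) fun i _ => by rw [pow_mul]
      · rw [Finset.mem_range] at hi ⊢
        rw [hl, pow_add]; exact Nat.mul_lt_mul_of_pos_left hi (by positivity)
      · obtain ⟨i, rfl⟩ := b3 i (Finset.mem_filter.1 hi).2
        refine ⟨i, Finset.mem_range.2 (Nat.lt_of_mul_lt_mul_left (a := 2 ^ j) ?_), rfl⟩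
        rw [← pow_add, ← hl]; exact Finset.mem_range.1 (Finset.mem_filter.1 hi).1
    · by_contra! hne
      exact (Finset.mem_filter.1 hi).2 ⟨hn (pow_mem a1 i), fun z hz => by
        simpa [wcj, mul_assoc] using (hne _ (conj_mem (hn (pow_mem a1 i)) hz)).symm⟩
  rcases l with _ | l
  · exact absurd (eq_bot_iff.2 fun w hw => by simpa using b4 w hw) h0
  exact ⟨_, ⟨pow_mem a1 _, b2⟩, l, by rw [← pow_mul, ← pow_add]; congr 2; omega,
    by rw [← pow_mul, ← pow_add, ← hl, a2], b4⟩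

theorem bstar_aux [IsAlgClosed k] (hq : q.Prime) (hne : q ≠ 2) (d : ℕ) : ∀ {G : Type u} [Group G] [Finite G]
    {V : Type v} [AddCommGroup V] [Module k V] [FiniteDimensional k V] (ρ : Representation k G V)
    (W : Submodule k V) (H D L : Subgroup G), finrank k W = d → RInv ρ H W → Sol H → D ⊴ H → PGrp q D →
    ⁅D, D⁆ ≤ C(D) → L ≤ closure {y | Exc ρ W H y} → ⁅D, piGen {2} (piGen {2}ᶜ L)⁆ ≤ rcent ρ W := by
  induction d using Nat.strong_induction_on with | _ d ih =>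
  suffices key : ∀ {G : Type u} [Group G] [Finite G] {V : Type v} [AddCommGroup V] [Module k V]
      [FiniteDimensional k V] (ρ : Representation k G V) (H D L : Subgroup G), finrank k V = d → Injective ρ →
      Sol H → D ⊴ H → PGrp q D → ⁅D, D⁆ ≤ C(D) → L ≤ closure {y | Exc ρ ⊤ H y} →
      D ≤ C(piGen {2} (piGen {2}ᶜ L)) by
    intro G _ _ V _ _ _ ρ W H D L hd hW hs hD pD hder hL
    obtain ⟨Γ, _, _, f, σ, a1, a2, a3, -⟩ := exists_faithful_res hW
    have a4 := hL.trans Exc.le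
    have := key σ (pmap f H) (pmap f D) (pmap f L) hd a1 (hs.pmap f) (hD.pmap f) (pD.pmap f)
      (pmap_comm f hD.le hD.le ▸ pmap_cents f hder) ((pmap_mono f hL).trans (by
        rw [pmap_closure f fun x hx => Exc.le (subset_closure hx)]
        refine closure_mono ?_
        rintro _ ⟨_, ⟨g, b1, n, rfl, b2, b3⟩, rfl⟩
        refine ⟨_, mem_pmap_of_mem f b1 b1, n, pfun_pow f b1 _, by rw [← pfun_pow f b1, b2, pfun_one],
          fun w _ => Subtype.ext ?_⟩
        rw [Submodule.coe_sum]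
        exact (Finset.sum_congr rfl fun i _ => by rw [← pfun_pow f b1, a3 _ (pow_mem b1 i)]).trans (b3 w w.2)))
    rw [← pmap_piGen f _ a4, ← pmap_piGen f _ ((piGen_le _ _).trans a4),
      pmap_cents_iff hD.le ((piGen_le _ _).trans ((piGen_le _ _).trans a4)), a2] at this
    exact this.trans inf_le_right
  intro G _ _ V _ _ _ ρ H D L hd hf hs hD pD hder hL
  by_contra h0
  have a1 := hL.trans Exc.le
  have a2 : piGen {2} (piGen {2}ᶜ L) ≤ H := (piGen_le _ _).trans ((piGen_le _ _).trans a1)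
  obtain ⟨c, a3, a4⟩ := exists_wt' hf (ab_center D) (by
    obtain ⟨a, ha⟩ := (pD.mono (inf_le_left : Z(D) ≤ D)).exists_pow (card_ne_zero _)
    rw [ha, Nat.cast_pow]
    exact pow_ne_zero a fun e => hne ((Nat.prime_dvd_prime_iff_eq Nat.prime_two hq).1
      ((CharP.cast_eq_zero_iff k 2 q).1 e)).symm) inf_le_right (pD.nil.meet_center
        ⟨comm_le_left (a2.trans hD.nrm), norm_comm_left _ _⟩ (mt comm_eq_bot.1 h0))
  have nZ := norms_center hD.nrm
  by_cases e : wsp ρ Z(D) c = ⊤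
  swap
  · exact a4 (inf_le_left.trans (ih _ (hd ▸ Submodule.finrank_lt e) ρ _ (H ⊓ wst Z(D) c) D L rfl
      (rInv_wsp inf_le_right) (hs.mono inf_le_left) ⟨le_inf hD.le (cen_le_wst (centsC inf_le_right)),
        inf_le_left.trans hD.nrm⟩ pD hder (hL.trans (closure_mono fun y hy => Exc.wsp hy nZ a3))))
  have a5 : H ≤ C(Z(D)) := comm_eq_bot'.1 (eq_bot_of_le (comm_wst_le e.ge (rInv_top ρ H)) (rcent_top hf))
  haveI := (subcent_nml hD.nrm).normal
  let f := QuotientGroup.mk' ((H ⊓ C(D)).subgroupOf H)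
  have hk : pker f = H ⊓ C(D) := by
    rw [← map_subgroupOf_eq_of_le (pker_le f), pker_so, QuotientGroup.ker_mk', map_subgroupOf_eq_of_le inf_le_left]
  have a6 : pmap f L ≤ ppCore 2 ⊤ := (pmap_le_iff a1).2 (hL.trans ((closure_le _).2 ?_))
  · have := npc_iff_pRes.1 ((ppCore_npc Nat.prime_two _).mono a6)
    rw [pRes_eq, ← piGen_eq_bot_iff, ← pmap_piGen f _ a1, ← pmap_piGen f _ ((piGen_le _ _).trans a1),
      pmap_eq_bot a2, hk] at this
    exact h0 (centsC (this.trans inf_le_right))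
  rintro _ ⟨g, b1, n, rfl, b2, b3⟩
  by_cases b4 : g ^ 2 ^ n ∈ C(D)
  · exact pker_le_ppre f _ (hk.ge ⟨pow_mem b1 _, b4⟩)
  have b5 := piElt_of_pow_eq_one (piNat_self_pow Nat.prime_two _) b2
  have cx : ∀ S ≤ H, PGrp 2 S → PCx q D S := fun S h1 h2 => ⟨hq, hne, pD, h2, hder, h1.trans hD.nrm, h1.trans a5⟩
  obtain ⟨b6, b7⟩ := pl_of_exc (ρ := ρ) (cx _ (zpowers_le.2 b1) b5.zpowers) (mem_zpowers g) (e ▸ a3)
    (fun z h1 h2 => ⟨c z, fun h3 => h2 ((rcent_top hf).le (e ▸ (wt_eq_one_iff a3 h1).1 h3)),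
      fun v hv => e.ge hv z h1⟩) b2 (LinearMap.ext fun w => by simpa using b3 w trivial) b4
  obtain ⟨n, rfl⟩ := Nat.exists_eq_succ_of_ne_zero b7
  refine mem_ppre.2 ⟨pow_mem b1 _, ?_⟩
  rw [pfun_pow f b1, pow_succ', pow_mul, H3.ppCore_top]
  exact pow_mem (sq_mem_ppCore f (QuotientGroup.mk'_surjective _) (isPSolvable_of_surjective Nat.prime_two f
    (QuotientGroup.mk'_surjective _) (Sol.psol hs Nat.prime_two)) b1 b5 fun S h1 h2 h3 t ht => hk.ge
      ⟨h1 (mul_mem (mul_mem (mul_mem (mul_mem (mul_mem ht h3) (inv_mem ht)) h3)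
        (inv_mem (mul_mem (mul_mem ht h3) (inv_mem ht)))) (inv_mem h3)), (cx S h1 h2).comm h3 ht b6⟩) _

/-- **Gross, Theorem B\*** -/
theorem bstar (hf : Injective ρ) (hs : Group.IsSolvable G) (hO : O[{2}]((⊤ : Subgroup G)) = ⊥)
    (h1 : g ^ 2 ^ (n + 1) = 1) (hr : (ρ g - 1) ^ (2 ^ (n + 1) - 1) = 0) : g ^ 2 ^ n ∈ pPrimePCore 2 G := by
  haveI := charP_of_injective_algebraMap (algebraMap k (AlgebraicClosure k)).injective 2
  have hf' : Injective (bcRep (AlgebraicClosure k) ρ) := by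
    rwa [← MonoidHom.ker_eq_bot_iff, ker_bcRep, MonoidHom.ker_eq_bot_iff]
  have hr' : ∑ i ∈ Finset.range (2 ^ (n + 1)), bcRep (AlgebraicClosure k) ρ g ^ i = 0 := by
    have := congrArg (End.baseChangeHom k (AlgebraicClosure k) V) hr
    rwa [sub_one_pow_pred, map_sum, map_zero, Finset.sum_congr rfl fun i _ => map_pow _ _ i] at this
  generalize bcRep (AlgebraicClosure k) ρ = σ at hf' hr'
  have nL : normalClosure {g ^ 2 ^ n} ⊴ ⊤ := nml_top_iff.2 inferInstance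
  have hL : normalClosure {g ^ 2 ^ n} ≤ closure {y | Exc σ ⊤ ⊤ y} := closure_mono fun y hy => by
    obtain ⟨_, rfl, a⟩ := Group.mem_conjugatesOfSet_iff.1 hy
    obtain ⟨h, rfl⟩ := isConj_iff.1 a
    refine ⟨h * g * h⁻¹, trivial, n, conj_pow.symm, by rw [conj_pow, h1]; simp, fun w _ => ?_⟩
    simpa [map_sum] using congr(σ h ($hr' (σ h⁻¹ w)))
  refine (H3.ppCore_top (p := 2)).le (ppCore_max Nat.prime_two nL (npc_iff_pRes.2 ?_) (subset_normalClosure rfl))
  have a1 : piGen {2} (piGen {2}ᶜ (normalClosure {g ^ 2 ^ n})) ≤ F(⊤) := by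
    refine (le_inf le_top (centsC (fitting_le_of_forall_pcore fun q hq => ?_))).trans
      ((subcent_fitting (sol_top.2 hs)).le.trans inf_le_left)
    rcases eq_or_ne q 2 with rfl | hne
    · rw [hO]; exact bot_le
    have pQ := pcore_pi {q} (⊤ : Subgroup G)
    have nQ := (pcore_nml {q} (⊤ : Subgroup G)).nrm
    obtain ⟨D, b1, b2, -, b3, -, b4⟩ := critical_odd pQ (Nat.not_even_iff_odd.1 fun c => hne (pQ 2 Nat.prime_two c.two_dvd).symm)
    have b5 := comm_eq_bot'.1 (eq_bot_of_le (bstar_aux hq hne _ σ ⊤ ⊤ D _ rfl (rInv_top _ _) (sol_top.2 hs)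
      ⟨le_top, nQ.trans b2⟩ (pQ.mono b1) ((commSS le_rfl b1).trans (b3.trans inf_le_right)) hL) (rcent_top hf'))
    exact centsC (piGen_le_iff.2 fun x c1 c2 => zpowers_le.1 (b4 _ (le_top.trans nQ)
      (fun r h1 h2 e => hne (e.symm.trans (c2.zpowers r h1 h2))) (zpowers_le.2 (b5 (mem_piGen c1 c2)))))
  rw [pRes_eq, ← piGen_eq_bot_iff, eq_bot_iff, piGen_le_iff]
  exact fun x c1 c2 => hO.le (pcore_fitting_le _ _ ((fitting_nil ⊤).mem_pcore (a1 (mem_piGen c1 c2)) c2))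

theorem pl_gross (e : ℕ) : ∀ {G : Type u} [Group G] [Finite G], Group.IsSolvable G → PExp 2 (e + 1) G →
    PLengthLE 2 (2 * e + 1) G := by
  induction e with
  | zero =>
    refine fun hs h => pl_of_exp 1 (isPSolvable_of_isSolvable Nat.prime_two hs)
      (fun q n m Q a1 _ a2 a3 a4 a5 _ => absurd a5 ?_) h
    obtain rfl := a2.antisymm a3
    exact (Nat.one_lt_pow (by omega) a1.one_lt).ne
  | succ n ih =>
  intro G _ _ hs h1
  obtain ⟨G₁, _, _, f, V, a1, a2, a3⟩ := exists_hred Nat.prime_two (isPSolvable_of_isSolvable Nat.prime_two hs)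
  haveI := a2.normal
  obtain ⟨H, _, _, f', W, b1, b2, b3⟩ := exists_hred Nat.prime_two (a2.sol_quo Nat.prime_two)
  haveI := b2.normal
  obtain ⟨S⟩ := a2.rep
  have b4 := QuotientGroup.mk'_surjective W
  have b5 := QuotientGroup.mk'_surjective V
  haveI := Group.isSolvable_of_surjective a1
  haveI := Group.isSolvable_of_surjective b1
  refine pl_of_hred Nat.prime_two a1 a3 (pl_of_hred Nat.prime_two b1 b3 (ih inferInstance fun y hy => ?_))
  obtain ⟨g, c1, rfl⟩ := exists_pelt_map (f := (QuotientGroup.mk' W).comp f') (b4.comp b1) hy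
  rw [← map_pow]
  exact (QuotientGroup.eq_one_iff _).2 (b3.ge (bstar S.inj inferInstance (a2.core_quo Nat.prime_two)
    ((h1.map a1).map b5 g c1) (a2.exc S (h1.map a1) c1)))

end Cfsg.Agent.H1
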