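import Cfsg.Agent.FT.BG01
import Cfsg.Agent.H1.Product
import Cfsg.Agent.H20.Simple
import Cfsg.Agent.H28.SecRep

/-! Bases of solvable groups acting on finite abelian groups: reductions. -/

set_option autoImplicit false
set_option linter.unusedSectionVars false
set_option linter.style.haveILetI false

namespace Cfsg.Agent.H1.Bs

open Cfsg Subgroup Cfsg.Agent.FT Function
open scoped commutatorElement

universe u v

variable {G : Type u} [Group G] [Finite G] {V : Type v} [AddCommGroup V] [Finite V] [DistribMulAction G V]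
  {ι κ : Type*} {A B D H K M N : Subgroup G} {L U : AddSubgroup V} {g h : G} {v : V} {t : ι → V}

/-- invariant subgroups -/
def AInv (H : Subgroup G) (L : AddSubgroup V) : Prop := ∀ h ∈ H, ∀ v ∈ L, h • v ∈ L

/-- irreducible subgroups -/
structure AIrr (H : Subgroup G) (L : AddSubgroup V) : Prop where
  ne : L ≠ ⊥
  inv : AInv H L
  min : ∀ U ≤ L, AInv H U → U ≠ ⊥ → U = L

variable (V) in
/-- fixed vectors -/
def fx (D : Subgroup G) : AddSubgroup V where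
  carrier := {v | ∀ d ∈ D, d • v = v}
  zero_mem' := fun d _ => smul_zero d
  add_mem' := fun ha hb d hd => by rw [smul_add, ha d hd, hb d hd]
  neg_mem' := fun ha d hd => by rw [smul_neg, ha d hd]

/-- bases -/
def Reg (H : Subgroup G) (L : AddSubgroup V) (t : ι → V) : Prop :=
  (∀ i, t i ∈ L) ∧ ∀ h ∈ H, h • t = t → ∀ v ∈ L, h • v = v

variable (V) in
/-- maximal stabilisers -/
def Good (A D : Subgroup G) : Prop := D ≤ A ∧ ∀ v ∈ fx V D, v ≠ 0 → ∀ a ∈ A, a • v = v → a ∈ D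

/-- distinguishing colourings of the cosets of `N` -/
def Col (N : Subgroup G) (c : G → κ) : Prop :=
  (∀ g, ∀ n ∈ N, c (g * n) = c g) ∧ ∀ s, (∀ g, c (s * g) = c g) → ∀ g, g⁻¹ * s * g ∈ N

theorem smul_mem_fx (g : G) (h : v ∈ fx V D) : g • v ∈ fx V (cj g D) := fun d hd => by
  simpa [mul_smul, inv_smul_eq_iff] using h _ (mem_cj.1 hd)

theorem aInv_fx (h : H ≤ N(D)) : AInv H (fx V D) := fun g hg _ hv => cj_of_mem_nrm (h hg) ▸ smul_mem_fx g hv

theorem Good.cj (h : Good V A D) (hg : g ∈ N(A)) : Good V A (cj g D) :=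
  ⟨cj_le_of_nrm hg h.1, fun v hv h0 a ha e => mem_cj.2 (h.2 (g⁻¹ • v) (cj_inv_cj g D ▸ smul_mem_fx g⁻¹ hv)
    (fun e => h0 (by simpa using congrArg (g • ·) e)) _ (conj_mem' hg ha) (by rw [smul_smul, mul_inv_cancel_right, mul_smul, e]))⟩

theorem Good.mono (h : Good V A D) (h1 : D ≤ B) (h2 : B ≤ A) : Good V B D := ⟨h1, fun v hv h0 a ha => h.2 v hv h0 a (h2 ha)⟩

theorem exists_good (A : Subgroup G) [Nontrivial V] : ∃ D, Good V A D ∧ ∃ v ∈ fx V D, v ≠ 0 := by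
  obtain ⟨v, hv⟩ := exists_ne (0 : V)
  obtain ⟨D, -, ⟨h1, h2⟩, h3⟩ := exists_max (fun D => D ≤ A ∧ ∃ v ∈ fx V D, v ≠ 0) (A := ⊥)
    ⟨bot_le, v, fun d hd => by rw [mem_bot.1 hd, one_smul], hv⟩
  exact ⟨D, ⟨h1, fun w hw h0 a ha e => (h3 (A ⊓ MulAction.stabilizer G w) ⟨inf_le_left, w, fun _ h => h.2, h0⟩
    (le_inf h1 hw)).le ⟨ha, e⟩⟩, h2⟩

theorem exists_irr (h : AInv H L) (h0 : L ≠ ⊥) : ∃ U ≤ L, AIrr H U := by
  obtain ⟨U, h1, h2⟩ := exists_minimal_le_of_wellFoundedLT (fun U => AInv H U ∧ U ≠ ⊥) L ⟨h, h0⟩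
  exact ⟨U, h1, h2.1.2, h2.1.1, fun W a b c => a.antisymm (h2.2 ⟨b, c⟩ a)⟩

theorem sum_fx (hA : Ab A) (P : κ → Subgroup G) (s : Finset κ) : Set.InjOn P s → (∀ i ∈ s, Good V A (P i)) →
    ∀ f : κ → V, (∀ i ∈ s, f i ∈ fx V (P i)) → ∑ i ∈ s, f i = 0 → ∀ i ∈ s, f i = 0 := by
  classical
  induction s using Finset.induction_on with
  | empty => simp
  | insert j s hj ih =>
  intro h1 h2 f h3 h4
  have m := fun i (hi : i ∈ s) => Finset.mem_insert_of_mem (b := j) hi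
  have mj := Finset.mem_insert_self j s
  rw [Finset.sum_insert hj] at h4
  have key : ∀ i ∈ s, f i = 0 := fun i hi => by_contra fun h0 => by
    obtain ⟨a, a1, a2⟩ := SetLike.not_le_iff_exists.1 fun e : P j ≤ P i => hj (h1 mj (m i hi) (e.antisymm fun d hd =>
      (h2 j mj).2 _ (fun x hx => h3 i (m i hi) x (e hx)) h0 d ((h2 i (m i hi)).1 hd) (h3 i (m i hi) d hd)) ▸ hi)
    have a3 := (h2 j mj).1 a1
    exact a2 ((h2 i (m i hi)).2 _ (h3 i (m i hi)) h0 a a3 (sub_eq_zero.1 (ih (h1.mono fun i hi => m i hi)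
      (fun i hi => h2 i (m i hi)) (fun i => a • f i - f i) (fun i hi => sub_mem (aInv_fx (hA.norms (h2 i (m i hi)).1)
        a a3 _ (h3 i (m i hi))) (h3 i (m i hi))) (by
          rw [Finset.sum_sub_distrib, ← Finset.smul_sum, eq_neg_of_add_eq_zero_right h4, smul_neg, h3 j mj a a1,
            sub_self]) i hi)))
  rw [Finset.sum_eq_zero key, add_zero] at h4
  exact Finset.forall_mem_insert _ _ _ |>.2 ⟨h4, key⟩

theorem smul_eq (hA : Ab A) (s : Finset (Subgroup G)) (hs : ∀ D ∈ s, Good V A D) (hh : ∀ D, D ∈ s ↔ cj h D ∈ s)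
    (f : Subgroup G → ι → V) (hf : ∀ D ∈ s, ∀ i, f D i ∈ fx V D) (e : h • ∑ D ∈ s, f D = ∑ D ∈ s, f D) :
    ∀ D ∈ s, h • f D = f (cj h D) := fun D hD => funext fun i => sub_eq_zero.1 (sum_fx hA (cj h) s
  (cj_injective h).injOn (fun D hD => hs _ ((hh D).1 hD)) (fun D => h • f D i - f (cj h D) i)
  (fun D hD => sub_mem (smul_mem_fx h (hf D hD i)) (hf _ ((hh D).1 hD) i)) (by
    rw [Finset.sum_sub_distrib, Finset.sum_equiv ⟨cj h, cj h⁻¹, cj_inv_cj h, cj_cj_inv h⟩ hh (f := fun D => f (cj h D) i)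
      (g := fun D => f D i) fun _ _ => rfl, ← Finset.smul_sum, sub_eq_zero]
    simpa using congrFun e i) D hD)

/-- the imprimitive case -/
theorem imprim (hirr : AIrr (⊤ : Subgroup G) (⊤ : AddSubgroup V)) (hA : Ab A) (nA : A ⊴ ⊤) (hD : Good V A D)
    (hL : L ≤ fx V D) (h0 : L ≠ ⊥) (hI : AInv N(D) L) (y : κ → ι → V) (hy : ∀ i, Reg N(D) L (y i))
    (hne : ∀ i j, ∀ n ∈ N(D), n • y i = y j → i = j) {c : G → κ} (hc : Col N(D) c) :
    ∃ t : ι → V, Reg (⊤ : Subgroup G) ⊤ t := by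
  classical
  haveI := Fintype.ofFinite G
  let r : Subgroup G → G := invFun (cj · D)
  have hr : ∀ g, cj (r (cj g D)) D = cj g D := fun g => invFun_eq (f := (cj · D)) ⟨g, rfl⟩
  have hn : ∀ g, (r (cj g D))⁻¹ * g ∈ N(D) := fun g => cj_eq_cj_iff.1 (hr g).symm
  have hc' : ∀ g, c (r (cj g D)) = c g := fun g => by rw [← hc.1 _ _ (hn g), mul_inv_cancel_left]
  refine ⟨∑ E ∈ Finset.univ.image (cj · D), r E • y (c (r E)), fun _ => trivial, fun h _ e => ?_⟩
  have a1 : ∀ g, ((r (cj (h * g) D))⁻¹ * h * r (cj g D)) • y (c g) = y (c (h * g)) := fun g => by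
    have := smul_eq hA _ (by simpa using fun g => hD.cj (nA.nrm trivial)) (fun E => by
      simpa using ⟨fun ⟨g, e⟩ => ⟨h * g, by rw [← e, cj_cj]⟩, fun ⟨g, e⟩ => ⟨h⁻¹ * g, by rw [← cj_cj, e, cj_inv_cj]⟩⟩) _
      (by simpa using fun g i => (congrArg (fx V) (hr g)).le (smul_mem_fx _ (hL ((hy _).1 i)))) e (cj g D) (by simp)
    rw [cj_cj, hc', hc'] at this
    rw [mul_smul, mul_smul, this, inv_smul_smul]
  have a2 : ∀ g, (r (cj (h * g) D))⁻¹ * h * r (cj g D) ∈ N(D) := fun g => by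
    simpa [mul_assoc] using mul_mem (hn (h * g)) (inv_mem (hn g))
  have a3 := fun g => (hne _ _ _ (a2 g) (a1 g)).symm
  have a4 : ∀ g, ∀ v ∈ L, (g⁻¹ * h * g) • v = v := fun g v hv => by
    have b1 := a1 g
    have b2 := a2 g
    rw [show cj (h * g) D = cj g D from cj_eq_cj_iff.2 (mul_assoc g⁻¹ h g ▸ hc.2 h a3 g)] at b1 b2
    rw [a3] at b1
    simpa [mul_smul, inv_smul_eq_iff] using (hy _).2 _ b2 b1 _ (hI _ (hn g) v hv)
  let F : AddSubgroup V := fx V (normalClosure {h})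
  have a5 : F = ⊤ := hirr.min F le_top (aInv_fx le_normalizer_of_normal) fun e => h0 (eq_bot_iff.2 (e ▸ fun v hv d hd => by
    refine (closure_le (MulAction.stabilizer G v)).2 (fun x hx => ?_) hd
    obtain ⟨_, rfl, a⟩ := Group.mem_conjugatesOfSet_iff.1 hx
    obtain ⟨g, rfl⟩ := isConj_iff.1 a
    simpa using a4 g⁻¹ v hv))
  exact fun v _ => a5.ge trivial h (subset_normalClosure rfl)

theorem reg_of_cr (H : Subgroup G) (hcr : ∀ U : AddSubgroup V, AInv H U → ∃ W, AInv H W ∧ U ⊓ W = ⊥ ∧ U ⊔ W = ⊤)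
    (h : ∀ U : AddSubgroup V, AIrr H U → ∃ t : ι → V, Reg H U t) (L : AddSubgroup V) :
    AInv H L → ∃ t : ι → V, Reg H L t := by
  induction L using WellFoundedLT.induction with | _ L ih =>
  intro hL
  rcases eq_or_ne L ⊥ with rfl | h0
  · exact ⟨0, fun _ => zero_mem _, fun g _ _ v hv => by rw [AddSubgroup.mem_bot.1 hv, smul_zero]⟩
  obtain ⟨U, a1, a2⟩ := exists_irr hL h0
  obtain ⟨W, a3, a4, a5⟩ := hcr U a2.inv
  have a6 : AInv H (L ⊓ W) := fun g hg v hv => ⟨hL g hg v hv.1, a3 g hg v hv.2⟩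
  obtain ⟨t, b1, b2⟩ := h U a2
  obtain ⟨s, b3, b4⟩ := ih (L ⊓ W) (inf_lt_left.2 fun e => a2.ne (a4 ▸ (inf_eq_left.2 (a1.trans e)).symm)) a6
  refine ⟨t + s, fun i => add_mem (a1 (b1 i)) (b3 i).1, fun g hg e v hv => ?_⟩
  have c1 : g • t = t := funext fun i => sub_eq_zero.1 (a4.le ⟨U.sub_mem (a2.inv g hg _ (b1 i)) (b1 i), by
    rw [show (g • t) i - t i = s i - g • s i by simpa [sub_eq_sub_iff_add_eq_add, add_comm] using congrFun e i]
    exact W.sub_mem (b3 i).2 (a3 g hg _ (b3 i).2)⟩)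
  obtain ⟨u, hu, w, hw, rfl⟩ := AddSubgroup.mem_sup.1 (a5.ge (AddSubgroup.mem_top v))
  rw [smul_add, b2 g hg c1 u hu, b4 g hg (by rwa [smul_add, c1, add_right_inj] at e) w
    ⟨(add_mem_cancel_left (a1 hu)).1 hv, hw⟩]

/-- reduction to a faithful irreducible action -/
theorem reg_of_faithful (hL : AIrr H L) (h : ∀ (G' : Type u) [Group G'] [Finite G'] [DistribMulAction G' L]
    [FaithfulSMul G' L] (f : H →* G'), Surjective f → AIrr (⊤ : Subgroup G') (⊤ : AddSubgroup L) →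
      ∃ t : ι → L, Reg (⊤ : Subgroup G') ⊤ t) : ∃ t : ι → V, Reg H L t := by
  letI : DistribMulAction H L :=
    { smul := fun g v => ⟨g.1 • v.1, hL.inv _ g.2 _ v.2⟩
      one_smul := fun v => Subtype.ext (one_smul G v.1)
      mul_smul := fun a b v => Subtype.ext (mul_smul a.1 b.1 v.1)
      smul_zero := fun a => Subtype.ext (smul_zero a.1)
      smul_add := fun a v w => Subtype.ext (smul_add a.1 v.1 w.1) }
  let φ := DistribMulAction.toAddMonoidEnd H L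
  letI := DistribMulAction.compHom L (QuotientGroup.lift φ.ker φ le_rfl)
  haveI : FaithfulSMul (H ⧸ φ.ker) L := ⟨fun {a b} => QuotientGroup.induction_on a fun a => QuotientGroup.induction_on b
    fun b e => QuotientGroup.eq.2 (φ.eq_iff.1 (AddMonoidHom.ext e).symm)⟩
  haveI := (AddSubgroup.nontrivial_iff_ne_bot L).2 hL.ne
  obtain ⟨t, -, h1⟩ := h _ (QuotientGroup.mk' φ.ker) (QuotientGroup.mk'_surjective _) ⟨top_ne_bot, fun _ _ _ _ => trivial, fun U _ a b =>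
      AddSubgroup.map_injective L.subtype_injective (by
        rw [← AddMonoidHom.range_eq_map, AddSubgroup.range_subtype]
        refine hL.min _ (AddSubgroup.map_subtype_le U) ?_ (mt (AddSubgroup.map_eq_bot_iff_of_injective _
          L.subtype_injective).1 b)
        rintro g hg _ ⟨v, hv, rfl⟩
        exact ⟨_, a ((⟨g, hg⟩ : H) : H ⧸ φ.ker) trivial v hv, rfl⟩)⟩
  exact ⟨fun i => t i, fun i => (t i).2, fun g hg e v hv => congrArg Subtype.val
    (h1 ((⟨g, hg⟩ : H) : H ⧸ φ.ker) trivial (funext fun i => Subtype.ext (congrFun e i)) ⟨v, hv⟩ trivial)⟩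

theorem Col.wreath {κ' : Type*} {c : G → κ} (hc : Col N c) (hle : K ≤ N) (d : κ → N → κ')
    (hd : ∀ i, Col (K.subgroupOf N) (d i)) (hne : ∀ i j s, (∀ g, d i (s * g) = d j g) → i = j) :
    ∃ e : G → κ', Col K e := by
  let r : G → G := fun g => (g : G ⧸ N).out
  have hr : ∀ g, (r g)⁻¹ * g ∈ N := fun g => QuotientGroup.eq.1 (QuotientGroup.out_eq' _)
  have hr' : ∀ g, ∀ n ∈ N, r (g * n) = r g := fun g n hn => congrArg Quotient.out (QuotientGroup.mk_mul_of_mem g hn)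
  have key : ∀ g (n : N), d (c (g * n)) ⟨_, hr (g * n)⟩ = d (c g) (⟨_, hr g⟩ * n) := fun g n => by
    rw [hc.1 g n n.2]; congr 1; exact Subtype.ext (by simp [hr' g n n.2, mul_assoc])
  refine ⟨fun g => d (c g) ⟨_, hr g⟩, fun g n hn => (key g ⟨n, hle hn⟩).trans ((hd _).1 _ _ hn), fun s hs g => ?_⟩
  have a1 : ∀ g (n : N), d (c (s * g)) (⟨_, hr (s * g)⟩ * (⟨_, hr g⟩ : N)⁻¹ * n) = d (c g) n := fun g n => by
    have := hs (g * ((⟨_, hr g⟩ : N)⁻¹ * n : N))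
    simp only [← mul_assoc s] at this
    rwa [key, key, mul_inv_cancel_left, ← mul_assoc] at this
  have a2 := fun g => hne _ _ _ (a1 g)
  have a3 := (hd (c g)).2 _ (a2 g ▸ a1 g) ⟨_, hr g⟩
  have a4 : r (s * g) = r g := by rw [← hr' g _ (hc.2 s a2 g)]; simp [mul_assoc]
  simpa [mem_subgroupOf, a4, mul_assoc] using a3

theorem perfect_fix {T : Type*} [Finite T] [MulAction G T] (Γ : Subgroup (Equiv.Perm T)) (hΓ : Γ ≤ ⁅Γ, Γ⁆)
    (hc : ∀ γ ∈ Γ, ∀ (g : G) t, γ (g • t) = g • γ t) (hs : Sol H) (t : T) :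
    (∀ γ ∈ Γ, γ t = t) ∨ ∃ y : Fin 5 → Γ, ∀ i j, ∀ h ∈ H, h • (y i).1 t = (y j).1 t → i = j := by
  let S : Subgroup G → Subgroup (Equiv.Perm T) := fun H =>
    { carrier := {γ | γ ∈ Γ ∧ ∃ h ∈ H, γ t = h • t}
      one_mem' := ⟨one_mem _, 1, one_mem _, (one_smul _ _).symm⟩
      mul_mem' := fun {a b} ⟨a1, g, a2, a3⟩ ⟨b1, h, b2, b3⟩ => ⟨mul_mem a1 b1, h * g, mul_mem b2 a2, by
        rw [Equiv.Perm.mul_apply, b3, hc a a1, a3, mul_smul]⟩
      inv_mem' := fun {a} ⟨a1, g, a2, a3⟩ => ⟨inv_mem a1, g⁻¹, inv_mem a2, by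
        rw [Equiv.Perm.inv_eq_iff_eq, hc a a1, a3, inv_smul_smul]⟩ }
  by_cases h5 : 5 ≤ Nat.card (Γ ⧸ (S H).subgroupOf Γ)
  · haveI := Fintype.ofFinite (Γ ⧸ (S H).subgroupOf Γ)
    obtain ⟨e⟩ := Embedding.nonempty_of_card_le (α := Fin 5) (β := Γ ⧸ (S H).subgroupOf Γ) (by simpa using h5)
    refine .inr ⟨fun i => (e i).out, fun i j h hh h1 => e.injective ?_⟩
    rw [← (e i).out_eq', ← (e j).out_eq', QuotientGroup.eq]
    exact ⟨((e i).out⁻¹ * (e j).out).2, h, hh, Equiv.Perm.inv_eq_iff_eq.2 (h1.symm.trans (hc _ (e i).out.2 h t).symm)⟩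
  have h1 : Γ ≤ S H := fun γ hγ => by
    haveI := H20.perm_solvable_of_card_le_four (X := Γ ⧸ (S H).subgroupOf Γ) (by omega)
    have := Sol.eq_bot_of_le_der (A := pmap (MulAction.toPermHom Γ (Γ ⧸ (S H).subgroupOf Γ)) Γ) inferInstance
      ((pmap_mono _ hΓ).trans (pmap_comm _ le_rfl le_rfl).le)
    have := (mem_pker.1 ((pmap_eq_bot le_rfl).1 this hγ)).2
    rw [pfun_of_mem _ hγ] at this
    simpa [mem_subgroupOf] using QuotientGroup.eq.1 (congrArg (· ((1 : Γ) : Γ ⧸ (S H).subgroupOf Γ)) this).symm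
  clear h5
  refine .inl ?_
  induction H using WellFoundedLT.induction with | _ H ih =>
  rcases eq_or_ne H ⊥ with rfl | h0
  · exact fun γ hγ => by obtain ⟨-, h, a, b⟩ := h1 hγ; rw [b, mem_bot.1 a, one_smul]
  refine ih _ (hs.der_lt h0) (hs.mono (der_le H)) (hΓ.trans (commutator_le.2 fun a ha b hb => ?_))
  obtain ⟨-, g, a1, a2⟩ := h1 ha
  obtain ⟨-, h, b1, b2⟩ := h1 hb
  have a3 : ∀ a ∈ Γ, ∀ g : G, a t = g • t → a⁻¹ t = g⁻¹ • t := fun a ha g e => by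
    rw [Equiv.Perm.inv_eq_iff_eq, hc a ha, e, inv_smul_smul]
  refine ⟨der_le Γ (commutator_mem_commutator ha hb), ⁅h⁻¹, g⁻¹⁆, commutator_mem_commutator (inv_mem b1) (inv_mem a1), ?_⟩
  simp only [commutatorElement_def, Equiv.Perm.mul_apply, a3 b hb h b2, hc _ (inv_mem ha), a3 a ha g a2, hc b hb, b2,
    hc a ha, a2, mul_smul, inv_inv]

variable (G V) in
/-- every abelian normal subgroup acts freely -/
def Prim : Prop := ∀ A : Subgroup G, A ⊴ ⊤ → Ab A → ∀ a ∈ A, ∀ v : V, v ≠ 0 → a • v = v → a = 1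

theorem base_gen (Q : ℕ → ℕ → Prop) (mono : ∀ a b a' b', Q a b → a' ∣ a → b' ∣ b → Q a' b') (n : ℕ)
    (hcol : ∀ (G : Type u) [Group G] [Finite G] (b : ℕ), Nat.card G ≤ n → Group.IsSolvable G → Q (Nat.card G) b →
      ∀ N : Subgroup G, ∃ c : G → κ, Col N c)
    (hmul : ∀ (G : Type u) [Group G] [Finite G] (V : Type v) [AddCommGroup V] [Finite V] [DistribMulAction G V]
      (H : Subgroup G) (L : AddSubgroup V) (t : ι → V), Sol H → Q #H (Nat.card L) → AIrr H L → Reg H L t →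
      ∃ y : κ → ι → V, (∀ i, Reg H L (y i)) ∧ ∀ i j, ∀ n ∈ H, n • y i = y j → i = j)
    (hprim : ∀ (G : Type u) [Group G] [Finite G] (V : Type v) [AddCommGroup V] [Finite V] [DistribMulAction G V]
      [FaithfulSMul G V] [Nontrivial V], Nat.card G ≤ n → Group.IsSolvable G → Q (Nat.card G) (Nat.card V) →
      Prim G V → (∀ (H : Subgroup G) (U : AddSubgroup V), H ≠ ⊤ → AIrr H U → ∃ t : ι → V, Reg H U t) →
      ∃ t : ι → V, Reg (⊤ : Subgroup G) ⊤ t) (m : ℕ) :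
    ∀ {G : Type u} [Group G] [Finite G] {V : Type v} [AddCommGroup V] [Finite V] [DistribMulAction G V]
      (H : Subgroup G) (L : AddSubgroup V), #H = m → m ≤ n → Sol H → Q #H (Nat.card L) → AIrr H L →
      ∃ t : ι → V, Reg H L t := by
  induction m using Nat.strong_induction_on with | _ m ih =>
  intro G _ _ V _ _ _ H L hm hn hs hQ hL
  refine reg_of_faithful hL fun G' _ _ _ _ f hf h => ?_
  haveI := (AddSubgroup.nontrivial_iff_ne_bot L).2 hL.ne
  have a1 := card_dvd_of_surjective f hf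
  have a2 : Nat.card G' ≤ m := hm ▸ Nat.le_of_dvd (card_pos H) a1
  have a3 := Group.isSolvable_of_surjective hf
  have a4 := mono _ _ _ _ hQ a1 dvd_rfl
  have a5 := fun (H : Subgroup G') (U : AddSubgroup L) =>
    mono _ _ _ _ a4 (card_subgroup_dvd_card H) (AddSubgroup.card_addSubgroup_dvd_card U)
  have a6 : ∀ (H : Subgroup G') (U : AddSubgroup L), H ≠ ⊤ → AIrr H U → ∃ t : ι → L, Reg H U t := fun H U h1 h2 => by
    have := card_top' (G := G') ▸ card_lt h1.lt_top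
    exact ih _ (this.trans_le a2) H U rfl (by omega) inferInstance (a5 H U) h2
  by_cases hp : Prim G' L
  · exact hprim G' L (a2.trans hn) a3 a4 hp a6
  simp only [Prim, not_forall] at hp
  obtain ⟨A, b1, b2, a, b3, v, b4, b5, b6⟩ := hp
  obtain ⟨D, b7, w, b8, b9⟩ := exists_good (V := L) A
  have c0 : fx L D ≠ ⊥ := fun e => b9 (e.le b8)
  have c1 : N(D) ≠ ⊤ := fun e => by
    have k : ∀ d ∈ D, d = 1 := fun d hd => FaithfulSMul.eq_of_smul_eq_smul (α := L) fun v =>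
      ((h.min _ le_top (aInv_fx e.ge) c0).ge trivial d hd).trans (one_smul _ _).symm
    exact b6 (k a (b7.2 v (fun d hd => by rw [k d hd, one_smul]) b4 a b3 b5))
  obtain ⟨U, c2, c3⟩ := exists_irr (aInv_fx (le_refl N(D))) c0
  obtain ⟨t, ht⟩ := a6 _ U c1 c3
  obtain ⟨y, d1, d2⟩ := hmul G' L _ U t inferInstance (a5 _ U) c3 ht
  obtain ⟨c, hc⟩ := hcol G' _ (a2.trans hn) a3 a4 N(D)
  exact imprim h b2 b1 b7 c2 c3.ne c3.inv y d1 d2 hc

theorem col_max (hs : Group.IsSolvable G) (hN : IsCoatom N) (h : ∀ (W : Type) [AddCommGroup W] [Finite W]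
    [DistribMulAction N W], AIrr (⊤ : Subgroup N) (⊤ : AddSubgroup W) → Nat.card W ∣ Nat.card G →
      ∃ c : W → κ, ∀ (n : N) a, (∀ v, c (a + n • v) = c v) → ∀ v, a + n • v = v) : ∃ c : G → κ, Col N c := by
  have nK : N.normalCore ⊴ ⊤ := nml_top_iff.2 inferInstance
  obtain ⟨R, a1, -⟩ := exists_chief_above nK (Nml.refl ⊤) (N.normalCore_le.trans_lt hN.1.lt_top)
  have mx : ∀ X, X ⊴ ⊤ → X ≤ N → X ≤ N.normalCore := fun X a b => by
    haveI := nml_top_iff.1 a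
    exact normal_le_normalCore.2 b
  have a2 : R ⊔ N = ⊤ := hN.2 _ (right_lt_sup.2 fun e => a1.lt.not_ge (mx R a1.nmlU e))
  have sR : Sol R := inferInstance
  have a3 : ∀ X, N.normalCore ≤ X → X ≤ R → N ≤ N(X) → ⊤ ≤ N(X) := fun X b1 b2 b3 =>
    a2.ge.trans (sup_le (norms_of_comm_le_of_le ((a1.der_le sR).trans b1) b2) b3)
  have nR := le_top.trans a1.nmlU.nrm (a := N)
  have a4 : R ⊓ N ≤ N.normalCore := mx _ ⟨le_top, a3 _ (le_inf a1.lt.le N.normalCore_le) inf_le_left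
    (normsI nR (le_nrm N))⟩ inf_le_right
  obtain ⟨p, hp, h2⟩ := a1.abelem sR
  haveI := Fact.mk hp
  obtain ⟨S⟩ := H28.nonempty_secRep p a1.lt.le (a1.der_le sR) ((abelem_quo_iff a1.nml.nrm).1 h2).2 nR
    (le_top.trans nK.nrm)
  letI := DistribMulAction.compHom (Fin S.n → ZMod p) (S.ρ : N →* Module.End (ZMod p) _)
  have hirr : AIrr (⊤ : Subgroup N) (⊤ : AddSubgroup (Fin S.n → ZMod p)) := by
    refine ⟨fun e => a1.lt.not_ge fun a ha => (S.eq_zero a ha).1 (e.le trivial), fun _ _ _ _ => trivial,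
      fun U _ b1 b2 => ?_⟩
    refine (a1.eq_or_eq (S.le_pre (AddSubgroup.toZModSubmodule p U)) (S.pre_le _) (a3 _ (S.le_pre _) (S.pre_le _)
      (le_nrm_iff.2 fun g hg x hx => ⟨conj_mem (nR hg) hx.1, S.conj ⟨g, hg⟩ x hx.1 ▸ b1 ⟨g, hg⟩ trivial _ hx.2⟩))).elim
      (fun e => absurd (eq_bot_iff.2 fun v hv => ?_) b2) fun e => eq_top_iff.2 fun v _ => ?_ <;>
      obtain ⟨a, ha, rfl⟩ := S.surj v
    · exact (S.eq_zero a ha).2 (e.le ⟨ha, hv⟩)
    · exact (e.ge ha).2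
  obtain ⟨c, hc⟩ := h (Fin S.n → ZMod p) hirr (by
    simpa [← S.relIndex_eq] using (relIndex_dvd _ R).trans (card_subgroup_dvd_card R))
  choose r hr n hn e using fun g => (mem_sup_norm nR).1 (a2.ge (mem_top g))
  have key : ∀ a ∈ R, ∀ m ∈ N, S.π (r (a * m)) = S.π a := fun a ha m hm => (S.eq_iff' (hr _) ha).2 (a4
    ⟨R.mul_mem (R.inv_mem (hr _)) ha, by
      rw [show (r (a * m))⁻¹ * a = n (a * m) * m⁻¹ by rw [eq_mul_inv_iff_mul_eq, mul_assoc, inv_mul_eq_iff_eq_mul, ← e]]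
      exact N.mul_mem (hn _) (N.inv_mem hm)⟩)
  have k2 : ∀ s g, S.π (r (s * g)) = S.π (r s) + (⟨n s, hn s⟩ : N) • S.π (r g) := fun s g => by
    have := key _ (mul_mem (hr s) (conj_mem (nR (hn s)) (hr g))) _ (mul_mem (hn s) (hn g))
    rw [S.map_mul _ (hr s) _ (conj_mem (nR (hn s)) (hr g)), S.conj ⟨n s, hn s⟩ _ (hr g)] at this
    refine Eq.trans ?_ this
    conv_lhs => rw [e s, e g]
    simp only [mul_assoc, inv_mul_cancel_left]
  refine ⟨fun g => c (S.π (r g)), fun g m hm => ?_, fun s hs g => ?_⟩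
  · simp only
    conv_lhs => rw [e g, mul_assoc, key _ (hr g) _ (mul_mem (hn g) hm)]
  have := hc ⟨n s, hn s⟩ (S.π (r s)) (fun v => by
    obtain ⟨a, ha, rfl⟩ := S.surj v
    simpa only [k2, mul_one a ▸ key a ha 1 (one_mem N)] using hs a) (S.π (r g))
  rw [← k2, eq_comm, S.eq_iff' (hr _) (hr _)] at this
  rw [mul_assoc, e (s * g), e g, mul_inv_rev, mul_assoc, ← mul_assoc (r g)⁻¹, ← e g]
  exact mul_mem (inv_mem (hn g)) (mul_mem (N.normalCore_le this) (hn _))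

theorem col_gen [Nonempty κ] (Q : ℕ → Prop) (mono : ∀ a a', Q a → a' ∣ a → Q a') (n : ℕ)
    (hmul : ∀ (G : Type u) [Group G] [Finite G] (N : Subgroup G) (c : G → κ), Group.IsSolvable G → Q (Nat.card G) →
      Col N c → ∃ d : κ → G → κ, (∀ i, Col N (d i)) ∧ ∀ i j s, (∀ g, d i (s * g) = d j g) → i = j)
    (hmax : ∀ (G : Type u) [Group G] [Finite G] (N : Subgroup G), Nat.card G ≤ n → Group.IsSolvable G →
      Q (Nat.card G) → IsCoatom N → ∃ c : G → κ, Col N c) (m : ℕ) :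
    ∀ (G : Type u) [Group G] [Finite G] (N : Subgroup G), Nat.card G = m → m ≤ n → Group.IsSolvable G →
      Q (Nat.card G) → ∃ c : G → κ, Col N c := by
  induction m using Nat.strong_induction_on with | _ m ih =>
  intro G _ _ N hm hn hs hQ
  rcases eq_or_ne N ⊤ with rfl | h0
  · exact ⟨fun _ => Classical.arbitrary κ, fun _ _ _ => rfl, fun _ _ _ => trivial⟩
  obtain ⟨M, a1, a2⟩ := exists_coatom h0
  obtain ⟨c, hc⟩ := hmax G M (hm ▸ hn) hs hQ a1
  have a3 := card_top' (G := G) ▸ card_lt a1.1.lt_top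
  have a4 := mono _ _ hQ (card_subgroup_dvd_card M)
  obtain ⟨e, he⟩ := ih _ (hm ▸ a3) M (N.subgroupOf M) rfl (by omega) inferInstance a4
  obtain ⟨d, b1, b2⟩ := hmul M _ e inferInstance a4 he
  exact hc.wreath a2 d b1 b2

theorem many_triv [Finite ι] [Finite κ] (h : ∀ g ∈ H, ∀ v ∈ L, g • v = v) (hc : Nat.card κ ≤ Nat.card L ^ Nat.card ι) :
    ∃ y : κ → ι → V, (∀ i, Reg H L (y i)) ∧ ∀ i j, ∀ n ∈ H, n • y i = y j → i = j := by
  haveI := Fintype.ofFinite κ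
  haveI := Fintype.ofFinite (ι → L)
  obtain ⟨e⟩ := Embedding.nonempty_of_card_le (α := κ) (β := ι → L) (by
    rwa [← Nat.card_eq_fintype_card, ← Nat.card_eq_fintype_card, Nat.card_fun])
  exact ⟨fun i a => e i a, fun i => ⟨fun a => (e i a).2, fun g hg _ => h g hg⟩, fun i j n hn k => e.injective
    (funext fun a => Subtype.ext ((h n hn _ (e i a).2).symm.trans (congrFun k a)))⟩

end Cfsg.Agent.H1.Bs
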