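import Cfsg.Agent.H1.Base1
import Cfsg.Agent.H16.FreeEx

/-! Bases of solvable groups acting on finite abelian groups: the primitive case. -/

set_option autoImplicit false
set_option linter.unusedSectionVars false
set_option linter.style.haveILetI false

namespace Cfsg.Agent.H1.Bs

open Cfsg Subgroup Cfsg.Agent.FT Function
open scoped commutatorElement

universe u v

variable {G : Type u} [Group G] [Finite G] {V : Type v} [AddCommGroup V] [Finite V] [DistribMulAction G V]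
  {ι κ : Type*} {A B D H K M N : Subgroup G} {L U : AddSubgroup V} {g h : G} {v x : V} {t : ι → V}

/-- self-centralising normal subgroups of class at most two -/
structure Cl2 (B : Subgroup G) : Prop where
  nml : B ⊴ ⊤
  der : ⁅B, B⁆ ≤ C(B)
  cen : C(B) ≤ B

theorem exists_cl2 (hs : Group.IsSolvable G) : ∃ B : Subgroup G, Cl2 B := by
  obtain ⟨B, -, ⟨h1, h2⟩, h3⟩ := exists_max (fun B : Subgroup G => B ⊴ ⊤ ∧ ⁅B, B⁆ ≤ C(B)) (A := ⊥) ⟨nml_bot _, by simp⟩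
  refine ⟨B, h1, h2, by_contra fun h => ?_⟩
  have nC : C(B) ⊴ ⊤ := ⟨le_top, norms_cent h1.nrm⟩
  obtain ⟨R, a1, a2⟩ := exists_chief_above (h1.inf nC) nC (inf_lt_right.2 h)
  have a3 : ⁅B ⊔ R, B ⊔ R⁆ ≤ B ⊓ C(B) := (der_sup_eq (le_top.trans h1.nrm)).le.trans (sup_le (sup_le
    (le_inf (der_le B) h2) ((comm_eq_bot'.2 a2).le.trans bot_le)) (a1.der_le inferInstance))
  exact a1.lt.not_ge (le_inf (h3 (B ⊔ R) ⟨h1.sup a1.nmlU, a3.trans (centsY inf_le_right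
    (inf_le_left.trans (centsC a2)))⟩ le_sup_left ▸ le_sup_right) a2)

theorem Cl2.free (hB : Cl2 B) (h : Prim G V) : ∀ a ∈ C(B), ∀ v : V, v ≠ 0 → a • v = v → a = 1 :=
  h _ ⟨le_top, norms_cent hB.nml.nrm⟩ (ab_iff.2 (cen_anti hB.cen))

theorem col_orb {X : Type*} [MulAction G X] (hcol : ∀ N : Subgroup G, ∃ c : G → κ, Col N c) :
    ∃ c : X → κ, ∀ (s : G) (w : X), (∀ g : G, c (s • g • w) = c (g • w)) → s • w = w := by
  choose d hd using hcol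
  let r : X → X := fun w => (Quotient.mk (MulAction.orbitRel G X) w).out
  choose e he using fun w => show ∃ g : G, g • r w = w from
    (MulAction.orbitRel G X).symm (Quotient.mk_out (s := MulAction.orbitRel G X) w)
  have hr : ∀ (g : G) w, r (g • w) = r w := fun g w => congrArg Quotient.out (Quotient.sound ⟨g, rfl⟩)
  have key : ∀ (g : G) w, d (MulAction.stabilizer G (r (g • w))) (e (g • w)) = d (MulAction.stabilizer G (r w)) (g * e w) :=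
    fun g w => by
      rw [hr, ← (hd _).1 (g * e w) ((g * e w)⁻¹ * e (g • w)), mul_inv_cancel_left]
      rw [MulAction.mem_stabilizer_iff, mul_smul, inv_smul_eq_iff, mul_smul, he, ← hr g w, he]
  refine ⟨fun w => d (MulAction.stabilizer G (r w)) (e w), fun s w h => ?_⟩
  have := (hd (MulAction.stabilizer G (r w))).2 s (fun g => by
    simpa only [smul_smul, key, mul_assoc, inv_mul_cancel, mul_one] using h (g * (e w)⁻¹)) (e w)
  rwa [MulAction.mem_stabilizer_iff, mul_smul, mul_smul, inv_smul_eq_iff, he] at this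

theorem col_dbl (hcol : ∀ K : Subgroup N, ∃ c : N → κ, Col K c) : ∃ c : G → κ, (∀ g, ∀ n ∈ N, c (g * n) = c g) ∧
    ∀ s ∈ N, ∀ w, (∀ g ∈ N, c (s * (g * w)) = c (g * w)) → w⁻¹ * s * w ∈ N := by
  obtain ⟨c, hc⟩ := col_orb (X := G ⧸ N) hcol
  refine ⟨fun g => c g, fun g n hn => congrArg c (QuotientGroup.mk_mul_of_mem g hn), fun s hs w h => ?_⟩
  exact mul_assoc w⁻¹ s w ▸ QuotientGroup.eq.1 (hc ⟨s, hs⟩ w fun g => h g g.2).symm

theorem Good.nrm (hD : Good V B D) (nB : g ∈ N(B)) (hx : x ∈ fx V D) (h0 : x ≠ 0) (e : g • x = x) : g ∈ N(D) :=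
  mem_nrm.2 fun d hd => hD.2 x hx h0 _ (conj_mem nB (hD.1 hd)) (by
    rw [mul_smul, mul_smul, inv_smul_eq_iff.2 e.symm, hx d hd, e])

theorem Cl2.count (hB : Cl2 B) (dU : ∀ d ∈ D, d ∈ C(B) → d = 1) (hg : g ∈ B) (h1 : g ≠ 1) :
    ∃ K < B, {b | b ∈ B ∧ b⁻¹ * g * b ∈ D}.ncard ≤ #K := by
  rcases Set.eq_empty_or_nonempty {b | b ∈ B ∧ b⁻¹ * g * b ∈ D} with e | ⟨a, a1, a2⟩
  · exact ⟨⊥, (ne_bot_of_mem hg h1).bot_lt, by simp [e]⟩
  have nC : B ≤ N(C(B)) := norms_cent (le_nrm B)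
  refine ⟨B ⊓ C[g], inf_lt_left.2 fun e => h1 (by simpa [mul_assoc, inv_mul_eq_one] using dU _ a2 (conj_mem' (nC a1) (le_cen1.1 e))),
    Set.ncard_le_ncard_of_injOn (t := (B ⊓ C[g] : Subgroup G)) (· * a⁻¹) ?_ (mul_left_injective _).injOn⟩
  rintro b ⟨b1, b2⟩
  have a3 := mul_mem b1 (inv_mem a1)
  have := dU _ (mul_mem b2 (inv_mem a2)) (by
    simpa [commutatorElement_def, mul_assoc] using
      conj_mem' (nC a1) (hB.der (commutator_mem_commutator (inv_mem a3) hg)))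
  refine ⟨a3, mem_cen1.2 ?_⟩
  rw [mul_inv_eq_one, mul_assoc, inv_mul_eq_iff_eq_mul] at this
  rw [← mul_assoc, this]
  group

theorem Cl2.ab (hB : Cl2 B) (h : D ≤ B) (dU : ∀ d ∈ D, d ∈ C(B) → d = 1) : Ab D :=
  ab_iff_der.2 (eq_bot_iff.2 fun d hd => dU d (der_le D hd) (hB.der (der_mono h hd)))

theorem prim_main (hB : Cl2 B) (hU : ∀ a ∈ C(B), ∀ v : V, v ≠ 0 → a • v = v → a = 1) (hD : Good V B D)
    (hL : L ≤ fx V D) (hI : AInv N(D) L) (hx : x ∈ L) (h0 : x ≠ 0) (ht : ∀ i, t i ∈ L)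
    (hr : ∀ s ∈ N(D), s • x = x → s • t = t → ∀ v ∈ L, s • v = v) (y : κ → ι → V) (hy : ∀ i j, y i j ∈ L)
    (hne : ∀ i j, ∀ m ∈ B, m • y i = y j → i = j) (c : G → κ) (hc : ∀ g, ∀ n ∈ N(D), c (g * n) = c g)
    (hc' : ∀ s ∈ N(D), (∀ b ∈ B, c (s * b) = c b) → ∀ b ∈ B, b⁻¹ * s * b ∈ N(D))
    (hZ : ∀ K < B, 2 * {b | b ∈ B ∧ y (c b) = 0}.ncard + #K < #B) :
    ∃ t : ι → V, ∀ s : G, s • x = x → s • t = t → s = 1 := by
  classical
  haveI := Fintype.ofFinite B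
  have nB : ∀ g : G, g ∈ N(B) := fun g => hB.nml.nrm trivial
  have dU : ∀ d ∈ D, d ∈ C(B) → d = 1 := fun d hd h => hU d h x h0 (hL hx d hd)
  have hA : Ab (D ⊔ C(B)) := (hB.ab hD.1 dU).sup (ab_iff.2 (cen_anti hB.cen)) (cen_anti hD.1)
  have aB : D ⊔ C(B) ≤ B := sup_le hD.1 hB.cen
  let r : Subgroup G → B := invFun fun b : B => cj b.1 D
  have r1 : ∀ b ∈ B, cj (r (cj b D)).1 D = cj b D := fun b hb => invFun_eq (f := fun b : B => cj b.1 D) ⟨⟨b, hb⟩, rfl⟩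
  have r2 : ∀ b ∈ B, (r (cj b D) : G)⁻¹ * b ∈ N(D) := fun b hb => cj_eq_cj_iff.1 (r1 b hb).symm
  have r3 : ∀ b ∈ B, c (r (cj b D)) = c b := fun b hb => by rw [← hc _ _ (r2 b hb), mul_inv_cancel_left]
  have sw : ∀ s ∈ N(D), ∀ b, cj s (cj b D) = cj (s * b * s⁻¹) D := fun s hs b => by
    rw [← cj_cj _ s⁻¹, cj_of_mem_nrm (inv_mem hs), cj_cj]
  let f : Subgroup G → ι → V := fun E => if E = D then t else (r E : G) • y (c (r E))
  refine ⟨∑ E ∈ Finset.univ.image (fun b : B => cj b.1 D), f E, fun s s1 s2 => by_contra fun s3 => ?_⟩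
  have sN := hD.nrm (nB s) (hL hx) h0 s1
  have key : ∀ b ∈ B, s • f (cj b D) = f (cj s (cj b D)) := fun b hb => smul_eq hA
    (Finset.univ.image fun b : B => cj b.1 D) (by
    simpa using fun b hb => (hD.mono le_sup_left aB).cj (norms_of_comm_le_of_le (hB.der.trans le_sup_right) aB hb))
    (fun E => by
      simpa using ⟨fun ⟨b, hb, e⟩ => ⟨_, conj_mem (nB s) hb, by rw [← e, sw s sN]⟩, fun ⟨b, hb, e⟩ =>
        ⟨_, conj_mem (nB s⁻¹) hb, by rw [← sw _ (inv_mem sN), e, cj_inv_cj]⟩⟩) f (by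
      simp only [Finset.mem_image, Finset.mem_univ, true_and]
      rintro _ ⟨b, rfl⟩ i
      by_cases e : cj b.1 D = D
      · simp only [f, if_pos e]
        exact e.symm ▸ hL (ht i)
      · simp only [f, if_neg e]
        exact (congrArg (fx V) (r1 b b.2)).le (smul_mem_fx _ (hL (hy _ i)))) s2 _ (by simpa using ⟨b, hb, rfl⟩)
  have sL := hr s sN s1 (by simpa [f, cj_one, cj_of_mem_nrm sN] using key 1 (one_mem B))
  have k1 : ∀ b ∈ B, b ∉ N(D) → ((r (cj (s * b * s⁻¹) D) : G)⁻¹ * (s * r (cj b D) * s⁻¹)) • y (c b) = y (c (s * b)) :=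
    fun b hb hn => by
      have := key b hb
      simp only [f] at this
      rw [if_neg (mt cj_eq_self.1 hn), if_neg fun e => hn (cj_eq_self.1 (cj_injective s (e.trans (cj_of_mem_nrm sN).symm))),
        sw s sN, r3 b hb, r3 _ (conj_mem (nB s) hb), hc _ _ (inv_mem sN)] at this
      rw [mul_smul, mul_smul, mul_smul, show s⁻¹ • y (c b) = y (c b) from funext fun i =>
        inv_smul_eq_iff.2 (sL _ (hy _ i)).symm, this, inv_smul_smul]
  have k2 : ∀ b, (r (cj (s * b * s⁻¹) D) : G)⁻¹ * (s * r (cj b D) * s⁻¹) ∈ B := fun b =>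
    mul_mem (inv_mem (r _).2) (conj_mem (nB s) (r _).2)
  have k3 := hc' s sN fun b hb => by
    by_cases hn : b ∈ N(D)
    · rw [← one_mul (s * b), hc _ _ (mul_mem sN hn), ← hc 1 b hn, one_mul]
    · exact (hne _ _ _ (k2 b) (k1 b hb hn)).symm
  have k4 : ∀ b ∈ B, y (c b) ≠ 0 → (b⁻¹ * s * b) • x = x := fun b hb hn => by
    by_cases h1 : b ∈ N(D)
    · rw [mul_smul, mul_smul, sL _ (hI b h1 x hx), inv_smul_smul]
    have a1 := k1 b hb h1
    have a2 := k2 b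
    rw [← hne _ _ _ a2 a1] at a1
    rw [show cj (s * b * s⁻¹) D = cj b D from cj_eq_cj_iff.2 (by
      simpa only [mul_assoc] using mul_mem (k3 b hb) (inv_mem sN))] at a1 a2
    obtain ⟨i, hi⟩ := ne_iff.1 hn
    have a3 := hI _ (r2 b hb) x hx
    have := hL a3 _ (hD.2 _ (hL (hy _ i)) hi _ a2 (congrFun a1 i))
    rw [mul_smul, mul_smul, inv_smul_eq_iff.2 (sL _ a3).symm] at this
    simpa [mul_smul, inv_smul_eq_iff] using this
  obtain ⟨g, hg, g1⟩ : ∃ g ∈ B, s * g * s⁻¹ * g⁻¹ ≠ 1 := by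
    by_contra! h
    exact s3 (hU s (mem_cen.2 fun g hg => (mul_inv_eq_iff_eq_mul.1 (mul_inv_eq_one.1 (h g hg))).symm) x h0 s1)
  have g2 := mul_mem (conj_mem (nB s) hg) (inv_mem hg)
  obtain ⟨K, c1, c2⟩ := hB.count dU g2 g1
  refine (hZ K c1).not_ge ((Set.ncard_le_ncard (t := {b | b ∈ B ∧ y (c b) = 0} ∪ (g * ·) '' {b | b ∈ B ∧ y (c b) = 0} ∪
    {b | b ∈ B ∧ b⁻¹ * (s * g * s⁻¹ * g⁻¹) * b ∈ D}) fun b hb => ?_).trans ((Set.ncard_union_le _ _).trans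
      (add_le_add ((Set.ncard_union_le _ _).trans (by rw [Set.ncard_image_of_injective _ (mul_right_injective g), two_mul])) c2)))
  by_contra! h
  simp only [Set.mem_union, not_or, Set.mem_ofPred_eq, not_and, Set.mem_image, not_exists] at h
  have hb' := mul_mem (inv_mem hg) hb
  refine h.2 hb (hD.2 x (hL hx) h0 _ (conj_mem' (le_nrm B hb) g2) ?_)
  have := k4 _ hb' fun e => h.1.2 _ ⟨hb', e⟩ (mul_inv_cancel_left g b)
  rw [show b⁻¹ * (s * g * s⁻¹ * g⁻¹) * b = (b⁻¹ * s * b) * ((g⁻¹ * b)⁻¹ * s * (g⁻¹ * b))⁻¹ by group, mul_smul,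
    inv_smul_eq_iff.2 this.symm, k4 b hb (h.1.1 hb)]

theorem reg_cons {k : ℕ} {t : Fin k → V} (h : ∀ s : G, s • x = x → s • t = t → s = 1) :
    ∃ t : Fin (k + 1) → V, Reg (⊤ : Subgroup G) ⊤ t :=
  ⟨Fin.cons x t, fun _ => trivial, fun s _ e v _ => by
    rw [h s (congrFun e 0) (funext fun i => congrFun e i.succ), one_smul]⟩

theorem prim_gen [Nontrivial V] {k : ℕ} (hs : Group.IsSolvable G) (hp : Prim G V)
    (ih : ∀ (H : Subgroup G) (U : AddSubgroup V), H ≠ ⊤ → AIrr H U → ∃ t : Fin (k + 1) → V, Reg H U t)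
    (free : ∀ B : Subgroup G, Cl2 B → (∀ P ≤ B, H16.FreeAut (H16.repAut (Representation.ofDistribMulAction ℤ P V))) →
      ∃ e : Fin k → G, (∀ i, e i ∈ B) ∧ ∀ s, (∀ i, s * e i = e i * s) → s ∈ C(B))
    (col : ∀ (B D : Subgroup G) (L : AddSubgroup V) (x : V), Cl2 B → Good V B D → D ≠ ⊥ → L ≤ fx V D → AInv N(D) L →
      x ∈ L → x ≠ 0 → ∃ (y : κ → Fin k → V) (c : G → κ), (∀ i j, y i j ∈ L) ∧ (∀ i j, ∀ m ∈ B, m • y i = y j → i = j) ∧
        (∀ g, ∀ n ∈ N(D), c (g * n) = c g) ∧ (∀ s ∈ N(D), (∀ b ∈ B, c (s * b) = c b) → ∀ b ∈ B, b⁻¹ * s * b ∈ N(D)) ∧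
        ∀ K < B, 2 * {b | b ∈ B ∧ y (c b) = 0}.ncard + #K < #B) :
    ∃ t : Fin (k + 1) → V, Reg (⊤ : Subgroup G) ⊤ t := by
  obtain ⟨B, hB⟩ := exists_cl2 hs
  obtain ⟨D, hD, x, hx, h0⟩ := exists_good (V := V) B
  rcases eq_or_ne D ⊥ with rfl | h1
  · have f : ∀ b ∈ B, ∀ v : V, v ≠ 0 → b • v = v → b = 1 := fun b hb v hv e =>
      hD.2 v (fun d hd => by rw [mem_bot.1 hd, one_smul]) hv b hb e
    obtain ⟨e, a1, a2⟩ := free B hB fun P hP => H16.FreeRep.freeAut fun g hg v e => by_contra fun hv =>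
      hg (Subtype.ext (f g (hP g.2) v hv e))
    refine reg_cons (G := G) (x := x) (t := fun i => e i • x) fun s s1 s2 => f s (hB.cen (a2 s fun i => ?_)) x h0 s1
    have := f _ (mul_mem (inv_mem (a1 i)) (conj_mem (hB.nml.nrm (mem_top s)) (a1 i))) x h0 (by
      rw [mul_smul, mul_smul, mul_smul, inv_smul_eq_iff.2 s1.symm, inv_smul_eq_iff]; exact congrFun s2 i)
    rw [inv_mul_eq_one] at this
    exact (eq_mul_inv_iff_mul_eq.1 this).symm
  obtain ⟨L, a1, a2⟩ := exists_irr (aInv_fx (le_refl N(D))) fun e => h0 (e.le hx)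
  obtain ⟨t, b1, b2⟩ := ih _ L (fun e => h1 (eq_bot_iff.2 fun d hd => hp D ⟨le_top, e.ge⟩ (hB.ab hD.1 fun d hd h =>
    hB.free hp d h x h0 (hx d hd)) d hd x h0 (hx d hd))) a2
  obtain ⟨z, c1, c2, c3⟩ : ∃ z ∈ L, z ≠ 0 ∧ ∀ s : G, s • z = z → s • t 0 = t 0 := by
    by_cases e : t 0 = 0
    · obtain ⟨z, a⟩ := AddSubgroup.ne_bot_iff_exists_ne_zero.1 a2.ne
      exact ⟨z, z.2, fun e => a (Subtype.ext e), fun s _ => by rw [e, smul_zero]⟩
    · exact ⟨_, b1 0, e, fun _ h => h⟩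
  obtain ⟨y, c, d1, d2, d3, d4, d5⟩ := col B D L z hB hD h1 a1 a2.inv c1 c2
  obtain ⟨w, hw⟩ := prim_main (t := Fin.tail t) hB (hB.free hp) hD a1 a2.inv c1 c2 (fun i => b1 _) (fun s hs e1 e2 =>
    b2 s hs (funext (Fin.cases (c3 s e1) (congrFun e2)))) y d1 d2 c d3 d4 d5
  exact reg_cons hw

theorem Cl2.free_two (hB : Cl2 B) (hc : ∀ A ≤ B, Ab A → Cyc A) :
    ∃ e : Fin 2 → G, (∀ i, e i ∈ B) ∧ ∀ s, (∀ i, s * e i = e i * s) → s ∈ C(B) := by
  obtain ⟨A, -, ⟨a1, a2⟩, a3⟩ := exists_max (fun A => A ≤ B ∧ Ab A) (A := ⊥) ⟨bot_le, ab_bot⟩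
  obtain ⟨c, rfl⟩ := cyc_iff.1 (hc A a1 a2)
  have hc' : c ∈ B := a1 (mem_zpowers c)
  have a4 : ∀ b : B, ⁅b.1, c⁆ ∈ C(B) := fun b => hB.der (commutator_mem_commutator b.2 hc')
  let φ : B →* G := MonoidHom.mk' (fun b => ⁅b.1, c⁆) fun a b => by
    rw [mem_cen.1 (a4 b) _ (hB.cen (a4 a)), ← mul_inv_cancel_left a.1 ⁅b.1, c⁆, mem_cen.1 (a4 b) _ (inv_mem a.2)]
    simp [commutatorElement_def, mul_assoc]
  have a5 : φ.range ≤ C(B) := by rintro _ ⟨b, rfl⟩; exact a4 b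
  obtain ⟨z, hz⟩ := cyc_iff.1 (hc _ (a5.trans hB.cen) ((ab_iff.2 (cen_anti hB.cen)).mono a5))
  obtain ⟨m, rfl⟩ : z ∈ φ.range := hz ▸ mem_zpowers z
  refine ⟨![c, m], Fin.forall_fin_two.2 ⟨hc', m.2⟩, fun s hs => mem_cen.2 fun b hb => ?_⟩
  obtain ⟨k, hk⟩ := hz.le ⟨⟨b, hb⟩, rfl⟩
  have a6 := mul_mem (inv_mem (zpow_mem m.2 k)) hb
  have a7 : φ ((m ^ k)⁻¹ * ⟨b, hb⟩) = 1 := by rw [map_mul, map_inv, map_zpow, ← hk, inv_mul_cancel]
  have := (a3 (⟪c⟫ ⊔ ⟪_⟫) ⟨sup_le a1 (zpowers_le.2 a6), a2.sup (ab_zpowers _) (zpowers_le.2 (cen_zpowers c ▸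
    mem_cen1.2 (commutatorElement_eq_one_iff_mul_comm.1 a7)))⟩ le_sup_left).le (mem_sup_right (mem_zpowers _))
  exact mem_cen1.1 ((mul_mem_cancel_left (inv_mem (zpow_mem (mem_cen1.2 (hs 1).symm) k))).1
    (zpowers_le.2 (mem_cen1.2 (hs 0).symm) this))

theorem exists_small [Fintype κ] [Nonempty κ] (T : G → Prop) (c : G → κ) :
    ∃ i, Fintype.card κ * {b | T b ∧ c b = i}.ncard ≤ {b | T b}.ncard := by
  classical
  haveI := Fintype.ofFinite G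
  simpa [Set.ncard_eq_toFinset_card', Finset.filter_filter] using Finset.exists_le_of_sum_le (s := Finset.univ)
    (f := fun i => Fintype.card κ * ((Finset.univ.filter T).filter (c · = i)).card)
    (g := fun _ => (Finset.univ.filter T).card) Finset.univ_nonempty (by
      rw [← Finset.mul_sum, ← Finset.card_eq_sum_card_fiberwise (f := c) (by simp)]; simp)

theorem Cl2.col (hB : Cl2 B) {c : G → κ} (h1 : ∀ g, ∀ n ∈ N, c (g * n) = c g) {s : G} (h : ∀ b ∈ B, c (s * b) = c b) :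
    ∀ w ∈ B, ∀ g ∈ N, c (s * (g * w)) = c (g * w) := fun w hw g hg => by
  have := h _ (conj_mem (hB.nml.nrm (mem_top g)) hw)
  rwa [← mul_assoc s, h1 _ _ (inv_mem hg), h1 _ _ (inv_mem hg)] at this

end Cfsg.Agent.H1.Bs
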