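import Cfsg.Agent.H1.Base2

/-! Solvable completely reducible groups have bases of size three. -/

set_option autoImplicit false
set_option linter.unusedSectionVars false
set_option linter.style.haveILetI false

namespace Cfsg.Agent.H1.Bs

open Cfsg Subgroup Cfsg.Agent.FT Function
open scoped commutatorElement

universe u v

variable {G : Type u} [Group G] [Finite G] {V : Type v} [AddCommGroup V] [Finite V] [DistribMulAction G V]
  {ι κ : Type*} {A B D H K M N : Subgroup G} {L U : AddSubgroup V} {g h : G} {v x : V} {t : ι → V}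

/-- elementary operations on tuples -/
def elem [DecidableEq ι] {i j : ι} (h : j ≠ i) : Equiv.Perm (ι → V) where
  toFun t := t + Pi.single i (t j)
  invFun t := t - Pi.single i (t j)
  left_inv t := by simp [h]
  right_inv t := by simp [h]

theorem two_le_card (h : L ≠ ⊥) : 2 ≤ Nat.card L := (AddSubgroup.one_lt_card_iff_ne_bot L).2 h

theorem mul_three {t : Fin 3 → V} (hs : Sol H) (h0 : L ≠ ⊥) (ht : Reg H L t) :
    ∃ y : Fin 5 → Fin 3 → V, (∀ i, Reg H L (y i)) ∧ ∀ i j, ∀ n ∈ H, n • y i = y j → i = j := by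
  let S : Set (Equiv.Perm (Fin 3 → V)) := {γ | ∃ (i j : Fin 3) (h : j ≠ i), elem h = γ}
  have a1 : ∀ γ ∈ closure S, (∀ (g : G) t, γ (g • t) = g • γ t) ∧ ∀ t, (∀ i, t i ∈ L) → ∀ i, γ t i ∈ L := fun γ h => by
    have k : ∀ (i j : Fin 3) (t : Fin 3 → V), (∀ i, t i ∈ L) → ∀ a, (Pi.single i (t j) : Fin 3 → V) a ∈ L :=
      fun i j t h a => by rw [Pi.single_apply]; split_ifs; exacts [h j, zero_mem L]
    induction h using closure_induction'' with
    | mem _ h => obtain ⟨i, j, h, rfl⟩ := h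
                 exact ⟨fun g t => by simp [elem, Pi.single_smul], fun t h a => add_mem (h a) (k i j t h a)⟩
    | inv_mem _ h => obtain ⟨i, j, h, rfl⟩ := h
                     exact ⟨fun g t => by simp [elem, Pi.single_smul, Equiv.Perm.inv_def, smul_sub],
                       fun t h a => sub_mem (h a) (k i j t h a)⟩
    | one => exact ⟨fun _ _ => rfl, fun _ h => h⟩
    | mul a b _ _ h1 h2 => exact ⟨fun g t => by rw [Equiv.Perm.mul_apply, h2.1, h1.1]; rfl, fun t h => h1.2 _ (h2.2 t h)⟩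
  rcases perfect_fix (closure S) ((closure_le _).2 (by
    rintro _ ⟨i, j, h, rfl⟩
    obtain ⟨k, h1, h2⟩ := (by decide : ∀ i j : Fin 3, ∃ k, k ≠ i ∧ j ≠ k) i j
    rw [show elem h = ⁅elem (V := V) h1, elem (V := V) h2⁆ from Equiv.ext fun t => funext fun a => by
      by_cases a = i <;> by_cases a = k <;>
        simp [elem, commutatorElement_def, Equiv.Perm.inv_def, *] <;> abel]
    exact commutator_mem_commutator (subset_closure ⟨_, _, _, rfl⟩) (subset_closure ⟨_, _, _, rfl⟩)))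
    (fun γ h => (a1 γ h).1) hs t with h | ⟨y, h⟩
  · refine many_triv (fun g hg => ht.2 g hg (funext fun j => ?_)) (by simpa using (Nat.pow_le_pow_left (two_le_card h0) 3).trans' (by norm_num))
    obtain ⟨i, -, h1⟩ := (by decide : ∀ i j : Fin 3, ∃ k, k ≠ i ∧ j ≠ k) j j
    have := congrFun (h _ (subset_closure ⟨_, _, h1, rfl⟩)) i
    simp only [elem, Equiv.coe_fn_mk, Pi.add_apply, Pi.single_eq_same, add_eq_left] at this
    simp [this]
  · exact ⟨fun i => (y i).1 t, fun i => ⟨(a1 _ (y i).2).2 t ht.1, fun g hg e => ht.2 g hg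
      ((y i).1.injective (((a1 _ (y i).2).1 g t).trans e))⟩, h⟩

theorem cmul_five (hs : Group.IsSolvable G) {c : G → Fin 5} (hc : Col N c) :
    ∃ d : Fin 5 → G → Fin 5, (∀ i, Col N (d i)) ∧ ∀ i j s, (∀ g, d i (s * g) = d j g) → i = j := by
  letI : MulAction G (G → Fin 5) := arrowAction
  let φ := MulAction.toPermHom (Equiv.Perm (Fin 5)) (G → Fin 5)
  rcases perfect_fix (H := (⊤ : Subgroup G)) ((alternatingGroup (Fin 5)).map φ) (by
    rw [← map_commutator, commutator_alternatingGroup_eq_self (by simp)]) (by rintro _ ⟨σ, -, rfl⟩ g t; rfl)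
    inferInstance c with h | ⟨y, h⟩
  · obtain ⟨σ, h1⟩ := (alternatingGroup.isPretransitive_of_three_le_card (α := Fin 5) (by simp)).1 (c 1) (c 1 + 1)
    simpa using h1.symm.trans (congrFun (h _ ⟨σ, σ.2, rfl⟩) 1)
  refine ⟨fun i => (y i).1 c, fun i => ?_, fun i j s e => h i j s⁻¹ trivial (funext fun g => by
    simpa [arrowAction, HSMul.hSMul, SMul.smul] using e g)⟩
  obtain ⟨σ, -, e⟩ := (y i).2
  simp only [← e]
  exact ⟨fun g n hn => congrArg σ (hc.1 g n hn), fun s h => hc.2 s fun g => σ.injective (h g)⟩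

theorem col_pts {W : Type*} {k : ℕ} (p : Fin k → W) : ∃ c : W → Fin (k + 1), ∀ i v, c v = c (p i) → v = p i := by
  classical
  refine ⟨fun v => if h : ∃ i, p i = v then h.choose.succ else 0, fun i v e => ?_⟩
  have h : ∃ j, p j = p i := ⟨i, rfl⟩
  simp only [dif_pos h] at e
  split_ifs at e with h'
  · rw [← h'.choose_spec, Fin.succ_injective _ e, h.choose_spec]
  · exact absurd e.symm (Fin.succ_ne_zero _)

theorem aff_of_reg {k : ℕ} {t : Fin k → V} (ht : Reg (⊤ : Subgroup G) ⊤ t) :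
    ∃ c : V → Fin (k + 2), ∀ (n : G) a, (∀ v, c (a + n • v) = c v) → ∀ v, a + n • v = v := by
  obtain ⟨c, hc⟩ := col_pts (Fin.cons 0 t : Fin (k + 1) → V)
  refine ⟨c, fun n a h v => ?_⟩
  obtain rfl : a = 0 := by simpa using hc 0 _ (h _)
  rw [zero_add, ht.2 n trivial (funext fun i => by simpa using hc i.succ _ (h _)) v trivial]

theorem two_mul_le (h : K < B) : 2 * #K ≤ #B :=
  card_mul_relIndex h.le ▸ mul_comm 2 _ ▸ Nat.mul_le_mul_left _ (one_lt_relIndex h.not_ge)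

theorem Cl2.col_small [Fintype κ] [DecidableEq κ] (hB : Cl2 B) (h5 : 4 < Fintype.card κ)
    (hcol : ∀ K : Subgroup N(D), ∃ c : N(D) → κ, Col K c) (z : κ → ι → V) (hz : ∀ i j, z i j ∈ L)
    (hne : ∀ i j, ∀ m ∈ B, m • z i = z j → i = j) (i₀ : κ) (h0 : z i₀ = 0) :
    ∃ (y : κ → ι → V) (c : G → κ), (∀ i j, y i j ∈ L) ∧ (∀ i j, ∀ m ∈ B, m • y i = y j → i = j) ∧
      (∀ g, ∀ n ∈ N(D), c (g * n) = c g) ∧ (∀ s ∈ N(D), (∀ b ∈ B, c (s * b) = c b) → ∀ b ∈ B, b⁻¹ * s * b ∈ N(D)) ∧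
      ∀ K < B, 2 * {b | b ∈ B ∧ y (c b) = 0}.ncard + #K < #B := by
  haveI : Nonempty κ := ⟨i₀⟩
  obtain ⟨c, h1, h2⟩ := col_dbl hcol
  obtain ⟨i, hi⟩ := exists_small (· ∈ B) c
  refine ⟨z ∘ Equiv.swap i₀ i, c, fun _ => hz _, fun a b m hm e => (Equiv.swap i₀ i).injective (hne _ _ m hm e), h1,
    fun s hs e b hb => h2 s hs b (hB.col h1 e b hb), fun K hK => ?_⟩
  have a1 := two_mul_le hK
  have a2 : {b | b ∈ B ∧ (z ∘ Equiv.swap i₀ i) (c b) = 0}.ncard ≤ {b | b ∈ B ∧ c b = i}.ncard :=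
    Set.ncard_le_ncard fun b hb => ⟨hb.1, (Equiv.swap i₀ i).injective ((hne _ _ 1 (one_mem B)
      ((one_smul _ _).trans (hb.2.trans h0.symm))).trans (Equiv.swap_apply_right _ _).symm)⟩
  have a3 : {b | b ∈ B}.ncard = #B := rfl
  have a4 := card_pos B
  nlinarith

theorem prim_three [Nontrivial V] (hs : Group.IsSolvable G) (hp : Prim G V)
    (ih : ∀ (H : Subgroup G) (U : AddSubgroup V), H ≠ ⊤ → AIrr H U → ∃ t : Fin 3 → V, Reg H U t)
    (hcol : ∀ (N : Subgroup G) (K : Subgroup N), ∃ c : N → Fin 5, Col K c) :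
    ∃ t : Fin 3 → V, Reg (⊤ : Subgroup G) ⊤ t := by
  refine prim_gen (κ := Fin 5) hs hp ih (fun B hB h => hB.free_two fun A hA _ => (h A hA).isCyclic_of_comm)
    fun B D L x hB hD h1 hL hI hx h0 => ?_
  obtain ⟨u, u1, u2⟩ := exists_ne_one (H := C(B)) fun e => h1 (eq_bot_of_le hD.1 (eq_bot_of_le
    (ab_iff_der.2 (eq_bot_of_le hB.der e)).le_cen e))
  have u3 := mt (hB.free hp u u1 x h0) u2
  have u4 := hI u (cen_le_nrm D (cen_anti hD.1 u1)) x hx
  have u5 := (smul_ne_zero_iff_ne u).2 h0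
  have k : ∀ m ∈ B, m • x = x → m • u • x = u • x := fun m hm e => by rw [smul_smul, mem_cen.1 u1 m hm, mul_smul, e]
  refine hB.col_small (by simp) (hcol _) ![![0, 0], ![0, x], ![x, 0], ![x, x], ![x, u • x]] (fun i j => ?_)
    (fun i j m hm e => ?_) 0 (by simp)
  · fin_cases i <;> fin_cases j <;> simp [hx, u4]
  have e0 := congrFun e 0
  have e1 := congrFun e 1
  have := k m hm
  have := (smul_ne_zero_iff_ne m).2 h0
  clear e ih hcol
  fin_cases i <;> fin_cases j <;> simp [h0, h0.symm, u5, u5.symm] at e0 e1 ⊢ <;> grind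

theorem base_three (n : ℕ) (hcol : ∀ (G : Type u) [Group G] [Finite G], Nat.card G ≤ n → Group.IsSolvable G →
    ∀ N : Subgroup G, ∃ c : G → Fin 5, Col N c) (hn : #H ≤ n) (hs : Sol H) (hL : AIrr H L) :
    ∃ t : Fin 3 → V, Reg H L t :=
  base_gen (fun _ _ => True) (fun _ _ _ _ _ _ _ => trivial) n (fun G _ _ _ a b _ => hcol G a b)
    (fun _ _ _ _ _ _ _ _ _ _ a _ b c => mul_three a b.ne c) (fun G _ _ _ _ _ _ _ _ a b _ c d => prim_three b c d fun N =>
      hcol N ((card_le_card_group N).trans a) inferInstance) _ H L rfl hn hs trivial hL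

theorem col_five (n : ℕ) : ∀ (G : Type u) [Group G] [Finite G], Nat.card G ≤ n → Group.IsSolvable G →
    ∀ N : Subgroup G, ∃ c : G → Fin 5, Col N c := by
  induction n with
  | zero => exact fun G _ _ h => absurd h (Nat.card_pos (α := G)).not_ge
  | succ n ih =>
  refine fun G _ _ h hs N => col_gen (fun _ => True) (fun _ _ _ _ => trivial) (n + 1)
    (fun _ _ _ _ _ a _ b => cmul_five a b) (fun G _ _ N a b _ c => col_max b c fun W _ _ _ d _ => ?_) _ G N rfl h hs trivial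
  have := card_top' (G := G) ▸ card_lt c.1.lt_top
  obtain ⟨t, ht⟩ := base_three n ih (by rw [card_top']; omega) inferInstance d
  exact aff_of_reg ht

theorem three_base (hs : Sol H) (hL : AIrr H L) : ∃ t : Fin 3 → V, Reg H L t :=
  base_three _ (col_five _) le_rfl hs hL

theorem reg_top [FaithfulSMul G V] (hcr : ∀ U : AddSubgroup V, (∀ a : G, ∀ v ∈ U, a • v ∈ U) →
      ∃ W : AddSubgroup V, (∀ a : G, ∀ w ∈ W, a • w ∈ W) ∧ U ⊓ W = ⊥ ∧ U ⊔ W = ⊤)
    (h : ∀ U : AddSubgroup V, AIrr (⊤ : Subgroup G) U → ∃ t : ι → V, Reg (⊤ : Subgroup G) U t) :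
    ∃ t : ι → V, ∀ a : G, a • t = t → a = 1 := by
  obtain ⟨t, -, ht⟩ := reg_of_cr (⊤ : Subgroup G) (fun U hU => let ⟨W, a, b⟩ := hcr U fun g => hU g trivial
    ⟨W, fun g _ => a g, b⟩) h ⊤ fun _ _ _ _ => trivial
  exact ⟨t, fun a e => FaithfulSMul.eq_of_smul_eq_smul fun v => (ht a trivial e v trivial).trans (one_smul _ _).symm⟩

end Cfsg.Agent.H1.Bs
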