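import Cfsg.Agent.H1.Base3

/-! Completely reducible groups of odd order have bases of size two. -/

set_option autoImplicit false
set_option linter.unusedSectionVars false
set_option linter.style.haveILetI false

namespace Cfsg.Agent.H1.Bs

open Cfsg Subgroup Cfsg.Agent.FT Function
open scoped commutatorElement

universe u v

variable {G : Type u} [Group G] [Finite G] {V : Type v} [AddCommGroup V] [Finite V] [DistribMulAction G V]
  {ι κ : Type*} {A B D H K M N : Subgroup G} {L U : AddSubgroup V} {g h : G} {v x : V} {t : ι → V}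

theorem odd_mem (ho : Odd #H) (hg : g ∈ H) (h : g * g ∈ K) : g ∈ K := by
  obtain ⟨k, hk⟩ := ho
  have := pow_card hg
  rw [hk, pow_succ, pow_mul, pow_two, mul_eq_one_iff_inv_eq] at this
  exact this ▸ inv_mem (pow_mem h k)

theorem odd_fix {X : Type*} [MulAction G X] (ho : Odd #H) (hg : g ∈ H) {a : X} (h : g • g • a = a) : g • a = a :=
  odd_mem (K := MulAction.stabilizer G a) ho hg ((mul_smul g g a).trans h)

theorem two_of {X : Type*} [MulAction G X] {P : X → Prop} {a b : X} (ha : P a) (hb : P b) (h : ∀ g ∈ H, g • a ≠ b) :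
    ∃ y : Fin 2 → X, (∀ i, P (y i)) ∧ ∀ i j, ∀ n ∈ H, n • y i = y j → i = j :=
  ⟨![a, b], Fin.forall_fin_two.2 ⟨ha, hb⟩, by
    simpa [Fin.forall_fin_two] using ⟨h, fun n hn e => h _ (inv_mem hn) (inv_smul_eq_iff.2 e.symm)⟩⟩

theorem mul_odd {t : Fin 2 → V} (ho : Odd #H) (h0 : L ≠ ⊥) (ht : Reg H L t) :
    ∃ y : Fin 2 → Fin 2 → V, (∀ i, Reg H L (y i)) ∧ ∀ i j, ∀ n ∈ H, n • y i = y j → i = j := by
  have k : ∀ g ∈ H, g • t 0 = t 0 → g • t 1 = t 1 → ∀ v ∈ L, g • v = v := fun g hg a b =>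
    ht.2 g hg (funext (Fin.forall_fin_two.2 ⟨a, b⟩))
  by_cases h : ∀ g ∈ H, g • t ≠ ![t 1, t 0]
  · exact two_of ht ⟨Fin.forall_fin_two.2 ⟨ht.1 1, ht.1 0⟩, fun g hg e => k g hg (congrFun e 1) (congrFun e 0)⟩ h
  push Not at h
  obtain ⟨g, hg, e⟩ := h
  have e0 : g • t 0 = t 1 := congrFun e 0
  have e1 : t 1 = t 0 := e0.symm.trans (odd_fix ho hg (e0 ▸ congrFun e 1))
  rw [e1] at k
  by_cases e2 : t 0 = 0
  · exact many_triv (fun g hg => k g hg (by simp [e2]) (by simp [e2]))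
      (by simpa using (Nat.pow_le_pow_left (two_le_card h0) 2).trans' (by norm_num))
  exact two_of (a := ![t 0, 0]) (b := ![t 0, t 0]) ⟨by simp [Fin.forall_fin_two, ht.1 0], fun g hg e =>
    k g hg (congrFun e 0) (congrFun e 0)⟩ ⟨by simp [Fin.forall_fin_two, ht.1 0], fun g hg e => k g hg (congrFun e 0)
      (congrFun e 0)⟩ fun g _ e => e2 (by simpa using (congrFun e 1).symm)

theorem cmul_odd (ho : Odd (Nat.card G)) {c : G → Fin 2} (hc : Col N c) :
    ∃ d : Fin 2 → G → Fin 2, (∀ i, Col N (d i)) ∧ ∀ i j s, (∀ g, d i (s * g) = d j g) → i = j := by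
  letI : MulAction G (G → Fin 2) := arrowAction
  obtain ⟨y, h1, h2⟩ := two_of (H := (⊤ : Subgroup G)) (b := fun g => (c g).rev) hc ⟨fun g n hn => congrArg _ (hc.1 g n hn),
    fun s h => hc.2 s fun g => Fin.rev_injective (h g)⟩ fun g _ e => by
      have := congrFun (e.symm.trans (odd_fix (card_top' (G := G) ▸ ho) (mem_top g) (funext fun a =>
        (congrFun e _).trans ((congrArg Fin.rev (congrFun e a)).trans (Fin.rev_rev _))))) 1
      revert this
      generalize c 1 = i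
      decide +revert
  exact ⟨y, h1, fun i j s e => h2 i j s⁻¹ trivial (funext fun g => by
    simpa [arrowAction, HSMul.hSMul, SMul.smul] using e g)⟩

theorem aff_odd {t : Fin 2 → V} (ho : Odd (Nat.card G)) (hV : Odd (Nat.card V)) (ht : Reg (⊤ : Subgroup G) ⊤ t) :
    ∃ c : V → Fin 2, ∀ (n : G) a, (∀ v, c (a + n • v) = c v) → ∀ v, a + n • v = v := by
  classical
  have ho' := card_top' (G := G) ▸ ho
  have fix : ∀ (n : G) (a : V), n • n • a = a → n • a = a := fun n a => odd_fix ho' trivial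
  have neg : ∀ (n : G) (a : V), n • a = -a → a = 0 := fun n a h => by
    have e := (fix n a (by rw [h, smul_neg, h, neg_neg])).symm.trans h
    obtain ⟨k, hk⟩ := hV
    have := card_nsmul_eq_zero' (x := a)
    rwa [hk, succ_nsmul, mul_nsmul, two_nsmul, eq_neg_iff_add_eq_zero.1 e, nsmul_zero, zero_add] at this
  have key : ∀ a b : V, (∀ n : G, n • a = a → n • b = b → ∀ v : V, n • v = v) → (∀ n : G, n • a = b - a → n • b = -a → a = 0 ∧ b = 0) →
      ∃ c : V → Fin 2, ∀ (n : G) a, (∀ v, c (a + n • v) = c v) → ∀ v, a + n • v = v := fun a b h1 h2 => by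
    refine ⟨fun v => if v = 0 ∨ v = a ∨ v = b then 0 else 1, fun n z h v => ?_⟩
    have k : ∀ v, v = 0 ∨ v = a ∨ v = b → z + n • v = 0 ∨ z + n • v = a ∨ z + n • v = b := fun v hv => by
      by_contra e
      simpa [hv, e] using h v
    have k0 := k 0 (by simp)
    have ka := k a (by simp)
    have kb := k b (by simp)
    have aux : ∀ a b : V, (n • a = b - a → n • b = -a → a = 0) → (a + n • a = 0 ∨ a + n • a = a ∨ a + n • a = b) →
        (a + n • b = 0 ∨ a + n • b = a ∨ a + n • b = b) → a = 0 := fun a b h => by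
      simp only [← eq_sub_iff_add_eq', zero_sub, sub_self, smul_eq_zero_iff_eq]
      rintro (h1 | h1 | h1) h2
      · exact neg n a h1
      · exact h1
      rcases h2 with h2 | rfl | h2
      · exact h h1 h2
      · exact neg n a (by simpa using h1)
      · simpa [← MulAction.injective n (h1.trans h2.symm), smul_eq_zero_iff_eq] using h1
    rw [smul_zero, add_zero] at k0
    obtain rfl : z = 0 := by
      rcases k0 with rfl | rfl | rfl
      · rfl
      · exact aux _ b (fun x y => (h2 n x y).1) ka kb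
      · exact aux _ a (fun e1 e2 => (h2 n⁻¹ (by rw [inv_smul_eq_iff, smul_sub, e1, e2]; abel)
          (by rw [inv_smul_eq_iff, smul_neg, e2, neg_neg])).2) (by tauto) (by tauto)
    simp only [zero_add, smul_eq_zero_iff_eq] at ka kb ⊢
    have i3 : n • a = n • b → a = b := fun e => MulAction.injective n e
    have i4 := fix n a
    have i5 := fix n b
    have i6 := smul_zero (A := V) n
    refine h1 n ?_ ?_ v <;> grind
  have k : ∀ n : G, n • t 0 = t 0 → n • t 1 = t 1 → ∀ v : V, n • v = v := fun g a b v =>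
    ht.2 g trivial (funext (Fin.forall_fin_two.2 ⟨a, b⟩)) v trivial
  by_cases h : ∀ n : G, n • t 0 = t 1 - t 0 → n • t 1 = -t 0 → t 0 = 0 ∧ t 1 = 0
  · exact key _ _ k h
  push Not at h
  obtain ⟨g, g1, g2, -⟩ := h
  refine key (t 0) (-t 1) (fun n a b => k n a (neg_injective ((smul_neg n _).symm.trans b))) fun n a b => ?_
  rw [smul_neg, neg_inj] at b
  have := neg (g * n⁻¹) (t 0) (by rw [mul_smul, inv_smul_eq_iff.2 b.symm, g2])
  simpa [this] using a.symm

theorem three_mul_le (ho : Odd #B) (h : K < B) : 3 * #K ≤ #B := by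
  have := one_lt_relIndex h.not_ge
  obtain ⟨k, hk⟩ := ho.of_dvd_nat (relIndex_dvd K B)
  exact card_mul_relIndex h.le ▸ mul_comm 3 _ ▸ Nat.mul_le_mul_left _ (by omega)

theorem prim_odd [Nontrivial V] (hs : Group.IsSolvable G) (ho : Odd (Nat.card G)) (hp : Prim G V)
    (ih : ∀ (H : Subgroup G) (U : AddSubgroup V), H ≠ ⊤ → AIrr H U → ∃ t : Fin 2 → V, Reg H U t)
    (hcol : ∀ (N : Subgroup G) (K : Subgroup N), ∃ c : N → Fin 2, Col K c) :
    ∃ t : Fin 2 → V, Reg (⊤ : Subgroup G) ⊤ t := by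
  classical
  have ho' := card_top' (G := G) ▸ ho
  refine prim_gen (κ := Prop) hs hp ih (fun B hB h => ?_) fun B D L x hB hD h1 hL hI hx h0 => ?_
  · obtain ⟨c, rfl⟩ := cyc_iff.1 (Zgrp.cyc_of_nil (zgrp_iff.2 fun p P hp hP => by
      haveI := Fact.mk hp
      by_cases h2 : p = 2
      · exact hP.pi.eq_bot (fun q _ h e => (odd_of_le le_top ho').not_two_dvd_nat (h2 ▸ e ▸ h)) ▸ cyc_bot
      · exact (h P hP.le).isCyclic_of_odd h2 hP.pi.isPGroup) (clsLE_two.2 hB.der).nil)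
    exact ⟨fun _ => c, fun _ => mem_zpowers c, fun s hs => cen_zpowers c ▸ mem_cen1.2 (hs 0)⟩
  obtain ⟨c, a1, a2⟩ := col_dbl (hcol N(D))
  let φ : G → Fin _ := fun b => Finite.equivFin (Set G) {w | ∃ g ∈ N(D), ∃ n ∈ N(D), w = g * b * n}
  have b1 : ∀ g ∈ N(D), ∀ n ∈ N(D), ∀ b, φ (g * b * n) = φ b := fun g hg n hn b => congrArg (Finite.equivFin (Set G)) (Set.ext fun w =>
    ⟨fun ⟨a, ha, m, hm, e⟩ => ⟨_, mul_mem ha hg, _, mul_mem hn hm, by simp [e, mul_assoc]⟩, fun ⟨a, ha, m, hm, e⟩ =>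
      ⟨_, mul_mem ha (inv_mem hg), _, mul_mem (inv_mem hn) hm, by simp [e, mul_assoc]⟩⟩)
  have b2 : ∀ g ∈ N(D), ∀ n ∈ N(D), ∀ b, φ (g * b * n) < φ (g * b * n)⁻¹ ↔ φ b < φ b⁻¹ := fun g hg n hn b => by
    rw [b1 g hg n hn, mul_inv_rev, mul_inv_rev, ← mul_assoc, b1 _ (inv_mem hn) _ (inv_mem hg)]
  have nB := fun g => hB.nml.nrm (mem_top g)
  have nM : ∀ w ∈ B, ∀ m ∈ B, m ∈ N(D) → w⁻¹ * m * w ∈ N(D) := fun w hw m h1 h2 => (conj_mem' (norms_of_comm_le_of_le
    (le_inf (der_le B) (hB.der.trans ((cen_anti hD.1).trans (cen_le_nrm D)))) inf_le_left hw) ⟨h1, h2⟩).2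
  obtain ⟨i, hi⟩ := exists_small (fun b => b ∈ B ∧ φ b < φ b⁻¹) c
  have b3 : ∀ g, ∀ n ∈ N(D), (φ (g * n) < φ (g * n)⁻¹ ∧ c (g * n) = i) = (φ g < φ g⁻¹ ∧ c g = i) := fun g n hn => by
    rw [a1 g n hn, ← b2 1 (one_mem _) n hn g, one_mul]
  refine ⟨fun p _ => if p then 0 else x, fun b => φ b < φ b⁻¹ ∧ c b = i, fun p _ => by by_cases p <;> simp [*],
    fun p q m _ e => ?_, b3, fun s hs e w hw => ?_, fun K hK => ?_⟩
  · have := congrFun e 0
    by_cases p <;> by_cases q <;> simp_all [smul_eq_zero_iff_eq, h0.symm]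
  · have k : ∀ w ∈ B, φ w < φ w⁻¹ → w⁻¹ * s * w ∈ N(D) := fun w hw h => a2 s hs w fun g hg => by
      have := hB.col (N := N(D)) (c := fun b => φ b < φ b⁻¹ ∧ c b = i) b3 e w hw g hg
      rw [← mul_one (g * w), b2 g hg 1 (one_mem _), mul_one, ← mul_assoc, ← mul_one (s * g * w),
        b2 _ (mul_mem hs hg) 1 (one_mem _), mul_one, mul_assoc] at this
      grind
    rcases lt_trichotomy (φ w) (φ w⁻¹) with h | h | h
    · exact k w hw h
    · obtain ⟨g, hg, n, hn, e⟩ := ((Finite.equivFin (Set G)).injective h).ge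
        (show w⁻¹ ∈ _ from ⟨1, one_mem _, 1, one_mem _, by simp⟩)
      have c1 : w * g * w ∈ N(D) := by
        rw [show w * g * w = n⁻¹ by rw [eq_inv_iff_mul_eq_one, mul_assoc w, mul_assoc w, ← e, mul_inv_cancel]]
        exact inv_mem hn
      have c2 := mul_mem c1 (inv_mem hg)
      have c3 : w * g * w * g⁻¹ ∈ B := by simpa only [mul_assoc] using mul_mem hw (conj_mem (nB g) hw)
      have c4 : w⁻¹ * g * w ∈ N(D) := odd_mem ho' trivial (by
        simpa [mul_assoc] using mul_mem (mul_mem (nM w hw _ (inv_mem c3) (inv_mem c2)) hg) c1)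
      have c5 : w ∈ N(D) := odd_mem ho' trivial (by simpa [mul_assoc] using mul_mem c1 (inv_mem c4))
      exact mul_mem (mul_mem (inv_mem c5) hs) c5
    · have c1 := mul_mem (k _ (inv_mem hw) (by rwa [inv_inv])) (inv_mem hs)
      have c2 : w⁻¹⁻¹ * s * w⁻¹ * s⁻¹ ∈ B := by
        simpa only [mul_assoc] using mul_mem (inv_mem (inv_mem hw)) (conj_mem (nB s) (inv_mem hw))
      simpa [mul_assoc] using mul_mem (nM w hw _ (inv_mem c2) (inv_mem c1)) hs
  have d1 := three_mul_le (odd_of_le le_top ho') hK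
  have d3 : 2 * {b | b ∈ B ∧ φ b < φ b⁻¹}.ncard ≤ #B := by
    rw [two_mul]
    nth_rw 2 [← Set.ncard_image_of_injective _ inv_injective]
    rw [← Set.ncard_union_eq (Set.disjoint_left.2 (by rintro _ h ⟨b, h', rfl⟩; exact h'.2.not_gt (by simpa using h.2)))]
    refine Set.ncard_le_ncard (t := (B : Set G)) ?_
    rintro _ (h | ⟨b, h, rfl⟩)
    exacts [h.1, inv_mem h.1]
  have d4 := card_pos B
  rw [Fintype.card_fin] at hi
  refine lt_of_eq_of_lt (b := 2 * {b | (b ∈ B ∧ φ b < φ b⁻¹) ∧ c b = i}.ncard + #K) ?_ (by omega)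
  simp [funext_iff, h0, and_assoc]

theorem base_odd (n : ℕ) (hcol : ∀ (G : Type u) [Group G] [Finite G], Nat.card G ≤ n → Group.IsSolvable G →
    Odd (Nat.card G) → ∀ N : Subgroup G, ∃ c : G → Fin 2, Col N c) (hn : #H ≤ n) (hs : Sol H) (ho : Odd #H)
    (hL : AIrr H L) : ∃ t : Fin 2 → V, Reg H L t :=
  base_gen (fun a _ => Odd a) (fun _ _ _ _ a b _ => a.of_dvd_nat b) n (fun G _ _ _ => hcol G)
    (fun _ _ _ _ _ _ _ _ _ _ _ a b c => mul_odd a b.ne c) (fun _ _ _ _ _ _ _ _ _ a b o c d => prim_odd b o c d fun N =>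
      hcol N ((card_le_card_group N).trans a) inferInstance (o.of_dvd_nat (card_subgroup_dvd_card N))) _ H L rfl hn hs ho hL

/-- Gluck's theorem on regular orbits on the power set -/
theorem col_two (n : ℕ) : ∀ (G : Type u) [Group G] [Finite G], Nat.card G ≤ n → Group.IsSolvable G → Odd (Nat.card G) →
    ∀ N : Subgroup G, ∃ c : G → Fin 2, Col N c := by
  induction n with
  | zero => exact fun G _ _ h => absurd h (Nat.card_pos (α := G)).not_ge
  | succ n ih =>
  refine fun G _ _ h hs ho N => col_gen Odd (fun _ _ => Odd.of_dvd_nat) (n + 1)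
    (fun _ _ _ _ _ _ a b => cmul_odd a b) (fun G _ _ N a b o c => col_max b c fun W _ _ _ d e => ?_) _ G N rfl h hs ho
  have := card_top' (G := G) ▸ card_lt c.1.lt_top
  have o' := o.of_dvd_nat (card_subgroup_dvd_card N)
  obtain ⟨t, ht⟩ := base_odd n ih (by rw [card_top']; omega) inferInstance (card_top' (G := N) ▸ o') d
  exact aff_odd o' (o.of_dvd_nat e) ht

theorem odd_base (hs : Sol H) (ho : Odd #H) (hL : AIrr H L) : ∃ t : Fin 2 → V, Reg H L t :=
  base_odd _ (col_two _) le_rfl hs ho hL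

end Cfsg.Agent.H1.Bs
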