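import Cfsg.Agent.H1.Plane
import Cfsg.Agent.H28.Extra2

/-! `2`-groups generated by involutions each acting through a single hyperbolic plane. -/

set_option autoImplicit false
set_option linter.unusedSectionVars false
set_option linter.style.haveILetI false

namespace Cfsg.Agent.H1

open Cfsg Subgroup Cfsg.Agent.FT
open scoped commutatorElement

variable {G : Type*} [Group G] [Finite G] {A B D H S : Subgroup G} {q n : ℕ} {a b e g h s t v w x y z : G}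

theorem nrm_pln (hv : v ∈ N(D)) (hw : w ∈ N(D)) (h : ⁅w, v⁆ ∈ C(D)) : w ∈ N(Pln D v) := by
  refine mem_nrm_of_cj_le ((cj_pln hw).le.trans (sup_le_sup_right ((commSS le_rfl (zpowers_le.2 ?_)).trans
    ((mulEq_sup (norms_cent (zpowers_le.2 hv))).symm.comm_eq_of_cents' le_rfl).le) _))
  simpa [commutatorElement_def] using mul_mem_sup h (mem_zpowers v)

theorem mul_pow_mul_inv_mem (hx : x ∈ N(B)) (ha : a ∈ B) (m : ℕ) : (a * x) ^ m * (x ^ m)⁻¹ ∈ B := by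
  induction m with
  | zero => simp
  | succ m ih => simpa [pow_succ, mul_assoc] using mul_mem ih (conj_mem (pow_mem hx m) ha)

theorem mul_pow_four {G : Type*} [Group G] {a w : G} (h1 : w * w = 1) (h2 : a * a * w = w * (a * a))
    (h3 : a * w * (a * w) * w = w * (a * w * (a * w))) (h4 : a ^ 4 = 1) : (a * w) ^ 4 = 1 := by
  calc (a * w) ^ 4 = a * (w * (a * w * (a * w))) * a * w := by simp [pow_succ, mul_assoc]
    _ = a * a * w * (a * (w * w) * a * w) := by rw [← h3]; simp [mul_assoc]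
    _ = w * a ^ 4 * w := by rw [h1, h2]; simp [pow_succ, mul_assoc]
    _ = 1 := by rw [h4, mul_one, h1]

namespace PCx

variable (c : PCx q D S)
include c

theorem cen_of (hs : s ∈ S) (he : ⁅e, s⁆ ∈ Z(D)) : e ∈ C[s] :=
  mem_cen1.2 (commutatorElement_eq_one_iff_mul_comm.1 (H28.commutator_eq_one_of_coprime
    (mem_cen.1 (c.cen hs) _ he).symm (((c.cop le_rfl hs).coprime_dvd_left
      (orderOf_dvd_natCard D he.1)).coprime_dvd_right (orderOf_dvd_natCard _ (mem_zpowers s)))))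

theorem nrm_self (hg : g ∈ S) : ⟪g⟫ ≤ N(Pln D g) :=
  normsY (norm_comm_right _ _) ((zpowers_le.2 hg).trans (norms_center c.nrm))

theorem pln_eq (hg : g ∈ S) (H : Pl q D g) (hy : y ∈ ⟪g⟫) (h1 : y ≠ 1) : Pln D y = Pln D g := by
  have gS := zpowers_le.2 hg
  refine (sup_le_sup_right (commSS le_rfl (zpowers_le.2 hy)) _).antisymm (sup_le_sup_right ?_ _)
  rw [(c.prod (gS hy) le_rfl (c.nrm (gS hy))).comm_eq_of_cents (cen_zpowers g ▸ H.reg y hy h1)]
  exact comm_le_left (normsR (gS.trans c.nrm) ((ab_zpowers g).norms (zpowers_le.2 hy)))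

theorem eq_one (hg : g ∈ S) (H : Pl q D g) (hy : y ∈ ⟪g⟫) (h : y ∈ C(Pln D g)) : y = 1 := by_contra fun k => by
  have := H.idx
  rw [relIndex_eq_one.2 ((le_inf le_rfl ((le_inf (c.pln_le hg) (le_cen1.2 h)).trans (H.reg y hy k))).trans
    (c.inf_cen hg).le)] at this
  exact (Nat.one_lt_pow two_ne_zero c.prime.one_lt).ne this

theorem cenD (hg : g ∈ S) (h1 : t ∈ C(Pln D g)) (h2 : t ∈ C(D ⊓ C[g])) : t ∈ C(D) := by
  rw [← (c.prod hg le_rfl (c.nrm hg)).sup, cen_sup]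
  exact ⟨cen_anti (le_sup_left : _ ≤ Pln D g) h1, h2⟩

theorem pair' (hg : g ∈ S) (hh : h ∈ S) (H : Pl q D g) (H' : Pl q D h) :
    Pln D g = Pln D h ∨ Pln D g ≤ C(Pln D h) := (PCx.pair _ rfl c hg hh H H').imp_right fun d =>
  ((le_inf (c.pln_le hg) d).trans (c.perp hh).ge).trans inf_le_right

variable (hP : Pl q D g) (hg : g ∈ S) (hs : s ∈ S) (hn : s ∈ N(Pln D g))
include hP hg hs hn

theorem inv (h2 : s * s ∈ C(Pln D g)) (h0 : s ∉ C(Pln D g)) (he : e ∈ Pln D g) : e * (s * e * s⁻¹) ∈ Z(D) :=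
  by_contra fun k => h0 (le_cen1.1 (c.semi hP hg hs hn ⟨mul_mem he (conj_mem hn he), c.cen_of hs (by
    have h3 := c.pln_le hg (conj_mem hn he)
    convert (le_inf (der_le D) c.der) (commutator_mem_commutator (c.pln_le hg he) h3) using 1
    calc _ = e * (s * e * s⁻¹) * (s * s) * (e⁻¹ * (s * s)⁻¹) * (s * e * s⁻¹)⁻¹ := by simp [commutatorElement_def, mul_assoc]
      _ = _ := by rw [mul_assoc _ (s * s), ← mul_assoc (s * s), ← mem_cen.1 h2 _ (inv_mem he), mul_inv_cancel_right,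
        commutatorElement_def])⟩ k))

theorem inv_comm (h2 : s * s ∈ C(Pln D g)) (ht : t ∈ S) (hn' : t ∈ N(Pln D g)) : ⁅s, t⁆ ∈ C(Pln D g) := by
  have nC := cen_nml_nrm (Pln D g)
  by_cases h0 : s ∈ C(Pln D g)
  · simpa [commutatorElement_def, mul_assoc] using mul_mem h0 (nC.conj_mem hn' (inv_mem h0))
  have a1 : t * s * t⁻¹ ∈ S := mul_mem (mul_mem ht hs) (inv_mem ht)
  have : s⁻¹ * (t * s * t⁻¹) ∈ C(Pln D g) := le_cen1.1 fun e he => c.cen_of (mul_mem (inv_mem hs) a1) (by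
    have := conj_mem' (norms_center c.nrm hs) (mul_mem (inv_mem (c.inv hP hg hs hn h2 h0 (inv_mem he)))
      (c.inv hP hg a1 (mul_mem (mul_mem hn' hn) (inv_mem hn')) (by simpa [mul_assoc] using nC.conj_mem hn' h2)
        (fun k => h0 (by simpa [mul_assoc] using nC.conj_mem (inv_mem hn') k)) (inv_mem he)))
    simpa [commutatorElement_def, mul_assoc] using this)
  simpa [commutatorElement_def, mul_assoc] using nC.conj_mem hn (inv_mem this)

theorem comm3 (ht : t ∈ ⟪g⟫) (h2 : s * s ∈ C(Pln D g) ∨ t * t ∈ C(Pln D g)) : ⁅s, t⁆ ∈ C(D) := by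
  have tS := zpowers_le.2 hg ht
  refine c.cenD hg (h2.elim (fun k => c.inv_comm hP hg hs hn k tS (c.nrm_self hg ht)) fun k => ?_) ?_
  · simpa using inv_mem (c.inv_comm hP hg tS (c.nrm_self hg ht) k hs hn)
  · have := centsC ((inf_le_right : D ⊓ C[g] ≤ _).trans (cen_zpowers g).ge) ht
    refine mul_mem (conj_mem ?_ this) (inv_mem this)
    rw [← c.perp hg]
    exact norms_cent (norms_subcent (zpowers_le.2 (c.nrm hs)) (zpowers_le.2 hn)) (mem_zpowers s)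

end PCx

/-- a plane element -/
structure PE (q : ℕ) (D H : Subgroup G) (h : G) : Prop where
  mem : h ∈ H
  pi : PiElt {2} h
  pl : Pl q D h

/-- a plane involution -/
def PW (q : ℕ) (D H : Subgroup G) (w : G) : Prop := w * w = 1 ∧ w ≠ 1 ∧ ∃ h, PE q D H h ∧ w ∈ ⟪h⟫

/-- a normal `2`-subgroup generated by plane involutions -/
structure ACx (q : ℕ) (D A H : Subgroup G) : Prop where
  prime : q.Prime
  ne : q ≠ 2
  pD : PGrp q D
  der : ⁅D, D⁆ ≤ C(D)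
  pA : PGrp 2 A
  le : A ≤ H
  nA : H ≤ N(A)
  nrm : H ≤ N(D)
  cen : H ≤ C(Z(D))
  gen : A ≤ closure {w | w ∈ A ∧ (w ∈ C(D) ∨ PW q D H w)}

/-- an exceptional element -/
def EX (q : ℕ) (D : Subgroup G) (x : G) (n : ℕ) : Prop :=
  x ^ 2 ^ (n + 1) = 1 ∧ (x ^ 2 ^ n ∈ C(D) ∨ Pl q D x ∧ n ≠ 0)

theorem EX.pi (h : EX q D x n) : PiElt {2} x := piElt_of_pow_eq_one (piNat_self_pow Nat.prime_two _) h.1
theorem EX.sq (h : EX q D x n) : x ^ 2 ^ n * x ^ 2 ^ n = 1 := by rw [← pow_add, ← two_mul, ← pow_succ', h.1]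

theorem PE.cj (P : PE q D H h) (hn : H ≤ N(D)) (ha : a ∈ H) : PE q D H (a * h * a⁻¹) :=
  ⟨mul_mem (mul_mem ha P.mem) (inv_mem ha), piElt_conj.2 P.pi, P.pl.cj (hn ha)⟩

namespace ACx

variable (c : ACx q D A H)
include c

theorem cx (P : PE q D H h) : PCx q D (A ⊔ ⟪h⟫) :=
  have := sup_le c.le (zpowers_le.2 P.mem)
  ⟨c.prime, c.ne, c.pD, c.pA.sup P.pi.zpowers (zpowers_le.2 (c.nA P.mem)), c.der, this.trans c.nrm, this.trans c.cen⟩

theorem nD (ha : a ∈ A) : a ∈ N(D) := c.nrm (c.le ha)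
theorem nC : H ≤ N(C(D)) := norms_cent c.nrm

theorem pln_le (P : PE q D H h) : Pln D h ≤ D := (c.cx P).pln_le (mem_sup_right (mem_zpowers h))

theorem f1 (P : PE q D H h) (ha : a ∈ A) (hb : b ∈ A) (h0 : cj a (Pln D h) ≠ cj b (Pln D h)) :
    cj a (Pln D h) ≤ C(cj b (Pln D h)) := by
  have : ∀ a ∈ A, a * h * a⁻¹ ∈ A ⊔ ⟪h⟫ := fun a ha =>
    mul_mem (mul_mem_sup ha (mem_zpowers h)) (mem_sup_left (inv_mem ha))
  rw [cj_pln (c.nD ha), cj_pln (c.nD hb)] at *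
  exact ((c.cx P).pair' (this a ha) (this b hb) (P.pl.cj (c.nD ha)) (P.pl.cj (c.nD hb))).resolve_left h0

theorem f1' (P : PE q D H h) (ha : a ∈ A) (h0 : a ∉ N(Pln D h)) : cj a (Pln D h) ≤ C(Pln D h) := by
  simpa only [cj_one] using c.f1 P ha (one_mem A) (by rwa [cj_one, Ne, cj_eq_self])

theorem f2 (P : PE q D H h) (hv : v ∈ A) (W : PW q D H v) (h0 : v ∉ N(Pln D h)) :
    Pln D v ≤ Pln D h ⊔ cj v (Pln D h) := by
  obtain ⟨h1, h2, k, Q, h3⟩ := W
  have d := c.cx Q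
  have hv' : v ∈ A ⊔ ⟪k⟫ := mem_sup_left hv
  have a1 := d.prod hv' le_rfl (c.nD hv)
  have a2 : MulEq (D ⊓ C[v]) (Pln D h) D := by
    refine mulEq_of_relIndex_le inf_le_left (c.pln_le P) ?_
    rw [(a1.mono (X := Pln D v) le_sup_left (d.pln_le hv') le_rfl inf_le_left).relIndex_right, ← inf_relIndex_right,
      inf_right_comm, inf_of_le_right (d.pln_le hv'), d.inf_cen hv', d.pln_eq (mem_sup_right (mem_zpowers k)) Q.pl h3 h2,
      Q.pl.idx, ← P.pl.idx, ← inf_relIndex_right (D ⊓ C[v])]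
    refine relIndex_le_of_le_left (fun e he => ((c.cx P).center (mem_sup_right (mem_zpowers h))).le
      ⟨he.2, c.f1' P hv h0 (mem_cj.2 ?_)⟩) (relIndex_pos _ _).ne'
    rw [mul_assoc, mem_cen1.1 he.1.2, inv_mul_cancel_left]; exact he.2
  refine sup_le ?_ ((z_le_pln D h).trans le_sup_left)
  rw [a2.symm.comm_eq_of_cents (cen_zpowers v ▸ inf_le_right)]
  refine bg4_comm_zpowers_le' (cj_eq_self.1 (by rw [cj_sup, cj_cj, h1, cj_one, sup_comm])) fun e he => ?_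
  simpa [commutatorElement_def, mul_assoc] using mul_mem_sup he (conj_mem_cj.2 (inv_mem he))

theorem f3 (P : PE q D H h) (hv : v ∈ A) (W : PW q D H v) (h0 : v ∉ N(Pln D h)) (hy : y ∈ A) (W' : PW q D H y)
    (h1 : y ∉ N(Pln D h)) : cj v (Pln D h) = cj y (Pln D h) := by
  by_contra h2
  have key : ∀ {v y}, v ∈ A → PW q D H v → v ∉ N(Pln D h) → y ∈ A → y ∉ N(Pln D h) →
      cj y (Pln D h) ≠ cj v (Pln D h) → cj v (cj y (Pln D h)) = cj y (Pln D h) := fun hv W h0 hy h1 h2 =>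
    cj_of_mem_cen (le_cen1.1 (((le_inf (cj_le_of_nrm (c.nD hy) (c.pln_le P)) (centsS (c.f2 P hv W h0)
      (centsY (c.f1' P hy h1) (c.f1 P hy hv h2)))).trans ((c.cx P).perp (mem_sup_left hv)).le).trans inf_le_right))
  have a1 := key hv W h0 hy h1 (Ne.symm h2)
  have a2 := key hy W' h1 hv h0 h2
  have a3 : y * v ∈ N(Pln D h) := (c.pA.piElt (mul_mem hy hv)).mem_of_pow_mem (n := 3)
    ((p'nat_iff_coprime Nat.prime_two).2 (by norm_num)) (cj_eq_self.1 (by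
      simp only [pow_three, ← cj_cj]
      rw [a2, cj_cj v v, W.1, cj_one, a1, cj_cj, W'.1, cj_one]))
  exact h0 (cj_eq_self.1 (by rw [← a2, cj_cj, cj_of_mem_nrm a3]))

theorem f4 (P : PE q D H h) (ha : a ∈ A) : a * a ∈ N(Pln D h) := by
  have a0 : ∀ {h}, PE q D H h → C(D) ≤ N(Pln D h) := fun P => cents_norm (cen_anti (c.pln_le P))
  by_cases h0 : A ≤ N(Pln D h)
  · exact h0 (mul_mem ha ha)
  obtain ⟨v, ⟨hv, W⟩, h1⟩ := Set.not_subset.1 (mt (closure_le _).2 fun k => h0 (c.gen.trans k))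
  replace W := W.resolve_left fun k => h1 (a0 P k)
  have Q := P.cj c.nrm (c.le hv)
  have a1 := cj_pln (g := h) (c.nD hv)
  have a2 : cj v (Pln D (v * h * v⁻¹)) = Pln D h := by rw [← a1, cj_cj, W.1, cj_one]
  have a3 : v ∉ N(Pln D (v * h * v⁻¹)) := fun k => h1 (cj_eq_self.1 (by rw [a1, ← a2, cj_of_mem_nrm k]))
  have key : ∀ a ∈ closure {w | w ∈ A ∧ (w ∈ C(D) ∨ PW q D H w)},
      cj a (Pln D h) = Pln D h ∧ cj a (Pln D (v * h * v⁻¹)) = Pln D (v * h * v⁻¹) ∨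
      cj a (Pln D h) = Pln D (v * h * v⁻¹) ∧ cj a (Pln D (v * h * v⁻¹)) = Pln D h := fun a ha => by
    induction ha using closure_induction with
    | mem w hw =>
      rcases hw.2 with k | k
      · exact .inl ⟨cj_of_mem_nrm (a0 P k), cj_of_mem_nrm (a0 Q k)⟩
      by_cases b1 : w ∈ N(Pln D h)
      · by_cases b2 : w ∈ N(Pln D (v * h * v⁻¹))
        · exact .inl ⟨cj_of_mem_nrm b1, cj_of_mem_nrm b2⟩
        · have := (c.f3 Q hw.1 k b2 hv W a3).trans a2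
          exact .inr ⟨by rw [← this, cj_cj, k.1, cj_one], this⟩
      · have := (c.f3 P hw.1 k b1 hv W h1).trans a1
        exact .inr ⟨this, by rw [← this, cj_cj, k.1, cj_one]⟩
    | one => exact .inl ⟨cj_one _, cj_one _⟩
    | mul x y _ _ hx hy => rcases hx with hx | hx <;> rcases hy with hy | hy <;> simp only [← cj_cj, hx, hy, and_self,
        true_or, or_true]
    | inv x _ hx => exact hx.imp (fun k => ⟨(cj_eq_iff.1 k.1).symm, (cj_eq_iff.1 k.2).symm⟩) fun k =>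
      ⟨(cj_eq_iff.1 k.2).symm, (cj_eq_iff.1 k.1).symm⟩
  rcases key a (c.gen ha) with k | k <;> exact cj_eq_self.1 (by simp only [← cj_cj, k])

theorem comm (P : PE q D H h) (ha : a ∈ A) (hn : a ∈ N(Pln D h)) (hw : w ∈ ⟪h⟫) (h1 : w * w = 1) : ⁅a, w⁆ ∈ C(D) :=
  (c.cx P).comm3 P.pl (mem_sup_right (mem_zpowers h)) (mem_sup_left ha) hn hw (.inr (h1 ▸ one_mem _))

theorem gen_comm (ha : a ∈ A) (h : ∀ w ∈ A, ∀ h, PE q D H h → w ∈ ⟪h⟫ → w * w = 1 → w ≠ 1 → a ∈ N(Pln D h))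
    (hw : w ∈ A) : ⁅a, w⁆ ∈ C(D) := by
  have n1 := c.nC (c.le ha)
  have : A ≤ qpre(C(D), C[coset(C(D), a)]) := c.gen.trans ((closure_le _).2 fun w hw => hw.2.elim
    (fun k => le_qpre _ k) fun ⟨k1, k2, g, P, k3⟩ => mem_qpre.2 ⟨c.nC (c.le hw.1), mem_cen1.2 ((coset_commute_iff n1
      (c.nC (c.le hw.1))).2 (c.comm P ha (h w hw.1 g P k3 k1 k2) k3 k1)).symm⟩)
  exact (coset_commute_iff n1 (c.nC (c.le hw))).1 (mem_cen1.1 (mem_qpre.1 (this hw)).2).symm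

theorem f5 (ha : a ∈ A) (hw : w ∈ A) : ⁅a * a, w⁆ ∈ C(D) :=
  c.gen_comm (mul_mem ha ha) (fun _ _ _ P _ _ _ => c.f4 P ha) hw

theorem f6 (ha : a ∈ A) : a ^ 4 ∈ C(D) := by
  have n1 : ∀ {a}, a ∈ A → a ∈ N(C(D)) := fun ha => c.nC (c.le ha)
  have step : ∀ a ∈ A, ∀ w ∈ A, w * w ∈ C(D) → a ^ 4 ∈ C(D) → (a * w) ^ 4 ∈ C(D) := fun a ha w hw h1 h2 => by
    have k1 := (coset_commute_iff (n1 (mul_mem ha ha)) (n1 hw)).2 (c.f5 ha hw)
    have k2 := (coset_commute_iff (n1 (mul_mem (mul_mem ha hw) (mul_mem ha hw))) (n1 hw)).2 (c.f5 (mul_mem ha hw) hw)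
    rw [← coset_eq_one_iff (n1 (pow_mem (mul_mem ha hw) 4)), coset_pow (n1 (mul_mem ha hw)), coset_mul (n1 ha) (n1 hw)]
    rw [coset_mul (n1 ha) (n1 ha)] at k1
    rw [coset_mul (n1 (mul_mem ha hw)) (n1 (mul_mem ha hw)), coset_mul (n1 ha) (n1 hw)] at k2
    exact mul_pow_four (by rw [← coset_mul (n1 hw) (n1 hw), coset_of_mem h1]) k1 k2
      (by rw [← coset_pow (n1 ha), coset_of_mem h2])
  have sq : ∀ w ∈ {w | w ∈ A ∧ (w ∈ C(D) ∨ PW q D H w)}, w * w ∈ C(D) := fun w hw =>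
    hw.2.elim (fun k => mul_mem k k) fun k => k.1 ▸ one_mem _
  have le : closure {w | w ∈ A ∧ (w ∈ C(D) ∨ PW q D H w)} ≤ A := (closure_le _).2 fun _ h => h.1
  have := c.gen ha
  clear ha
  induction this using closure_induction_right with
  | one => simp
  | mul_right x hx y hy ih => exact step x (le hx) y hy.1 (sq y hy) ih
  | mul_inv_cancel x hx y hy ih => exact step x (le hx) _ (inv_mem hy.1) (by simpa using inv_mem (sq y hy)) ih

theorem fin_b (hz : z ∈ Z(A)) (h2 : z * z = 1) (hx : x ∈ H) (hy : x ^ 2 ^ n ∈ A) (E : EX q D x n)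
    (E' : EX q D (z * x) n) : (z * x) ^ 2 ^ n * (x ^ 2 ^ n)⁻¹ ∈ C(D) := by
  have key : ∀ x ∈ H, x ^ 2 ^ n ∈ A → EX q D x n → x ^ 2 ^ n ∉ C(D) → (z * x) ^ 2 ^ n * (x ^ 2 ^ n)⁻¹ ∈ C(D) := by
    intro x hx hy E h0
    obtain ⟨h1, h3⟩ := E.2.resolve_left h0
    have P : PE q D H x := ⟨hx, E.pi, h1⟩
    have a1 := mem_sup_right (S := A) (mem_zpowers x)
    have a2 := (c.cx P).comm3 h1 a1 (mem_sup_left hz.1) ((c.cx P).pln_eq a1 h1 (pow_mem (mem_zpowers x) _)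
      (fun e => h0 (e ▸ one_mem _)) ▸ nrm_pln (c.nD hy) (c.nD hz.1) (by
        rw [commutatorElement_eq_one_iff_mul_comm.2 (mem_cen.1 hz.2 _ hy).symm]; exact one_mem _)) (mem_zpowers x)
      (.inl (h2 ▸ one_mem _))
    have n1 := c.nC (c.le hz.1)
    have n2 := c.nC hx
    obtain ⟨n, rfl⟩ := Nat.exists_eq_succ_of_ne_zero h3
    rw [← coset_eq_one_iff (mul_mem (pow_mem (mul_mem n1 n2) _) (inv_mem (pow_mem n2 _))),
      coset_mul (pow_mem (mul_mem n1 n2) _) (inv_mem (pow_mem n2 _)), coset_inv (pow_mem n2 _),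
      coset_pow (mul_mem n1 n2), coset_pow n2, coset_mul n1 n2, Commute.mul_pow ((coset_commute_iff n1 n2).2 a2),
      mul_inv_cancel_right, ← coset_pow n1, pow_succ', pow_mul, sq, h2, one_pow, coset_one]
  by_cases h0 : x ^ 2 ^ n ∈ C(D)
  swap
  · exact key x hx hy E h0
  by_cases h1 : (z * x) ^ 2 ^ n ∈ C(D)
  · exact mul_mem h1 (inv_mem h0)
  have := key _ (mul_mem (c.le hz.1) hx) ((mul_mem_cancel_right (inv_mem hy)).1 (mul_pow_mul_inv_mem (c.nA hx) hz.1 _))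
    E' h1
  rw [← mul_assoc, h2, one_mul] at this
  simpa using inv_mem this

theorem fin_key (P : PE q D H h) (hw : w ∈ A) (h3 : w ∈ ⟪h⟫) (h1 : w * w = 1) (h2 : w ≠ 1) (ha : a ∈ A) (hx : x ∈ H)
    (hy : x ^ 2 ^ n ∈ A) (E : EX q D x n) (E' : EX q D (a * x) n) (h0 : x ^ 2 ^ n ∉ N(Pln D h)) :
    (a * x) ^ 2 ^ n ∉ N(Pln D h) := by
  intro h4
  have b0 : x ^ 2 ^ n ∉ C(D) := fun k => h0 (cents_norm (cen_anti (c.pln_le P)) k)
  obtain ⟨b1, b2⟩ := E.2.resolve_left b0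
  have Q : PE q D H x := ⟨hx, E.pi, b1⟩
  have d := c.cx Q
  have xS := mem_sup_right (S := A) (mem_zpowers x)
  have x'S := mul_mem_sup ha (mem_zpowers x)
  have hy' := (mul_mem_cancel_right (inv_mem hy)).1 (mul_pow_mul_inv_mem (c.nA hx) ha (2 ^ n))
  have CU : C(D) ≤ C(Pln D x) := cen_anti (c.pln_le Q)
  have nU := cen_nml_nrm (Pln D x)
  have xU := d.nrm_self xS (mem_zpowers x)
  have b3 : w ∉ N(Pln D x) := fun k => h0 ((c.cx P).pln_eq (mem_sup_right (mem_zpowers h)) P.pl h3 h2 ▸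
    nrm_pln (c.nD hw) (c.nD hy) (by simpa using inv_mem (c.comm Q hw k (pow_mem (mem_zpowers x) _) E.sq)))
  have out : ∀ b ∈ A, b ∉ N(Pln D x) → b * x * b⁻¹ ∈ C(Pln D x) := fun b hb k => le_cen1.1 ((PCx.pair _ rfl d xS
    (mul_mem (mul_mem_sup hb (mem_zpowers x)) (mem_sup_left (inv_mem hb))) b1 (b1.cj (c.nD hb))).resolve_left
      fun e => k (cj_eq_self.1 ((cj_pln (c.nD hb)).trans e.symm)))
  have pw : ∀ m ≤ n, x ^ 2 ^ m ∉ C(Pln D x) := fun m hm k => b0 (by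
    obtain ⟨l, rfl⟩ := Nat.exists_eq_add_of_le hm
    rw [pow_add, pow_mul, d.eq_one xS b1 (pow_mem (mem_zpowers x) _) k, one_pow]; exact one_mem _)
  obtain rfl : n = 1 := by
    refine le_antisymm (not_lt.1 fun k => pw 2 k ?_) (Nat.pos_of_ne_zero b2)
    have e := CU (c.f6 (mul_mem hw (conj_mem (c.nA hx) hw)))
    have o := out w hw b3
    rw [show w * (x * w * x⁻¹) = w * x * w⁻¹ * x⁻¹ by rw [inv_eq_of_mul_eq_one_right h1]; group,
      ← coset_eq_one_iff (pow_mem (mul_mem (nU.nrm (nU.le o)) (nU.nrm (inv_mem xU))) _),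
      coset_pow (mul_mem (nU.nrm (nU.le o)) (nU.nrm (inv_mem xU))), coset_mul (nU.nrm (nU.le o)) (nU.nrm (inv_mem xU)),
      coset_of_mem o, one_mul, ← coset_pow (nU.nrm (inv_mem xU)),
      coset_eq_one_iff (pow_mem (nU.nrm (inv_mem xU)) _), inv_pow] at e
    exact inv_mem_iff.1 e
  refine pw 1 le_rfl ?_
  simp only [pow_one, sq] at *
  have b4 : Pl q D (a * x) → Pln D x = Pln D (a * x) ∨ a * x ∈ C(Pln D x) := fun k =>
    (PCx.pair _ rfl d xS x'S b1 k).imp_right le_cen1.1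
  by_cases b5 : a ∈ N(Pln D x)
  swap
  · have k1 := CU (E'.2.resolve_right fun k => b5 ((mul_mem_cancel_right xU).1 ((b4 k.1).elim
      (fun e => e ▸ d.nrm_self x'S (mem_zpowers _)) fun e => nU.le e)))
    rw [pow_one, sq] at k1
    have k2 := mul_mem (inv_mem (out a ha b5)) k1
    have := mul_mem (mul_mem (nU.conj_mem (inv_mem (c.f4 Q ha)) k2) (inv_mem (CU (c.f6 ha)))) k2
    simpa [pow_succ, mul_assoc] using this
  have b6 : a * x * (a * x) ∈ C(Pln D x) ∧ ⁅w, a * x * (a * x)⁆ ∈ C(D) := by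
    have k0 : ⁅w, a * x * (a * x)⁆ ∈ C(D) := by simpa using inv_mem (c.comm P hy' h4 h3 h1)
    by_cases k : a * x * (a * x) ∈ C(D)
    · exact ⟨CU k, k0⟩
    have k1 := (E'.2.resolve_left (by rwa [pow_one, sq])).1
    refine ⟨(b4 k1).elim (fun e => absurd ?_ b3) fun e => mul_mem e e, k0⟩
    rw [e, ← d.pln_eq x'S k1 (mul_mem (mem_zpowers _) (mem_zpowers _)) fun e => k (e ▸ one_mem _)]
    exact nrm_pln (c.nD hy') (c.nD hw) k0
  have b7 : a * a ∈ C(Pln D x) := by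
    have := mul_mem (CU (c.f5 ha hw)) (mul_mem (mul_mem (inv_mem (out _ (mul_mem hw ha) fun k => b3
      ((mul_mem_cancel_right b5).1 k))) (mul_mem (CU b6.2) b6.1)) (inv_mem (out w hw b3)))
    simpa [commutatorElement_def, mul_assoc] using this
  have := mul_mem (mul_mem (inv_mem (nU.conj_mem xU b7)) (inv_mem (d.inv_comm b1 xS (mem_sup_left ha) b5 b7 xS xU))) b6.1
  simpa [commutatorElement_def, mul_assoc] using this

theorem fin_a (ha : a ∈ A) (hx : x ∈ H) (hy : x ^ 2 ^ n ∈ A) (E : EX q D x n) (E' : EX q D (a * x) n) (hw : w ∈ A) :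
    ⁅(a * x) ^ 2 ^ n * (x ^ 2 ^ n)⁻¹, w⁆ ∈ C(D) := by
  have h0 := mul_pow_mul_inv_mem (c.nA hx) ha (2 ^ n)
  have hy' := (mul_mem_cancel_right (inv_mem hy)).1 h0
  refine c.gen_comm h0 (fun w hw h P h3 h1 h2 => ?_) hw
  by_cases k : x ^ 2 ^ n ∈ N(Pln D h)
  · refine mul_mem (by_contra fun k' => c.fin_key P hw h3 h1 h2 (inv_mem ha) (mul_mem (c.le ha) hx) hy' E' ?_ k' ?_)
      (inv_mem k) <;> rwa [inv_mul_cancel_left]
  have k' := c.fin_key P hw h3 h1 h2 ha hx hy E E' k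
  have W : ∀ x ∈ H, EX q D x n → x ^ 2 ^ n ∉ N(Pln D h) → PW q D H (x ^ 2 ^ n) := fun x hx E k =>
    ⟨E.sq, fun e => k (e ▸ one_mem _), x, ⟨hx, E.pi, (E.2.resolve_left fun k' =>
      k (cents_norm (cen_anti (c.pln_le P)) k')).1⟩, pow_mem (mem_zpowers x) _⟩
  have := cj_eq_cj_iff.1 (c.f3 P hy (W x hx E k) k hy' (W _ (mul_mem (c.le ha) hx) E' k') k')
  rwa [inv_eq_of_mul_eq_one_right E'.sq, ← inv_eq_of_mul_eq_one_right E.sq] at this

end ACx

end Cfsg.Agent.H1
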