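import Cfsg.Agent.H1.BStar
import Cfsg.Agent.H1.Plane2
import Cfsg.Agent.FT.BG04b

/-! Bryukhanova's theorem `l₂ ≤ e₂`. -/

set_option autoImplicit false
set_option linter.unusedSectionVars false
set_option linter.style.haveILetI false

namespace Cfsg.Agent.H1

open Cfsg Module Subgroup Cfsg.Agent.H28 Cfsg.Agent.FT Function
open scoped commutatorElement

universe u v

variable {k : Type*} [Field k] {G : Type u} [Group G] [Finite G] {V : Type v} [AddCommGroup V]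
  [Module k V] [FiniteDimensional k V] {ρ : Representation k G V} {A D H L M S : Subgroup G} {a g t x y : G}
  {W : Submodule k V} {n q : ℕ} [CharP k 2]

/-- `g` is exceptional of level `n` -/
def ExcN (ρ : Representation k G V) (W : Submodule k V) (g : G) (n : ℕ) : Prop :=
  g ^ 2 ^ (n + 1) = 1 ∧ ∀ w ∈ W, ∑ i ∈ Finset.range (2 ^ (n + 1)), ρ (g ^ i) w = 0

theorem ExcN.wsp {Z : Subgroup G} {c : G → k} {j : ℕ} (h : ExcN ρ ⊤ g n) (hn : g ∈ N(Z)) (h0 : wsp ρ Z c ≠ ⊥)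
    (b1 : j ≤ n + 1) (b2 : g ^ 2 ^ j ∈ wst Z c) (b3 : ∀ m, g ^ m ∈ wst Z c → 2 ^ j ∣ m) :
    j ≤ n ∧ ExcN ρ (wsp ρ Z c) (g ^ 2 ^ j) (n - j) := by
  classical
  obtain ⟨a2, a3⟩ := h
  obtain ⟨l, hl⟩ := Nat.exists_eq_add_of_le b1
  have b4 : ∀ w ∈ H1.wsp ρ Z c, ∑ i ∈ Finset.range (2 ^ l), ρ ((g ^ 2 ^ j) ^ i) w = 0 := fun w hw => by
    have d := a3 w trivial
    rw [← Finset.sum_filter_add_sum_filter_not _ (fun i => g ^ i ∈ wst Z c)] at d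
    refine Eq.trans ?_ (wsp_indep (fun i => wcj (g ^ i) c) _ (fun i hi => ?_) _ _
      (fun i _ => map_mem_wsp (pow_mem hn i) hw)
      (Submodule.sum_mem _ fun i hi => rInv_wsp le_rfl _ (Finset.mem_filter.1 hi).2 w hw) d)
    · refine Finset.sum_bij (fun i _ => 2 ^ j * i) (fun i hi => Finset.mem_filter.2 ⟨?_, pow_mul g _ i ▸ pow_mem b2 i⟩)
        (fun _ _ _ _ e => Nat.eq_of_mul_eq_mul_left (by positivity) e) (fun i hi => ?_) fun i _ => by rw [pow_mul]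
      · rw [Finset.mem_range] at hi ⊢
        rw [hl, pow_add]; exact Nat.mul_lt_mul_of_pos_left hi (by positivity)
      · obtain ⟨i, rfl⟩ := b3 i (Finset.mem_filter.1 hi).2
        refine ⟨i, Finset.mem_range.2 (Nat.lt_of_mul_lt_mul_left (a := 2 ^ j) ?_), rfl⟩
        rw [← pow_add, ← hl]; exact Finset.mem_range.1 (Finset.mem_filter.1 hi).1
    · by_contra! hne
      exact (Finset.mem_filter.1 hi).2 ⟨pow_mem hn i, fun z hz => by
        simpa [wcj, mul_assoc] using (hne _ (conj_mem (pow_mem hn i) hz)).symm⟩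
  rcases l with _ | l
  · exact absurd (eq_bot_iff.2 fun w hw => by simpa using b4 w hw) h0
  rw [show n - j = l by omega]
  exact ⟨by omega, by rw [← pow_mul, ← pow_add, ← hl, a2], b4⟩

theorem bry_aux [IsAlgClosed k] (hq : q.Prime) (hne : q ≠ 2) (d : ℕ) : ∀ {G : Type u} [Group G] [Finite G]
    {V : Type v} [AddCommGroup V] [Module k V] [FiniteDimensional k V] (ρ : Representation k G V)
    (W : Submodule k V) (L D A : Subgroup G) (a x t : G) (n : ℕ), finrank k W = d → RInv ρ L W → D ⊴ L → PGrp q D →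
    ⁅D, D⁆ ≤ C(D) → A ≤ L → PGrp 2 A → A ≤ closure {y | y ∈ A ∧ Exc ρ W (L ⊓ N(A)) y} → x ∈ L ⊓ N(A) → a ∈ A →
    ExcN ρ W x n → ExcN ρ W (a * x) n → x ^ 2 ^ n ∈ A → (t = (a * x) ^ 2 ^ n * (x ^ 2 ^ n)⁻¹ ∧ a ∈ Ω[2](Z(A)) ∨
      ∃ w ∈ A, t = ⁅(a * x) ^ 2 ^ n * (x ^ 2 ^ n)⁻¹, w⁆) → ⁅D, ⟪t⟫⁆ ≤ rcent ρ W := by
  induction d using Nat.strong_induction_on with | _ d ih =>
  have tA : ∀ {G : Type u} [Group G] [Finite G] {A : Subgroup G} {a x t : G} {n : ℕ}, x ∈ N(A) → a ∈ A →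
      (t = (a * x) ^ 2 ^ n * (x ^ 2 ^ n)⁻¹ ∧ a ∈ Ω[2](Z(A)) ∨ ∃ w ∈ A, t = ⁅(a * x) ^ 2 ^ n * (x ^ 2 ^ n)⁻¹, w⁆) →
      t ∈ A := fun hx ha ht => ht.elim (fun h => h.1 ▸ mul_pow_mul_inv_mem hx ha _) fun ⟨w, hw, h⟩ =>
    h ▸ der_le _ (commutator_mem_commutator (mul_pow_mul_inv_mem hx ha _) hw)
  suffices key : ∀ {G : Type u} [Group G] [Finite G] {V : Type v} [AddCommGroup V] [Module k V]
      [FiniteDimensional k V] (ρ : Representation k G V) (L D A : Subgroup G) (a x t : G) (n : ℕ), finrank k V = d →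
      Injective ρ → D ⊴ L → PGrp q D → ⁅D, D⁆ ≤ C(D) → A ≤ L → PGrp 2 A →
      A ≤ closure {y | y ∈ A ∧ Exc ρ ⊤ (L ⊓ N(A)) y} → x ∈ L ⊓ N(A) → a ∈ A → ExcN ρ ⊤ x n → ExcN ρ ⊤ (a * x) n →
      x ^ 2 ^ n ∈ A → (t = (a * x) ^ 2 ^ n * (x ^ 2 ^ n)⁻¹ ∧ a ∈ Ω[2](Z(A)) ∨
        ∃ w ∈ A, t = ⁅(a * x) ^ 2 ^ n * (x ^ 2 ^ n)⁻¹, w⁆) → t ∈ C(D) by
    intro G _ _ V _ _ _ ρ W L D A a x t n hd hW hD pD hder hA pA hL hx ha E E' hy ht
    obtain ⟨Γ, _, _, f, σ, a1, a2, a3, -⟩ := exists_faithful_res hW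
    have a4 : ∀ g ∈ L, ∀ n, ExcN ρ W g n → ExcN σ ⊤ (pfun f g) n := fun g b1 n b => ⟨by
      rw [← pfun_pow f b1, b.1, pfun_one], fun w _ => Subtype.ext (by
        rw [Submodule.coe_sum]
        exact (Finset.sum_congr rfl fun i _ => by rw [← pfun_pow f b1, a3 _ (pow_mem b1 i)]).trans (b.2 w w.2))⟩
    have a5 : ∀ g ∈ L ⊓ N(A), pfun f g ∈ pmap f L ⊓ N(pmap f A) := fun g b =>
      ⟨mem_pmap_of_mem f b.1 b.1, pmap_norms f inf_le_right (mem_pmap_of_mem f b.1 b)⟩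
    have a6 : pfun f ((a * x) ^ 2 ^ n * (x ^ 2 ^ n)⁻¹) = (pfun f a * pfun f x) ^ 2 ^ n * (pfun f x ^ 2 ^ n)⁻¹ := by
      rw [pfun_mul f (pow_mem (mul_mem (hA ha) hx.1) _) (inv_mem (hA hy)), pfun_inv f (hA hy), pfun_pow f hx.1,
        pfun_pow f (mul_mem (hA ha) hx.1), pfun_mul f (hA ha) hx.1]
    have a7 := zpowers_le.2 (hA (tA hx.2 ha ht))
    have := key σ (pmap f L) (pmap f D) (pmap f A) (pfun f a) (pfun f x) (pfun f t) n hd a1 (hD.pmap f) (pD.pmap f)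
      (pmap_comm f hD.le hD.le ▸ pmap_cents f hder) (pmap_mono f hA) (pA.pmap f) ((pmap_mono f hL).trans (by
        rw [pmap_closure f fun x hx => hA hx.1]
        refine closure_mono ?_
        rintro _ ⟨_, ⟨b0, g, b1, n, rfl, b2⟩, rfl⟩
        exact ⟨mem_pmap_of_mem f (hA b0) b0, _, a5 g b1, n, pfun_pow f b1.1 _, a4 g b1.1 n b2⟩)) (a5 x hx)
      (mem_pmap_of_mem f (hA ha) ha) (a4 x hx.1 n E) (pfun_mul f (hA ha) hx.1 ▸ a4 _ (mul_mem (hA ha) hx.1) n E')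
      (pfun_pow f hx.1 _ ▸ mem_pmap_of_mem f (hA hy) hy) (ht.imp (fun h => ⟨by rw [h.1, a6], Ohm_mono 2
        (pmap_center_le f A) (pmap_Ohm_le f 2 (inf_le_left.trans hA) (mem_pmap_of_mem f (hA ha) h.2))⟩)
        fun ⟨w, hw, h⟩ => ⟨_, mem_pmap_of_mem f (hA hw) hw, by
          rw [h, pfun_comm f (hA (mul_pow_mul_inv_mem hx.2 ha _)) (hA hw), a6]⟩)
    rw [← zpowers_le, cen_comm, ← pmap_zpowers f (zpowers_le.1 a7), pmap_cents_iff hD.le a7, a2] at this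
    exact this.trans inf_le_right
  intro G _ _ V _ _ _ ρ L D A a x t n hd hf hD pD hder hA pA hL hx ha E E' hy ht
  by_contra h0
  have a2 := zpowers_le.2 (hA (tA hx.2 ha ht))
  obtain ⟨c, a3, a4⟩ := exists_wt' hf (ab_center D) (by
    obtain ⟨a, ha⟩ := (pD.mono (inf_le_left : Z(D) ≤ D)).exists_pow (card_ne_zero _)
    rw [ha, Nat.cast_pow]
    exact pow_ne_zero a fun e => hne ((Nat.prime_dvd_prime_iff_eq Nat.prime_two hq).1
      ((CharP.cast_eq_zero_iff k 2 q).1 e)).symm) inf_le_right (pD.nil.meet_center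
        ⟨comm_le_left (a2.trans hD.nrm), norm_comm_left _ _⟩ fun e => h0 (zpowers_le.1 (comm_eq_bot'.1 e)))
  have nZ := norms_center hD.nrm
  by_cases e : wsp ρ Z(D) c = ⊤
  swap
  · have b0 : ∀ y, Exc ρ ⊤ (L ⊓ N(A)) y → Exc ρ (wsp ρ Z(D) c) (L ⊓ wst Z(D) c ⊓ N(A)) y := fun y h =>
      inf_right_comm L N(A) _ ▸ h.wsp (inf_le_left.trans nZ) a3
    have b1 : A ≤ closure {y | y ∈ A ∧ Exc ρ (wsp ρ Z(D) c) (L ⊓ wst Z(D) c ⊓ N(A)) y} :=
      hL.trans (closure_mono fun y h => ⟨h.1, b0 y h.2⟩)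
    have b2 : A ≤ L ⊓ wst Z(D) c := b1.trans ((closure_le _).2 fun y h => (Exc.le (subset_closure h.2)).1)
    have b3 : ∀ m, (a * x) ^ m ∈ wst Z(D) c ↔ x ^ m ∈ wst Z(D) c := fun m => by
      rw [← inv_mul_cancel_right ((a * x) ^ m) (x ^ m), mul_mem_cancel_left ((b2.trans inf_le_right) (mul_pow_mul_inv_mem hx.2 ha m))]
    obtain ⟨j, b4, b5, b6⟩ : ∃ j ≤ n + 1, x ^ 2 ^ j ∈ wst Z(D) c ∧ ∀ m, x ^ m ∈ wst Z(D) c → 2 ^ j ∣ m := by
      by_cases e : x ∈ wst Z(D) c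
      · exact ⟨0, by omega, by simpa, by simp⟩
      obtain ⟨i, b1, b2, b3⟩ := exists_last_pow e (E.1 ▸ one_mem _)
      exact ⟨i + 1, b1, b2, fun m hm => by_contra fun d => b3 (pow_mem_of_not_dvd Nat.prime_two hm b2 d)⟩
    obtain ⟨b7, b8⟩ := E.wsp (nZ hx.1) a3 b4 b5 b6
    have b9 := (E'.wsp (nZ (mul_mem (hA ha) hx.1)) a3 b4 ((b3 _).2 b5) fun m h => b6 m ((b3 m).1 h)).2
    have c1 : ∀ g : G, (g ^ 2 ^ j) ^ 2 ^ (n - j) = g ^ 2 ^ n := fun g => by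
      rw [← pow_mul, ← pow_add, Nat.add_sub_cancel' b7]
    refine a4 (inf_le_left.trans (ih _ (hd ▸ Submodule.finrank_lt e) ρ _ (L ⊓ wst Z(D) c) D A
      ((a * x) ^ 2 ^ j * (x ^ 2 ^ j)⁻¹) (x ^ 2 ^ j) t (n - j) rfl (rInv_wsp inf_le_right)
      ⟨le_inf hD.le (cen_le_wst (centsC inf_le_right)), inf_le_left.trans hD.nrm⟩ pD hder b2 pA b1
      ⟨⟨pow_mem hx.1 _, b5⟩, pow_mem hx.2 _⟩ (mul_pow_mul_inv_mem hx.2 ha _) b8 (by rwa [inv_mul_cancel_right])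
      (by rwa [c1]) ?_))
    rw [inv_mul_cancel_right, c1, c1]
    exact ht.imp_left fun h => ⟨h.1, mul_pow_mul_inv_mem (norms_Ohm 2 (norms_center le_rfl) hx.2) h.2 _⟩
  have a5 : L ≤ C(Z(D)) := comm_eq_bot'.1 (eq_bot_of_le (comm_wst_le e.ge (rInv_top ρ L)) (rcent_top hf))
  have ex : ∀ g ∈ L, ∀ n, ExcN ρ ⊤ g n → EX q D g n := fun g b1 n b => ⟨b.1, or_iff_not_imp_left.2 fun b4 =>
    pl_of_exc (ρ := ρ) (S := ⟪g⟫) ⟨hq, hne, pD, (piElt_of_pow_eq_one (piNat_self_pow Nat.prime_two _) b.1).zpowers,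
      hder, (zpowers_le.2 b1).trans hD.nrm, (zpowers_le.2 b1).trans a5⟩ (mem_zpowers g) (e ▸ a3)
    (fun z h1 h2 => ⟨c z, fun h3 => h2 ((rcent_top hf).le (e ▸ (wt_eq_one_iff a3 h1).1 h3)),
      fun v hv => e.ge hv z h1⟩) b.1 (LinearMap.ext fun w => by simpa using b.2 w trivial) b4⟩
  have cx : ACx q D A (L ⊓ N(A)) := ⟨hq, hne, pD, hder, pA, le_inf hA (le_nrm A), inf_le_right,
    inf_le_left.trans hD.nrm, inf_le_left.trans a5, hL.trans (closure_mono ?_)⟩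
  · rcases ht with ⟨rfl, h⟩ | ⟨w, hw, rfl⟩
    · exact h0 (cx.fin_b (Ohm_le _ _ h) (sq a ▸ (abelem_Ohm_center 2 A).pow h) hx hy (ex x hx.1 n E)
        (ex _ (mul_mem (hA ha) hx.1) n E'))
    · exact h0 (cx.fin_a ha hx hy (ex x hx.1 n E) (ex _ (mul_mem (hA ha) hx.1) n E') hw)
  rintro _ ⟨b0, g, b1, n, rfl, b2⟩
  have b3 := ex g b1.1 n b2
  exact ⟨b0, or_iff_not_imp_left.2 fun b4 => ⟨b3.sq, fun e => b4 (e ▸ one_mem _), g,
    ⟨b1, b3.pi, (b3.2.resolve_left b4).1⟩, pow_mem (mem_zpowers g) _⟩⟩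

theorem bry_eq_one [IsAlgClosed k] (hf : Injective ρ) (hs : Group.IsSolvable G) (hO : O[{2}]((⊤ : Subgroup G)) = ⊥)
    (pA : PGrp 2 A) (hL : A ≤ closure {y | y ∈ A ∧ Exc ρ ⊤ (⊤ ⊓ N(A)) y}) (hx : x ∈ N(A)) (ha : a ∈ A)
    (E : ExcN ρ ⊤ x n) (E' : ExcN ρ ⊤ (a * x) n) (hy : x ^ 2 ^ n ∈ A)
    (ht : t = (a * x) ^ 2 ^ n * (x ^ 2 ^ n)⁻¹ ∧ a ∈ Ω[2](Z(A)) ∨ ∃ w ∈ A, t = ⁅(a * x) ^ 2 ^ n * (x ^ 2 ^ n)⁻¹, w⁆) :
    t = 1 := by
  have c2 : PiElt {2} t := pA.piElt (ht.elim (fun h => h.1 ▸ mul_pow_mul_inv_mem hx ha _) fun ⟨w, hw, h⟩ =>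
    h ▸ der_le _ (commutator_mem_commutator (mul_pow_mul_inv_mem hx ha _) hw))
  have a1 : ⟪t⟫ ≤ F(⊤) := by
    refine (le_inf le_top (centsC (fitting_le_of_forall_pcore fun q hq => ?_))).trans
      ((subcent_fitting (sol_top.2 hs)).le.trans inf_le_left)
    rcases eq_or_ne q 2 with rfl | hne
    · rw [hO]; exact bot_le
    have pQ := pcore_pi {q} (⊤ : Subgroup G)
    have nQ := (pcore_nml {q} (⊤ : Subgroup G)).nrm
    obtain ⟨D, b1, b2, -, b3, -, b4⟩ := critical_odd pQ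
      (Nat.not_even_iff_odd.1 fun c => hne (pQ 2 Nat.prime_two c.two_dvd).symm)
    exact centsC (b4 _ (le_top.trans nQ) (fun r h1 h2 e => hne (e.symm.trans (c2.zpowers r h1 h2)))
      (comm_eq_bot'.1 (eq_bot_of_le (bry_aux hq hne _ ρ ⊤ ⊤ D A a x t n rfl (rInv_top _ _) ⟨le_top, nQ.trans b2⟩
        (pQ.mono b1) ((commSS le_rfl b1).trans (b3.trans inf_le_right)) le_top pA hL ⟨trivial, hx⟩ ha E E' hy ht)
          (rcent_top hf))))
  exact hO.le (pcore_fitting_le _ _ ((fitting_nil ⊤).mem_pcore (a1 (mem_zpowers t)) c2))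

/-- the statement for chief factors -/
def BryC (n : ℕ) : Prop := ∀ {G : Type u} [Group G] [Finite G] {M V U : Subgroup G}, Sol M → Chief M V U → PGrp 2 U →
  (∀ x ∈ M, PiElt {2} x → ∀ a ∈ U, (a * x) ^ 2 ^ n * (x ^ 2 ^ n)⁻¹ ∈ V) → ⁅U, low 2 (2 * n) M⁆ ≤ V

/-- the statement for groups -/
def BryG (n : ℕ) : Prop := ∀ {G : Type u} [Group G] [Finite G], Group.IsSolvable G → PExp 2 n G → PLengthLE 2 n G

theorem bry_rep (hC : BryC.{u} n) (hG : BryG.{u} n) (hf : Injective ρ) (hs : Group.IsSolvable G)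
    (hO : O[{2}]((⊤ : Subgroup G)) = ⊥) (h : ∀ g, PiElt {2} g → ∑ i ∈ Finset.range (2 ^ (n + 1)), ρ g ^ i = 0) :
    PLengthLE 2 n G := by
  have h1 : PExp 2 (n + 1) G := fun g hg => hf (by
    rw [map_pow, map_one, ← sub_eq_zero, ← geom_sum_mul, h g hg, zero_mul])
  rcases n with _ | n
  · refine PExp.pl_zero fun g hg => hf ?_
    have := h g hg
    simp only [zero_add, pow_one, Finset.sum_range_succ, Finset.range_zero, Finset.sum_empty, pow_zero] at this ⊢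
    rw [map_one, eq_neg_of_add_eq_zero_right this, ← neg_one_smul k, CharTwo.neg_eq, one_smul]
  have h2 := fun g hg => bstar hf hs hO (h1 g hg) ((sub_one_pow_pred _ _).trans (h g hg))
  haveI := charP_of_injective_algebraMap (algebraMap k (AlgebraicClosure k)).injective 2
  have hf' : Injective (bcRep (AlgebraicClosure k) ρ) := by
    rwa [← MonoidHom.ker_eq_bot_iff, ker_bcRep, MonoidHom.ker_eq_bot_iff]
  have hr' : ∀ g, PiElt {2} g → ExcN (bcRep (AlgebraicClosure k) ρ) ⊤ g (n + 1) := fun g hg => ⟨h1 g hg, fun w _ => by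
    have := congrArg (End.baseChangeHom k (AlgebraicClosure k) V) (h g hg)
    rw [map_sum, map_zero, Finset.sum_congr rfl fun i _ => map_pow _ _ i] at this
    have h3 : ∑ i ∈ Finset.range (2 ^ (n + 1 + 1)), bcRep (AlgebraicClosure k) ρ g ^ i = 0 := this
    simpa using congr($h3 w)⟩
  generalize bcRep (AlgebraicClosure k) ρ = σ at hf' hr'
  obtain ⟨T, hT⟩ := exists_syl 2 (ppCore 2 (⊤ : Subgroup G))
  have a1 := ppCore_frattini Nat.prime_two hT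
  have a0 : (⊤ : Subgroup G) ⊓ N(T) ≤ N(T) := inf_le_right
  have sΓ := (sol_top.2 hs).mono a1.right
  generalize ⊤ ⊓ N(T) = Γ at a0 a1 sΓ
  obtain ⟨A, hA⟩ : ∃ A, A = closure {y | ∃ g ∈ Γ, PiElt {2} g ∧ y = g ^ 2 ^ (n + 1)} := ⟨_, rfl⟩
  have a2 : ∀ g ∈ Γ, PiElt {2} g → g ^ 2 ^ (n + 1) ∈ A := fun g b1 b2 => hA ▸ subset_closure ⟨g, b1, b2, rfl⟩
  have nA : A ⊴ Γ := ⟨hA ▸ (closure_le _).2 fun _ ⟨g, b, _, e⟩ => e ▸ pow_mem b _, hA ▸ norms_closure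
    fun g b _ ⟨y, b1, b2, e⟩ => ⟨_, mul_mem (mul_mem b b1) (inv_mem b), piElt_conj.2 b2, e ▸ conj_pow.symm⟩⟩
  have pA : PGrp 2 A := hT.pi.mono (hA ▸ (closure_le _).2 fun _ ⟨g, b1, b2, e⟩ => e ▸ zpowers_le.1
    (hT.le_of_norm (b2.pow _).zpowers (zpowers_le.2 (H3.ppCore_top.ge (h2 g b2))) (zpowers_le.2 (pow_mem (a0 b1) _))))
  have a3 : A ≤ closure {y | y ∈ A ∧ Exc σ ⊤ (⊤ ⊓ N(A)) y} := hA.le.trans (closure_mono
    fun _ ⟨g, b1, b2, e⟩ => ⟨e ▸ a2 g b1 b2, g, ⟨trivial, nA.nrm b1⟩, _, e, hr' g b2⟩)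
  have a4 := fun x (b1 : x ∈ Γ) (b2 : PiElt {2} x) a (b3 : a ∈ A) t => bry_eq_one (t := t) hf' hs hO pA a3 (nA.nrm b1) b3
    (hr' x b2) (hr' _ ((pA.sup b2.zpowers (zpowers_le.2 (nA.nrm b1))).piElt (mul_mem_sup b3 (mem_zpowers x))))
      (a2 x b1 b2)
  have a5 : low 2 (2 * (n + 1)) Γ ≤ C(A) := piGen_le_iff.2 fun r b1 b2 => by
    have b3 : ⟪r⟫ ≤ low 2 (2 * (n + 1)) Γ := zpowers_le.2 (mem_piGen b1 b2)
    have b4 := b3.trans (low_le _ _ _)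
    have b5 : Cop A ⟪r⟫ := pA.cop (ptau_odd 2 n ▸ b2).zpowers
    have nO := nA.center.Ohm 2
    have lO : Ω[2](Z(A)) ≤ A := (Ohm_le _ _).trans inf_le_left
    refine zpowers_le.1 (chief_ind (P := fun U => ⟪r⟫ ≤ C(U)) nA.center nA inf_le_left (coprime_abelian_faithful_Ohm1
      (b4.trans nA.center.nrm) (b5.mono_left inf_le_left) (ab_center A) (pA.mono inf_le_left) (coprime_chief_cent nO
        (b5.mono_left lO) fun V U c1 c2 => (commSS le_rfl b3).trans (hC sΓ c1 (pA.mono (c2.trans lO))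
          fun x c3 c4 a c5 => ?_))) fun V U c1 c2 c3 => stable_factor_cent (b4.trans c1.nmlU.nrm) (b5.mono_left c3)
            ((commSS le_rfl b3).trans (hC sΓ c1 (pA.mono c3) fun x c4 c5 a c6 => c2 ⟨mul_pow_mul_inv_mem (nA.nrm c4)
              (c3 c6) _, mem_cen.2 fun w c7 => (commutatorElement_eq_one_iff_mul_comm.1
                (a4 x c4 c5 a (c3 c6) _ (.inr ⟨w, c7, rfl⟩))).symm⟩)))
    rw [a4 x c3 c4 a (lO (c2 c5)) _ (.inl ⟨rfl, c2 c5⟩)]; exact one_mem _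
  have a6 : low 2 (2 * (n + 1) + 1) Γ ≤ A := (low_quo_eq_bot nA.nrm).1 ((pLengthLE_iff Nat.prime_two).1
    (hG (sΓ.quo A) fun y hy => by
      obtain ⟨x, hx, rfl⟩ := exists_pelt_map (pmapHom_surjective (qhom A) nA.nrm) hy
      rw [← map_pow]
      exact Subtype.ext ((pmapHom_apply _ _ _).trans (coset_of_mem (a2 x x.2 fun p h1 h2 => hx p h1 (orderOf_coe x ▸ h2))))))
  have a7 : PiGrp {2}ᶜ (low 2 (2 * (n + 1)) Γ) := by
    have := npc_iff_pRes.1 (npc_of_syl_center (S := A ⊓ low 2 (2 * (n + 1)) Γ) ⟨inf_le_right, pA.mono inf_le_left, by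
      rw [inf_relIndex_right]
      exact (piGen_relIndex {2} _).of_dvd (relIndex_dvd_of_le (by rwa [low_succ, ptau_even] at a6) _)⟩ (centsS inf_le_left a5))
    rw [show low 2 (2 * (n + 1)) Γ = piGen (ptau 2 (2 * n + 1)) (low 2 (2 * n + 1) Γ) from rfl, ptau_odd] at this ⊢
    rwa [pRes_eq, piGen_idem] at this
  have nN := (pcore_nml {2}ᶜ (⊤ : Subgroup G)).nrm
  rw [pLengthLE_iff_top Nat.prime_two, low_succ_eq_bot, ptau_even]
  refine piGrp_of_quo (pcore_pi _ ⊤) (le_top.trans nN) ?_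
  rw [quo_low _ _ nN, a1.quo_eq le_rfl nN, ← quo_low _ _ (le_top.trans nN)]
  exact a7.quo _

theorem bry (n : ℕ) : BryC.{u} n ∧ BryG.{u} n := by
  induction n with
  | zero => exact ⟨fun _ h _ h1 => (comm_le_left h.nmlU.nrm).trans fun a ha => by
      simpa using h1 1 (one_mem _) (piElt_one _) a ha, fun _ h => h.pl_zero⟩
  | succ n ih =>
  refine ⟨@fun G _ _ M V U hs h pU h1 => ?_, @fun G _ _ hs h1 => ?_⟩
  · obtain ⟨p, hp, h2⟩ := h.abelem pU.sol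
    obtain rfl : p = 2 := pU.quo V p hp ((h2.pGrp hp).dvd h.minNml.ne)
    obtain ⟨S⟩ := nonempty_secRep 2 h.lt.le (h.der_le pU.sol) ((abelem_quo_iff h.nml.nrm).1 h2).2 h.nmlU.nrm h.nmlV.nrm
    let f := QuotientGroup.mk' (MonoidHom.ker S.ρ)
    have sf : Surjective f := QuotientGroup.mk'_surjective _
    have hk : ∀ X, X ≤ M → (pmap f X = ⊥ ↔ ⁅U, X⁆ ≤ V) := fun X hX => by
      rw [commC, ← S.le_ker_iff hX, pmap_eq_bot hX, ← so_le_so' hX, pker_so, QuotientGroup.ker_mk']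
    have e : pmap f M = ⊤ := by rw [pmap_dom, MonoidHom.range_eq_top.2 sf]
    haveI : Group.IsSolvable M := hs
    have := bry_rep ih.1 ih.2 (ρ := quoRep S.ρ _ le_rfl) ((injective_iff_map_eq_one _).2 fun x =>
      QuotientGroup.induction_on x fun y h => (QuotientGroup.eq_one_iff y).2 h) inferInstance ?_ fun y hy => ?_
    · rw [pLengthLE_iff_top Nat.prime_two, ← e, ← pmap_low f _ _ le_rfl, hk _ (low_le _ _ _)] at this
      exact (commSS le_rfl (low_anti 2 M (by omega))).trans this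
    · have a1 := pcore_nml {2} (⊤ : Subgroup (M ⧸ MonoidHom.ker S.ρ))
      rw [← pmap_ppre_of_le (f := f) (A := M) (le_top.trans e.ge : O[{2}](⊤) ≤ _), hk _ (ppre_le _ _)]
      refine bg4_chief_cents h (pU.piNat.of_dvd (relIndex_dvd _ _)) (Nml.ppre_of_pmap le_rfl (pker_le f) (e ▸ a1))
        fun X b1 b2 => (hk X (b1.trans (ppre_le _ _))).1 (((pcore_pi _ _).mono ((pmap_le_iff
          (b1.trans (ppre_le _ _))).2 b1)).eq_bot (b2.pmap f))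
    · obtain ⟨x, hx, rfl⟩ := exists_pelt_map sf hy
      have key : ∀ a ∈ U, ∀ m, S.π ((a * x) ^ m * ((x : G) ^ m)⁻¹) = (∑ i ∈ Finset.range m, S.ρ x ^ i) (S.π a) := by
        intro a ha m
        induction m with
        | zero => simp [S.map_one]
        | succ m ih =>
          rw [show (a * x) ^ (m + 1) * ((x : G) ^ (m + 1))⁻¹ = (a * x) ^ m * ((x : G) ^ m)⁻¹ *
            ((x ^ m : M) * a * ((x ^ m : M) : G)⁻¹) by simp [pow_succ, mul_assoc], S.map_mul _ (mul_pow_mul_inv_mem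
              (S.nrm x.2) ha m) _ (conj_mem (S.nrm (x ^ m).2) ha), ih, S.conj _ _ ha, Finset.sum_range_succ, map_pow]
          rfl
      refine LinearMap.ext fun w => ?_
      obtain ⟨a, ha, rfl⟩ := S.surj w
      exact (key a ha _).symm.trans ((S.eq_zero _ (mul_pow_mul_inv_mem (S.nrm x.2) ha _)).2
        (h1 x x.2 (fun p h1 h2 => hx p h1 (orderOf_coe x ▸ h2)) a ha))
  obtain ⟨G', _, _, f, V, a1, a2, a3⟩ := exists_hred Nat.prime_two (isPSolvable_of_isSolvable Nat.prime_two hs)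
  haveI := a2.normal
  obtain ⟨S⟩ := a2.rep
  haveI := Group.isSolvable_of_surjective a1
  exact pl_of_hred Nat.prime_two a1 a3 (bry_rep ih.1 ih.2 S.inj inferInstance (a2.core_quo Nat.prime_two)
    fun g hg => (sub_one_pow_pred _ _).symm.trans (a2.exc S (h1.map a1) hg))

end Cfsg.Agent.H1
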