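import Mathlib
import Cfsg.Agent.H14.Enum
import Cfsg.Agent.H6.Frobenius

/-! Numbers of solutions of `x ^ d = 1` in permutation groups of exponent dividing 168, counted by the kernel. -/

set_option autoImplicit false

namespace Cfsg.Agent.H1

open Cfsg.Agent.H14 MulAction Finset

/-- number of solutions of `x ^ d = 1` -/
noncomputable def Ev (G : Type*) [Group G] (d : ℕ) : ℕ := Nat.card {x : G // x ^ d = 1}

theorem ev_zero (G : Type*) [Group G] : Ev G 0 = Nat.card G :=
  Nat.card_congr (Equiv.subtypeUnivEquiv fun x => pow_zero x)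

theorem ev_prod (G H : Type*) [Group G] [Group H] (d : ℕ) : Ev (G × H) d = Ev G d * Ev H d := by
  rw [Ev, Ev, Ev, ← Nat.card_prod]
  exact Nat.card_congr ((Equiv.subtypeEquivRight fun x => by simp [Prod.ext_iff]).trans Equiv.subtypeProdEquivProd)

/-- the divisors of 168, and 0 -/
def dv : List ℕ := [1, 2, 3, 4, 6, 7, 8, 12, 14, 21, 24, 28, 42, 56, 84, 168, 0]

theorem ev_gcd {G : Type*} [Group G] [Finite G] (h : Ev G 168 = Ev G 0) (n : ℕ) : Ev G n = Ev G (n.gcd 168) := by
  have h1 : ∀ x : G, x ^ 168 = 1 := fun x => by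
    have : {x : G | x ^ 168 = 1} = Set.univ := Set.eq_of_subset_of_ncard_le (Set.subset_univ _)
      (by rw [Set.ncard_univ, ← ev_zero, ← h]; rfl)
    exact this.ge (Set.mem_univ x)
  refine Nat.card_congr (Equiv.subtypeEquivRight fun x => ?_)
  simp only [← orderOf_dvd_iff_pow_eq_one, Nat.dvd_gcd_iff, orderOf_dvd_of_pow_eq_one (h1 x), and_true]

theorem sameOrd_of_ev {G H : Type*} [Group G] [Finite G] [Group H] [Finite H]
    (h : ∀ j < 17, Ev G (nth dv j) = Ev H (nth dv j)) (h0 : Ev G 168 = Ev G 0) (n : ℕ) :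
    Nat.card {g : G // orderOf g = n} = Nat.card {g : H // orderOf g = n} := by
  classical
  have := Fintype.ofFinite G
  have := Fintype.ofFinite H
  have h1 : ∀ n, Ev G n = Ev H n := fun n => by
    rw [ev_gcd h0, ev_gcd ((h 15 (by norm_num)).symm.trans (h0.trans (h 16 (by norm_num))))]
    obtain ⟨j, hj, e⟩ : ∃ j < 17, n.gcd 168 = nth dv j :=
      (by decide +kernel : ∀ d ∈ Nat.divisors 168, ∃ j < 17, d = nth dv j) _
        (Nat.mem_divisors.2 ⟨Nat.gcd_dvd_right _ _, by norm_num⟩)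
    rw [e, h j hj]
  simp only [Ev, Nat.card_eq_fintype_card, Fintype.card_subtype] at h1 ⊢
  induction n using Nat.strong_induction_on with
  | _ n ih =>
    rcases Nat.eq_zero_or_pos n with rfl | hn
    · simp [(orderOf_pos _).ne']
    have e : ∑ m ∈ n.divisors, #{x : G | orderOf x = m} = ∑ m ∈ n.divisors, #{x : H | orderOf x = m} := by
      rw [sum_card_orderOf_eq_card_pow_eq_one hn.ne', sum_card_orderOf_eq_card_pow_eq_one hn.ne']
      convert h1 n
    rw [← Nat.cons_self_properDivisors hn.ne', sum_cons, sum_cons,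
      sum_congr rfl fun m hm => ih m (Nat.mem_properDivisors.1 hm).2] at e
    exact Nat.add_right_cancel e

theorem solvable_of_ev {G : Type*} [Group G] [Finite G] {p a m q r b c : ℕ} (hp : p.Prime) (hq : q.Prime) (hr : r.Prime)
    (h1 : Ev G (p ^ a) = p ^ a) (h2 : Ev G 0 = p ^ a * m) (h3 : m ∣ q ^ b * r ^ c) : Group.IsSolvable G := by
  have := Fact.mk hp
  rw [ev_zero] at h2
  obtain ⟨K, hK⟩ := Sylow.exists_subgroup_card_pow_prime (G := G) p (n := a) (h2 ▸ dvd_mul_right _ _)
  have e : (K : Set G) = {x | x ^ p ^ a = 1} := Set.eq_of_subset_of_ncard_le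
    (fun x hx => by simpa [hK] using congrArg Subtype.val (pow_card_eq_one' (x := (⟨x, hx⟩ : K))))
    (h1.trans hK.symm).le
  have : K.Normal := ⟨fun x hx g => by
    change _ ∈ (K : Set G) at hx ⊢
    rw [e] at hx ⊢
    rw [Set.mem_ofPred_eq, conj_pow, show x ^ p ^ a = 1 from hx, mul_one, mul_inv_cancel]⟩
  have : Group.IsSolvable K := H6.isSolvable_of_card_dvd hp hp (a := a) (b := 0) (by rw [hK, pow_zero, mul_one])
  have : Group.IsSolvable (G ⧸ K) := H6.isSolvable_of_card_dvd hq hr (by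
    rw [K.card_eq_card_quotient_mul_card_subgroup, hK, mul_comm] at h2
    rwa [Nat.eq_of_mul_eq_mul_left (pow_pos hp.pos a) h2])
  exact Group.isSolvable_of_ker_le_range K.subtype (QuotientGroup.mk' K) (by simp)

theorem digit {B : ℕ} (k : ℕ) : ∀ (a : ℕ → ℕ) (j : ℕ), (∀ i < k, a i < B) → j < k →
    (∑ i ∈ range k, a i * B ^ i) / B ^ j % B = a j := by
  induction k with
  | zero => exact fun _ _ _ h => absurd h (Nat.not_lt_zero _)
  | succ k ih =>
    intro a j ha hj
    have h0 := ha 0 k.succ_pos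
    simp only [sum_range_succ', pow_succ, ← mul_assoc, ← sum_mul, pow_zero, mul_one]
    cases j with
    | zero => simp [Nat.mod_eq_of_lt h0]
    | succ j =>
      rw [pow_succ', ← Nat.div_div_eq_div_mul, add_comm, Nat.add_mul_div_right _ _ (by omega), Nat.div_eq_of_lt h0,
        zero_add, ih (fun i => a (i + 1)) j (fun i hi => ha _ (by omega)) (by omega)]

variable {G Ω : Type*} [Group G] [MulAction G Ω] (A : Amb G Ω)

/-- the regular action -/
noncomputable def regM (h : ℕ → ℕ) (hh : ∀ a b, h a = h b → a = b) : Model G G where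
  el := A.el
  ok := A.ok
  fn := A.mul
  V := A.ok
  dec := A.el
  h := h
  fn_V := A.ok_mul
  act T c hT hc := (A.el_mul T c hT hc).symm
  h_iff a b ha hb := ⟨fun e => by rw [hh a b e], fun e => by rw [A.el_inj a b ha hb e]⟩

/-- search for the order -/
noncomputable def ordGo (e T f : ℕ) : ℕ → ℕ → ℕ :=
  Nat.rec (motive := fun _ => ℕ → ℕ → ℕ) (fun _ _ => 0)
    (fun _ ih k x => Bool.rec (force (A.mul x T) (ih (Nat.succ k))) k (Nat.beq x e)) f

theorem ordGo_spec {T : ℕ} (hT : A.ok T) (f : ℕ) : ∀ k x, A.ok x → A.el x = A.el T ^ k → 0 < k →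
    (∀ m < k, 0 < m → A.el T ^ m ≠ 1) → orderOf (A.el T) = ordGo A A.one T f k x ∨
      ordGo A A.one T f k x = 0 ∧ ∀ m < k + f, 0 < m → A.el T ^ m ≠ 1 := by
  induction f with
  | zero => exact fun k x _ _ _ h => .inr ⟨rfl, h⟩
  | succ f ih =>
    intro k x hx e hk h
    change _ = (Bool.rec (force (A.mul x T) (ordGo A A.one T f (k + 1))) k (Nat.beq x A.one) : ℕ) ∨
      (Bool.rec (force (A.mul x T) (ordGo A A.one T f (k + 1))) k (Nat.beq x A.one) : ℕ) = 0 ∧ _
    have := A.el_eq_one_iff hx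
    cases hb : Nat.beq x A.one
    · simp only [force_eq]
      rw [← add_assoc, add_right_comm]
      refine ih _ _ (A.ok_mul _ _ hx hT) (by rw [A.el_mul _ _ hx hT, e, pow_succ]) k.succ_pos fun m hm h0 => ?_
      rcases (Nat.lt_succ_iff.1 hm).eq_or_lt with rfl | hm
      · rw [← e, Ne, this, hb]; simp
      · exact h m hm h0
    · exact .inl ((orderOf_eq_iff hk).2 ⟨e ▸ this.2 hb, h⟩)

/-- the packed indicator vector of the equations `x ^ d = 1` -/
noncomputable def evVal (e c : ℕ) : ℕ :=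
  force c fun T => force (ordGo A e T 168 1 T) fun o =>
    sumLt 17 fun j => Bool.rec 0 (two (Nat.mul 11 j)) (Nat.beq (Nat.mod (nth dv j) o) 0)

open Classical in
theorem evVal_eq {T : ℕ} (hT : A.ok T) :
    evVal A A.one T = ∑ j ∈ range 17, (if A.el T ^ nth dv j = 1 then 1 else 0) * 2048 ^ j := by
  simp only [evVal, force_eq, sumLt_eq]
  refine sum_congr rfl fun j hj => ?_
  have h1 : nth dv j ≤ 168 := (by decide +kernel : ∀ j ∈ range 17, nth dv j ≤ 168) j hj
  have : Nat.beq (Nat.mod (nth dv j) (ordGo A A.one T 168 1 T)) 0 = true ↔ A.el T ^ nth dv j = 1 := by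
    rw [nbeq_iff]
    change _ % _ = 0 ↔ _
    rcases ordGo_spec A hT 168 1 T hT (pow_one _).symm one_pos (fun m h h' => by omega) with e | ⟨e, h⟩
    · rw [← e, ← Nat.dvd_iff_mod_eq_zero, orderOf_dvd_iff_pow_eq_one]
    · rw [e, Nat.mod_zero]
      exact ⟨fun e => by rw [e, pow_zero], fun e => by_contra fun e' => h _ (by omega) (by omega) e⟩
  cases hb : Nat.beq (Nat.mod (nth dv j) (ordGo A A.one T 168 1 T)) 0
  · rw [if_neg (by rw [← this, hb]; simp), zero_mul]
  · rw [if_pos (this.1 hb), one_mul, show (2048 : ℕ) = 2 ^ 11 from rfl, ← pow_mul]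
    exact two_eq _

/-- binary search in a packed sorted table (not verified: `fbHash` checks the answer) -/
noncomputable def bsearch (w P n c : ℕ) : ℕ :=
  Nat.rec (motive := fun _ => ℕ → ℕ) (fun lo => lo) (fun k ih lo => force (Nat.add lo (two k)) fun t =>
    force (Bool.rec lo t (band (Nat.ble (Nat.succ t) n) (Nat.ble (get w P t) c))) ih) 11 0

/-- the whole check -/
noncomputable def evChk (Ts : List ℕ) (w P n N : ℕ) : Bool :=
  band (band (allL Ts A.okb) (Nat.ble (Nat.succ N) (Nat.pow 2048 17))) (force A.one fun e =>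
    orbSum (fun c => force c fun c => fbHash (get w P) (bsearch w P n) n c) (evVal A e) (Ts.map A.mul) 2048 e
      fun _ s => Nat.beq s N)

theorem reg_list {h : ℕ → ℕ} (hh : ∀ a b, h a = h b → a = b) {Ts : List ℕ} (hT : ∀ T ∈ Ts, A.ok T) {val : ℕ → ℕ}
    {f : ℕ} {k : ℕ → ℕ → Bool} (H : orbSum h val (Ts.map A.mul) f A.one k = true) :
    ∃ (L : List ℕ) (S : ℕ), k S (L.map val).sum = true ∧ (∀ c ∈ L, A.ok c) ∧ (L.map A.el).Nodup ∧
      ∀ x, x ∈ A.gen Ts ↔ x ∈ L.map A.el := by
  obtain ⟨L, S, hk, hV, hnd, hm, -⟩ := (regM A h hh).orbit_list hT A.ok_one H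
  refine ⟨L, S, hk, hV, hnd, fun x => Iff.trans ?_ (hm x)⟩
  change _ ↔ x ∈ orbit (A.gen Ts) (A.el A.one)
  simp [mem_orbit_sub, A.el_one]

theorem ev_of_chk {Ts : List ℕ} {w P n N : ℕ} (H : evChk A Ts w P n N = true) :
    ∀ j < 17, Ev (A.gen Ts) (nth dv j) = N / 2048 ^ j % 2048 := by
  classical
  rw [evChk, band_iff, band_iff, force_eq, allL_iff, nble_iff] at H
  obtain ⟨L, S, hk, hV, hnd, hm⟩ := reg_list A (fun a b e => fbHash_inj (by rwa [force_eq, force_eq] at e))
    (fun T hT => A.okb_ok T (H.1.1 T hT)) H.2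
  simp only [← List.mem_toFinset (l := L.map A.el)] at hm
  have h1 : ∀ d, Ev (A.gen Ts) d = ∑ x ∈ (L.map A.el).toFinset, if x ^ d = 1 then 1 else 0 := fun d => by
    rw [sum_boole, Nat.cast_id, ← Nat.card_eq_finsetCard]
    refine Nat.card_congr ((Equiv.subtypeEquivRight fun x => Subtype.ext_iff).trans
      ((Equiv.subtypeSubtypeEquivSubtypeInter _ fun x : G => x ^ d = 1).trans (Equiv.subtypeEquivRight fun x => ?_)))
    simp only [mem_filter, ← hm]
  have h2 : N = ∑ j ∈ range 17, Ev (A.gen Ts) (nth dv j) * 2048 ^ j := by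
    simp only [h1, sum_mul]
    rw [sum_comm, ← nbeq_iff.1 hk, List.sum_toFinset _ hnd, List.map_map]
    refine congrArg List.sum (List.map_congr_left fun c hc => ?_)
    rw [Function.comp_apply, evVal_eq A (hV c hc)]
  intro j hj
  rw [h2, digit 17 _ j (fun i _ => ?_) hj]
  have h3 : Ev (A.gen Ts) (nth dv i) ≤ Ev (A.gen Ts) 0 := by
    rw [h1, h1]
    exact sum_le_sum fun x _ => by simp only [pow_zero, if_true]; split_ifs <;> omega
  have h4 := (single_le_sum (f := fun j => Ev (A.gen Ts) (nth dv j) * 2048 ^ j)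
    (fun _ _ => Nat.zero_le _) (mem_range.2 (by norm_num : 16 < 17))).trans_eq h2.symm
  have h5 : N < 2048 * 2048 ^ 16 := by rw [← pow_succ']; exact H.1.2
  simp only [show nth dv 16 = 0 from rfl] at h4
  exact h3.trans_lt (Nat.lt_of_mul_lt_mul_right (h4.trans_lt h5))

end Cfsg.Agent.H1
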