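import Cfsg.Agent.H19.Gt3

/-! Sylow `2`-subgroups of type `G₂(q)`: the subgroups `M = Q₁ ∘ Q₂` and `Q₂`. -/

set_option autoImplicit false
set_option linter.unusedSectionVars false
set_option linter.unusedVariables false

namespace Cfsg.Agent.H1.G2

open Subgroup Cfsg.Agent.H19.Gt

/-- `Gs` for a cyclic `2`-group `K` with involution `z` -/
structure Gz {G K : Type*} [Group G] [CommGroup K] (S : Subgroup G) (τ : K × K →* G) (u v : G) (z : K) :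
    Prop extends Gs S τ u v where
  fin : Finite K
  two : IsPGroup 2 K
  z1 : z ≠ 1
  zz : z * z = 1

variable {G K : Type*} [Group G] [CommGroup K] {S : Subgroup G} {τ : K × K →* G} {u v : G} {z : K}

/-- the flipped torus -/
abbrev fl (τ : K × K →* G) : K × K →* G := τ.comp ((MonoidHom.id K).prodMap (invMonoidHom : K →* K))

theorem fl_apply (τ : K × K →* G) (a b : K) : fl τ (a, b) = τ (a, b⁻¹) := rfl

namespace Gz

theorem flp (h : Gz S τ u v z) : Gz S (fl τ) u (u * v) z := ⟨h.toGs.flip, h.fin, h.two, h.z1, h.zz⟩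

theorem zi (h : Gz S τ u v z) : z⁻¹ = z := inv_eq_of_mul_eq_one_right h.zz

theorem fl_t (h : Gz S τ u v z) : fl τ (z, z) = τ (z, z) := by rw [fl_apply, h.zi]

theorem fl_y (h : Gz S τ u v z) (a : K) : fl τ (a, 1) = τ (a, 1) := by rw [fl_apply, inv_one]

theorem rho (h : Gz S τ u v z) : ∃ ρ : K, ρ * ρ = z ∧ (8 ∣ Nat.card K → ∃ σ, σ * σ = ρ) := by
  have := h.fin
  obtain ⟨ρ, -, -, r3, r4⟩ := cyc_data h.cyc h.four
  exact ⟨ρ, ((r3 z h.zz).resolve_left h.z1).symm, r4⟩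

theorem inv2 (h : Gz S τ u v z) {a : K} (e : a * a = 1) : a = 1 ∨ a = z := by
  have := h.fin
  obtain ⟨ρ, -, -, r3, -⟩ := cyc_data h.cyc h.four
  rw [(r3 z h.zz).resolve_left h.z1]; exact r3 a e

theorem zsq (h : Gz S τ u v z) : IsSquare z := by
  obtain ⟨ρ, e, -⟩ := h.rho
  exact ⟨ρ, e.symm⟩

theorem tt (h : Gz S τ u v z) : τ (z, z) * τ (z, z) = 1 := by rw [tm, h.zz, t1]

theorem t_ne (h : Gz S τ u v z) : τ (z, z) ≠ 1 := fun e => h.z1 (h.toGs.teq1.1 e).1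

theorem ne_u (h : Gz S τ u v z) (a b c d : K) : τ (a, b) * u ≠ τ (c, d) := fun e => by
  obtain ⟨ρ, r, -⟩ := h.rho
  have := (h.toGs.cu (a := a) (b := b) (c := ρ) (d := ρ)).1 (by rw [e, tm, tm, mul_comm c, mul_comm d])
  exact h.z1 (r ▸ this.1)

theorem ne_v (h : Gz S τ u v z) (a b c d : K) : τ (a, b) * v ≠ τ (c, d) := fun e => by
  have := (h.toGs.cv (a := a) (b := b) (c := z) (d := 1)).1 (by rw [e, tm, tm, mul_comm c, mul_comm d])
  exact h.z1 this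

theorem ne_w (h : Gz S τ u v z) (a b c d : K) : τ (a, b) * (u * v) ≠ τ (c, d) := fun e => by
  have := (h.toGs.cw (a := a) (b := b) (c := z) (d := 1)).1 (by rw [e, tm, tm, mul_comm c, mul_comm d])
  exact h.z1 (by rw [h.zi] at this; exact this.symm)

/-- `t` is central in `S` -/
theorem t_cen (h : Gz S τ u v z) {s : G} (hs : s ∈ S) : s * τ (z, z) = τ (z, z) * s := by
  obtain ⟨a, b, rfl | rfl | rfl | rfl⟩ := (h.mem _).1 hs
  · rw [tm, tm, mul_comm a, mul_comm b]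
  · exact (h.toGs.cu.2 ⟨h.zz, h.zz⟩).symm
  · exact (h.toGs.cv.2 rfl).symm
  · exact (h.toGs.cw.2 h.zi.symm).symm

/-- the subgroup `M` of index `2` -/
def M (h : Gz S τ u v z) : Subgroup G where
  carrier := {s | ∃ a b : K, IsSquare (a * b) ∧ (s = τ (a, b) ∨ s = τ (a, b) * u ∨ s = τ (a, b) * v ∨
    s = τ (a, b) * (u * v))}
  one_mem' := ⟨1, 1, by simp, .inl (t1 τ).symm⟩
  mul_mem' := by
    have k1 : ∀ {a b c d : K}, IsSquare (a * b) → IsSquare (c * d) → IsSquare (a * c * (b * d)) :=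
      fun {a b c d} e f => by rw [mul_mul_mul_comm]; exact e.mul f
    have k2 : ∀ {c d : K}, IsSquare (c * d) → IsSquare (c⁻¹ * d⁻¹) := fun {c d} e => by
      rw [← mul_inv]; exact e.inv
    have k3 : ∀ {c d : K}, IsSquare (c * d) → IsSquare (d * c) := fun {c d} e => by rwa [mul_comm]
    have g := h.toGs
    rintro _ _ ⟨a, b, e, rfl | rfl | rfl | rfl⟩ ⟨c, d, f, rfl | rfl | rfl | rfl⟩
    all_goals simp only [mul_assoc, g.ut', g.vt', g.ut, g.vt, g.uu', g.vv', g.vu', g.uu, g.vv, tm', tm,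
      mul_one, ← g.uv]
    all_goals first
      | (refine ⟨_, _, k1 e f, ?_⟩; simp; done)
      | (refine ⟨_, _, k1 e (k2 f), ?_⟩; simp; done)
      | (refine ⟨_, _, k1 e (k3 f), ?_⟩; simp; done)
      | (refine ⟨_, _, k1 e (k2 (k3 f)), ?_⟩; simp; done)
  inv_mem' := by
    have k2 : ∀ {c d : K}, IsSquare (c * d) → IsSquare (c⁻¹ * d⁻¹) := fun {c d} e => by
      rw [← mul_inv]; exact e.inv
    have k3 : ∀ {c d : K}, IsSquare (c * d) → IsSquare (d * c) := fun {c d} e => by rwa [mul_comm]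
    have g := h.toGs
    rintro _ ⟨a, b, e, rfl | rfl | rfl | rfl⟩
    · exact ⟨_, _, k2 e, .inl (tinv ..)⟩
    · exact ⟨a, b, e, .inr (.inl (by rw [mul_inv_rev, g.ui, tinv, g.ut, inv_inv, inv_inv]))⟩
    · exact ⟨_, _, k2 (k3 e), .inr (.inr (.inl (by rw [mul_inv_rev, g.vi, tinv, g.vt])))⟩
    · exact ⟨b, a, k3 e, .inr (.inr (.inr (by
        rw [mul_inv_rev, mul_inv_rev, g.vi, g.ui, tinv, ← g.uv, mul_assoc, g.vt, g.ut', inv_inv, inv_inv])))⟩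

theorem memM (h : Gz S τ u v z) {s : G} : s ∈ h.M ↔ ∃ a b : K, IsSquare (a * b) ∧
    (s = τ (a, b) ∨ s = τ (a, b) * u ∨ s = τ (a, b) * v ∨ s = τ (a, b) * (u * v)) := Iff.rfl

/-- the quaternion subgroup `Q₂`; `Q₁` is `h.flp.Q` -/
def Q (h : Gz S τ u v z) : Subgroup G where
  carrier := {s | ∃ a : K, s = τ (a, a⁻¹) ∨ s = τ (a, z * a⁻¹) * v}
  one_mem' := ⟨1, .inl (by rw [inv_one, t1])⟩
  mul_mem' := by
    have g := h.toGs
    rintro _ _ ⟨a, rfl | rfl⟩ ⟨c, rfl | rfl⟩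
    · exact ⟨a * c, .inl (by rw [tm, mul_inv])⟩
    · exact ⟨a * c, .inr (by rw [tm', mul_inv, mul_left_comm])⟩
    · exact ⟨a * c⁻¹, .inr (by rw [mul_assoc, g.vt, tm', mul_inv, inv_inv, mul_assoc])⟩
    · refine ⟨a * (z * c⁻¹), .inl ?_⟩
      rw [mul_assoc, g.vt', g.vv, mul_one, tm, mul_inv, mul_inv, inv_inv, h.zi]
      congr 2; ac_rfl
  inv_mem' := by
    have g := h.toGs
    rintro _ ⟨a, rfl | rfl⟩
    · exact ⟨a⁻¹, .inl (tinv ..)⟩
    · refine ⟨(z * a⁻¹)⁻¹, .inr ?_⟩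
      rw [mul_inv_rev, g.vi, tinv, g.vt, inv_inv, ← mul_assoc, h.zz, one_mul]

theorem memQ (h : Gz S τ u v z) {s : G} : s ∈ h.Q ↔ ∃ a : K, s = τ (a, a⁻¹) ∨ s = τ (a, z * a⁻¹) * v :=
  Iff.rfl

theorem memQ' (h : Gz S τ u v z) {s : G} :
    s ∈ h.flp.Q ↔ ∃ a : K, s = τ (a, a) ∨ s = τ (a, z * a) * (u * v) := by
  simp only [h.flp.memQ, fl_apply, mul_inv, inv_inv, h.zi]

theorem M_le (h : Gz S τ u v z) : h.M ≤ S := by
  rintro _ ⟨a, b, -, e⟩; exact (h.mem _).2 ⟨a, b, e⟩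

theorem flp_M (h : Gz S τ u v z) : h.flp.M = h.M := by
  have k : ∀ {a b : K}, IsSquare (a * b) → IsSquare (a * b⁻¹) := fun {a b} e => by
    rw [show a * b⁻¹ = a * b * (b⁻¹ * b⁻¹) by group]; exact e.mul ⟨_, rfl⟩
  ext s
  rw [h.flp.memM, h.memM, h.toGs.uu']
  simp only [fl_apply]
  constructor
  · rintro ⟨a, b, e, f⟩; exact ⟨a, b⁻¹, k e, by tauto⟩
  · rintro ⟨a, b, e, f⟩; exact ⟨a, b⁻¹, k e, by rw [inv_inv]; tauto⟩

theorem Q_le (h : Gz S τ u v z) : h.Q ≤ h.M := by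
  rintro _ ⟨a, rfl | rfl⟩
  · exact ⟨_, _, by simp, .inl rfl⟩
  · exact ⟨_, _, by rw [mul_left_comm, mul_inv_cancel, mul_one]; exact h.zsq, .inr (.inr (.inl rfl))⟩

theorem Q_le' (h : Gz S τ u v z) : h.flp.Q ≤ h.M := h.flp_M ▸ h.flp.Q_le

theorem tQ (h : Gz S τ u v z) : τ (z, z) ∈ h.Q := ⟨z, .inl (by rw [h.zi])⟩

theorem tQ' (h : Gz S τ u v z) : τ (z, z) ∈ h.flp.Q := h.fl_t ▸ h.flp.tQ

theorem uM (h : Gz S τ u v z) : u ∈ h.M := ⟨1, 1, by simp, .inr (.inl (by rw [t1, one_mul]))⟩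
theorem vM (h : Gz S τ u v z) : v ∈ h.M := ⟨1, 1, by simp, .inr (.inr (.inl (by rw [t1, one_mul])))⟩
theorem yM (h : Gz S τ u v z) : τ (z, 1) ∈ h.M := ⟨z, 1, by rw [mul_one]; exact h.zsq, .inl rfl⟩

/-- `t` is the only involution of `Q` -/
theorem Q_inv (h : Gz S τ u v z) {s : G} (hs : s ∈ h.Q) (e : s * s = 1) : s = 1 ∨ s = τ (z, z) := by
  have g := h.toGs
  obtain ⟨a, rfl | rfl⟩ := hs
  · rw [tm, g.teq1] at e
    rcases h.inv2 e.1 with rfl | rfl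
    · left; rw [inv_one, t1]
    · right; rw [h.zi]
  · rw [mul_assoc, g.vt', g.vv, mul_one, tm, g.teq1, mul_left_comm, mul_inv_cancel, mul_one] at e
    exact (h.z1 e.1).elim

theorem Q_inv' (h : Gz S τ u v z) {s : G} (hs : s ∈ h.flp.Q) (e : s * s = 1) : s = 1 ∨ s = τ (z, z) :=
  h.fl_t ▸ h.flp.Q_inv hs e

theorem Q_comm (h : Gz S τ u v z) {a b : G} (ha : a ∈ h.flp.Q) (hb : b ∈ h.Q) : a * b = b * a := by
  have g := h.toGs
  obtain ⟨a, rfl | rfl⟩ := h.memQ'.1 ha <;> obtain ⟨b, rfl | rfl⟩ := hb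
  · rw [tm, tm, mul_comm a, mul_comm a]
  · exact g.cv.2 rfl
  · exact (g.cw.2 rfl).symm
  · simp only [mul_assoc, g.vt', g.vu', g.vv, tm', mul_one, g.ut, tm, mul_inv, inv_inv, h.zi]
    congr 3
    · rw [mul_left_comm a, mul_left_comm b, mul_comm a]
    · rw [mul_comm a b⁻¹]

theorem Q_inf (h : Gz S τ u v z) {s : G} (h1 : s ∈ h.flp.Q) (h2 : s ∈ h.Q) : s = 1 ∨ s = τ (z, z) := by
  have g := h.toGs
  obtain ⟨a, rfl | rfl⟩ := h.memQ'.1 h1
  · obtain ⟨b, e | e⟩ := h2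
    · obtain ⟨rfl, e⟩ := g.teq.1 e
      rcases h.inv2 (mul_eq_one_iff_eq_inv.2 e) with rfl | rfl
      exacts [.inl (t1 τ), .inr rfl]
    · exact (h.ne_v _ _ _ _ e.symm).elim
  · obtain ⟨b, e | e⟩ := h2
    · exact (h.ne_w _ _ _ _ e).elim
    · rw [← mul_assoc, mul_left_inj] at e
      exact (h.ne_u _ _ _ _ e).elim

/-- `M = Q₁ Q₂` -/
theorem M_eq (h : Gz S τ u v z) {s : G} (hs : s ∈ h.M) : ∃ a ∈ h.flp.Q, ∃ b ∈ h.Q, s = a * b := by
  have g := h.toGs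
  obtain ⟨ρ, r, -⟩ := h.rho
  have k : ∀ a b : K, IsSquare (a * b) → ∃ p ∈ h.flp.Q, ∃ q ∈ h.Q, τ (a, b) = p * q := by
    rintro a b ⟨c, e⟩
    refine ⟨τ (c, c), h.memQ'.2 ⟨c, .inl rfl⟩, τ (a * c⁻¹, (a * c⁻¹)⁻¹), ⟨_, .inl rfl⟩, ?_⟩
    rw [tm, g.teq]
    exact ⟨by rw [mul_left_comm, mul_inv_cancel, mul_one], by
      rw [mul_inv, inv_inv, mul_left_comm, ← e, inv_mul_cancel_left]⟩
  have k2 : ∀ {s p q : G}, (∃ a ∈ h.flp.Q, ∃ b ∈ h.Q, s = a * b) → p ∈ h.flp.Q → q ∈ h.Q →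
      ∃ a ∈ h.flp.Q, ∃ b ∈ h.Q, s * (p * q) = a * b := by
    rintro _ p q ⟨a, ha, b, hb, rfl⟩ hp hq
    exact ⟨a * p, mul_mem ha hp, b * q, mul_mem hb hq, by
      rw [mul_assoc, ← mul_assoc b, ← h.Q_comm hp hb]; simp only [mul_assoc]⟩
  have n1 : τ (1, z * 1) * (u * v) ∈ h.flp.Q := h.memQ'.2 ⟨1, .inr rfl⟩
  have n2 : τ (1, z * 1⁻¹) * v ∈ h.Q := ⟨1, .inr rfl⟩
  have zq : ∀ {a b : K}, IsSquare (a * b) → IsSquare (a * (b * z)) := fun {a b} e => by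
    rw [← mul_assoc]; exact e.mul h.zsq
  obtain ⟨a, b, e, rfl | rfl | rfl | rfl⟩ := hs
  · exact k a b e
  · have := k2 (k (a * z) (b * z) (by rw [mul_mul_mul_comm]; exact e.mul ⟨_, rfl⟩)) n1 n2
    simpa only [mul_assoc, g.ut, g.vt', g.vv, tm', tm, mul_one, one_mul, inv_one, h.zi, h.zz] using this
  · have := k2 (k a (b * z) (zq e)) (one_mem _) n2
    simpa only [mul_assoc, tm', mul_one, one_mul, inv_one, h.zz] using this
  · have := k2 (k a (b * z) (zq e)) n1 (one_mem _)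
    simpa only [mul_assoc, tm', mul_one, one_mul, inv_one, h.zz] using this

/-- elements of `M` with square `t` lie in `Q₁` or `Q₂` -/
theorem sqt (h : Gz S τ u v z) {s : G} (hs : s ∈ h.M) (e : s * s = τ (z, z)) : s ∈ h.flp.Q ∨ s ∈ h.Q := by
  obtain ⟨a, ha, b, hb, rfl⟩ := h.M_eq hs
  have e2 : a * a * (b * b) = τ (z, z) := by
    rw [← e, mul_assoc, mul_assoc, ← mul_assoc b, ← h.Q_comm ha hb, mul_assoc]
  have e3 : a * a = τ (z, z) * (b * b)⁻¹ := by rw [← e2, mul_inv_cancel_right]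
  rcases h.Q_inf (mul_mem ha ha) (e3 ▸ mul_mem h.tQ (inv_mem (mul_mem hb hb))) with e4 | e4
  · right
    rcases h.Q_inv' ha e4 with rfl | rfl
    exacts [mul_mem (one_mem _) hb, mul_mem h.tQ hb]
  · left
    rw [e4, mul_eq_left] at e2
    rcases h.Q_inv hb e2 with rfl | rfl
    exacts [mul_mem ha (one_mem _), mul_mem ha h.tQ']

/-- the product of elements with square `t` from different factors is a noncentral involution -/
theorem prodQ (h : Gz S τ u v z) {a b : G} (ha : a ∈ h.flp.Q) (hb : b ∈ h.Q) (ea : a * a = τ (z, z))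
    (eb : b * b = τ (z, z)) : a * b * (a * b) = 1 ∧ a * b ≠ 1 ∧ a * b ≠ τ (z, z) := by
  have k : a ∉ h.Q := fun e => by
    rcases h.Q_inf ha e with rfl | rfl
    · exact h.t_ne (by rw [← ea, one_mul])
    · exact h.t_ne (by rw [← ea, h.tt])
  refine ⟨?_, fun e => k ?_, fun e => k ?_⟩
  · rw [mul_assoc, ← mul_assoc b, ← h.Q_comm ha hb, mul_assoc, ← mul_assoc, ea, eb, h.tt]
  · rw [eq_inv_of_mul_eq_one_left e]; exact inv_mem hb
  · rw [eq_mul_inv_of_mul_eq e]; exact mul_mem h.tQ (inv_mem hb)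

/-- `M` is generated by its noncentral involutions -/
theorem M_gen (h : Gz S τ u v z) {H : Subgroup G}
    (hH : ∀ s ∈ h.M, s * s = 1 → s ≠ 1 → s ≠ τ (z, z) → s ∈ H) : h.M ≤ H := by
  have g := h.toGs
  have k : ∀ a b : K, IsSquare (a * b) → τ (a, b) * u ∈ H := fun a b e =>
    hH _ ⟨a, b, e, .inr (.inl rfl)⟩ (by rw [mul_assoc, g.ut', g.uu, mul_one, tm]; simp [t1])
      (t1 τ ▸ h.ne_u _ _ _ _) (h.ne_u _ _ _ _)
  have hu : u ∈ H := by simpa [t1] using k 1 1 (by simp)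
  have hv : v ∈ H := hH v h.vM g.vv (by simpa [t1] using h.ne_v 1 1 1 1) (by simpa [t1] using h.ne_v 1 1 z z)
  have k' : ∀ a b : K, IsSquare (a * b) → τ (a, b) ∈ H := fun a b e => by
    simpa [g.uu, mul_assoc] using mul_mem (k a b e) hu
  rintro _ ⟨a, b, e, rfl | rfl | rfl | rfl⟩
  exacts [k' a b e, k a b e, mul_mem (k' a b e) hv, mul_mem (k' a b e) (mul_mem hu hv)]

/-- `Q` is generated by its elements with square `t` -/
theorem Q_gen (h : Gz S τ u v z) {H : Subgroup G} (hH : ∀ s ∈ h.Q, s * s = τ (z, z) → s ∈ H) : h.Q ≤ H := by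
  have g := h.toGs
  have k : ∀ a : K, τ (a, z * a⁻¹) * v ∈ H := fun a => hH _ ⟨a, .inr rfl⟩ (by
    rw [mul_assoc, g.vt', g.vv, mul_one, tm, mul_left_comm, mul_inv_cancel, mul_one, inv_mul_cancel_right])
  rintro _ ⟨a, rfl | rfl⟩
  · have := mul_mem (k a) (inv_mem (k 1))
    rwa [mul_inv_rev, g.vi, mul_assoc, g.vv', tinv, tm, inv_one, mul_one, mul_one, mul_comm z,
      mul_inv_cancel_right] at this
  · exact k a

/-- `S` normalizes `Q` -/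
theorem Q_nrm (h : Gz S τ u v z) {s q : G} (hs : s ∈ S) (hq : q ∈ h.Q) : s * q * s⁻¹ ∈ h.Q := by
  have g := h.toGs
  have k1 : ∀ (a b : K) {q : G}, q ∈ h.Q → τ (a, b) * q * (τ (a, b))⁻¹ ∈ h.Q := by
    rintro a b _ ⟨c, rfl | rfl⟩
    · exact ⟨c, .inl (by rw [tinv, tm, tm, mul_inv_cancel_comm, mul_inv_cancel_comm])⟩
    · refine ⟨a * c * b⁻¹, .inr ?_⟩
      rw [tinv, mul_assoc, mul_assoc, g.vt, tm', tm', mul_left_inj, g.teq]
      exact ⟨by rw [mul_assoc], by rw [mul_inv, mul_inv, inv_inv]; ac_rfl⟩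
  have k2 : ∀ {q : G}, q ∈ h.Q → u * q * u⁻¹ ∈ h.Q := by
    rintro _ ⟨c, rfl | rfl⟩
    · exact ⟨c⁻¹, .inl (by rw [g.ut, mul_inv_cancel_right])⟩
    · exact ⟨c⁻¹, .inr (by rw [g.ut', g.uv, ← mul_assoc, mul_inv_cancel_right, mul_inv, h.zi])⟩
  have k3 : ∀ {q : G}, q ∈ h.Q → v * q * v⁻¹ ∈ h.Q := by
    rintro _ ⟨c, rfl | rfl⟩
    · exact ⟨c⁻¹, .inl (by rw [g.vt, mul_inv_cancel_right, inv_inv])⟩
    · exact ⟨z * c⁻¹, .inr (by
        rw [g.vt', ← mul_assoc, mul_inv_cancel_right, mul_inv, inv_inv, h.zi, ← mul_assoc, h.zz, one_mul])⟩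
  obtain ⟨a, b, rfl | rfl | rfl | rfl⟩ := (h.mem _).1 hs
  · exact k1 a b hq
  · simpa only [mul_inv_rev, mul_assoc] using k1 a b (k2 hq)
  · simpa only [mul_inv_rev, mul_assoc] using k1 a b (k3 hq)
  · simpa only [mul_inv_rev, mul_assoc] using k1 a b (k2 (k3 hq))

end Gz

/-- the configuration in `C(t)` and in `C(t)/O(C(t))` -/
structure Hy [Finite G] (S : Sylow 2 G) (τ : K × K →* G) (u v : G) (z : K) (X : Subgroup G) : Prop where
  gz : Gz (S : Subgroup G) τ u v z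
  cen : ∀ g, g * τ (z, z) = τ (z, z) * g
  nml : X.Normal
  idx : X.index = 2
  inf : (S : Subgroup G) ⊓ X = gz.M
  fus : ∀ s ∈ gz.M, s * s = 1 → s ≠ 1 → s ≠ τ (z, z) → IsConj s (τ (z, 1))

theorem Hy.flp [Finite G] {S : Sylow 2 G} {X : Subgroup G} (h : Hy S τ u v z X) : Hy S (fl τ) u (u * v) z X :=
  ⟨h.gz.flp, h.gz.fl_t.symm ▸ h.cen, h.nml, h.idx, h.gz.flp_M.symm ▸ h.inf, by
    rw [h.gz.flp_M, h.gz.fl_t, h.gz.fl_y]; exact h.fus⟩

end Cfsg.Agent.H1.G2
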