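import Cfsg.Agent.H27.Mt0

set_option autoImplicit false
namespace Cfsg.Agent.H27.Mt
open Matrix Cfsg.Agent.H13

universe u
variable {G : Type*} [Group G] {F : Type} [Field F] (S : SzData G F) {E : Type*} [AddCommGroup E] [Module F E]
  {π : G →* (E →ₗ[F] E)}

/-- fixed by the centre of `U` -/
def e2W (π : G →* (E →ₗ[F] E)) (x : E) : Prop := ∀ b, π (S.u 0 b) x = x

def e2e : Fin 4 → F := ![1, 0, 0, 0]

include S in
theorem e2_two (x : E) : x + x = 0 := by
  have := S.charP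
  have two : (2 : F) = 0 := CharP.cast_eq_zero F 2
  rw [← two_smul F x, two, zero_smul]

theorem e2_mul (π : G →* (E →ₗ[F] E)) (g h : G) (x : E) : π g (π h x) = π (g * h) x := by
  rw [map_mul]; rfl

variable {S}

theorem e2W.ind {x : E} (h : e2W S π x) (a b : F) : π (S.u a b) x = π (S.u a 0) x := by
  conv_rhs => rw [← h b, e2_mul, S.u_mul]
  simp

theorem e2W.u {x : E} (h : e2W S π x) (a b : F) : e2W S π (π (S.u a b) x) := fun c => by
  rw [e2_mul, S.u_mul, h.ind, h.ind a b, zero_add]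

theorem e2W.add {x y : E} (h : e2W S π x) (h' : e2W S π y) : e2W S π (x + y) := fun c => by
  rw [map_add, h c, h' c]

theorem e2W.sub {x y : E} (h : e2W S π x) (h' : e2W S π y) : e2W S π (x - y) := fun c => by
  rw [map_sub, h c, h' c]

theorem e2W.smul {x : E} (h : e2W S π x) (r : F) : e2W S π (r • x) := fun c => by
  rw [map_smul, h c]

theorem e2W.d {x : E} (h : e2W S π x) (a : F) : e2W S π (D π (S.u a 0) x) := (h.u a 0).sub h

theorem e2W.h {x : E} (h : e2W S π x) (k : Fˣ) : e2W S π (π (S.h k) x) := fun c => by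
  have hk : (k : F) * S.θ k ≠ 0 := mul_ne_zero k.ne_zero ((map_ne_zero _).2 k.ne_zero)
  have := S.h_mul_u k 0 (c / (k * S.θ k))
  rw [mul_zero, mul_div_cancel₀ _ hk] at this
  rw [e2_mul, ← this, ← e2_mul, h]

theorem e2W.dd {x : E} (h : e2W S π x) (a a' : F) :
    D π (S.u a 0) (D π (S.u a' 0) x) = π (S.u (a + a') 0) x - π (S.u a 0) x - π (S.u a' 0) x + x := by
  simp only [D_apply, map_sub]
  rw [e2_mul, S.u_mul, h.ind]
  abel

theorem e2W.comm {x : E} (h : e2W S π x) (a a' : F) :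
    D π (S.u a 0) (D π (S.u a' 0) x) = D π (S.u a' 0) (D π (S.u a 0) x) := by
  rw [h.dd, h.dd, add_comm a a']; abel

theorem e2W.sq {x : E} (h : e2W S π x) (a : F) : D π (S.u a 0) (D π (S.u a 0) x) = 0 := by
  have := S.charP
  rw [h.dd, CharTwo.add_self_eq_zero, S.u_zero, map_one, Module.End.one_apply]
  have h1 := e2_two S x
  have h2 := e2_two S (π (S.u a 0) x)
  calc x - π (S.u a 0) x - π (S.u a 0) x + x = (x + x) - (π (S.u a 0) x + π (S.u a 0) x) := by abel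
    _ = 0 := by rw [h1, h2, sub_zero]

theorem e2W.dadd {x : E} (h : e2W S π x) (a a' : F) : D π (S.u (a + a') 0) x =
    D π (S.u a 0) x + D π (S.u a' 0) x + D π (S.u a 0) (D π (S.u a' 0) x) := by
  rw [h.dd]; simp only [D_apply]; abel

theorem e2_d0 (x : E) : D π (S.u 0 0) x = 0 := by rw [D_apply, S.u_zero, map_one]; simp

theorem e2_natW (τ : F →+* F) {z : Fin 4 → F} (h : nat S τ (S.u 0 1) z = z) : z 2 = 0 ∧ z 3 = 0 := by
  rw [nat_u] at h
  have h0 := congrFun h 0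
  have h1 := congrFun h 1
  simp at h0 h1
  rw [h1] at h0
  exact ⟨by simpa using h0, h1⟩

theorem e2_natd (τ : F →+* F) {z : Fin 4 → F} (h : z 2 = 0 ∧ z 3 = 0) (a : F) :
    nat S τ (S.u a 0) z - z = (τ a * z 1) • (e2e : Fin 4 → F) := by
  rw [nat_u]
  ext i
  fin_cases i <;> simp [e2e, h.1, h.2]

variable {τ₁ τ₂ : F →+* F} {j : (Fin 4 → F) →ₗ[F] E} {pr : E →ₗ[F] (Fin 4 → F)}

theorem e2_prW (T : Two S τ₁ τ₂ π j pr) {x : E} (h : e2W S π x) : pr x 2 = 0 ∧ pr x 3 = 0 :=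
  e2_natW τ₁ (by rw [← T.pG, h])

theorem e2_jW (T : Two S τ₁ τ₂ π j pr) {z : Fin 4 → F} (h : e2W S π (j z)) : z 2 = 0 ∧ z 3 = 0 :=
  e2_natW τ₂ (T.jinj (by rw [T.jG, h]))

theorem e2_prd (T : Two S τ₁ τ₂ π j pr) {x : E} (h : e2W S π x) (a : F) :
    pr (D π (S.u a 0) x) = (τ₁ a * pr x 1) • (e2e : Fin 4 → F) := by
  rw [D_apply, map_sub, T.pG, e2_natd τ₁ (e2_prW T h)]

theorem e2_jd (T : Two S τ₁ τ₂ π j pr) {z : Fin 4 → F} (h : e2W S π (j z)) (a : F) :
    D π (S.u a 0) (j z) = (τ₂ a * z 1) • j e2e := by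
  rw [D_apply, ← T.jG, ← map_sub, e2_natd τ₂ (e2_jW T h), map_smul]

theorem e2_je (T : Two S τ₁ τ₂ π j pr) {c : F} (h : c • j e2e = 0) : c = 0 := by
  rw [← map_smul, map_eq_zero_iff _ T.jinj] at h
  simpa [e2e] using congrFun h 0

/-- an element of `W` killed by `pr` and by some `D_a` is killed by all `D_a` -/
theorem e2_kill (T : Two S τ₁ τ₂ π j pr) {x : E} (h : e2W S π x) (h0 : pr x = 0) {a : F} (ha : a ≠ 0)
    (hd : D π (S.u a 0) x = 0) : ∃ c : F, x = c • j e2e := by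
  obtain ⟨z, rfl⟩ := (T.ex x).1 h0
  rw [e2_jd T h] at hd
  have h1 : z 1 = 0 := (mul_eq_zero.1 (e2_je T hd)).resolve_left ((map_ne_zero τ₂).2 ha)
  have h2 := e2_jW T h
  refine ⟨z 0, ?_⟩
  rw [← map_smul]
  congr 1
  ext i
  fin_cases i <;> simp [e2e, h1, h2.1, h2.2]

theorem e2_dje (T : Two S τ₁ τ₂ π j pr) (a b : F) : D π (S.u a b) (j e2e) = 0 := by
  rw [D_apply, ← T.jG, nat_u, sub_eq_zero]
  congr 1
  ext i
  fin_cases i <;> simp [e2e]

theorem e2_H (T : Two S τ₁ τ₂ π j pr) {x : E} (h : e2W S π x) (a a' : F) :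
    ∃ c : F, D π (S.u a 0) (D π (S.u a' 0) x) = c • j e2e := by
  by_cases ha : a = 0
  · exact ⟨0, by rw [ha, e2_d0, zero_smul]⟩
  refine e2_kill T ((h.d a').d a) ?_ ha ((h.d a').sq a)
  rw [e2_prd T (h.d a'), e2_prd T h]
  simp [e2e]

theorem e2_tri (T : Two S τ₁ τ₂ π j pr) {x : E} (h : e2W S π x) (a a' a'' : F) :
    D π (S.u a 0) (D π (S.u a' 0) (D π (S.u a'' 0) x)) = 0 := by
  obtain ⟨c, hc⟩ := e2_H T h a' a''
  rw [hc, map_smul, e2_dje T, smul_zero]

theorem e2_Hadd (T : Two S τ₁ τ₂ π j pr) {x : E} (h : e2W S π x) (a b a' : F) :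
    D π (S.u (a + b) 0) (D π (S.u a' 0) x) =
      D π (S.u a 0) (D π (S.u a' 0) x) + D π (S.u b 0) (D π (S.u a' 0) x) := by
  rw [(h.d a').dadd, e2_tri T h, add_zero]

theorem e2_fin (h1 : I1 S π) (H : ∀ x, e2W S π x → ∀ a a', D π (S.u a 0) (D π (S.u a' 0) x) = 0) : I2 S π := by
  intro a b a' b' c x
  have hW : e2W S π (D π (S.u 0 c) x) := fun b => sub_eq_zero.1 (h1 b c x)
  have e1 : D π (S.u a' b') (D π (S.u 0 c) x) = D π (S.u a' 0) (D π (S.u 0 c) x) := by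
    rw [D_apply, hW.ind]; rfl
  rw [e1, D_apply, (hW.d a').ind]
  exact H _ hW a a'

variable (S)

theorem e2m {τ₁ τ₂ j pr} (T : Two S τ₁ τ₂ π j pr) (hne : τ₁ ≠ τ₂) (h1 : I1 S π) : I2 S π := by
  have := S.charP
  refine e2_fin h1 fun x h => ?_
  have key : ∀ a a', τ₁ a' * τ₂ a + τ₁ a * τ₂ a' ≠ 0 → D π (S.u a 0) (D π (S.u a' 0) x) = 0 := by
    intro a a' hδ
    by_cases ha : a = 0
    · rw [ha, e2_d0]
    have hP : e2W S π (τ₁ a' • D π (S.u a 0) x + τ₁ a • D π (S.u a' 0) x) :=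
      ((h.d a).smul _).add ((h.d a').smul _)
    have h0 : pr (τ₁ a' • D π (S.u a 0) x + τ₁ a • D π (S.u a' 0) x) = 0 := by
      rw [map_add, map_smul, map_smul, e2_prd T h, e2_prd T h, smul_smul, smul_smul, ← add_smul]
      have : τ₁ a' * (τ₁ a * pr x 1) + τ₁ a * (τ₁ a' * pr x 1) = 0 := by
        rw [mul_left_comm]; exact CharTwo.add_self_eq_zero _
      rw [this, zero_smul]
    obtain ⟨z, hz⟩ := (T.ex _).1 h0
    have e1 : D π (S.u a 0) (j z) = τ₁ a • D π (S.u a 0) (D π (S.u a' 0) x) := by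
      rw [hz, map_add, map_smul, map_smul, h.sq, smul_zero, zero_add]
    have e2 : D π (S.u a' 0) (j z) = τ₁ a' • D π (S.u a 0) (D π (S.u a' 0) x) := by
      rw [hz, map_add, map_smul, map_smul, h.sq, smul_zero, add_zero, h.comm]
    rw [← hz] at hP
    rw [e2_jd T hP] at e1 e2
    have e3 : ((τ₁ a' * τ₂ a + τ₁ a * τ₂ a') * z 1) • j e2e = 0 := by
      rw [add_mul, add_smul, mul_assoc, mul_assoc, mul_smul, mul_smul (τ₁ a), e1, e2, smul_comm]
      exact e2_two S _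
    have z1 : z 1 = 0 := (mul_eq_zero.1 (e2_je T e3)).resolve_left hδ
    rw [z1, mul_zero, zero_smul] at e1
    exact (smul_eq_zero.1 e1.symm).resolve_left ((map_ne_zero τ₁).2 ha)
  intro a a'
  by_cases ha' : a' = 0
  · rw [ha', e2_d0, map_zero]
  by_cases hδ : τ₁ a' * τ₂ a + τ₁ a * τ₂ a' = 0
  swap
  · exact key a a' hδ
  obtain ⟨b, hb⟩ : ∃ b, τ₁ a' * τ₂ b + τ₁ b * τ₂ a' ≠ 0 := by
    by_contra hc
    push Not at hc
    have e1 := hc 1
    rw [map_one, map_one, mul_one, one_mul, CharTwo.add_eq_zero] at e1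
    apply hne
    ext b
    have e2 := hc b
    rw [CharTwo.add_eq_zero, ← e1, mul_comm (τ₁ b)] at e2
    exact (mul_left_cancel₀ ((map_ne_zero τ₁).2 ha') e2).symm
  have e := key (a + b) a' (by
    rw [map_add, map_add]
    intro e
    apply hb
    linear_combination e - hδ)
  rwa [e2_Hadd T h, key b a' hb, add_zero] at e

theorem e2s {τ j pr} (T : Two S τ τ π j pr) (h1 : I1 S π) : I2 S π := by
  have := S.charP
  refine e2_fin h1 ?_
  have z0 : ∀ x, e2W S π x → pr x 1 = 0 → ∀ a a', D π (S.u a 0) (D π (S.u a' 0) x) = 0 := by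
    intro x h hx a a'
    by_cases ha' : a' = 0
    · rw [ha', e2_d0, map_zero]
    obtain ⟨c, hc⟩ := e2_kill T (h.d a') (by rw [e2_prd T h, hx, mul_zero, zero_smul]) ha' (h.sq a')
    rw [hc, map_smul, e2_dje T, smul_zero]
  have red : ∀ y, e2W S π y → pr y 1 = 1 → ∀ x, e2W S π x → ∀ a a',
      D π (S.u a 0) (D π (S.u a' 0) x) = pr x 1 • D π (S.u a 0) (D π (S.u a' 0) y) := by
    intro y hy hy1 x h a a'
    have := z0 (x - pr x 1 • y) (h.sub (hy.smul _)) (by simp [hy1]) a a'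
    rwa [map_sub, map_sub, map_smul, map_smul, sub_eq_zero] at this
  intro x h
  by_cases hx : pr x 1 = 0
  · exact z0 x h hx
  have hy : e2W S π ((pr x 1)⁻¹ • x) := h.smul _
  have hy1 : pr ((pr x 1)⁻¹ • x) 1 = 1 := by simp [hx]
  generalize (pr x 1)⁻¹ • x = y at hy hy1
  choose η hη using e2_H T hy
  have inj : ∀ c c' : F, c • j e2e = c' • j e2e → c = c' := fun c c' e =>
    sub_eq_zero.1 (e2_je T (by rw [sub_smul, e, sub_self]))
  have a1 : ∀ a b c, η (a + b) c = η a c + η b c := fun a b c =>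
    inj _ _ (by rw [add_smul, ← hη, ← hη, ← hη, e2_Hadd T hy])
  have sy : ∀ a b, η a b = η b a := fun a b => inj _ _ (by rw [← hη, ← hη, hy.comm])
  have hz := alt0 η τ a1 (fun a b c => by rw [sy, a1, sy b, sy c])
    (fun a => inj _ _ (by rw [← hη, hy.sq, zero_smul])) (fun k a b hk => by
      let k' := Units.mk0 k hk
      have cj : ∀ c, ∀ v, e2W S π v → D π (S.u (k * c) 0) (π (S.h k') v) = π (S.h k') (D π (S.u c 0) v) := by
        intro c v _
        have := S.h_mul_u k' c 0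
        rw [mul_zero] at this
        rw [D_apply, D_apply, map_sub, e2_mul, e2_mul, this]
        rfl
      have e1 := red y hy hy1 _ (hy.h k') (k * a) (k * b)
      rw [cj b y hy, cj a _ (hy.d b), hη, hη, map_smul, ← T.jG, T.pG, nat_h, nat_h] at e1
      have e2 : (![τ ((k' : F) ^ 2 ^ S.m * k') * (e2e : Fin 4 → F) 0, τ ((k' : F) ^ 2 ^ S.m) * (e2e : Fin 4 → F) 1,
          (τ ((k' : F) ^ 2 ^ S.m))⁻¹ * (e2e : Fin 4 → F) 2,
          (τ ((k' : F) ^ 2 ^ S.m * k'))⁻¹ * (e2e : Fin 4 → F) 3] : Fin 4 → F) =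
          τ ((k' : F) ^ 2 ^ S.m * k') • (e2e : Fin 4 → F) := by
        ext i
        fin_cases i <;> simp [e2e]
      rw [e2, map_smul, smul_smul, smul_smul] at e1
      have e3 := inj _ _ e1
      simp only [cons_val_one, cons_val_zero, hy1, mul_one, map_mul] at e3
      have h4 : τ ((k' : F) ^ 2 ^ S.m) ≠ 0 := (map_ne_zero τ).2 (pow_ne_zero _ hk)
      apply mul_left_cancel₀ h4
      rw [← e3]
      show _ = _ * (τ k' * _)
      ring) S
  intro a a'
  rw [red y hy hy1 x h, hη, hz, zero_smul, smul_zero]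

end Cfsg.Agent.H27.Mt
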