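import Cfsg.Agent.H27.Mt0

set_option autoImplicit false
namespace Cfsg.Agent.H27.Mt
open Matrix Cfsg.Agent.H13

universe u
variable {G : Type*} [Group G] {F : Type} [Field F] (S : SzData G F) {E : Type*} [AddCommGroup E] [Module F E]
  {π : G →* (E →ₗ[F] E)}

theorem hw_fix {P M : Type*} [Group P] (hP : IsPGroup 2 P) [AddCommGroup M] [Finite M] [Nontrivial M]
    (two : ∀ x : M, x + x = 0) (σ : P → M → M) (h1 : ∀ x, σ 1 x = x)
    (hm : ∀ g h x, σ (g * h) x = σ g (σ h x)) (h0 : ∀ g, σ g 0 = 0) : ∃ v, v ≠ 0 ∧ ∀ g, σ g v = v := by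
  let _ : MulAction P M := { smul := σ, one_smul := h1, mul_smul := hm }
  obtain ⟨x, hx⟩ := exists_ne (0 : M)
  have ho : addOrderOf x = 2 := addOrderOf_eq_prime (by rw [two_smul, two]) hx
  obtain ⟨b, hb, hne⟩ := hP.exists_fixed_point_of_prime_dvd_card_of_fixed_point M
    (ho ▸ addOrderOf_dvd_natCard x) (a := 0) (fun g => h0 g)
  exact ⟨b, hne.symm, hb⟩

include S in
theorem hw_two {M : Type*} [AddCommGroup M] [Module F M] (x : M) : x + x = 0 := by
  have := S.charP
  have two : (2 : F) = 0 := CharP.cast_eq_zero F 2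
  rw [← two_smul F x, two, zero_smul]

theorem hw_mul (π : G →* (E →ₗ[F] E)) (g h : G) (x : E) : π (g * h) x = π g (π h x) := by
  rw [map_mul]; rfl

theorem hw_eig (X : Submodule F E) (hX : ∀ g, ∀ x ∈ X, π g x ∈ X) {v : E} (hv : v ∈ X) (v0 : v ≠ 0)
    (hu : ∀ a b, π (S.u a b) v = v) :
    ∃ v' ∈ X, v' ≠ 0 ∧ (∀ a b, π (S.u a b) v' = v') ∧ ∃ χ : Fˣ → F, ∀ k, π (S.h k) v' = χ k • v' := by
  classical
  have := S.finiteF
  have := S.charP
  let _ := Fintype.ofFinite Fˣ
  let n := Fintype.card Fˣ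
  let V : ℕ → E := fun i => ∑ k : Fˣ, ((k⁻¹ : Fˣ) : F) ^ i • π (S.h k) v
  have hs : ∑ i ∈ Finset.range n, V i = v := by
    simp only [V]
    rw [Finset.sum_comm]
    simp only [← Finset.sum_smul]
    rw [Finset.sum_eq_single (1 : Fˣ)]
    · have hn : Odd n := by
        have := S.odd_q_sub_one
        rwa [← S.card_units, Nat.card_eq_fintype_card] at this
      obtain ⟨r, hr⟩ := hn
      have two : (2 : F) = 0 := CharP.cast_eq_zero F 2
      simp [hr, two]
    · intro k _ hk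
      have h1 := mul_geom_sum (((k⁻¹ : Fˣ) : F)) n
      have h2 : ((k⁻¹ : Fˣ) : F) ^ n = 1 := by
        rw [← Units.val_pow_eq_pow_val, pow_card_eq_one, Units.val_one]
      rw [h2, sub_self] at h1
      have h3 : ((k⁻¹ : Fˣ) : F) - 1 ≠ 0 := fun e => hk (inv_eq_one.1 (Units.ext (sub_eq_zero.1 e)))
      rw [(mul_eq_zero.1 h1).resolve_left h3, zero_smul]
    · simp
  obtain ⟨i, hi⟩ : ∃ i, V i ≠ 0 := by
    by_contra hc
    push Not at hc
    apply v0
    rw [← hs]
    exact Finset.sum_eq_zero fun i _ => hc i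
  refine ⟨V i, X.sum_mem fun k _ => X.smul_mem _ (hX _ _ hv), hi, fun a b => ?_,
    fun l => (l : F) ^ i, fun l => ?_⟩
  · simp only [V, map_sum, map_smul]
    refine Finset.sum_congr rfl fun k _ => ?_
    have hk : (k : F) * S.θ k ≠ 0 := mul_ne_zero k.ne_zero ((map_ne_zero _).2 k.ne_zero)
    have := S.h_mul_u k (a / k) (b / (k * S.θ k))
    rw [mul_div_cancel₀ _ hk, mul_div_cancel₀ _ k.ne_zero] at this
    rw [← hw_mul, ← this, hw_mul, hu]
  · simp only [V, map_sum, map_smul, Finset.smul_sum]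
    refine Fintype.sum_equiv (Equiv.mulLeft l) _ _ fun k => ?_
    rw [← hw_mul, ← map_mul, smul_smul, Equiv.coe_mulLeft, ← mul_pow]
    congr 2
    rw [← Units.val_mul]
    congr 1
    rw [mul_inv, mul_inv_cancel_left]

theorem hw [Finite E] [Nontrivial E] (h : Nz π) : ∃ v f χ, HW S π v f χ := by
  have := S.finiteF
  have : Finite (Submodule F E) := Finite.of_injective _ SetLike.coe_injective
  obtain ⟨X, ⟨X0, hX⟩, hmin⟩ := (wellFounded_lt (α := Submodule F E)).has_min
    {X | X ≠ ⊥ ∧ ∀ g, ∀ x ∈ X, π g x ∈ X} ⟨⊤, top_ne_bot, fun _ _ _ => trivial⟩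
  have min : ∀ Y : Submodule F E, Y ≤ X → (∀ g, ∀ x ∈ Y, π g x ∈ Y) → Y = ⊥ ∨ Y = X := fun Y hY hi => by
    by_cases h0 : Y = ⊥
    · exact Or.inl h0
    · exact Or.inr (by_contra fun hne => hmin Y ⟨h0, hi⟩ (lt_of_le_of_ne hY hne))
  have : Nontrivial X := Submodule.nontrivial_iff_ne_bot.2 X0
  obtain ⟨v₀, v00, hv₀⟩ := hw_fix S.isPGroup_U (hw_two S (M := X)) (fun g x => ⟨π g x, hX _ _ x.2⟩)
    (fun x => Subtype.ext (by simp)) (fun g h x => Subtype.ext (hw_mul π _ _ _)) (fun g => Subtype.ext (by simp))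
  obtain ⟨v, hvX, v0, hu, χ, hχ⟩ := hw_eig S X hX v₀.2 (fun e => v00 (Subtype.ext e))
    (fun a b => congrArg Subtype.val (hv₀ ⟨_, S.u_mem_U a b⟩))
  have hU : ∀ g ∈ S.U, π g v = v := by
    rintro _ ⟨a, b, rfl⟩; exact hu a b
  have hsp : Submodule.span F (Set.range fun g => π g v) = X := by
    refine (min _ (Submodule.span_le.2 ?_) ?_).resolve_left fun e => v0 ?_
    · rintro _ ⟨g, rfl⟩; exact hX _ _ hvX
    · intro g x hx
      induction hx using Submodule.span_induction with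
      | mem x hx =>
        obtain ⟨g', rfl⟩ := hx
        exact Submodule.subset_span ⟨g * g', hw_mul π _ _ _⟩
      | zero => simp
      | add x y _ _ hx hy => rw [map_add]; exact Submodule.add_mem _ hx hy
      | smul c x _ hx => rw [map_smul]; exact Submodule.smul_mem _ _ hx
    · have : v ∈ Submodule.span F (Set.range fun g => π g v) := Submodule.subset_span ⟨1, by simp⟩
      rwa [e] at this
  have : Finite (Module.Dual F X) := Finite.of_injective _ DFunLike.coe_injective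
  obtain ⟨f₀, f00, hf₀⟩ := hw_fix S.isPGroup_U (hw_two S (M := Module.Dual F X))
    (fun g f => f ∘ₗ (π (S.w * (g : G)⁻¹ * S.w)).restrict (hX _))
    (fun f => by
      ext x
      simp only [LinearMap.comp_apply]
      congr 1
      apply Subtype.ext
      simp [S.w_mul_w])
    (fun g g' f => by
      ext x
      simp only [LinearMap.comp_apply]
      congr 1
      apply Subtype.ext
      simp only [LinearMap.coe_restrict_apply]
      rw [← hw_mul]
      congr 2
      calc S.w * ((g * g' : S.U) : G)⁻¹ * S.w = S.w * (g' : G)⁻¹ * 1 * (g : G)⁻¹ * S.w := by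
            rw [Subgroup.coe_mul]; group
        _ = _ := by rw [← S.w_mul_w]; group)
    (fun g => by simp)
  obtain ⟨f₁, hf₁⟩ := LinearMap.exists_extend f₀
  have e1 : ∀ x : X, f₁ x = f₀ x := fun x => by rw [← hf₁]; rfl
  have inv : ∀ g ∈ S.U, ∀ x ∈ X, f₁ (π (S.w * g * S.w) x) = f₁ x := fun g hg x hx => by
    have := congrArg (fun f : Module.Dual F X => f ⟨x, hx⟩) (hf₀ ⟨g, hg⟩⁻¹)
    simp only [LinearMap.comp_apply, ← e1, LinearMap.coe_restrict_apply] at this
    simpa using this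
  have fv : f₁ v ≠ 0 := fun e => by
    have hu1 := S.u_mem_U 1 0
    have hw : f₁ (π S.w v) = 0 := by
      have r := congrArg (fun y => f₁ (π S.w y)) (rel5 S h v)
      simp only [map_add, map_zero] at r
      have a1 : π S.w (π (S.w * S.u 1 0 ^ 2) v) = v := by
        rw [← hw_mul, ← mul_assoc, S.w_mul_w, one_mul, hU _ (S.U.pow_mem hu1 2)]
      have a2 : ∀ g ∈ S.U, ∀ g' ∈ S.U, f₁ (π S.w (π (g * S.w * g') v)) = 0 := fun g hg g' hg' => by
        rw [hw_mul π _ g', hU _ hg', ← hw_mul, ← mul_assoc, inv g hg v hvX, e]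
      have a3 := a2 _ (S.U.pow_mem hu1 2) 1 S.U.one_mem
      rw [mul_one] at a3
      rw [a1, e, a2 _ hu1 _ hu1, a2 _ (S.U.pow_mem hu1 3) _ (S.U.pow_mem hu1 3), a3] at r
      simpa using r
    have all : ∀ g, f₁ (π g v) = 0 := fun g => by
      have hg : g = S.w * (S.w * g) := by rw [← mul_assoc, S.w_mul_w, one_mul]
      rcases S.bruhat (S.w * g) with ⟨a, b, k, e2⟩ | ⟨a, b, c, d, k, e2⟩
      · rw [hg, e2, hw_mul, hw_mul, hχ, map_smul, hu, map_smul, map_smul, hw, smul_zero]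
      · rw [hg, e2, ← mul_assoc, ← mul_assoc S.w, hw_mul, hw_mul π (S.u c d), hχ, map_smul, hu,
          inv _ (S.u_mem_U a b) _ (X.smul_mem _ hvX), map_smul, e, smul_zero]
    apply f00
    ext x
    have hx : (x : E) ∈ LinearMap.ker f₁ := by
      have : Submodule.span F (Set.range fun g => π g v) ≤ LinearMap.ker f₁ :=
        Submodule.span_le.2 (by rintro _ ⟨g, rfl⟩; exact all g)
      exact this (hsp ▸ x.2)
    rw [← e1]; exact hx
  refine ⟨v, (f₁ v)⁻¹ • f₁, χ, hu, hχ, by simp [fv], fun a b x hx => ?_, fun x hx hf => ?_⟩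
  · rw [hsp] at hx
    simp [inv _ (S.u_mem_U a b) x hx, -map_mul]
  · rw [hsp] at hx
    let Y : Submodule F E :=
      { carrier := {y | y ∈ X ∧ ∀ g, f₁ (π g y) = 0}
        add_mem' := fun {a b} ha hb => ⟨X.add_mem ha.1 hb.1, fun g => by simp [ha.2 g, hb.2 g]⟩
        zero_mem' := ⟨X.zero_mem, fun g => by simp⟩
        smul_mem' := fun c a ha => ⟨X.smul_mem c ha.1, fun g => by simp [ha.2 g]⟩ }
    rcases min Y (fun y hy => hy.1) (fun g y hy => ⟨hX _ _ hy.1, fun g' => by
      rw [← hw_mul]; exact hy.2 _⟩) with e | e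
    · have : x ∈ Y := ⟨hx, fun g => by simpa [fv] using hf g⟩
      rwa [e] at this
    · have : v ∈ Y := e ▸ hvX
      exact absurd (by simpa using this.2 1) fv

end Cfsg.Agent.H27.Mt
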