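import Mathlib
import Cfsg.Agent.H28.Eppo
import Cfsg.Agent.H3.Two

/-! A `2`-group with an operator of order three fixing only a central involution. -/

set_option autoImplicit false
set_option linter.unusedSectionVars false

namespace Cfsg.Agent.H1.Six

open Cfsg Subgroup Cfsg.Agent.FT Cfsg.Agent.H3 Cfsg.Agent.H28
open scoped commutatorElement

variable {G : Type*} [Group G] [Finite G] {t y a b c f s u : G} {Q A B P K S : Subgroup G}

theorem cjcomm (g a b : G) : g * ⁅a, b⁆ * g⁻¹ = ⁅g * a * g⁻¹, g * b * g⁻¹⁆ := by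
  simp only [commutatorElement_def]; group

theorem nrm3 (hn : y ∈ N(K)) (hy : y ^ 3 = 1) (hf : ∀ k ∈ K, k * y = y * k → k = 1) (ha : a ∈ K) :
    a * (y * a * y⁻¹) * (y⁻¹ * a * y) = 1 ∧ a * (y * a * y⁻¹) = y * a * y⁻¹ * a := by
  have := comm_conj_of_cube hy (cube_of_fpf hn hy hf ha) (cube_of_fpf hn hy hf (inv_mem ha))
  have e : y * y = y⁻¹ := eq_inv_of_mul_eq_one_left (by rw [← hy, pow_succ, sq])
  rwa [e, inv_inv] at this

/-- the key lemma on commutators with at most two values -/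
theorem ll0 (hn : y ∈ N(K)) (hy : y ^ 3 = 1) (hf : ∀ k ∈ K, k * y = y * k → k = 1) (PK : P ≤ K) (yP : y ∈ N(P))
    (hc : c ∈ K) (ff : f * f = 1) (h : ∀ a ∈ P, ⁅c, a⁆ = 1 ∨ ⁅c, a⁆ = f) : ∀ a ∈ P, ⁅c, a⁆ = 1 := by
  have z := neumann hn hy hf
  have yy : ∀ w, y * (y * w * y⁻¹) * y⁻¹ = y⁻¹ * w * y := fun w => by
    have e : y * y = y⁻¹ := eq_inv_of_mul_eq_one_left (by rw [← hy, pow_succ, sq])
    rw [show y * (y * w * y⁻¹) * y⁻¹ = (y * y) * w * (y * y)⁻¹ by group, e, inv_inv]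
  have key : ∀ a ∈ P, ⁅c, a⁆ ≠ 1 → ⁅c, y⁻¹ * a * y⁆ = f ∧ ⁅c, y * a * y⁻¹⁆ = f := fun a ha h1 => by
    have e := (h a ha).resolve_left h1
    have fK : f ∈ K := e ▸ der_le K (commutator_mem_commutator hc (PK ha))
    have nf : y * f * y⁻¹ ≠ f := fun x => h1 (e.trans (hf f fK (mul_inv_eq_iff_eq_mul.1 x).symm))
    have nf' : y⁻¹ * f * y ≠ f := fun x => nf (by nth_rw 1 [← x]; group)
    have r := congrArg (⁅·, a⁆) (nrm3 hn hy hf hc).1
    simp only [commutatorElement_one_left] at r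
    rw [comm_mul_left z (mul_mem hc (conj_mem hn hc)) (conj_mem' hn hc) (PK ha),
      comm_mul_left z hc (conj_mem hn hc) (PK ha), e, show ⁅y * c * y⁻¹, a⁆ = y * ⁅c, y⁻¹ * a * y⁆ * y⁻¹ by
        simp only [commutatorElement_def]; group, show ⁅y⁻¹ * c * y, a⁆ = y⁻¹ * ⁅c, y * a * y⁻¹⁆ * y by
        simp only [commutatorElement_def]; group] at r
    have fi : f⁻¹ = f := inv_eq_of_mul_eq_one_right ff
    rcases h _ (conj_mem' yP ha) with x | x <;> rcases h _ (conj_mem yP ha) with w | w <;> rw [x, w] at r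
    · exact (h1 (e.trans (by simpa using r))).elim
    · exact (nf' (by rw [← congrArg (_ = ·) fi, eq_inv_iff_mul_eq_one]; simpa using r)).elim
    · exact (nf (by rw [← congrArg (_ = ·) fi, eq_inv_iff_mul_eq_one]; simpa using r)).elim
    · exact ⟨x, w⟩
  intro a ha
  by_contra h1
  have r := congrArg (⁅c, ·⁆) (nrm3 hn hy hf (PK ha)).1
  simp only [commutatorElement_one_right] at r
  have m := PK ha
  rw [comm_mul_right z (mul_mem m (conj_mem hn m)) (conj_mem' hn m) hc, comm_mul_right z m (conj_mem hn m) hc,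
    (key a ha h1).1, (key a ha h1).2, (h a ha).resolve_left h1, ff, one_mul] at r
  exact h1 (((h a ha).resolve_left h1).trans r)

/-- the operator `y` of order three fixes only `⟨t⟩` in the `2`-group `Q` -/
structure Dt (t y : G) (Q : Subgroup G) : Prop where
  t1 : t ≠ 1
  tt : t * t = 1
  tQ : t ∈ Q
  ct : Q ≤ C[t]
  pQ : PGrp 2 Q
  yn : y ∈ N(Q)
  y3 : y ^ 3 = 1
  yt : y ∈ C[t]
  fx : ∀ a ∈ Q, a * y = y * a → a ∈ ⟪t⟫

theorem meet (pQ : PGrp 2 Q) (BQ : B ⊴ Q) (hA : Q ≤ N(A)) (h : ¬ B ≤ A) : ∃ b ∈ B, b ∉ A ∧ ∀ q ∈ Q, ⁅q, b⁆ ∈ A := by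
  obtain ⟨x, hx, x1⟩ := exists_ne_one ((pQ.quo A).nil.meet_center (BQ.quo A) (quo_ne_bot (BQ.le.trans hA) h))
  obtain ⟨b, hb, bn, rfl⟩ := mem_quo.1 hx.1
  refine ⟨b, hb, fun e => x1 (coset_of_mem e), fun q hq => (coset_commute_iff (hA hq) bn).1 ?_⟩
  exact mem_cen.1 hx.2.2 _ (mem_quo_of_mem (hA hq) hq)

namespace Dt

variable (h : Dt t y Q)
include h

theorem mt : a ∈ ⟪t⟫ ↔ a = 1 ∨ a = t := mem_zpowers_two ((sq t).trans h.tt)

theorem nt : C[t] ≤ N(⟪t⟫) := norms_zpowers_of_cen1 le_rfl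

theorem ti : t⁻¹ = t := inv_eq_of_mul_eq_one_right h.tt

theorem yy : y * y = y⁻¹ := eq_inv_of_mul_eq_one_left (by rw [← h.y3, pow_succ, sq])

theorem yy' (w : G) : y * (y * w * y⁻¹) * y⁻¹ = y⁻¹ * w * y := by
  rw [show y * (y * w * y⁻¹) * y⁻¹ = (y * y) * w * (y * y)⁻¹ by group, h.yy, inv_inv]

theorem cjt (hg : a ∈ C[t]) (hb : b ∈ ⟪t⟫) : a * b * a⁻¹ = b := by
  rcases h.mt.1 hb with rfl | rfl
  · simp
  · rw [mem_cen1.1 hg, mul_inv_cancel_right]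

theorem fp0 : ∀ k ∈ Q /ₛ ⟪t⟫, k * coset(⟪t⟫, y) = coset(⟪t⟫, y) * k → k = 1 := fun k hk e => by
  obtain ⟨a, ha, an, rfl⟩ := mem_quo.1 hk
  have r := (coset_commute_iff (h.nt h.yt) an).1 e.symm
  rcases h.mt.1 r with r | r
  · exact coset_of_mem (h.fx a ha (commutatorElement_eq_one_iff_mul_comm.1 r).symm)
  have e1 : y * a * y⁻¹ = t * a := by rw [← r, commutatorElement_def]; group
  have e2 : ∀ w, y * (t * w) * y⁻¹ = t * (y * w * y⁻¹) := fun w => by rw [← mul_assoc, mem_cen1.1 h.yt]; group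
  have e3 : y * (y * (y * a * y⁻¹) * y⁻¹) * y⁻¹ = a := by rw [h.yy']; group
  rw [e1, e2, e1, ← mul_assoc t, h.tt, one_mul, e1] at e3
  exact (h.t1 (by simpa using e3)).elim

theorem n1 (ha : a ∈ Q) : a * (y * a * y⁻¹) * (y⁻¹ * a * y) ∈ ⟪t⟫ ∧ ⁅a, y * a * y⁻¹⁆ ∈ ⟪t⟫ := by
  have n := h.ct.trans h.nt
  have m := h.nt h.yt
  have r := nrm3 (quo_norms ⟪t⟫ (zpowers_le.2 h.yn) (mem_quo_of_mem m (mem_zpowers y)))
    (by rw [← coset_pow m, h.y3, coset_one]) h.fp0 (mem_quo_of_mem (n ha) ha)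
  have a1 := n (conj_mem h.yn ha)
  have a2 := n (conj_mem' h.yn ha)
  rw [← coset_conj m (n ha), ← coset_inv m, ← coset_mul (inv_mem m) (n ha), ← coset_mul (mul_mem (inv_mem m) (n ha)) m,
    ← coset_mul (n ha) a1, ← coset_mul (mul_mem (n ha) a1) a2, coset_eq_one_iff (mul_mem (mul_mem (n ha) a1) a2)] at r
  exact ⟨r.1, (coset_commute_iff (n ha) a1).1 (by rw [← coset_mul (n ha) a1]; exact r.2)⟩

theorem fix (tA : t ∈ A) (yA : y ∈ N(A)) (ha : a ∈ Q) (an : a ∈ N(A)) (e : ⁅y, a⁆ ∈ A) : a ∈ A := by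
  refine mem_of_pow_mem (n := 3) ?_ ?_
  · have r := zpowers_le.2 tA (h.n1 ha).1
    have e2 := conj_mem' yA (inv_mem e)
    have : a ^ 3 = (a * ⁅y, a⁆ * a⁻¹ * ((a * a) * (y⁻¹ * ⁅y, a⁆⁻¹ * y) * (a * a)⁻¹))⁻¹ *
        (a * (y * a * y⁻¹) * (y⁻¹ * a * y)) := by simp [commutatorElement_def, pow_succ, mul_assoc]
    exact this ▸ mul_mem (inv_mem (mul_mem (conj_mem an e) (conj_mem (mul_mem an an) e2))) r
  · obtain ⟨k, hk⟩ := h.pQ.card
    exact ((Nat.Coprime.pow_right k (by norm_num)).coprime_dvd_right (hk ▸ orderOf_dvd_card' ha))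

theorem fpq (tA : t ∈ A) (yA : y ∈ N(A)) :
    ∀ k ∈ Q /ₛ A, k * coset(A, y) = coset(A, y) * k → k = 1 := fun k hk e => by
  obtain ⟨a, ha, an, rfl⟩ := mem_quo.1 hk
  exact coset_of_mem (h.fix tA yA ha an ((coset_commute_iff yA an).1 e.symm))

theorem n2 (ha : a ∈ Q) (hb : b ∈ Q) (hc : c ∈ Q) : ⁅c, ⁅a, b⁆⁆ ∈ ⟪t⟫ := by
  have n := h.ct.trans h.nt
  have m := h.nt h.yt
  have r := neumann (quo_norms ⟪t⟫ (zpowers_le.2 h.yn) (mem_quo_of_mem m (mem_zpowers y)))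
    (by rw [← coset_pow m, h.y3, coset_one]) h.fp0
    (commutator_mem_commutator (mem_quo_of_mem (n ha) ha) (mem_quo_of_mem (n hb) hb))
  rw [← coset_comm (n ha) (n hb)] at r
  exact (coset_commute_iff (n hc) (n (der_le Q (commutator_mem_commutator ha hb)))).1
    (mem_cen.1 r _ (mem_quo_of_mem (n hc) hc))

theorem ll (tA : t ∈ A) (QA : Q ≤ N(A)) (yA : y ∈ N(A)) (PQ : P ≤ Q) (yP : y ∈ N(P)) (hc : c ∈ Q) (hf : f ∈ Q)
    (ff : f * f ∈ A) (e : ∀ a ∈ P, ⁅c, a⁆ ∈ A ∨ ⁅c, a⁆ * f ∈ A) : ∀ a ∈ P, ⁅c, a⁆ ∈ A := fun a ha => by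
  have f2 : coset(A, f) * coset(A, f) = 1 := by rw [← coset_mul (QA hf) (QA hf)]; exact coset_of_mem ff
  have r := ll0 (f := coset(A, f)) (quo_norms A (zpowers_le.2 h.yn) (mem_quo_of_mem yA (mem_zpowers y)))
    (by rw [← coset_pow yA, h.y3, coset_one]) (h.fpq tA yA) (quo_mono A PQ)
    (quo_norms A (zpowers_le.2 yP) (mem_quo_of_mem yA (mem_zpowers y))) (mem_quo_of_mem (QA hc) hc) f2
    (fun k hk => by
      obtain ⟨b, hb, bn, rfl⟩ := mem_quo.1 hk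
      rw [← coset_comm (QA hc) bn]
      refine (e b hb).imp coset_of_mem fun x => ?_
      have := coset_of_mem x
      rw [coset_mul (QA (der_le Q (commutator_mem_commutator hc (PQ hb)))) (QA hf)] at this
      rw [eq_inv_of_mul_eq_one_left this, inv_eq_of_mul_eq_one_right f2]) _ (mem_quo_of_mem (QA (PQ ha)) ha)
  rwa [← coset_comm (QA hc) (QA (PQ ha)),
    coset_eq_one_iff (QA (der_le Q (commutator_mem_commutator hc (PQ ha))))] at r

/-- an element inverting `y` centralises no section -/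
theorem l0 (tA : t ∈ A) (QA : Q ≤ N(A)) (yA : y ∈ N(A)) (uA : u ∈ N(A)) (BQ : B ⊴ Q) (yB : y ∈ N(B)) (uB : u ∈ N(B))
    (iv : y * (u * y * u⁻¹) ∈ Q ⊔ C(Q)) (e : ∀ b ∈ B, ⁅u, b⁆ ∈ A) : B ≤ A := by
  by_contra hn
  obtain ⟨b, hb, bA, r⟩ := meet h.pQ BQ QA hn
  obtain ⟨q, hq, c, hc, e1⟩ := (mem_sup_norm (cen_le_nrm Q)).1 iv
  have bQ := BQ.le hb
  have e2 : ⁅y * (u * y * u⁻¹), b⁆ ∈ A := by
    rw [e1, show ⁅q * c, b⁆ = q * (c * b * c⁻¹) * q⁻¹ * b⁻¹ by simp only [commutatorElement_def]; group,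
      ← mem_cen.1 hc b bQ, mul_inv_cancel_right]
    exact r q hq
  have e3 := e _ (conj_mem yB hb)
  have e4 := e _ (conj_mem' uB hb)
  refine bA (h.fix tA yA bQ (QA bQ) ?_)
  have e5 : ⁅y * y, b⁆ ∈ A := by
    have : ⁅y * y, b⁆ = (y * ⁅u, y * b * y⁻¹⁆ * y⁻¹)⁻¹ * ((y * (u * y)) * ⁅u, u⁻¹ * b * u⁆ * (y * (u * y))⁻¹) *
        ⁅y * (u * y * u⁻¹), b⁆ := by simp [commutatorElement_def, mul_assoc]
    exact this ▸ mul_mem (mul_mem (inv_mem (conj_mem yA e3)) (conj_mem (mul_mem yA (mul_mem uA yA)) e4)) e2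
  rw [h.yy] at e5
  have := inv_mem (conj_mem yA e5)
  rwa [show (y * ⁅y⁻¹, b⁆ * y⁻¹)⁻¹ = ⁅y, b⁆ by simp only [commutatorElement_def]; group] at this

end Dt

end Cfsg.Agent.H1.Six
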