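import Mathlib
import Cfsg.Agent.H1.Six1

/-! The second centre of the `2`-group. -/

set_option autoImplicit false
set_option linter.unusedSectionVars false

namespace Cfsg.Agent.H1.Six

open Cfsg Subgroup Cfsg.Agent.FT Cfsg.Agent.H3 Cfsg.Agent.H28
open scoped commutatorElement

variable {G : Type*} [Group G] [Finite G] {t y a b c f g s u x : G} {Q A B P K S X : Subgroup G}

theorem mem_sup2 (hg : g ∈ N(A)) (h2 : g * g ∈ A) : x ∈ A ⊔ ⟪g⟫ ↔ x ∈ A ∨ x * g ∈ A := by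
  refine ⟨fun h => ?_, fun h => h.elim mem_sup_left fun h =>
    (mul_mem_cancel_right (mem_sup_right (mem_zpowers g))).1 (mem_sup_left h)⟩
  obtain ⟨a, ha, _, ⟨n, rfl⟩, rfl⟩ := (mem_sup_norm (zpowers_le.2 hg)).1 h
  have e : ∀ k : ℤ, g ^ (2 * k) ∈ A := fun k => by rw [zpow_mul, zpow_two]; exact zpow_mem h2 k
  rcases Int.even_or_odd' n with ⟨k, rfl | rfl⟩
  · exact .inl (mul_mem ha (e k))
  · refine .inr ?_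
    rw [mul_assoc, ← zpow_add_one, show 2 * k + 1 + 1 = 2 * (k + 1) by ring]
    exact mul_mem ha (e _)

theorem nrm_sup (hA : ∀ a ∈ A, g * a * g⁻¹ ∈ A ⊔ ⟪x⟫) (hx : g * x * g⁻¹ ∈ A ⊔ ⟪x⟫) : g ∈ N(A ⊔ ⟪x⟫) :=
  mem_nrm_of_cj_le (by
    rw [cj_sup, cj_zpowers]
    exact sup_le (fun z hz => by obtain ⟨a, ha, rfl⟩ := mem_cj'.1 hz; exact hA a ha) (zpowers_le.2 hx))

theorem cj_of_comm (hx : x ∈ A) (h : ⁅g, x⁆ ∈ A) : g * x * g⁻¹ ∈ A := by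
  simpa [commutatorElement_def] using mul_mem h hx

theorem comm_one : ⁅a, b⁆ = 1 ↔ a ∈ C[b] := by rw [commutatorElement_eq_one_iff_mul_comm, mem_cen1]

theorem comm_symm (h : ⁅a, b⁆ ∈ A) : ⁅b, a⁆ ∈ A := by rw [← commutatorElement_inv]; exact inv_mem h

theorem comm_cen (hx : a * x = x * a) (b : G) : ⁅a, x * b⁆ = x * ⁅a, b⁆ * x⁻¹ := by
  rw [commutatorElement_def, commutatorElement_def, ← mul_assoc a, hx]; group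

theorem cs_of_sq (aa : a * a = 1) (bb : b * b = 1) (h : a * b * (a * b) = 1) : a * b = b * a := by
  rw [eq_inv_of_mul_eq_one_left h, mul_inv_rev, inv_eq_of_mul_eq_one_right aa, inv_eq_of_mul_eq_one_right bb]

namespace Dt

/-- the second centre -/
def W (h : Dt t y Q) : Subgroup G where
  carrier := {a | a ∈ Q ∧ ∀ q ∈ Q, ⁅q, a⁆ ∈ ⟪t⟫}
  one_mem' := ⟨one_mem _, fun q _ => by simp⟩
  mul_mem' := fun {a b} ha hb => ⟨mul_mem ha.1 hb.1, fun q hq => by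
    rw [show ⁅q, a * b⁆ = ⁅q, a⁆ * (a * ⁅q, b⁆ * a⁻¹) by simp [commutatorElement_def, mul_assoc],
      h.cjt (h.ct ha.1) (hb.2 q hq)]
    exact mul_mem (ha.2 q hq) (hb.2 q hq)⟩
  inv_mem' := fun {a} ha => ⟨inv_mem ha.1, fun q hq => by
    rw [show ⁅q, a⁻¹⁆ = a⁻¹ * ⁅q, a⁆⁻¹ * a⁻¹⁻¹ by simp [commutatorElement_def, mul_assoc],
      h.cjt (inv_mem (h.ct ha.1)) (inv_mem (ha.2 q hq))]
    exact inv_mem (ha.2 q hq)⟩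

variable (h : Dt t y Q)
include h

theorem nW (hg : g ∈ N(Q)) (gt : g ∈ C[t]) : g ∈ N(h.W) := mem_nrm.2 fun a ha => ⟨conj_mem hg ha.1, fun q hq => by
  have := conj_mem (h.nt gt) (ha.2 _ (conj_mem' hg hq))
  rwa [cjcomm, show g * (g⁻¹ * q * g) * g⁻¹ = q by group] at this⟩

theorem cW (ha : a ∈ Q) (hb : b ∈ Q) : ⁅a, b⁆ ∈ h.W :=
  ⟨der_le Q (commutator_mem_commutator ha hb), fun _ hq => h.n2 ha hb hq⟩

theorem tW : t ∈ h.W := ⟨h.tQ, fun q hq => by rw [comm_one.2 (h.ct hq)]; exact one_mem _⟩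

theorem t2 (ha : a ∈ ⟪t⟫) : a * a = 1 := by rcases h.mt.1 ha with rfl | rfl; exacts [one_mul 1, h.tt]

theorem nc (e : ⁅a, x⁆ ∈ ⟪t⟫) (n : a ∉ C[x]) : ⁅a, x⁆ = t := (h.mt.1 e).resolve_left fun z => n (comm_one.1 z)

theorem ix2 (at' : a ∈ C[t]) (e : ⁅a, x⁆ = t) (e' : ⁅b, x⁆ = t) : a * b ∈ C[x] := by
  rw [← comm_one, show ⁅a * b, x⁆ = a * ⁅b, x⁆ * a⁻¹ * ⁅a, x⁆ by simp [commutatorElement_def, mul_assoc], e, e',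
    h.cjt at' (mem_zpowers t), h.tt]

theorem ix2' (xt : x ∈ C[t]) (e : ⁅a, x⁆ = t) (e' : ⁅a, b⁆ = t) : a ∈ C[x * b] := by
  rw [← comm_one, show ⁅a, x * b⁆ = ⁅a, x⁆ * (x * ⁅a, b⁆ * x⁻¹) by simp [commutatorElement_def, mul_assoc], e, e',
    h.cjt xt (mem_zpowers t), h.tt]

theorem sqW (zq : ∀ a ∈ Q, a ∈ C(Q) → a ∈ ⟪t⟫) (ha : a ∈ h.W) : a * a ∈ ⟪t⟫ :=
  zq _ (mul_mem ha.1 ha.1) (mem_cen.2 fun q hq => by
    by_cases c : q ∈ C[a]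
    · exact Commute.mul_right (mem_cen1.1 c) (mem_cen1.1 c)
    · exact mem_cen1.1 (h.ix2' (h.ct ha.1) (h.nc (ha.2 q hq) c) (h.nc (ha.2 q hq) c)))

theorem n1' (ha : a ∈ Q) : ∃ τ ∈ ⟪t⟫, y⁻¹ * a * y = (a * (y * a * y⁻¹))⁻¹ * τ := ⟨_, (h.n1 ha).1, by group⟩

theorem inv3 (ha : a ∈ Q) (aa : a * a = 1) : a * (y * a * y⁻¹) = y * a * y⁻¹ * a := by
  obtain ⟨τ, hτ, e⟩ := h.n1' ha
  refine cs_of_sq aa (by rw [conj_mul, aa]; simp) ?_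
  have m : a * (y * a * y⁻¹) ∈ C[t] := h.ct (mul_mem ha (conj_mem h.yn ha))
  have e2 : y⁻¹ * a * y * (y⁻¹ * a * y) = 1 := by rw [show _ * _ = y⁻¹ * (a * a) * y by group, aa]; simp
  generalize a * (y * a * y⁻¹) = w at *
  rw [e, show w⁻¹ * τ * (w⁻¹ * τ) = w⁻¹ * w⁻¹ * (w * τ * w⁻¹ * τ) by group, h.cjt m hτ, h.t2 hτ, mul_one, ← mul_inv_rev,
    inv_eq_one] at e2
  exact e2

theorem f2g (XQ : X ≤ Q) (yX : y ∈ N(X)) (hx : x ∈ Q) (e : ∀ a ∈ X, ⁅a, x⁆ ∈ ⟪t⟫) (hb : b ∈ X) (n : b ∉ C[x]) :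
    ∃ r ∈ X, r ∈ C[x] ∧ ⁅r, y * x * y⁻¹⁆ = t := by
  have e1 : ∀ a ∈ X, ⁅y * a * y⁻¹, y * x * y⁻¹⁆ = ⁅a, x⁆ := fun a ha => by rw [← cjcomm, h.cjt h.yt (e a ha)]
  by_cases c : y * b * y⁻¹ ∈ C[x]
  · exact ⟨_, conj_mem yX hb, c, (e1 b hb).trans (h.nc (e b hb) n)⟩
  refine ⟨_, conj_mem yX (conj_mem yX hb), ?_, (e1 _ (conj_mem yX hb)).trans (h.nc (e _ (conj_mem yX hb)) c)⟩
  obtain ⟨τ, hτ, e2⟩ := h.n1' (XQ hb)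
  rw [h.yy', e2]
  exact mul_mem (inv_mem (h.ix2 (h.ct (XQ hb)) (h.nc (e b hb) n) (h.nc (e _ (conj_mem yX hb)) c)))
    (cen1_le_cen1_of_mem_zpowers hτ (h.ct hx) |> fun z => mem_cen1.2 (mem_cen1.1 z).symm)

theorem l1 (hs : s ∈ h.W) (tA : t ∈ A) (QA : Q ≤ N(A)) (yA : y ∈ N(A)) (hx : x ∈ Q)
    (e : ∀ a ∈ Q, a ∈ C[s] → ⁅x, a⁆ ∈ A) : ∀ a ∈ Q, ⁅x, a⁆ ∈ A := fun b hb => by
  by_cases c : b ∈ C[s]
  · exact e b hb c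
  have k : ∀ a ∈ Q, a ∉ C[s] → ⁅x, a⁆ * ⁅x, b⁆ ∈ A := fun a ha n => by
    have := e _ (mul_mem ha hb) (h.ix2 (h.ct ha) (h.nc (hs.2 a ha) n) (h.nc (hs.2 b hb) c))
    rw [show ⁅x, a * b⁆ = ⁅x, a⁆ * ⁅x, b⁆ * ⁅⁅x, b⁆⁻¹, a⁆ by simp [commutatorElement_def, mul_assoc]] at this
    exact (mul_mem_cancel_right (zpowers_le.2 tA (comm_symm ((inv_mem (h.cW hx hb)).2 a ha)))).1 this
  exact h.ll tA QA yA le_rfl h.yn hx (h.cW hx hb).1 (k b hb c)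
    (fun a ha => (em (a ∈ C[s])).imp (e a ha) (k a ha)) b hb

/-- no noncentral involution in the second centre -/
theorem quat (zq : ∀ a ∈ Q, a ∈ C(Q) → a ∈ ⟪t⟫) (n : ∀ a ∈ h.W, a * a = 1 → a ∈ ⟪t⟫) (hQ : ¬ Q ≤ ⟪t⟫) :
    Q ≤ h.W ∧ 8 ∣ #Q := by
  obtain ⟨a, ha, at', e⟩ := meet h.pQ (Nml.refl Q) (h.ct.trans h.nt) hQ
  have aW : a ∈ h.W := ⟨ha, e⟩
  have bW := conj_mem (h.nW h.yn h.yt) aW
  have sq : ∀ a ∈ h.W, a ∉ ⟪t⟫ → a * a = t := fun a ha m => (h.mt.1 (h.sqW zq ha)).resolve_left fun z => m (n a ha z)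
  have bt : y * a * y⁻¹ ∉ ⟪t⟫ := fun z => at' (by simpa [mul_assoc] using conj_mem' (h.nt h.yt) z)
  have abt : a * (y * a * y⁻¹) ∉ ⟪t⟫ := fun z => by
    obtain ⟨τ, hτ, e2⟩ := h.n1' ha
    have := conj_mem (h.nt h.yt) (e2 ▸ mul_mem (inv_mem z) hτ : y⁻¹ * a * y ∈ ⟪t⟫)
    exact at' (by rwa [show y * (y⁻¹ * a * y) * y⁻¹ = a by group] at this)
  generalize y * a * y⁻¹ = b at *
  have cm : ∀ a ∈ h.W, ∀ b ∈ h.W, a ∉ ⟪t⟫ → b ∉ ⟪t⟫ → a ∈ C[b] → a * b ∈ ⟪t⟫ := fun a ha b hb m1 m2 c =>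
    n _ (mul_mem ha hb) (by rw [mul_assoc, ← mul_assoc b, ← mem_cen1.1 c, mul_assoc, sq b hb m2, ← mul_assoc,
      sq a ha m1, h.tt])
  have ab : a ∉ C[b] := fun c => abt (cm a aW b bW at' bt c)
  have ba : b ∉ C[a] := fun c => ab (mem_cen1.2 (mem_cen1.1 c).symm)
  have nm : ∀ w ∈ h.W, Q ≤ N(Q ⊓ C[w]) := fun w hw q hq => mem_nrm.2 fun x hx => ⟨conj_mem (le_nrm Q hq) hx.1, comm_one.1 <| by
    rw [show ⁅q * x * q⁻¹, w⁆ = q * ⁅x, ⁅q⁻¹, w⁆ * w⁆ * q⁻¹ by simp [commutatorElement_def, mul_assoc],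
      comm_cen (mem_cen1.1 (cen1_le_cen1_of_mem_zpowers (hw.2 _ (inv_mem hq)) (h.ct hx.1))), comm_one.2 hx.2]
    group⟩
  have cc : (Q ⊓ C[a]) ⊓ (Q ⊓ C[b]) ≤ ⟪t⟫ := by
    by_contra z
    obtain ⟨c, hc, ct, e⟩ := meet h.pQ ⟨inf_le_left.trans inf_le_left, normsI (nm a aW) (nm b bW)⟩ (h.ct.trans h.nt) z
    have := cm c ⟨hc.1.1, e⟩ a aW ct at' hc.1.2
    exact ab ((mul_mem_cancel_left (H := C[b]) hc.2.2).1 (mem_cen1.2 (mem_cen1.1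
      (cen1_le_cen1_of_mem_zpowers this (h.ct bW.1))).symm))
  have tw := zpowers_le.2 h.tW
  refine ⟨fun q hq => ?_, ?_⟩
  · have s1 : ∀ q ∈ Q, q ∈ C[a] → q ∈ h.W := fun q hq c => by
      by_cases d : q ∈ C[b]
      · exact tw (cc ⟨⟨hq, c⟩, hq, d⟩)
      · exact (mul_mem_cancel_right aW).1 (tw (cc ⟨⟨mul_mem hq ha, mul_mem c (self_mem_cen1 a)⟩, mul_mem hq ha,
          h.ix2 (h.ct hq) (h.nc (bW.2 q hq) d) (h.nc (bW.2 a ha) ab)⟩))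
    by_cases c : q ∈ C[a]
    · exact s1 q hq c
    · exact (mul_mem_cancel_right bW).1 (s1 _ (mul_mem hq bW.1)
        (h.ix2 (h.ct hq) (h.nc (aW.2 q hq) c) (h.nc (aW.2 b bW.1) ba)))
  · obtain ⟨k, hk⟩ := h.pQ.card
    have l1 : ⟪t⟫ < Q ⊓ C[a] := lt_of_le_not_ge (zpowers_le.2 ⟨h.tQ, mem_cen1.2 (mem_cen1.1 (h.ct ha)).symm⟩)
      fun z => at' (z ⟨ha, self_mem_cen1 a⟩)
    have l2 : Q ⊓ C[a] < Q := lt_of_le_not_ge inf_le_left fun z => ba (z bW.1).2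
    obtain ⟨j, hj⟩ := (h.pQ.inf_left C[a]).card
    have c1 := card_lt l1
    have c2 := card_lt l2
    rw [card_zpowers', orderOf_eq_prime ((_root_.sq t).trans h.tt) h.t1, hj] at c1
    rw [hj, hk, Nat.pow_lt_pow_iff_right one_lt_two] at c2
    have : 1 < j := (Nat.pow_lt_pow_iff_right one_lt_two).1 (by simpa using c1)
    exact hk ▸ pow_dvd_pow 2 (show 3 ≤ k by omega)

end Dt

end Cfsg.Agent.H1.Six
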