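import Mathlib
import Cfsg.Agent.H1.Six2

/-! A normal four-group in the second centre. -/

set_option autoImplicit false
set_option linter.unusedSectionVars false

namespace Cfsg.Agent.H1.Six

open Cfsg Subgroup Cfsg.Agent.FT Cfsg.Agent.H3 Cfsg.Agent.H28
open scoped commutatorElement

variable {G : Type*} [Group G] [Finite G] {t y a b c f g k s u v x : G} {Q A B P K S X : Subgroup G}

theorem csym (h : a ∈ C[b]) : b ∈ C[a] := mem_cen1.2 (mem_cen1.1 h).symm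

theorem cjcen (h : a ∈ C[b]) (g : G) : g * a * g⁻¹ ∈ C[g * b * g⁻¹] := by rw [← cj_cen1]; exact conj_mem_cj.2 h

/-- a Sylow subgroup `S` over `Q` -/
structure St (t y : G) (Q S : Subgroup G) : Prop extends Dt t y Q where
  QS : Q ≤ S
  st : S ≤ C[t]
  SQ : S ≤ N(Q)
  ix : ∀ a ∈ S, ∀ b ∈ S, a ∉ Q → b ∉ Q → a * b ∈ Q
  iv : ∀ u ∈ S, u ∉ Q → y * (u * y * u⁻¹) ∈ Q ⊔ C(Q)
  syl : Syl 2 S ⊤

theorem St.uy (h : St t y Q S) (hu : u ∈ S) (n : u ∉ Q) :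
    ∃ q ∈ Q, ∀ a ∈ Q, u * (y * a * y⁻¹) * u⁻¹ = y⁻¹ * (q * (u * a * u⁻¹) * q⁻¹) * y := by
  obtain ⟨q, hq, c, hc, e⟩ := (mem_sup_norm (cen_le_nrm Q)).1 (h.iv u hu n)
  refine ⟨q, hq, fun a ha => ?_⟩
  calc u * (y * a * y⁻¹) * u⁻¹ = y⁻¹ * (y * (u * y * u⁻¹) * (u * a * u⁻¹) * (y * (u * y * u⁻¹))⁻¹) * y := by group
    _ = y⁻¹ * (q * (c * (u * a * u⁻¹)) * c⁻¹ * q⁻¹) * y := by rw [e]; group
    _ = _ := by rw [← mem_cen.1 hc _ (conj_mem (h.SQ hu) ha)]; group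

/-- a four-group `⟨t, s⟩` normal in `S` -/
structure Fv (t y s : G) (Q S : Subgroup G) : Prop extends St t y Q S where
  zq : ∀ a ∈ Q, a ∈ C(Q) → a ∈ ⟪t⟫
  sQ : s ∈ Q
  ss : s * s = 1
  s1 : s ∉ ⟪t⟫
  us : ∀ u ∈ S, ⁅u, s⁆ ∈ ⟪t⟫

/-- the four-group -/
abbrev Vg (t s : G) : Subgroup G := ⟪t⟫ ⊔ ⟪s⟫

/-- the elementary abelian group of order eight -/
abbrev Eg (t y s : G) : Subgroup G := Vg t s ⊔ ⟪y * s * y⁻¹⟫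

namespace Fv

variable (h : Fv t y s Q S)
include h

theorem sW : s ∈ h.W := ⟨h.sQ, fun q hq => h.us q (h.QS hq)⟩
theorem eW : y * s * y⁻¹ ∈ h.W := conj_mem (h.nW h.yn h.yt) h.sW
theorem se : s ∈ C[y * s * y⁻¹] := mem_cen1.2 (h.inv3 h.sQ h.ss)
theorem ee : y * s * y⁻¹ * (y * s * y⁻¹) = 1 := by rw [conj_mul, h.ss]; simp
theorem si : s⁻¹ = s := inv_eq_of_mul_eq_one_right h.ss
theorem tV : t ∈ Vg t s := mem_sup_left (mem_zpowers t)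
theorem sV : s ∈ Vg t s := mem_sup_right (mem_zpowers s)
theorem tV' : ⟪t⟫ ≤ Vg t s := le_sup_left
theorem VE : Vg t s ≤ Eg t y s := le_sup_left
theorem eE : y * s * y⁻¹ ∈ Eg t y s := mem_sup_right (mem_zpowers _)
theorem VW : Vg t s ≤ h.W := sup_le (zpowers_le.2 h.tW) (zpowers_le.2 h.sW)
theorem EW : Eg t y s ≤ h.W := sup_le h.VW (zpowers_le.2 h.eW)
theorem EQ : Eg t y s ≤ Q := fun _ z => (h.EW z).1

theorem mV : x ∈ Vg t s ↔ x ∈ ⟪t⟫ ∨ x * s ∈ ⟪t⟫ := mem_sup2 (h.nt (h.ct h.sQ)) (h.ss ▸ one_mem _)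

theorem cV (h1 : a ∈ C[t]) (h2 : a ∈ C[s]) (hv : v ∈ Vg t s) : a ∈ C[v] :=
  csym ((sup_le (zpowers_le.2 (csym h1)) (zpowers_le.2 (csym h2)) : Vg t s ≤ C[a]) hv)

theorem cE (h1 : a ∈ C[t]) (h2 : a ∈ C[s]) (h3 : a ∈ C[y * s * y⁻¹]) : a ∈ C(Eg t y s) :=
  le_cen1.1 (sup_le (sup_le (zpowers_le.2 (csym h1)) (zpowers_le.2 (csym h2))) (zpowers_le.2 (csym h3)))

theorem abE : Eg t y s ≤ C(Eg t y s) :=
  sup_le (sup_le (zpowers_le.2 (h.cE (self_mem_cen1 t) (csym (h.ct h.sQ)) (csym (h.ct h.eW.1))))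
    (zpowers_le.2 (h.cE (h.ct h.sQ) (self_mem_cen1 s) h.se)))
    (zpowers_le.2 (h.cE (h.ct h.eW.1) (csym h.se) (self_mem_cen1 _)))

theorem nV : S ≤ N(Vg t s) := fun u hu =>
  nrm_sup (fun a ha => mem_sup_left (conj_mem (h.nt (h.st hu)) ha)) (cj_of_comm h.sV (h.tV' (h.us u hu)))

theorem mE : x ∈ Eg t y s ↔ x ∈ Vg t s ∨ x * (y * s * y⁻¹) ∈ Vg t s :=
  mem_sup2 (h.nV (h.QS h.eW.1)) (h.ee ▸ one_mem _)

theorem sqV (hv : v ∈ Vg t s) : v * v = 1 := by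
  rcases h.mV.1 hv with z | z
  · exact h.t2 z
  · have := h.t2 z
    rwa [mul_assoc, ← mul_assoc s, mem_cen1.1 (h.cV (h.ct h.sQ) (self_mem_cen1 s) hv), mul_assoc, h.ss, mul_one] at this

theorem bb : ∃ b ∈ Q, ⁅b, s⁆ = t := by
  by_contra! z
  exact h.s1 (h.zq s h.sQ (mem_cen.2 fun q hq => mem_cen1.1 (by_contra fun n => z q hq (h.nc (h.sW.2 q hq) n))))

theorem r1 : ∃ r ∈ Q, r ∈ C[s] ∧ ⁅r, y * s * y⁻¹⁆ = t := by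
  obtain ⟨b, hb, e⟩ := h.bb
  exact h.f2g le_rfl h.yn h.sQ h.sW.2 hb fun z => h.t1 (e ▸ comm_one.2 z)

theorem ue (hu : u ∈ S) (n : u ∉ Q) : ⁅u, y * s * y⁻¹⁆ * s ∈ ⟪t⟫ := by
  obtain ⟨q, hq, e⟩ := h.uy hu n
  obtain ⟨τ, hτ, e2⟩ := h.n1' h.sQ
  have m := h.us _ (mul_mem (h.QS hq) hu)
  have e3 : q * (u * s * u⁻¹) * q⁻¹ = ⁅q * u, s⁆ * s := by simp [commutatorElement_def, mul_assoc]
  rw [commutatorElement_def, e s h.sQ, e3]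
  generalize ⁅q * u, s⁆ = σ at *
  have e4 : y⁻¹ * (σ * s) * y = y⁻¹ * σ * y⁻¹⁻¹ * (y⁻¹ * s * y) := by group
  rw [e4, h.cjt (inv_mem h.yt) m, e2, mem_cen1.1 h.se]
  have c1 := h.cjt (h.ct h.sQ) hτ
  have c2 := h.cjt (h.ct h.eW.1) hτ
  have c3 := h.ee
  generalize y * s * y⁻¹ = e at *
  rw [show σ * ((e * s)⁻¹ * τ) * e⁻¹ * s = σ * (s⁻¹ * (e * e)⁻¹ * (e * τ * e⁻¹) * s) by group, c2, c3, ← c1]
  simpa [mul_assoc] using mul_mem m hτ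

theorem aV (ha : a ∈ S) : ⁅a, y * s * y⁻¹⁆ ∈ Vg t s :=
  h.mV.2 ((em (a ∈ Q)).imp (h.eW.2 a) (h.ue ha))

theorem inQ (ha : a ∈ S) (e : ⁅a, y * s * y⁻¹⁆ ∈ ⟪t⟫) : a ∈ Q :=
  by_contra fun n => h.s1 ((mul_mem_cancel_left e).1 (h.ue ha n))

theorem nE : S ≤ N(Eg t y s) := fun u hu =>
  nrm_sup (fun a ha => mem_sup_left (conj_mem (h.nV hu) ha)) (cj_of_comm h.eE (h.VE (h.aV hu)))

theorem yE : y ∈ N(Eg t y s) := mem_nrm_of_cj_le (by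
  rw [cj_sup, cj_sup, cj_zpowers, cj_zpowers, cj_zpowers, h.cjt h.yt (mem_zpowers t), h.yy']
  obtain ⟨τ, hτ, e⟩ := h.n1' h.sQ
  exact sup_le (sup_le (le_sup_left.trans h.VE) le_sup_right)
    (zpowers_le.2 (e ▸ mul_mem (inv_mem (mul_mem (h.VE h.sV) h.eE)) (h.VE (h.tV' hτ)))))

theorem l3a (hx : x ∈ Q) (xs : x ∈ C[s]) (xx : x * x = 1) (e : ∀ a ∈ Q, a ∈ C[s] → a ∈ C[x]) : x ∈ Vg t s := by
  obtain ⟨b, hb, eb⟩ := h.bb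
  have k : ∀ z ∈ Q, (∀ a ∈ Q, a ∈ C[s] → a ∈ C[z]) → b ∈ C[z] → z ∈ ⟪t⟫ := fun z hz h1 h2 =>
    h.zq z hz (le_cen1.1 fun q hq => by
      by_cases c : q ∈ C[s]
      · exact h1 q hq c
      · exact (mul_mem_cancel_right h2).1 (h1 _ (mul_mem hq hb) (h.ix2 (h.ct hq) (h.nc (h.sW.2 q hq) c) eb)))
  have bs : ∀ a ∈ C[s], a ∈ Q → b⁻¹ * a * b ∈ C[s] := fun a ha hq => by
    have := cjcen (h.cV (h.ct hq) ha (conj_mem (h.nV (h.QS hb)) h.sV)) b⁻¹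
    simpa [mul_assoc] using this
  have x' : ∀ a ∈ Q, a ∈ C[s] → a ∈ C[b * x * b⁻¹] := fun a ha c => by
    simpa [mul_assoc] using cjcen (e _ (conj_mem' (le_nrm Q hb) ha) (bs a c ha)) b
  have bb := mem_cen1.1 (e _ (mul_mem hb hb) (h.ix2 (h.ct hb) eb eb))
  have m := k (b * x * b⁻¹ * x) (mul_mem (conj_mem (le_nrm Q hb) hx) hx)
    (fun a ha c => csym (mul_mem (csym (x' a ha c)) (csym (e a ha c)))) (mem_cen1.2 (by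
      rw [← mem_cen1.1 (x' x hx xs)]
      calc b * (x * (b * x * b⁻¹)) = b * x * b⁻¹ * (b * b * x) * b⁻¹ := by group
        _ = b * x * b⁻¹ * x * b := by rw [bb]; group
        _ = _ := by rw [← mem_cen1.1 (x' x hx xs)]))
  have e2 : ⁅b, x⁆ ∈ ⟪t⟫ := by rwa [commutatorElement_def, inv_eq_of_mul_eq_one_right xx]
  by_cases c : b ∈ C[x]
  · exact h.tV' (k x hx e c)
  · exact h.mV.2 (.inr (k _ (mul_mem hx h.sQ) (fun a ha d => csym (mul_mem (csym (e a ha d)) (csym d)))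
      (h.ix2' (h.ct hx) (h.nc e2 c) eb)))

theorem l3b (hx : x ∈ S) (xs : x ∈ C[s]) (xx : x * x = 1) (e : ∀ a ∈ S, a ∈ C[s] → a ∈ C[x]) : x ∈ Vg t s :=
  h.l3a (h.inQ hx (by rw [comm_one.2 (csym (e _ (h.QS h.eW.1) (csym h.se)))]; exact one_mem _)) xs xx
    fun a ha => e a (h.QS ha)

theorem mP : a ∈ Q ⊓ C(Eg t y s) ↔ a ∈ Q ∧ a ∈ C[s] ∧ a ∈ C[y * s * y⁻¹] :=
  ⟨fun z => ⟨z.1, cen_le_cen1 (h.VE h.sV) z.2, cen_le_cen1 h.eE z.2⟩, fun z => ⟨z.1, h.cE (h.ct z.1) z.2.1 z.2.2⟩⟩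

theorem nP : S ≤ N(Q ⊓ C(Eg t y s)) := norms_subcent h.SQ h.nE

theorem yP : y ∈ N(Q ⊓ C(Eg t y s)) :=
  zpowers_le.1 (norms_subcent (zpowers_le.2 h.yn) (zpowers_le.2 h.yE))

theorem l3c (hx : x ∈ Q ⊓ C(Eg t y s)) (xx : x * x = 1) (e : ∀ a ∈ Q ⊓ C(Eg t y s), a ∈ C[x]) : x ∈ Eg t y s := by
  obtain ⟨r, hr, rs, er⟩ := h.r1
  have k : ∀ z ∈ Q ⊓ C(Eg t y s), z * z = 1 → (∀ a ∈ Q ⊓ C(Eg t y s), a ∈ C[z]) → r ∈ C[z] → z ∈ Vg t s :=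
    fun z hz zz h1 h2 => h.l3a hz.1 (h.mP.1 hz).2.1 zz fun q hq c => by
      by_cases d : q ∈ C[y * s * y⁻¹]
      · exact h1 q (h.mP.2 ⟨hq, c, d⟩)
      · exact (mul_mem_cancel_right h2).1 (h1 _ (h.mP.2 ⟨mul_mem hq hr, mul_mem c rs,
          h.ix2 (h.ct hq) (h.nc (h.eW.2 q hq) d) er⟩))
  have k1 : ∀ z ∈ Q ⊓ C(Eg t y s), z * z = 1 → (∀ a ∈ Q ⊓ C(Eg t y s), a ∈ C[z]) → ⁅r, z⁆ ∈ Vg t s :=
    fun z hz zz h1 => by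
    have z' : ∀ a ∈ Q ⊓ C(Eg t y s), a ∈ C[r * z * r⁻¹] := fun a ha => by
      simpa [mul_assoc] using cjcen (h1 _ (conj_mem' (h.nP (h.QS hr)) ha)) r
    have c := mem_cen1.1 (z' z hz)
    have rr := mem_cen1.1 (h1 _ (h.mP.2 ⟨mul_mem hr hr, mul_mem rs rs, h.ix2 (h.ct hr) er er⟩))
    rw [commutatorElement_def, inv_eq_of_mul_eq_one_right zz]
    refine k _ (mul_mem (conj_mem (h.nP (h.QS hr)) hz) hz) ?_
      (fun a ha => csym (mul_mem (csym (z' a ha)) (csym (h1 a ha)))) (mem_cen1.2 ?_)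
    · rw [mul_assoc (r * z * r⁻¹), ← mul_assoc z, c, mul_assoc (r * z * r⁻¹) z z, zz, mul_one, conj_mul, zz]; simp
    · rw [← c]
      calc r * (z * (r * z * r⁻¹)) = r * z * r⁻¹ * (r * r * z) * r⁻¹ := by group
        _ = r * z * r⁻¹ * z * r := by rw [rr]; group
        _ = _ := by rw [← c]
  have k2 : ∀ z ∈ Q ⊓ C(Eg t y s), z * z = 1 → (∀ a ∈ Q ⊓ C(Eg t y s), a ∈ C[z]) → ⁅r, z⁆ ∈ ⟪t⟫ → z ∈ Eg t y s :=
    fun z hz zz h1 h2 => by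
    by_cases c : r ∈ C[z]
    · exact h.VE (k z hz zz h1 c)
    · have m := (h.mP.1 hz).2.2
      refine h.mE.2 (.inr (k _ (mul_mem hz ⟨h.eW.1, h.abE h.eE⟩) ?_
        (fun a ha => csym (mul_mem (csym (h1 a ha)) (csym (h.mP.1 ha).2.2))) (h.ix2' (h.ct hz.1) (h.nc h2 c) er)))
      rw [mul_assoc, ← mul_assoc _ z, ← mem_cen1.1 m, mul_assoc, h.ee, mul_one, zz]
  have tr : ∀ g, g ∈ N(Q ⊓ C(Eg t y s)) → g * x * g⁻¹ ∈ Q ⊓ C(Eg t y s) ∧ g * x * g⁻¹ * (g * x * g⁻¹) = 1 ∧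
      ∀ a ∈ Q ⊓ C(Eg t y s), a ∈ C[g * x * g⁻¹] := fun g hg => ⟨conj_mem hg hx, by rw [conj_mul, xx]; simp,
        fun a ha => by simpa [mul_assoc] using cjcen (e _ (conj_mem' hg ha)) g⟩
  obtain ⟨a1, a2, a3⟩ := tr y h.yP
  obtain ⟨b1, b2, b3⟩ := tr _ (inv_mem h.yP)
  rcases h.mV.1 (k1 x hx xx e) with c1 | c1
  · exact k2 x hx xx e c1
  rcases h.mV.1 (k1 _ a1 a2 a3) with c2 | c2
  · simpa [mul_assoc] using conj_mem' h.yE (k2 _ a1 a2 a3 c2)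
  suffices ⁅r, y⁻¹ * x * y⁻¹⁻¹⁆ ∈ ⟪t⟫ by simpa [mul_assoc] using conj_mem h.yE (k2 _ b1 b2 b3 this)
  obtain ⟨τ, hτ, e2⟩ := h.n1' hx.1
  have v1 := k1 _ a1 a2 a3
  rw [inv_inv, e2]
  generalize y * x * y⁻¹ = x' at *
  have m : ⁅r, x * x'⁆ ∈ ⟪t⟫ := by
    rw [show ⁅r, x * x'⁆ = ⁅r, x⁆ * (x * ⁅r, x'⁆) * x⁻¹ by simp [commutatorElement_def, mul_assoc],
      mem_cen1.1 (h.cV (h.ct hx.1) (h.mP.1 hx).2.1 v1), ← mul_assoc, mul_inv_cancel_right,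
      show ⁅r, x⁆ * ⁅r, x'⁆ = ⁅r, x⁆ * s * (s⁻¹ * (⁅r, x'⁆ * s) * s⁻¹⁻¹) * (s * s)⁻¹ by group, h.ss,
      h.cjt (inv_mem (h.ct h.sQ)) c2]
    simpa using mul_mem c1 c2
  rw [show ⁅r, (x * x')⁻¹ * τ⁆ = (x * x')⁻¹ * (⁅r, x * x'⁆⁻¹ * ⁅r, τ⁆) * (x * x')⁻¹⁻¹ by
    simp [commutatorElement_def, mul_assoc], comm_one.2 (cen1_le_cen1_of_mem_zpowers hτ (h.ct hr)), mul_one]
  exact conj_mem (h.nt (inv_mem (h.ct (mul_mem hx.1 a1.1)))) (inv_mem m)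

end Fv

end Cfsg.Agent.H1.Six
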