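import Mathlib
import Cfsg.Agent.H1.Six3

/-! Fusion of the four-group. -/

set_option autoImplicit false
set_option linter.unusedSectionVars false

namespace Cfsg.Agent.H1.Six

open Cfsg Subgroup Cfsg.Agent.FT Cfsg.Agent.H3 Cfsg.Agent.H28
open scoped commutatorElement

variable {G : Type*} [Group G] [Finite G] {t y a b c f g k s u v x : G} {Q A B P K S X : Subgroup G}

/-- an involution is the only one commuting with itself and an element of order three -/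
def Star (G : Type*) [Group G] : Prop :=
  ∀ e r x : G, e * e = 1 → e ≠ 1 → orderOf r = 3 → r ∈ C[e] → x * x = 1 → x ∈ C[e] → x ∈ C[r] → x = 1 ∨ x = e

theorem cml (hv : v * x = x * v) (a : G) : ⁅v * a, x⁆ = v * ⁅a, x⁆ * v⁻¹ := by
  rw [show ⁅v * a, x⁆ = v * ⁅a, x⁆ * (x * v⁻¹ * x⁻¹) by simp [commutatorElement_def, mul_assoc],
    ← ((show Commute v x from hv).inv_left).eq, mul_inv_cancel_right]

theorem cmr (hv : v * x = x * v) (a : G) : ⁅a * v, x⁆ = ⁅a, x⁆ := by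
  rw [show ⁅a * v, x⁆ = a * (v * x * v⁻¹) * a⁻¹ * x⁻¹ by simp [commutatorElement_def, mul_assoc], hv,
    mul_inv_cancel_right, commutatorElement_def]

/-- an element `k` fusing `t` to `s t` -/
structure Kf (t y s k : G) (Q S : Subgroup G) : Prop extends Fv t y s Q S where
  kT : k ∈ N(S ⊓ C[s])
  kk : k * k ∈ S ⊓ C[s]
  kt : k * t * k⁻¹ = s * t
  ks : k * s * k⁻¹ = s

namespace Kf

variable (h : Kf t y s k Q S)
include h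

theorem kV : k ∈ N(Vg t s) :=
  nrm_sup (fun a ha => by
    rcases h.mt.1 ha with rfl | rfl
    · simp
    · exact h.kt ▸ mul_mem h.sV h.tV) (h.ks.symm ▸ h.sV)

theorem st1 : s * t ∉ ⟪t⟫ := fun z => h.s1 ((mul_mem_cancel_right (mem_zpowers t)).1 z)

theorem cT (ha : a ∈ S ⊓ C[s]) (hv : v ∈ Vg t s) : v * a = a * v := (mem_cen1.1 (h.cV (h.st ha.1) ha.2 hv)).symm

theorem mP' : a ∈ Q ⊓ C(Eg t y s) ↔ a ∈ S ⊓ C[s] ∧ a ∈ C[y * s * y⁻¹] :=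
  h.mP.trans ⟨fun z => ⟨⟨h.QS z.1, z.2.1⟩, z.2.2⟩, fun z => ⟨h.inQ z.1.1 (by rw [comm_one.2 z.2]; exact one_mem _), z.1.2, z.2⟩⟩

theorem eT : y * s * y⁻¹ ∈ S ⊓ C[s] := ⟨h.QS h.eW.1, csym h.se⟩

theorem e3V (ha : a ∈ S ⊓ C[s]) : ⁅a, k * (y * s * y⁻¹) * k⁻¹⁆ ∈ Vg t s := by
  have := conj_mem h.kV (h.aV (conj_mem' h.kT ha).1)
  rwa [cjcomm, show k * (k⁻¹ * a * k) * k⁻¹ = a by group] at this

theorem a3 : ∃ r ∈ Q, k * r * k⁻¹ ∈ S ⊓ C[s] ∧ ⁅k * r * k⁻¹, k * (y * s * y⁻¹) * k⁻¹⁆ = s * t := by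
  obtain ⟨r, hr, rs, er⟩ := h.r1
  exact ⟨r, hr, conj_mem h.kT ⟨h.QS hr, rs⟩, by rw [← cjcomm, er, h.kt]⟩

theorem ke3 : ∃ v ∈ Vg t s, k * (k * (y * s * y⁻¹) * k⁻¹) * k⁻¹ = v * (y * s * y⁻¹) :=
  ⟨_, h.aV h.kk.1, by simp [commutatorElement_def, mul_assoc]⟩

theorem eV : y * s * y⁻¹ ∉ Vg t s := fun z => by
  obtain ⟨r, hr, rs, er⟩ := h.r1
  exact h.t1 (er ▸ comm_one.2 (h.cV (h.ct hr) rs z))

theorem PQ : Q ⊓ C(Eg t y s) ⊴ Q := ⟨inf_le_left, h.QS.trans h.nP⟩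

theorem toP (hu : u ∈ S) (n : u ∉ Q) (e : ∀ b ∈ Q ⊓ C(Eg t y s), ⁅u, b⁆ ∈ Eg t y s) : Q ⊓ C(Eg t y s) ≤ Eg t y s :=
  h.l0 (h.VE h.tV) (h.QS.trans h.nE) h.yE (h.nE hu) h.PQ h.yP (h.nP hu) (h.iv u hu n) e

theorem e3P (hq : k * (y * s * y⁻¹) * k⁻¹ ∈ Q) : k * (y * s * y⁻¹) * k⁻¹ ∈ Q ⊓ C(Eg t y s) := by
  have m := conj_mem h.kT h.eT
  refine h.mP'.2 ⟨m, by_contra fun n => h.st1 ?_⟩
  obtain ⟨v, hv, e⟩ := h.ke3
  have e1 := h.nc (h.eW.2 _ hq) n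
  rw [← h.kt]
  nth_rw 2 [← e1]
  rw [cjcomm, e, cml (h.cT m hv)]
  exact conj_mem (h.nt (h.ct (h.VW hv).1)) (comm_symm (h.eW.2 _ hq))

/-- the case where `k` normalises `E` -/
theorem b1 (sr : Star G) (hE : k * (y * s * y⁻¹) * k⁻¹ ∈ Eg t y s) :
    (∃ u ∈ S, u ∉ Q) ∧ Q ⊓ C(Eg t y s) ≤ Eg t y s := by
  obtain ⟨r, hr, aT, ea⟩ := h.a3
  have aQ : k * r * k⁻¹ ∉ Q := fun z => h.st1 (ea ▸ (h.EW hE).2 _ z)
  have kE : k ∈ N(Eg t y s) := nrm_sup (fun a ha => h.VE (conj_mem h.kV ha)) hE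
  have kP : ∀ p ∈ Q ⊓ C(Eg t y s), k⁻¹ * p * k ∈ Q ⊓ C(Eg t y s) := fun p hp =>
    h.mP'.2 ⟨conj_mem' h.kT (h.mP'.1 hp).1, by simpa [mul_assoc] using cjcen (cen_le_cen1 hE hp.2) k⁻¹⟩
  have kc : ∀ p, ⁅k * r * k⁻¹, p⁆ = k * ⁅r, k⁻¹ * p * k⁆ * k⁻¹ := fun p => by simp [commutatorElement_def, mul_assoc]
  have cP : ∀ u ∈ S, ∀ p ∈ Q ⊓ C(Eg t y s), ⁅u, p⁆ ∈ Q ⊓ C(Eg t y s) := fun u hu p hp =>
    mul_mem (conj_mem (h.nP hu) hp) (inv_mem hp)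
  have SW : S ≤ N(h.W) := fun u hu => h.nW (h.SQ hu) (h.st hu)
  refine ⟨⟨_, aT.1, aQ⟩, h.toP aT.1 aQ fun p hp => ?_⟩
  suffices h.W ⊓ (Q ⊓ C(Eg t y s)) ≤ Eg t y s by
    rw [kc]
    exact conj_mem kE (this ⟨h.cW hr (kP p hp).1, cP r (h.QS hr) _ (kP p hp)⟩)
  refine h.l0 (h.VE h.tV) (h.QS.trans h.nE) h.yE (h.nE aT.1) ⟨inf_le_right.trans inf_le_left, h.QS.trans (normsI SW h.nP)⟩
    (zpowers_le.1 (normsI (zpowers_le.2 (h.nW h.yn h.yt)) (zpowers_le.2 h.yP))) (normsI SW h.nP aT.1) (h.iv _ aT.1 aQ)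
    fun w0 hw => ?_
  obtain ⟨b, hb, eb⟩ := h.bb
  have ts : t * s = s * t := (mem_cen1.1 (h.ct h.sQ)).symm
  have bs : b * s * b⁻¹ = t * s := by rw [← eb, commutatorElement_def]; group
  have bt : b * t * b⁻¹ = t := h.cjt (h.ct hb) (mem_zpowers t)
  have sst : s * (s * t) = t := by rw [← mul_assoc, h.ss, one_mul]
  have kst : k * (s * t) * k⁻¹ = t := by rw [← conj_mul, h.ks, h.kt, sst]
  have cs : b * (k * b * k⁻¹) * s * (b * (k * b * k⁻¹))⁻¹ = t := by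
    nth_rw 1 [← h.ks]
    rw [show b * (k * b * k⁻¹) * (k * s * k⁻¹) * (b * (k * b * k⁻¹))⁻¹ = b * (k * (b * s * b⁻¹) * k⁻¹) * b⁻¹ by group,
      bs, ts, kst, bt]
  have ct : b * (k * b * k⁻¹) * t * (b * (k * b * k⁻¹))⁻¹ = s * t := by
    nth_rw 1 [← kst]
    rw [show b * (k * b * k⁻¹) * (k * (s * t) * k⁻¹) * (b * (k * b * k⁻¹))⁻¹ =
      b * (k * (b * s * b⁻¹ * (b * t * b⁻¹)) * k⁻¹) * b⁻¹ by group, bs, bt, ts, mul_assoc s, h.tt, mul_one, h.ks, bs, ts]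
  have cx : ∀ x ∈ h.W, k⁻¹ * x * k ∈ h.W → ⁅b * (k * b * k⁻¹), x⁆ ∈ Vg t s := fun x h1 h2 => by
    rw [show ⁅b * (k * b * k⁻¹), x⁆ = b * (k * ⁅b, k⁻¹ * x * k⁆ * k⁻¹) * b⁻¹ * ⁅b, x⁆ by
      simp [commutatorElement_def, mul_assoc]]
    exact mul_mem (conj_mem (h.nV (h.QS hb)) (conj_mem h.kV (h.tV' (h2.2 b hb)))) (h.tV' (h1.2 b hb))
  generalize b * (k * b * k⁻¹) = c at *
  have nc : c ∉ C[t] := fun z => h.st1 (by rw [← ct, mem_cen1.1 z, mul_inv_cancel_right]; exact mem_zpowers t)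
  have cst : c * (s * t) * c⁻¹ = s := by rw [← conj_mul, cs, ct, ← mul_assoc, ts, mul_assoc, h.tt, mul_one]
  have adj : ∀ x, ⁅c, x⁆ ∈ Vg t s → ∃ v ∈ Vg t s, v * x ∈ C[c] := fun x hx => by
    suffices ∃ v ∈ Vg t s, c * v * c⁻¹ * ⁅c, x⁆ = v by
      obtain ⟨v, hv, e⟩ := this
      exact ⟨v, hv, mem_cen1.2 (by nth_rw 1 [← e]; simp [commutatorElement_def, mul_assoc])⟩
    rcases h.mV.1 hx with z | z <;> rcases h.mt.1 z with z | z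
    · exact ⟨1, one_mem _, by simp [z]⟩
    · exact ⟨s * t, mul_mem h.sV h.tV, by rw [z, cst]⟩
    · exact ⟨t, h.tV, by rw [eq_inv_of_mul_eq_one_left z, ct, h.si, ← ts, mul_assoc, h.ss, mul_one]⟩
    · exact ⟨s, h.sV, by rw [eq_mul_inv_of_mul_eq z, cs, h.si, ← mul_assoc, h.tt, one_mul]⟩
  have o3 : 3 ∣ orderOf c := by_contra fun n => nc (mem_of_pow_mem (n := 3) (mem_cen1.2 (mul_inv_eq_iff_eq_mul.1 (by
    rw [show c ^ 3 * t * (c ^ 3)⁻¹ = c * (c * (c * t * c⁻¹) * c⁻¹) * c⁻¹ by simp [pow_succ, mul_assoc], ct, cst, cs])))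
    ((Nat.prime_three.coprime_iff_not_dvd.2 n)))
  have wW : ⁅k * r * k⁻¹, w0⁆ ∈ h.W := mul_mem (conj_mem (SW aT.1) hw.1) (inv_mem hw.1)
  have wP := cP _ aT.1 _ hw.2
  obtain ⟨v, hv, cv⟩ := adj _ (cx _ h.eW (h.EW (conj_mem' kE h.eE)))
  obtain ⟨v', hv', cw⟩ := adj _ (cx _ wW (by rw [kc]; simpa [mul_assoc] using h.cW hr (kP _ hw.2).1))
  generalize ⁅k * r * k⁻¹, w0⁆ = w at *
  have sq : ∀ x ∈ h.W, x ∈ C[c] → x * x = 1 := fun x h1 h2 => (h.mt.1 (h.sqW h.zq h1)).resolve_right fun z =>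
    nc (csym (z ▸ mul_mem h2 h2))
  have eE := mul_mem (h.VE hv) h.eE
  have pw : ∀ x ∈ C[c], x ∈ C[c ^ (orderOf c / 3)] := fun x hx => csym (pow_mem (csym hx) _)
  rcases sr _ _ _ (sq _ (h.EW eE) cv) (fun z => h.eV ((mul_mem_cancel_left hv).1 (z ▸ one_mem _)))
    (orderOf_pow_orderOf_div (orderOf_pos c).ne' o3) (csym (pw _ cv)) (sq _ (mul_mem (h.VW hv') wW) cw)
    (cen_le_cen1 eE (mul_mem (h.abE (h.VE hv')) wP.2)) (pw _ cw) with z | z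
  · exact (mul_mem_cancel_left (h.VE hv')).1 (z ▸ one_mem _)
  · exact (mul_mem_cancel_left (h.VE hv')).1 (z ▸ eE)

/-- the case where `k` moves `E` inside `Q` -/
theorem b2 (hP : k * (y * s * y⁻¹) * k⁻¹ ∈ Q ⊓ C(Eg t y s))
    (e1 : ∀ a ∈ Q ⊓ C(Eg t y s), ⁅a, k * (y * s * y⁻¹) * k⁻¹⁆ ∈ ⟪t⟫) (ha : a ∈ Q ⊓ C(Eg t y s)) :
    a ∈ C[k * (y * s * y⁻¹) * k⁻¹] := by
  by_contra n
  obtain ⟨r, hr, aT, ea⟩ := h.a3
  obtain ⟨v, hv, ev⟩ := h.ke3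
  have cT := conj_mem h.kT (h.mP'.1 ha).1
  have c3 := cjcen (h.mP'.1 ha).2 k
  have V3 := fun a => h.e3V (a := a)
  have ee : k * (y * s * y⁻¹) * k⁻¹ * (k * (y * s * y⁻¹) * k⁻¹) = 1 := by rw [conj_mul, h.ee]; simp
  have kC : ∀ a ∈ Q ⊓ C(Eg t y s), a ∈ C[k * (y * s * y⁻¹) * k⁻¹] → k * a * k⁻¹ ∈ Q ⊓ C(Eg t y s) ∧
      k * a * k⁻¹ ∈ C[k * (y * s * y⁻¹) * k⁻¹] := fun a h1 h2 => by
    have m := conj_mem h.kT (h.mP'.1 h1).1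
    refine ⟨h.mP'.2 ⟨m, csym ?_⟩, cjcen (h.mP'.1 h1).2 k⟩
    exact (mul_mem_cancel_left (mem_cen1.2 (h.cT m hv))).1 (ev ▸ csym (cjcen h2 k))
  have kC' : ∀ a ∈ S ⊓ C[s], a ∈ C[k * (y * s * y⁻¹) * k⁻¹] → k⁻¹ * a * k ∈ Q ⊓ C(Eg t y s) := fun a h1 h2 =>
    h.mP'.2 ⟨conj_mem' h.kT h1, by simpa [mul_assoc] using cjcen h2 k⁻¹⟩
  have kU : k ∈ N(Eg t y s ⊔ ⟪k * (y * s * y⁻¹) * k⁻¹⟫) := nrm_sup (fun a ha => by
    rcases h.mE.1 ha with z | z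
    · exact mem_sup_left (h.VE (conj_mem h.kV z))
    · exact (mul_mem_cancel_right (mem_sup_right (mem_zpowers _))).1
        (by rw [conj_mul]; exact mem_sup_left (h.VE (conj_mem h.kV z))))
    (ev ▸ mem_sup_left (mul_mem (h.VE hv) h.eE))
  have cQ : k * a * k⁻¹ ∉ Q := fun z => h.st1 (by
    rw [← h.kt]
    nth_rw 2 [← h.nc (e1 a ha) n]
    rw [cjcomm, ev, comm_cen (h.cT cT hv).symm]
    exact conj_mem (h.nt (h.ct (h.VW hv).1)) (h.eW.2 _ z))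
  generalize k * (y * s * y⁻¹) * k⁻¹ = e at *
  have eW : e ∉ h.W := fun z => h.st1 (by
    by_cases q : k * r * k⁻¹ ∈ Q
    · exact ea ▸ z.2 _ q
    · exact ea ▸ cmr (mem_cen1.1 c3) (k * r * k⁻¹) ▸ z.2 _ (h.ix _ aT.1 _ cT.1 q cQ))
  have QE := h.QS.trans h.nE
  have e2 : ∀ q ∈ Q, ⁅q, e⁆ ∈ Eg t y s := fun q hq => comm_symm (h.l1 h.sW (h.VE h.tV) QE h.yE hP.1
    (fun a h1 h2 => h.VE (comm_symm (V3 _ ⟨h.QS h1, h2⟩))) q hq)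
  have yc : ∀ q, ⁅q, y * e * y⁻¹⁆ = y * ⁅y⁻¹ * q * y, e⁆ * y⁻¹ := fun q => by simp [commutatorElement_def, mul_assoc]
  have d2 : ∀ q ∈ Q, ⁅q, y * e * y⁻¹⁆ ∈ Eg t y s := fun q hq => yc q ▸ conj_mem h.yE (e2 _ (conj_mem' h.yn hq))
  have d1 : ∀ q ∈ Q ⊓ C(Eg t y s), ⁅q, y * e * y⁻¹⁆ ∈ ⟪t⟫ := fun q hq =>
    yc q ▸ conj_mem (h.nt h.yt) (e1 _ (conj_mem' h.yP hq))
  have dP := conj_mem h.yP hP
  have de := h.inv3 hP.1 ee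
  have dd : y * e * y⁻¹ * (y * e * y⁻¹) = 1 := by rw [conj_mul, ee]; simp
  obtain ⟨τ, hτ, eτ⟩ := h.n1' hP.1
  have τE := h.VE (h.tV' hτ)
  have eU : e ∈ Eg t y s ⊔ ⟪e⟫ := mem_sup_right (mem_zpowers e)
  have QU : Q ≤ N(Eg t y s ⊔ ⟪e⟫) := fun q hq =>
    nrm_sup (fun a ha => mem_sup_left (conj_mem (QE hq) ha)) (cj_of_comm eU (mem_sup_left (e2 q hq)))
  have dU : ∀ a ∈ S ⊓ C[s], ⁅a, y * e * y⁻¹⁆ ∈ Eg t y s ⊔ ⟪e⟫ := fun u hu => by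
    by_cases m : u ∈ Q
    · exact mem_sup_left (d2 u m)
    obtain ⟨q, hq, z⟩ := h.uy hu.1 m
    rw [commutatorElement_def, z e hP.1, show y⁻¹ * (q * (u * e * u⁻¹) * q⁻¹) * y =
      y⁻¹ * (q * ⁅u, e⁆ * q⁻¹ * ⁅q, e⁆) * y * (y⁻¹ * e * y) by simp [commutatorElement_def, mul_assoc], eτ, de, mul_assoc]
    refine mul_mem (mem_sup_left (conj_mem' h.yE (mul_mem (conj_mem (QE hq) (h.VE (V3 _ hu))) (e2 q hq)))) ?_
    have := h.cjt (h.ct dP.1) hτ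
    generalize y * e * y⁻¹ = d at *
    rw [show (d * e)⁻¹ * τ * d⁻¹ = e⁻¹ * (d * d)⁻¹ * (d * τ * d⁻¹) by group, dd, this]
    exact mul_mem (mul_mem (inv_mem eU) (inv_mem (one_mem _))) (mem_sup_left τE)
  have yW := h.nW h.yn h.yt
  have dW : y * e * y⁻¹ ∉ h.W := fun z => eW (by simpa [mul_assoc] using conj_mem' yW z)
  have dW' : y * e * y⁻¹ * e ∉ h.W := fun z => eW (by
    have : y⁻¹ * e * y ∈ h.W := eτ ▸ mul_mem (inv_mem (de ▸ z)) (h.EW τE)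
    simpa [mul_assoc] using conj_mem yW this)
  obtain ⟨p, hp, pe, pd⟩ := h.f2g inf_le_left h.yP hP.1 e1 ha n
  have yD : y ∈ N(Eg t y s ⊔ ⟪e⟫ ⊔ ⟪y * e * y⁻¹⟫) := nrm_sup (fun a ha => by
    rcases (mem_sup2 (QE hP.1) (ee ▸ one_mem _)).1 ha with z | z
    · exact mem_sup_left (mem_sup_left (conj_mem h.yE z))
    · exact (mul_mem_cancel_right (mem_sup_right (mem_zpowers _))).1
        (by rw [conj_mul]; exact mem_sup_left (mem_sup_left (conj_mem h.yE z))))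
    (by rw [h.yy', eτ]
        exact mul_mem (inv_mem (mul_mem (mem_sup_left eU) (mem_sup_right (mem_zpowers _)))) (mem_sup_left (mem_sup_left τE)))
  obtain ⟨d3, -⟩ := kC _ dP (mem_cen1.2 de.symm)
  generalize y * e * y⁻¹ = d at *
  have QD : Q ≤ N(Eg t y s ⊔ ⟪e⟫ ⊔ ⟪d⟫) := fun q hq => nrm_sup (fun a ha => mem_sup_left (conj_mem (QU hq) ha))
    (cj_of_comm (mem_sup_right (mem_zpowers d)) (mem_sup_left (mem_sup_left (d2 q hq))))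
  have kc : ∀ q, ⁅q, k * d * k⁻¹⁆ = k * ⁅k⁻¹ * q * k, d⁆ * k⁻¹ := fun q => by simp [commutatorElement_def, mul_assoc]
  obtain ⟨b, hb, eb⟩ := h.bb
  have gD := comm_symm (h.l1 h.sW (mem_sup_left (mem_sup_left (h.VE h.tV))) QD yD d3.1 (fun a h1 h2 =>
    comm_symm (kc a ▸ mem_sup_left (conj_mem kU (dU _ (conj_mem' h.kT ⟨h.QS h1, h2⟩))))) b hb)
  have gW := h.cW hb d3.1
  have gE : ⁅b, k * d * k⁻¹⁆ ∈ Eg t y s := by
    rcases (mem_sup2 (QU dP.1) (dd ▸ one_mem _)).1 gD with z | z <;>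
      rcases (mem_sup2 (QE hP.1) (ee ▸ one_mem _)).1 z with z | z
    · exact z
    · exact (eW ((mul_mem_cancel_left gW).1 (h.EW z))).elim
    · exact (dW ((mul_mem_cancel_left gW).1 (h.EW z))).elim
    · exact (dW' ((mul_mem_cancel_left gW).1 (mul_assoc _ d e ▸ h.EW z))).elim
  obtain ⟨p1, p2⟩ := kC p hp pe
  have p3 := conj_mem (h.nP (h.QS hb)) p1
  have p4 : b * (k * p * k⁻¹) * b⁻¹ ∈ C[e] := by
    have := cjcen p2 b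
    rw [show b * e * b⁻¹ = ⁅b, e⁆ * e by simp [commutatorElement_def]] at this
    exact csym ((mul_mem_cancel_left (csym (cen_le_cen1 (e2 b hb) p3.2))).1 (csym this))
  have z := d1 _ (kC' _ (h.mP'.1 p3).1 p4)
  have z2 : b * (k * ⁅p, d⁆ * k⁻¹) * b⁻¹ = s := by
    rw [pd, h.kt, ← conj_mul, h.cjt (h.ct hb) (mem_zpowers t), show b * s * b⁻¹ = ⁅b, s⁆ * s by
      simp [commutatorElement_def], eb, ← mem_cen1.1 (h.ct h.sQ), mul_assoc, h.tt, mul_one]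
  rw [cjcomm, cjcomm, show b * (k * d * k⁻¹) * b⁻¹ = ⁅b, k * d * k⁻¹⁆ * (k * d * k⁻¹) by
    rw [commutatorElement_def, inv_mul_cancel_right], comm_cen (mem_cen1.1 (cen_le_cen1 gE p3.2)), mul_inv_eq_iff_eq_mul,
    ← mem_cen1.1 (cen_le_cen1 (h.VE h.sV) (h.abE gE)), mul_left_cancel_iff, kc] at z2
  exact h.s1 (mul_left_cancel (mul_right_cancel (z2.trans h.ks.symm)) ▸ z)

theorem big (sr : Star G) : (∃ u ∈ S, u ∉ Q) ∧ Q ⊓ C(Eg t y s) ≤ Eg t y s := by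
  have m := conj_mem h.kT h.eT
  by_cases q : k * (y * s * y⁻¹) * k⁻¹ ∈ Q
  · have hP := h.e3P q
    refine h.b1 sr (h.l3c hP (by rw [conj_mul, h.ee]; simp) fun a ha => h.b2 hP (fun a ha => comm_symm ?_) ha)
    exact h.ll (mem_zpowers t) (h.ct.trans h.nt) (h.nt h.yt) inf_le_left h.yP q h.sQ (h.ss ▸ one_mem _)
      (fun a ha => h.mV.1 (comm_symm (h.e3V (h.mP'.1 ha).1))) a ha
  · exact ⟨⟨_, m.1, q⟩, h.toP m.1 q fun b hb => h.VE (comm_symm (h.e3V (h.mP'.1 hb).1))⟩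

end Kf

end Cfsg.Agent.H1.Six
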