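import Mathlib
import Cfsg.Agent.H1.Six4
import Cfsg.Agent.FT.BG01
import Cfsg.Agent.H28.Wielandt

/-! The structure of the Sylow subgroup. -/

set_option autoImplicit false
set_option linter.unusedSectionVars false

namespace Cfsg.Agent.H1.Six

open Cfsg Subgroup Cfsg.Agent.FT Cfsg.Agent.H3 Cfsg.Agent.H28
open scoped commutatorElement

variable {G : Type*} [Group G] [Finite G] {t y a b c d f g k s u v x z : G} {Q A B M P K S T X : Subgroup G}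

/-- one class of involutions -/
def One (G : Type*) [Group G] : Prop := ∀ a b : G, a * a = 1 → a ≠ 1 → b * b = 1 → b ≠ 1 → ∃ g, g * a * g⁻¹ = b

theorem sylC (hS : Syl 2 S ⊤) (st : S ≤ C[t]) (e : g * t * g⁻¹ = s) (pT : PGrp 2 T) (Ts : T ≤ C[s]) :
    ∃ g, g * t * g⁻¹ = s ∧ T ≤ cj g S := by
  obtain ⟨c, hc, z⟩ := ((hS.cj_mem (mem_top g)).subl (K := C[s]) (e ▸ cj_cen1 g t ▸ cj_mono g st) le_top).syl_subJ pT Ts
  exact ⟨c * g, by rw [show c * g * t * (c * g)⁻¹ = c * (g * t * g⁻¹) * c⁻¹ by group, e, mem_cen1.1 hc,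
    mul_inv_cancel_right], cj_cj c g S ▸ z⟩

theorem burn (hS : Syl 2 S ⊤) (st : S ≤ C[t]) (ss : S ≤ C[s]) (e : g * t * g⁻¹ = s) : ∃ d ∈ N(S), d * t * d⁻¹ = s := by
  obtain ⟨d, e, z⟩ := sylC hS st e hS.pi ss
  exact ⟨d, cj_eq_self.1 (eq_of_card_eq z (card_cj d S).symm).symm, e⟩

theorem inv2 (hK : PGrp 2 K) (h : K ≠ ⊥) : ∃ a ∈ K, a * a = 1 ∧ a ≠ 1 := by
  obtain ⟨a, ha, e⟩ := hK.exists_elt h
  exact ⟨a, ha, by rw [← sq, ← e, pow_orderOf_eq_one], fun z => by simp [z] at e⟩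

theorem syl3 (hy : orderOf y = 3) (yM : y ∈ M) (h : ∀ a ∈ M, a ∈ C[y] → PiElt {2}ᶜ a → a ∈ ⟪y⟫) : Syl 3 ⟪y⟫ M := by
  have c : #⟪y⟫ = 3 := (card_zpowers' y).trans hy
  refine syl_of_max (pGrp_of_card Nat.prime_three (c.trans (pow_one 3).symm)) (zpowers_le.2 yM) fun P pP l1 l2 => ?_
  by_contra n
  refine (pP.lt_subnorm (lt_of_le_of_ne l1 (Ne.symm n))).not_ge fun a ha => h a (l2 ha.1) ?_
    (PiNat.p' (pP.piElt ha.1) (by norm_num))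
  by_contra m
  exact lt_irrefl 3 ((pP.inf_left _).lt_of_not_cents Nat.prime_three c inf_le_right fun z => m (cen_le_cen1 (mem_zpowers y) (z ha)))

/-- the norm -/
abbrev nu (y a : G) : G := a * (y * a * y⁻¹) * (y⁻¹ * a * y)

theorem Dt.numul (h : Dt t y Q) (ha : a ∈ Z(Q)) (hb : b ∈ Q) : nu y (a * b) = nu y a * nu y b := by
  have n := zpowers_le.1 (norms_center (zpowers_le.2 h.yn))
  have c1 := mem_cen.1 (conj_mem n ha).2 b hb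
  have c2 := mem_cen.1 (conj_mem' n ha).2 _ (mul_mem hb (conj_mem h.yn hb))
  calc nu y (a * b) = a * (b * (y * a * y⁻¹)) * (y * b * y⁻¹) * (y⁻¹ * a * y) * (y⁻¹ * b * y) := by group
    _ = a * (y * a * y⁻¹) * (b * (y * b * y⁻¹) * (y⁻¹ * a * y)) * (y⁻¹ * b * y) := by rw [c1]; group
    _ = _ := by rw [c2]; group

theorem Dt.nut (h : Dt t y Q) : nu y t = t := by
  have := h.cjt (inv_mem h.yt) (mem_zpowers t)
  rw [inv_inv] at this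
  rw [nu, h.cjt h.yt (mem_zpowers t), this, h.tt, one_mul]

namespace St

variable (h : St t y Q S)
include h

theorem uz (hu : u ∈ S) (n : u ∉ Q) (ha : a ∈ Z(Q)) : u * (y * a * y⁻¹) * u⁻¹ = y⁻¹ * (u * a * u⁻¹) * y := by
  obtain ⟨q, hq, e⟩ := h.uy hu n
  rw [e a ha.1, mem_cen.1 (conj_mem (norms_center h.SQ hu) ha).2 q hq, mul_inv_cancel_right]

theorem nucj (hu : u ∈ S) (ha : a ∈ Z(Q)) : nu y (u * a * u⁻¹) = nu y a := by
  by_cases n : u ∈ Q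
  · rw [mem_cen.1 ha.2 u n, mul_inv_cancel_right]
  have yz := zpowers_le.1 (norms_center (zpowers_le.2 h.yn))
  have e1 := h.uz hu n ha
  have e2 := h.uz hu n (conj_mem' yz ha)
  have m := conj_mem (norms_center h.SQ hu) ha
  unfold nu
  rw [← h.cjt (h.st hu) (h.n1 ha.1).1, ← conj_mul (b := u), ← conj_mul (b := u), e1, mul_assoc (u * a * u⁻¹),
    mem_cen.1 (conj_mem' yz m).2 _ (conj_mem h.yn m.1), mul_assoc (u * a * u⁻¹)]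
  congr 2
  rw [show y * (y⁻¹ * a * y) * y⁻¹ = a by group] at e2
  rw [e2]; group

theorem exz (n : ¬ ∀ a ∈ Q, a ∈ C(Q) → a ∈ ⟪t⟫) : ∃ z ∈ Z(Q), z ∈ C(S) ∧ z * z = 1 ∧ z ≠ 1 ∧ nu y z = 1 := by
  let Z0 : Subgroup G :=
    { carrier := {a | a ∈ Z(Q) ∧ nu y a = 1}
      one_mem' := ⟨one_mem _, by simp [nu]⟩
      mul_mem' := fun ha hb => ⟨mul_mem ha.1 hb.1, by rw [h.numul ha.1 hb.1.1, ha.2, hb.2, one_mul]⟩
      inv_mem' := fun {a} ha => ⟨inv_mem ha.1, by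
        have := h.numul ha.1 (inv_mem ha.1.1)
        rw [ha.2, one_mul, mul_inv_cancel] at this
        rw [← this]; simp [nu]⟩ }
  have nm : Z0 ⊴ S := ⟨fun a ha => h.QS ha.1.1, fun u hu => mem_nrm.2 fun a ha =>
    ⟨conj_mem (norms_center h.SQ hu) ha.1, (h.nucj hu ha.1).trans ha.2⟩⟩
  have ne : Z0 ≠ ⊥ := fun e => n fun a h1 h2 => by
    rcases h.mt.1 (h.n1 h1).1 with z | z
    · exact mem_bot.1 (e.le ⟨⟨h1, h2⟩, z⟩) ▸ one_mem _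
    · refine (mul_mem_cancel_right (mem_zpowers t)).1 (mem_bot.1 (e.le (x := a * t)
        ⟨mul_mem (show a ∈ Z(Q) from ⟨h1, h2⟩) ⟨h.tQ, le_cen1.1 h.ct⟩, ?_⟩) ▸ one_mem _)
      rw [h.numul ⟨h1, h2⟩ h.tQ, h.nut, nu, z, h.tt]
  obtain ⟨z, hz, zz, z1⟩ := inv2 ((h.syl.pi.mono nm.le).inf_left _) (h.syl.pi.nil.meet_cen nm ne)
  exact ⟨z, hz.1.1, hz.2, zz, z1, hz.1.2⟩

theorem ty2 (o : One G) (hu : u ∈ S) (n : u ∉ Q) : ∀ a ∈ Q, a ∈ C(Q) → a ∈ ⟪t⟫ := by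
  by_contra m
  obtain ⟨z, hz, zS, zz, z1, nz⟩ := h.exz m
  have yz := zpowers_le.1 (norms_center (zpowers_le.2 h.yn))
  have eZ := conj_mem yz hz
  have zi : z⁻¹ = z := inv_eq_of_mul_eq_one_right zz
  have ue : ∀ u ∈ S, u ∉ Q → ⁅u, y * z * y⁻¹⁆ = z := fun u hu n => by
    rw [commutatorElement_def, h.uz hu n hz, mem_cen.1 zS u hu, mul_inv_cancel_right, eq_inv_of_mul_eq_one_right nz,
      mem_cen.1 eZ.2 z hz.1, mul_inv_rev, mul_assoc, ← mul_inv_rev, conj_mul, zz, zi]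
    simp
  generalize y * z * y⁻¹ = e at eZ ue
  have de : ∀ d a, ⁅a, d * e * d⁻¹⁆ = d * ⁅d⁻¹ * a * d, e⁆ * d⁻¹ := fun d a => by simp [commutatorElement_def, mul_assoc]
  have d0 : ∀ d a, d⁻¹ * a * d ∈ Q → ⁅a, d * e * d⁻¹⁆ = 1 := fun d a q => by
    rw [de, commutatorElement_eq_one_iff_mul_comm.2 (mem_cen.1 eZ.2 _ q)]; simp
  have d1 : ∀ d ∈ N(S), ∀ a ∈ S, d⁻¹ * a * d ∉ Q → ⁅a, d * e * d⁻¹⁆ = d * z * d⁻¹ := fun d hd a ha q => by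
    rw [de, ue _ (conj_mem' hd ha) q]
  have zt : z ≠ t := fun x => h.t1 (by rw [← h.nut, ← x, nz])
  have K : ∀ d ∈ N(S), ∀ q ∈ Q, d⁻¹ * q * d ∉ Q → d * z * d⁻¹ = t ∧ ¬ Q ≤ C(Q) ∨ d * z * d⁻¹ = z ∧ Q ≤ C(Q) :=
    fun d hd q hq qn => by
    have eS := conj_mem hd (h.QS eZ.1)
    have w := d1 d hd q (h.QS hq) qn
    have wQ : d * z * d⁻¹ ∈ Q := by
      rw [← w, commutatorElement_def, mul_assoc, mul_assoc]
      exact mul_mem hq (mul_assoc (d * e * d⁻¹) _ _ ▸ conj_mem (h.SQ eS) (inv_mem hq))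
    have ww : d * z * d⁻¹ * (d * z * d⁻¹) = 1 := by rw [conj_mul, zz]; simp
    have dd : ∀ a ∈ Q, ⁅d * e * d⁻¹, a⁆ = 1 ∨ ⁅d * e * d⁻¹, a⁆ = d * z * d⁻¹ := fun a ha => by
      rw [← commutatorElement_inv]
      by_cases x : d⁻¹ * a * d ∈ Q
      · exact .inl (by rw [d0 d a x, inv_one])
      · exact .inr (by rw [d1 d hd a (h.QS ha) x, inv_eq_of_mul_eq_one_right ww])
    by_cases eQ : d * e * d⁻¹ ∈ Q
    · refine .inl ⟨(h.mt.1 (w ▸ comm_symm (h.ll (mem_zpowers t) (h.ct.trans h.nt) (h.nt h.yt) le_rfl h.yn eQ wQ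
        (ww ▸ one_mem _) (fun a ha => (dd a ha).imp (fun x => by rw [x]; exact one_mem _) fun x => by rw [x, ww]; exact one_mem _)
        q hq))).resolve_left (conj_ne_one.2 z1), fun x => (conj_ne_one (g := d)).2 z1 ?_⟩
      rw [← w, commutatorElement_eq_one_iff_mul_comm.2 (mem_cen.1 (x eQ) q hq)]
    · refine .inr ⟨?_, (h.l0 (A := Z(Q)) ⟨h.tQ, le_cen1.1 h.ct⟩ (norms_center (le_nrm Q)) yz (norms_center h.SQ eS) (Nml.refl Q) h.yn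
        (h.SQ eS) (h.iv _ eS eQ) fun b hb => ?_).trans inf_le_right⟩
      · exact ((dd e eZ.1).resolve_left (ue _ eS eQ ▸ z1)).symm.trans (ue _ eS eQ)
      · rcases dd b hb with x | x <;> rw [x]
        · exact one_mem _
        · exact ⟨wQ, cen_anti h.QS (conj_mem (zpowers_le.1 (norms_cent (zpowers_le.2 hd))) zS)⟩
  obtain ⟨g, e1⟩ := o z t zz z1 h.tt h.t1
  obtain ⟨d, hd, e1⟩ := burn h.syl (le_cen1.2 zS) h.st e1
  have dQ : d ∉ N(Q) := fun x => h.t1 (by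
    have m := conj_mem (zpowers_le.1 (norms_center (zpowers_le.2 x))) eZ
    have := h.nucj (conj_mem hd hu) m
    rw [show d * u * d⁻¹ * (d * e * d⁻¹) * (d * u * d⁻¹)⁻¹ = ⁅d * u * d⁻¹, d * e * d⁻¹⁆ * (d * e * d⁻¹) by
      rw [commutatorElement_def, inv_mul_cancel_right], ← cjcomm, ue u hu n, e1,
      h.numul ⟨h.tQ, le_cen1.1 h.ct⟩ m.1, h.nut] at this
    simpa using this)
  have ex : ∀ d, d⁻¹ ∉ N(Q) → ∃ q ∈ Q, d⁻¹ * q * d ∉ Q := fun d x => by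
    by_contra! w
    exact x (mem_nrm.2 fun q hq => by simpa using w q hq)
  obtain ⟨q, hq, qn⟩ := ex d fun x => dQ (inv_mem_iff.1 x)
  obtain ⟨q', hq', qn'⟩ := ex d⁻¹ (by simpa using dQ)
  obtain ⟨-, na⟩ := (K d hd q hq qn).resolve_right fun x => zt (x.1.symm.trans e1)
  obtain ⟨e2, -⟩ := (K _ (inv_mem hd) q' hq' qn').resolve_right fun x => na x.2
  have d2 : d ^ 2 ∈ C[z] := mem_cen1.2 (mul_inv_eq_iff_eq_mul.1 (by
    rw [show d ^ 2 * z * (d ^ 2)⁻¹ = d * (d * z * d⁻¹) * d⁻¹ by simp [sq, mul_assoc], e1, ← e2]; group))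
  have : d ∈ C[z] := constt_mul_compl {2} d ▸ mul_mem
    (le_cen1.2 zS ((h.syl.subl (le_nrm S) le_top).mem_of_nml le_rfl (constt_mem _ hd) (piElt_constt _ d)))
    ((piElt_constt {2}ᶜ d).mem_of_pow_mem (n := 2) ((piNat_prime Nat.prime_two).2 (by simp))
      (zpowers_le.2 d2 (sq_mem_zpowers_sq (constt_mem_zpowers _ d))))
  exact zt (by rw [← e1, mem_cen1.1 this, mul_inv_cancel_right])

theorem exs (zq : ∀ a ∈ Q, a ∈ C(Q) → a ∈ ⟪t⟫) (ha : a ∈ h.W) (aa : a * a = 1) (a1 : a ∉ ⟪t⟫) : ∃ s, Fv t y s Q S := by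
  by_cases n : ∀ u ∈ S, u ∈ Q
  · exact ⟨a, h, zq, ha.1, aa, a1, fun u hu => ha.2 u (n u hu)⟩
  push Not at n
  obtain ⟨u, hu, n⟩ := n
  have uW := h.nW (h.SQ hu) (h.st hu)
  have yW := h.nW h.yn h.yt
  have fin : ∀ s ∈ h.W, s * s = 1 → s ∉ ⟪t⟫ → ⁅u, s⁆ ∈ ⟪t⟫ → ∃ s, Fv t y s Q S := fun s hs ss s1 e =>
    ⟨s, h, zq, hs.1, ss, s1, fun v hv => by
      by_cases m : v ∈ Q
      · exact hs.2 v m
      have := hs.2 _ (h.ix v hv u hu m n)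
      rw [show ⁅v * u, s⁆ = v * ⁅u, s⁆ * v⁻¹ * ⁅v, s⁆ by simp [commutatorElement_def, mul_assoc]] at this
      exact (mul_mem_cancel_left (conj_mem (h.nt (h.st hv)) e)).1 this⟩
  have step : ∀ s ∈ h.W, s * s = 1 → s ∉ ⟪t⟫ → s ∈ C[u * s * u⁻¹] → ∃ s, Fv t y s Q S := fun s hs ss s1 e => by
    have si : s⁻¹ = s := inv_eq_of_mul_eq_one_right ss
    by_cases m : u * s * u⁻¹ * s ∈ ⟪t⟫
    · exact fin s hs ss s1 (by rwa [commutatorElement_def, si])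
    refine fin _ (mul_mem (conj_mem uW hs) hs) ?_ m ?_
    · rw [mul_assoc, ← mul_assoc s, mem_cen1.1 e, mul_assoc (u * s * u⁻¹) s s, ss, mul_one, conj_mul, ss]; simp
    · rw [show ⁅u, u * s * u⁻¹ * s⁆ = ⁅u * u, s⁆ * (s * (u * s * u⁻¹) * s⁻¹ * (u * s * u⁻¹)⁻¹) by
        simp [commutatorElement_def, mul_assoc], mem_cen1.1 e]
      simpa using hs.2 _ (h.ix u hu u hu n n)
  have tw : ∀ b ∈ h.W, ∀ x ∈ Q, y * x * y⁻¹ ∈ C[u * b * u⁻¹] → x ∈ C[u * (y * b * y⁻¹) * u⁻¹] := fun b hb x hx e => by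
    obtain ⟨q, hq, z⟩ := h.uy hu n
    rw [z b hb.1, show q * (u * b * u⁻¹) * q⁻¹ = ⁅q, u * b * u⁻¹⁆ * (u * b * u⁻¹) by
      rw [commutatorElement_def, inv_mul_cancel_right]]
    simpa [mul_assoc] using cjcen (csym (mul_mem (csym (cen1_le_cen1_of_mem_zpowers ((conj_mem uW hb).2 q hq)
      (h.ct (conj_mem h.yn hx)))) (csym e))) y⁻¹
  have ty : ∀ s ∈ h.W, s * s = 1 → s ∉ ⟪t⟫ → y * s * y⁻¹ ∈ h.W ∧ y * s * y⁻¹ * (y * s * y⁻¹) = 1 ∧ y * s * y⁻¹ ∉ ⟪t⟫ :=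
    fun s hs ss s1 => ⟨conj_mem yW hs, by rw [conj_mul, ss]; simp, fun z => s1 (by
      simpa [mul_assoc] using conj_mem' (h.nt h.yt) z)⟩
  obtain ⟨b1, b2, b3⟩ := ty a ha aa a1
  obtain ⟨c1, c2, c3⟩ := ty _ b1 b2 b3
  by_cases m : a ∈ C[u * a * u⁻¹]
  · exact step a ha aa a1 m
  by_cases m' : y * a * y⁻¹ ∈ C[u * a * u⁻¹]
  · refine step _ c1 c2 c3 (tw _ b1 _ c1.1 ?_)
    rw [h.yy', show y⁻¹ * (y * a * y⁻¹) * y = a by group]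
    exact tw a ha a ha.1 m'
  refine step _ b1 b2 b3 (tw a ha _ b1.1 ?_)
  obtain ⟨τ, hτ, e⟩ := h.n1' ha.1
  have w := conj_mem uW ha
  rw [h.yy', e]
  exact mul_mem (inv_mem (h.ix2 (h.ct ha.1) (h.nc (w.2 a ha.1) m) (h.nc (w.2 _ b1.1) m')))
    (csym (cen1_le_cen1_of_mem_zpowers hτ (h.ct w.1)))

end St

theorem Fv.exk (h : Fv t y s Q S) (o : One G) : ∃ k, Kf t y s k Q S := by
  obtain ⟨b, hb, eb⟩ := h.bb
  have s1 : s ≠ 1 := fun z => h.s1 (z ▸ one_mem _)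
  obtain ⟨g, e⟩ := o t s h.tt h.t1 h.ss s1
  obtain ⟨g, e, l⟩ := sylC h.syl h.st e (h.syl.pi.inf_left C[s]) inf_le_right
  have bs : b ∉ C[s] := fun z => h.t1 (eb ▸ comm_one.2 z)
  have i1 : (S ⊓ C[s]).relIndex S = 2 := relIndex_eq_two_iff.2 ⟨b, h.QS hb, fun a ha => by
    by_cases m : a ∈ C[s]
    · exact .inr ⟨⟨ha, m⟩, fun z => bs ((mul_mem_cancel_left m).1 z.2)⟩
    · exact .inl ⟨⟨mul_mem ha (h.QS hb), h.ix2 (h.st ha) (h.nc (h.us a ha) m) eb⟩, fun z => m z.2⟩⟩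
  have i2 : (S ⊓ C[s]).relIndex (cj g S) = 2 :=
    relIndex_of_card_mul l ((card_cj g S).trans (card_of_relIndex inf_le_left i1))
  have mm := fun x y => mul_mem_iff_of_relIndex_two (x := x) (y := y) i2
  obtain ⟨k, hk, kT⟩ : ∃ k ∈ cj g S, k ∉ S ⊓ C[s] := by
    by_contra! z
    rw [relIndex_eq_one.2 z] at i2
    omega
  have kn : k ∈ N(S ⊓ C[s]) := mem_nrm.2 fun a ha => (mm _ _ (mul_mem hk (l ha)) (inv_mem hk)).2
    (iff_of_false (fun z => kT ((mul_mem_cancel_right ha).1 z)) fun z => kT (inv_mem_iff.1 z))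
  have ks : k * s * k⁻¹ = s := by
    rw [mem_cen1.1 ((e ▸ cj_cen1 g t ▸ cj_mono g h.st : cj g S ≤ C[s]) hk), mul_inv_cancel_right]
  have tT : t ∈ S ⊓ C[s] := ⟨h.QS h.tQ, csym (h.ct h.sQ)⟩
  have m := conj_mem kn tT
  have v := h.l3b m.1 m.2 (by rw [conj_mul, h.tt]; simp) fun a h1 h2 => by
    simpa [mul_assoc] using cjcen (h.st (conj_mem' kn ⟨h1, h2⟩).1) k
  refine ⟨k, h, kn, (mm _ _ hk hk).2 Iff.rfl, ?_, ks⟩
  rcases h.mV.1 v with z | z <;> rcases h.mt.1 z with z | z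
  · exact (conj_ne_one.2 h.t1 z).elim
  · have c : cj g S ≤ C[t] := fun a ha => by
      by_cases x : a ∈ S ⊓ C[s]
      · exact h.st x.1
      · exact (mul_mem_cancel_right (mem_cen1.2 (mul_inv_eq_iff_eq_mul.1 z))).1
          (h.st ((mm _ _ ha hk).2 (iff_of_false x kT)).1)
    have c' : ∀ a ∈ S, a ∈ C[g⁻¹ * t * g] := fun a ha => by simpa [mul_assoc] using cjcen (c (conj_mem_cj.2 ha)) g⁻¹
    have tS : g⁻¹ * t * g ∈ S := mem_cj.1 (l tT)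
    rcases h.mt.1 (h.zq _ (h.inQ tS (by rw [comm_one.2 (csym (c' _ (h.QS h.eW.1)))]; exact one_mem _))
      (le_cen1.1 fun a ha => c' a (h.QS ha))) with x | x
    · exact (h.t1 (by simpa [mul_assoc] using congrArg (g * · * g⁻¹) x)).elim
    · exact (h.s1 (by rw [← e, show g * t * g⁻¹ = t by nth_rw 1 [← x]; group]; exact mem_zpowers t)).elim
  · rw [← ks, conj_mul, ← mul_inv_eq_one.2 (rfl : k = k), ← mul_one k, mul_left_inj, mul_one, ← mul_one k, mul_assoc,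
      mul_right_inj, one_mul] at z
    exact (h.s1 (eq_inv_of_mul_eq_one_right z ▸ inv_mem (mem_zpowers t))).elim
  · rw [eq_mul_inv_of_mul_eq z, h.si, mem_cen1.1 (h.ct h.sQ)]

theorem St.two (h : St t y Q S) (o : One G) (sr : Star G) (zq : ∀ a ∈ Q, a ∈ C(Q) → a ∈ ⟪t⟫) :
    Q ≤ ⟪t⟫ ∨ ((∀ a ∈ Q, a * a = 1 → a ∈ ⟪t⟫) ∧ Q ≤ h.W ∧ 8 ∣ #Q) ∨
      ∃ s, Fv t y s Q S ∧ (∃ u ∈ S, u ∉ Q) ∧ Q ⊓ C(Eg t y s) ≤ Eg t y s := by
  by_cases n : ∀ a ∈ h.W, a * a = 1 → a ∈ ⟪t⟫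
  · refine (em _).imp_right fun m => .inl ?_
    obtain ⟨h1, h2⟩ := h.quat zq n m
    exact ⟨fun a ha => n a (h1 ha), h1, h2⟩
  push Not at n
  obtain ⟨a, ha, aa, a1⟩ := n
  obtain ⟨s, hs⟩ := h.exs zq ha aa a1
  obtain ⟨k, hk⟩ := hs.exk o
  exact .inr (.inr ⟨s, hs, hk.big sr⟩)

theorem St.ty1 (h : St t y S S) (o : One G) (hy : orderOf y = 3)
    (cy : ∀ a ∈ C[t], a ∈ C[y] → PiElt {2}ᶜ a → a ∈ ⟪y⟫) (n : ¬ ∀ a ∈ S, a ∈ C(S) → a ∈ ⟪t⟫) :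
    S ≤ C(S) ∧ #S = 8 ∧ ∀ a ∈ S, a * a = 1 := by
  obtain ⟨z, hz, -, zz, z1, nz⟩ := h.exz n
  have hS := h.syl.subl (le_nrm S) le_top
  obtain ⟨D0, h0, -⟩ := hS.exists_compl le_rfl
  obtain ⟨P, hP⟩ := exists_syl 3 D0
  have p3 : PGrp 3 ⟪y⟫ := (pElt_of_pow_eq_one Nat.prime_three h.y3).zpowers
  obtain ⟨g, hg, l⟩ := (h0.subHall_syl (by simp) hP).syl_subJ p3 (zpowers_le.2 h.yn)
  have hD := h0.cj_mem hg
  have yD : y ∈ cj g D0 := cj_mono g hP.le (l (mem_zpowers y))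
  generalize cj g D0 = D at *
  have fy : ∀ a ∈ D, a ∈ C[y] → a ∈ ⟪y⟫ := fun a h1 h2 => cy a ?_ h2 (hD.pi.piElt h1)
  swap
  · have m := h.fx _ (conj_mem (hD.le h1) h.tQ) (by
      simpa [mul_assoc, mem_cen1.1 h2] using mem_cen1.1 (cjcen (csym h.yt) a))
    exact mem_cen1.2 (mul_inv_eq_iff_eq_mul.1 ((h.mt.1 m).resolve_left (conj_ne_one.2 h.t1)))
  have s3 := syl3 hy yD fun a h1 h2 _ => fy a h1 h2
  have sd := (cyclic_pdiv_normal_complement s3 inferInstance fun q hq d => by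
    have := hD.pi q hq d
    have := hq.two_le
    simp at *; omega).sd s3
  generalize O[{3}ᶜ](D) = F at sd
  have c3 : #⟪y⟫ = 3 := (card_zpowers' y).trans hy
  have rg : H28.SemiReg F ⟪y⟫ := fun r hr r1 x hx e => mem_bot.1 (sd.inf ▸ ⟨hx, fy x (sd.left hx) (cen_le_cen1 (mem_zpowers y)
    (cen1_eq_of_prime (c3 ▸ Nat.prime_three) hr r1 ▸ mem_cen1.2 e.symm))⟩)
  have dec := (hS.mulEq hD).mul
  have tF : t ∉ C(F) := fun x => by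
    obtain ⟨g, e⟩ := o z t zz z1 h.tt h.t1
    obtain ⟨d, hd, e⟩ := burn h.syl (le_cen1.2 hz.2) h.st e
    obtain ⟨a, ha, b, hb, rfl⟩ := dec d hd
    have := mem_cen1.1 (mul_mem (h.st ha) ((sd.sup ▸ sup_le (le_cen1.2 x) (zpowers_le.2 h.yt) : D ≤ C[t]) hb))
    rw [mul_inv_eq_iff_eq_mul, ← this, mul_left_cancel_iff] at e
    exact h.t1 (by rw [← h.nut, ← e, nz])
  have zF : ∀ v ∈ Z(S), v * v = 1 → v ∈ C(F) → v = 1 := fun v hv vv x => by_contra fun v1 => tF (by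
    obtain ⟨g, e⟩ := o v t vv v1 h.tt h.t1
    obtain ⟨d, hd, e⟩ := burn h.syl (le_cen1.2 hv.2) h.st e
    obtain ⟨a, ha, b, hb, rfl⟩ := dec d hd
    have : b * v * b⁻¹ = a⁻¹ * t * a⁻¹⁻¹ := by rw [← e]; group
    rw [h.cjt (inv_mem (h.st ha)) (mem_zpowers t)] at this
    exact this ▸ conj_mem (norms_cent sd.nml.nrm hb) x)
  have wl : ∀ U ≤ S, t ∈ U → D ≤ N(U) → #U = 8 * #(U ⊓ C(F)) := fun U l1 l2 l3 => by
    have e := wielandt_card sd.nrm rg (sd.sup ▸ l3) (h.syl.pi.mono l1).sol (sd.sup ▸ (h.syl.pi.mono l1).cop hD.pi)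
    have e1 : U ⊓ C(⟪y⟫) = ⟪t⟫ := le_antisymm (fun a ha => h.fx a (l1 ha.1) (mem_cen1.1 (cen_le_cen1 (mem_zpowers y) ha.2)))
      (zpowers_le.2 ⟨l2, le_cen1.1 (zpowers_le.2 h.yt)⟩)
    have e2 : U ⊓ C(F ⊔ ⟪y⟫) = ⊥ := eq_bot_iff.2 fun a ha => by
      rw [cen_sup] at ha
      rcases h.mt.1 (e1 ▸ ⟨ha.1, ha.2.2⟩ : a ∈ ⟪t⟫) with x | x
      · exact x
      · exact (tF (x ▸ ha.2.1)).elim
    rw [e1, e2, c3, card_zpowers', orderOf_eq_prime ((sq t).trans h.tt) h.t1] at e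
    simpa using e
  let U : Subgroup G :=
    { carrier := {a | a ∈ Z(S) ∧ a * a = 1}
      one_mem' := ⟨one_mem _, one_mul 1⟩
      mul_mem' := fun {a b} ha hb => ⟨mul_mem ha.1 hb.1, by
        rw [mul_assoc, ← mul_assoc b, mem_cen.1 ha.1.2 b hb.1.1, mul_assoc, hb.2, mul_one, ha.2]⟩
      inv_mem' := fun ha => ⟨inv_mem ha.1, by rw [← mul_inv_rev, ha.2, inv_one]⟩ }
  have US : U ≤ S := fun a ha => ha.1.1
  have c1 := wl U US ⟨⟨h.tQ, le_cen1.1 h.ct⟩, h.tt⟩ fun d hd => mem_nrm.2 fun a ha =>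
    ⟨conj_mem (norms_center hD.le hd) ha.1, by rw [conj_mul, ha.2]; simp⟩
  rw [show U ⊓ C(F) = ⊥ from eq_bot_iff.2 fun a ha => zF a ha.1.1 ha.1.2 ha.2, card_bot] at c1
  have c2 := wl S le_rfl h.tQ hD.le
  have un : U ≤ N(S ⊓ C(F)) := fun a ha => cen_le_nrm _ (cen_anti inf_le_left ha.1.2)
  have su : S ⊓ C(F) ⊔ U = S := eq_of_card_eq (sup_le inf_le_left US) (by
    rw [card_sup_of_inf un (eq_bot_iff.2 fun a ha => zF a ha.2.1 ha.2.2 ha.1.2), c1, c2, mul_comm])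
  have b0 : S ⊓ C(F) = ⊥ := by_contra fun x => by
    have nm := nml_sup_left un
    rw [su] at nm
    obtain ⟨v, hv, vv, v1⟩ := inv2 ((h.syl.pi.inf_left _).inf_left _) (h.syl.pi.nil.meet_cen nm x)
    exact v1 (zF v ⟨hv.1.1, hv.2⟩ vv hv.1.2)
  rw [b0, bot_sup_eq] at su
  exact ⟨fun a ha => (su.ge ha).1.2, su ▸ c1, fun a ha => (su.ge ha).2⟩

end Cfsg.Agent.H1.Six
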