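import Mathlib
import Cfsg.Agent.H1.Supersolv
import Cfsg.Agent.H28.Cls
import Cfsg.Agent.H27.ClassSize
import Cfsg.Agent.FT.PLen

/-! Groups with square-free class sizes; Knoche's theorem. -/

set_option autoImplicit false
set_option linter.unusedSectionVars false
set_option linter.style.haveILetI false

namespace Cfsg.Agent.H1

open Cfsg Subgroup Cfsg.Agent.FT
open scoped commutatorElement Pointwise

variable {G : Type*} [Group G] [Finite G] {p : ℕ} {A B H K N P : Subgroup G} {g h x y : G}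

theorem relIndex_dvd_index_of_nrm (hn : ⊤ ≤ N(N)) (A : Subgroup G) : A.relIndex N ∣ A.index := by
  rw [← (mulEq_sup' (le_top.trans hn : A ≤ N(N))).relIndex_left]
  exact relIndex_dvd_index_of_le le_sup_left

theorem relIndex_dvd_prime (hp : p.Prime) (hN : PGrp p N) (hn : ⊤ ≤ N(N))
    (h : ¬ p ^ 2 ∣ A.index) : A.relIndex N ∣ p := by
  obtain ⟨k, hk⟩ := (hN.relIndex A).exists_pow (relIndex_pos A N).ne'
  have h1 := relIndex_dvd_index_of_nrm hn A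
  rw [hk] at h1 ⊢
  have : k ≤ 1 := by
    by_contra hlt
    exact h ((pow_dvd_pow p (by omega)).trans h1)
  simpa using pow_dvd_pow p this

theorem maxIn_of_relIndex_dvd (hp : p.Prime) (h : A.relIndex P ∣ p) (hne : ¬ P ≤ A) :
    (P ⊓ A).relIndex P = p ∧ MaxIn (P ⊓ A) P := by
  have : (P ⊓ A).relIndex P = p := by
    rw [inf_relIndex_left]
    exact ((Nat.dvd_prime hp).1 h).resolve_left fun e => hne (relIndex_eq_one.1 e)
  exact ⟨this, maxIn_of_prime_relIndex (this ▸ hp) inf_le_left⟩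

/-- a subgroup of index dividing `p` inside two proper subgroups determines them -/
theorem eq_of_relIndex_dvd {C : Subgroup G} (hp : p.Prime) (h : C.relIndex P ∣ p) (hA : ¬ P ≤ A)
    (hB : ¬ P ≤ B) (h1 : P ⊓ C ≤ A) (h2 : P ⊓ C ≤ B) : P ⊓ A = P ⊓ B := by
  have hC : ¬ P ≤ C := fun h => hA ((le_inf le_rfl h).trans h1)
  obtain ⟨-, hM⟩ := maxIn_of_relIndex_dvd hp h hC
  have key : ∀ D, ¬ P ≤ D → P ⊓ C ≤ D → P ⊓ D = P ⊓ C := fun D hD hle => by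
    by_contra hne
    exact hD ((hM.max _ (lt_of_le_of_ne (le_inf inf_le_left hle) (Ne.symm hne))
      inf_le_left).ge.trans inf_le_right)
  rw [key A hA h1, key B hB h2]

/-- Knoche's theorem -/
theorem knoche (hp : p.Prime) (hP : PGrp p P) (hs : ∀ x ∈ P, C[x].relIndex P ∣ p) :
    #⁅P, P⁆ ∣ p := by
  have hZ : ⁅P, P⁆ ≤ C(P) := by
    refine centsC (fun x hx => le_cen1.1 ?_)
    by_cases hx' : P ≤ C[x]
    · exact (der_le P).trans hx'
    · exact hP.der_le_Phi.trans ((maxIn_of_relIndex_dvd hp (hs x hx) hx').2.Phi_le.trans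
        inf_le_right)
  have cz : ∀ a ∈ P, ∀ b ∈ P, ∀ c ∈ P, c * ⁅a, b⁆ = ⁅a, b⁆ * c := fun a ha b hb c hc =>
    mem_cen.1 (hZ (commutator_mem_commutator ha hb)) c hc
  let f : ∀ x ∈ P, P →* G := fun x hx => MonoidHom.mk' (fun g => ⁅(g : G), x⁆) fun a b => by
    have := cz _ b.2 _ hx _ a.2
    calc ⁅(a : G) * b, x⁆ = a * ⁅(b : G), x⁆ * (a : G)⁻¹ * ⁅(a : G), x⁆ := by
          simp only [commutatorElement_def]; group
      _ = ⁅(b : G), x⁆ * ⁅(a : G), x⁆ := by rw [this, mul_inv_cancel_right]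
      _ = _ := cz _ a.2 _ hx _ (der_le P (commutator_mem_commutator b.2 hx))
  have hcard : ∀ x hx, #(f x hx).range = C[x].relIndex P := fun x hx => by
    rw [← index_ker, relIndex]
    congr 1
    ext g
    rw [MonoidHom.mem_ker, mem_subgroupOf, mem_cen1]
    exact commutatorElement_eq_one_iff_mul_comm
  have hpr : ∀ x hx, ¬ P ≤ C[x] → #(f x hx).range = p := fun x hx h => by
    rw [hcard x hx, ← inf_relIndex_left, (maxIn_of_relIndex_dvd hp (hs x hx) h).1]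
  have key : ∀ x hx y hy, ¬ P ≤ C[x] → ¬ P ≤ C[y] → P ⊓ C[x] ≠ P ⊓ C[y] →
      (f x hx).range = (f y hy).range := by
    intro x hx y hy h1 h2 hne
    by_contra hne'
    have hi : (f x hx).range ⊓ (f y hy).range = ⊥ :=
      prime_inf_of_not_le (hpr x hx h1 ▸ hp) fun hle =>
        hne' (eq_of_card_eq hle ((hpr x hx h1).trans (hpr y hy h2).symm))
    have h3 : ∀ g ∈ P ⊓ C[x * y], ⁅g, x⁆ = 1 ∧ ⁅g, y⁆ = 1 := fun g hg => by
      have e : ⁅g, x⁆ * ⁅g, y⁆ = 1 := by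
        calc ⁅g, x⁆ * ⁅g, y⁆ = ⁅g, x⁆ * (x * ⁅g, y⁆ * x⁻¹) := by
              rw [cz _ hg.1 _ hy _ hx, mul_inv_cancel_right]
          _ = ⁅g, x * y⁆ := by simp only [commutatorElement_def]; group
          _ = 1 := commutatorElement_eq_one_iff_mul_comm.2 (mem_cen1.1 hg.2)
      have e1 : ⁅g, x⁆ = 1 := eq_one_of_mem_inf hi ⟨⟨g, hg.1⟩, rfl⟩
        (eq_inv_of_mul_eq_one_left e ▸ inv_mem ⟨⟨g, hg.1⟩, rfl⟩)
      exact ⟨e1, by rwa [e1, one_mul] at e⟩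
    exact hne (eq_of_relIndex_dvd hp (hs _ (mul_mem hx hy)) h1 h2
      (fun g hg => mem_cen1.2 (commutatorElement_eq_one_iff_mul_comm.1 (h3 g hg).1))
      (fun g hg => mem_cen1.2 (commutatorElement_eq_one_iff_mul_comm.1 (h3 g hg).2)))
  by_cases hab : ∀ x ∈ P, P ≤ C[x]
  · rw [ab_iff_der.1 (ab_iff.2 fun x hx => le_cen1.1 (hab x hx)), card_bot']
    exact one_dvd _
  push Not at hab
  obtain ⟨x, hx, h1⟩ := hab
  rw [← hpr x hx h1]
  refine card_dvd (commutator_le.2 fun a ha y hy => ?_)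
  by_cases h2 : P ≤ C[y]
  · rw [commutatorElement_eq_one_iff_mul_comm.2 (mem_cen1.1 (h2 ha))]
    exact one_mem _
  suffices (f x hx).range = (f y hy).range from this ▸ ⟨⟨a, ha⟩, rfl⟩
  by_cases e : P ⊓ C[x] = P ⊓ C[y]
  swap
  · exact key x hx y hy h1 h2 e
  obtain ⟨z, hz, hz'⟩ := SetLike.not_le_iff_exists.1 h1
  have h3 : ¬ P ≤ C[z] := fun h => hz' (cen1_comm.1 (h hx))
  have h4 : P ⊓ C[x] ≠ P ⊓ C[z] := fun e' => hz' (e'.ge ⟨hz, self_mem_cen1 z⟩).2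
  rw [key x hx z hz h1 h3 h4, key y hy z hz h2 h3 (e ▸ h4)]

theorem refl_one (hp : p.Prime) (hP : PGrp p P) (hh : PiElt {p}ᶜ h) (hn : h ∈ N(P))
    (hi : C[h].relIndex P ∣ p) (hne : ¬ P ≤ C[h]) :
    #⁅P, ⟪h⟫⁆ = p ∧ DP (P ⊓ C[h]) ⁅P, ⟪h⟫⁆ P := by
  obtain ⟨h1, hM⟩ := maxIn_of_relIndex_dvd hp hi hne
  have hn' : ⟪h⟫ ≤ N(P) := zpowers_le.2 hn
  have hc : Cop P ⟪h⟫ := hP.cop hh.zpowers
  have hA : P ≤ N(P ⊓ C[h]) := (hP.nil.maxIn_nml hM).nrm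
  have hAc : P ⊓ C[h] ≤ C(⟪h⟫) := cen_zpowers h ▸ inf_le_right
  have hR : ⁅P, ⟪h⟫⁆ ≤ P := comm_le_left hn'
  have h2 : ⁅P, ⟪h⟫⁆ ≤ C(P ⊓ C[h]) := by
    refine comm_eq_bot.1 (three_subgroup ?_ ?_)
    · rw [comm_eq_bot'.2 hAc]
      exact commutator_bot_left _
    · exact comm_eq_bot.2 ((comm_le_left hA).trans hAc)
  have hm := coprime_cent_prod hn' hc hP.sol
  rw [cen_zpowers] at hm
  have h3 : Ab ⁅P, ⟪h⟫⁆ := by
    have hK : ⁅P, ⟪h⟫⁆ ⊓ (P ⊓ C[h]) ≤ Z(⁅P, ⟪h⟫⁆) :=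
      le_inf inf_le_left (inf_le_right.trans (centsC h2))
    refine ab_of_cyc_quo hK (cyc_of_card_dvd_prime hp ?_)
    rw [card_quo (nml_of_le_center hK).nrm, inf_relIndex_left, ← h1]
    exact relIndex_dvd_of_norm hR hA
  have h4 : P ⊓ C[h] ⊓ ⁅P, ⟪h⟫⁆ = ⊥ := by
    have := coprime_abel_cent_TI (norm_comm_right P ⟪h⟫) (hc.mono_left hR) h3
    rw [coprime_commGid hn' hc] at this
    exact eq_bot_of_le (le_inf inf_le_right (inf_le_left.trans hAc)) this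
  have hD : DP (P ⊓ C[h]) ⁅P, ⟪h⟫⁆ P := ⟨h2, hm.symm.sup, h4⟩
  refine ⟨Nat.eq_of_mul_eq_mul_left (card_pos (P ⊓ C[h])) ?_, hD⟩
  rw [← hD.card, ← h1, card_mul_relIndex inf_le_left]

theorem refl_many (hp : p.Prime) (hP : PGrp p P) (hH : PiGrp {p}ᶜ H) (hn : H ≤ N(P))
    (hab : ⁅H, H⁆ ≤ C(P)) (hi : ∀ h ∈ H, C[h].relIndex P ∣ p) (hh : h ∈ H) (hne : ¬ P ≤ C[h]) :
    P ⊓ C[h] ≤ C(H) ∧ ⁅P, H⁆ ≤ ⁅P, ⟪h⟫⁆ := by
  obtain ⟨c1, d1⟩ := refl_one hp hP (hH.piElt hh) (hn hh) (hi h hh) hne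
  have hA : H ≤ N(P ⊓ C[h]) := le_nrm_iff.2 fun k hk a ha => ⟨conj_mem (hn hk) ha.1, by
    have e1 := mem_cen.1 (hab (commutator_mem_commutator (inv_mem hk) hh)) a ha.1
    have e2 := mem_cen1.1 ha.2
    refine mem_cen1.2 ?_
    calc k * a * k⁻¹ * h = k * (a * ⁅k⁻¹, h⁆) * h * k⁻¹ := by
          simp only [commutatorElement_def]; group
      _ = k * ⁅k⁻¹, h⁆ * (a * h) * k⁻¹ := by rw [e1]; group
      _ = _ := by rw [e2]; simp only [commutatorElement_def]; group⟩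
  have h1 : P ⊓ C[h] ≤ C(H) := by
    refine centsC fun k hk => le_cen1.1 ?_
    by_contra hk'
    have hne' : ¬ P ≤ C[k] := fun e => hk' (inf_le_left.trans e)
    obtain ⟨c2, -⟩ := refl_one hp hP (hH.piElt hk) (hn hk) (hi k hk) hne'
    have h2 : ⁅P, ⟪k⟫⁆ ≤ P ⊓ C[h] := prime_le_of_inf_ne (c2 ▸ hp) (ne_bot_of_le
      (le_inf (commSS inf_le_left le_rfl) (comm_le_left (zpowers_le.2 (hA hk))))
      fun e => hk' (cen_zpowers k ▸ comm_eq_bot.1 e))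
    have h3 : ∀ g ∈ P ⊓ C[h * k], g ∈ C[h] ∧ g ∈ C[k] := fun g hg => by
      have e : ⁅g⁻¹, h⁻¹⁆ = ⁅g⁻¹, k⁆ := by
        calc ⁅g⁻¹, h⁻¹⁆ = g⁻¹ * h⁻¹ * (g * (h * k)) * k⁻¹ := by
              simp only [commutatorElement_def]; group
          _ = _ := by rw [mem_cen1.1 hg.2]; simp only [commutatorElement_def]; group
      have e1 : ⁅g⁻¹, k⁆ = 1 := eq_one_of_mem_inf d1.inf
        (h2 (commutator_mem_commutator (inv_mem hg.1) (mem_zpowers k)))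
        (e ▸ commutator_mem_commutator (inv_mem hg.1) (inv_mem (mem_zpowers h)))
      refine ⟨inv_mem_iff.1 ?_, inv_mem_iff.1 (mem_cen1.2 ?_)⟩
      · rw [← cen1_inv]
        exact mem_cen1.2 (commutatorElement_eq_one_iff_mul_comm.1 (e.trans e1))
      · exact commutatorElement_eq_one_iff_mul_comm.1 e1
    exact hk' ((eq_of_relIndex_dvd hp (hi _ (mul_mem hh hk)) hne hne' (fun g hg => (h3 g hg).1)
      fun g hg => (h3 g hg).2).le.trans inf_le_right)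
  refine ⟨h1, ?_⟩
  have h2 : ⁅P, H⁆ = ⁅⁅P, ⟪h⟫⁆, H⁆ := d1.mulEq.symm.comm_eq_of_cents h1
  rw [h2]
  refine comm_le_left ?_
  have hC : H ≤ N(C(P)) := norms_cent hn
  rw [← (mulEq_sup' ((zpowers_le.2 hh).trans hC)).comm_eq_of_cents' le_rfl]
  refine normsR hn (norms_of_comm_le_of_le (H := H ⊔ C(P)) ?_ (sup_le_sup_right (zpowers_le.2 hh) _))
  exact (comm_sup_le (sup_le hC (le_nrm _)) hab (comm_le_left hC)).trans le_sup_right

/-- no class size is divisible by the square of a prime -/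
def SF (G : Type*) [Group G] : Prop := ∀ x : G, ∀ p : ℕ, p.Prime → ¬ p ^ 2 ∣ C[x].index

theorem SF.quo (h : SF G) (hK : ⊤ ≤ N(K)) : SF (Quo K) := fun x p hp hd => by
  obtain ⟨y, rfl⟩ := qhom_surjective K x
  have : N(K).Normal := by rw [top_le_iff.1 hK]; infer_instance
  exact h y p hp ((hd.trans (H27.index_centralizer_map_dvd _ (qhom_surjective K) y)).trans
    (H27.index_centralizer_normal_dvd N(K) y))

theorem quo_top_of_nrm (hK : ⊤ ≤ N(K)) : ⊤ /ₛ K = ⊤ := by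
  exact top_le_iff.1 ((quo_nrm K).ge.trans (pmap_mono _ le_top))

theorem SF.minNml (h : SF G) (hs : Sol (⊤ : Subgroup G)) (hN : MinNml N ⊤) : (#N).Prime := by
  obtain ⟨p, hp, hA⟩ := hN.abelem (hs.mono le_top)
  have hP := hA.pGrp hp
  by_cases hC : C(N) = ⊤
  · obtain ⟨X, hX, hc⟩ := exists_card_prime_le hp (hP.dvd hN.ne)
    rw [← hN.min X hX (ne_bot_of_prime_card (hc ▸ hp)) (cents_norm (centsS hX hC.ge)), hc]
    exact hp
  obtain ⟨L, hL, -⟩ := exists_chief_above (M := ⊤) ⟨le_top, norms_cent hN.nrm⟩ (Nml.refl ⊤)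
    (lt_top_iff_ne_top.2 hC)
  have h0 : N ⊓ C(L) = ⊥ := (hN.inf_eq_bot_or_le (norms_cent hL.nmlU.nrm)).resolve_right
    fun e => hL.lt.not_ge (centsC e)
  obtain ⟨q, hq, hB⟩ := hL.abelem (hs.mono le_top)
  obtain ⟨Q, hQ⟩ := exists_syl q L
  have hm : C(N) ⊔ Q = L := hQ.sup_eq_of_relIndex hL.lt.le
    ((piGrp_quo_iff hL.nml.nrm).1 (hB.pGrp hq))
  have h1 : N ⊓ C(Q) = ⊥ := eq_bot_of_le (le_inf inf_le_left (by
    rw [← hm]
    exact centsY (inf_le_left.trans (le_cen_cen N)) inf_le_right)) h0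
  have hne : q ≠ p := by
    rintro rfl
    exact hQ.pi.meet_cen hP (le_top.trans hN.nrm) hN.ne h1
  obtain ⟨x, hx, hx'⟩ : ∃ x ∈ Q, ¬ N ≤ C[x] := by
    by_contra! e
    exact hN.ne (eq_bot_of_le (le_inf le_rfl (le_cen_iff_forall.2 e)) h1)
  have hi : ∀ x : G, C[x].relIndex N ∣ p := fun x => relIndex_dvd_prime hp hP hN.nrm (h x p hp)
  obtain ⟨c1, d1⟩ := refl_one hp hP ((hQ.pi.p' hne).piElt hx) (hN.nrm (mem_top x)) (hi x) hx'
  obtain ⟨h2, -⟩ := refl_many hp hP (hQ.pi.p' hne) (le_top.trans hN.nrm)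
    ((der_mono hQ.le).trans (hL.der_le (hs.mono le_top))) (fun x _ => hi x) hx hx'
  rw [d1.card, c1, eq_bot_of_le (le_inf inf_le_left h2) h1, card_bot', one_mul]
  exact hp

theorem SF.ssol (h : SF G) (hs : Sol (⊤ : Subgroup G)) : SSol (⊤ : Subgroup G) := fun V U hc => by
  have := hc.minNml
  rw [quo_top_of_nrm hc.nmlV.nrm] at this
  rw [← card_quo hc.nml.nrm]
  exact (h.quo hc.nmlV.nrm).minNml (quo_top_of_nrm hc.nmlV.nrm ▸ hs.quo V) this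

theorem SF.card_der_dvd (h : SF G) (hs : Sol (⊤ : Subgroup G)) (hp : p.Prime)
    (hd : PGrp p ⁅(⊤ : Subgroup G), (⊤ : Subgroup G)⁆) : #⁅(⊤ : Subgroup G), (⊤ : Subgroup G)⁆ ∣ p := by
  obtain ⟨P, hP, hle⟩ := hd.exists_syl le_top
  have hn := (nml_of_der_le hle le_top).nrm
  obtain ⟨H, hH, hS⟩ := hP.exists_compl hn
  have hab : ⁅H, H⁆ = ⊥ := ((hd.mono (der_mono le_top)).eq_bot (hH.pi.mono (der_le H)))
  have hi : ∀ x : G, C[x].relIndex P ∣ p := fun x => relIndex_dvd_prime hp hP.pi hn (h x p hp)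
  rw [← hS.sup, der_sup_eq hS.nrm, hab, sup_bot_eq]
  by_cases hc : P ≤ C(H)
  · rw [comm_eq_bot.2 hc, sup_bot_eq]
    exact knoche hp hP.pi fun x _ => hi x
  obtain ⟨x, hx, hx'⟩ : ∃ x ∈ H, ¬ P ≤ C[x] := by
    by_contra! e
    exact hc (le_cen_iff_forall.2 e)
  obtain ⟨c1, d1⟩ := refl_one hp hP.pi (hH.pi.piElt hx) (hn (mem_top x)) (hi x) hx'
  obtain ⟨-, h2⟩ := refl_many hp hP.pi hH.pi hS.nrm (hab ▸ bot_le) (fun x _ => hi x) hx hx'
  have h3 : Ab (P ⊓ C[x]) := ab_iff.2 fun a ha => le_cen1.1 (by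
    have e := H28.cen1_mul_pi (hP.pi.piElt ha.1) (hH.pi.piElt hx) (mem_cen1.1 ha.2)
    have hne : ¬ P ≤ C[a * x] := fun e' => hx' (e'.trans (e.le.trans inf_le_right))
    rw [eq_of_relIndex_dvd hp (hi (a * x)) hx' hne
      (inf_le_right.trans (e.le.trans inf_le_right)) inf_le_right, e]
    exact inf_le_right.trans inf_le_left)
  have h4 : Ab P := d1.sup ▸ h3.sup (cyc_of_prime (c1 ▸ hp)).ab d1.cen
  rw [ab_iff_der.1 h4, bot_sup_eq, ← c1]
  exact card_dvd h2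

theorem SF.der_sqfree (h : SF G) (hs : Sol (⊤ : Subgroup G)) (hp : p.Prime) :
    ¬ p ^ 2 ∣ #⁅(⊤ : Subgroup G), (⊤ : Subgroup G)⁆ := by
  have hnil := (h.ssol hs).der_nil
  have hK : O[{p}ᶜ](⁅(⊤ : Subgroup G), (⊤ : Subgroup G)⁆) ⊴ ⊤ := (der_nml ⊤).pcore _
  have hH := hnil.pcore_hall {p}ᶜ
  generalize O[{p}ᶜ](⁅(⊤ : Subgroup G), (⊤ : Subgroup G)⁆) = K at hK hH
  have e : #⁅(⊤ : Subgroup (Quo K)), (⊤ : Subgroup (Quo K))⁆ =
      K.relIndex ⁅(⊤ : Subgroup G), (⊤ : Subgroup G)⁆ := by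
    rw [← card_quo (le_top.trans hK.nrm), quo_der hK.nrm, quo_top_of_nrm hK.nrm]
  have h1 := (h.quo hK.nrm).card_der_dvd (quo_top_of_nrm hK.nrm ▸ hs.quo _) hp
    (by rw [PGrp, PiGrp, e]; simpa using hH.idx)
  intro hd
  rw [← card_mul_relIndex hH.le, ← e] at hd
  have := ((piNat_self_pow hp 2).dvd_of_dvd_mul_left hH.pi hd).trans h1
  exact absurd (Nat.le_of_dvd hp.pos this) (by nlinarith [hp.two_le])

theorem squarefree_of_forall {n : ℕ} (h : ∀ p, p.Prime → ¬ p ^ 2 ∣ n) : Squarefree n :=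
  Nat.squarefree_iff_prime_squarefree.2 fun p hp hd => h p hp (by rwa [sq])

theorem sf_of_squarefree (h : ∀ x : G, Squarefree C[x].index) : SF G := fun x p hp hd =>
  Nat.squarefree_iff_prime_squarefree.1 (h x) p hp (by rwa [← sq])

theorem cyc_of_nil_squarefree (hn : Nil H) (h : Squarefree #H) : Cyc H :=
  haveI := IsZGroup.of_squarefree h
  inferInstance

theorem SF.structure (h : SF G) (hs : Sol (⊤ : Subgroup G)) :
    Cyc ⁅(⊤ : Subgroup G), (⊤ : Subgroup G)⁆ ∧ Squarefree #⁅(⊤ : Subgroup G), (⊤ : Subgroup G)⁆ ∧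
    ⁅(⊤ : Subgroup G), (⊤ : Subgroup G)⁆ ≤ F((⊤ : Subgroup G)) ∧
    Squarefree F((⊤ : Subgroup G)).index ∧ ucn 2 F((⊤ : Subgroup G)) = F((⊤ : Subgroup G)) := by
  have hnil := (h.ssol hs).der_nil
  have h1 := squarefree_of_forall fun p hp => h.der_sqfree hs hp
  have h2 := cyc_of_nil_squarefree hnil h1
  have hD := der_nml (⊤ : Subgroup G)
  refine ⟨h2, h1, fitting_max hD hnil, ?_, ?_⟩
  · obtain ⟨z, hz⟩ := cyc_iff.1 h2
    refine (squarefree_of_forall (h z)).squarefree_of_dvd (index_dvd_of_le ?_)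
    rw [← cen_zpowers, ← hz]
    refine fitting_max ⟨le_top, norms_cent hD.nrm⟩ (clsLE_iff_ucn.1 ?_ |> fun e =>
      nil_iff_ucn.2 ⟨2, e⟩)
    refine clsLE_iff_ucn.2 (le_antisymm (ucn_le _ _) (le_ucn_two.2 ⟨le_rfl, le_inf (der_le _) ?_⟩))
    exact (der_mono le_top).trans (le_cen_cen _)
  · refine le_antisymm (ucn_le _ _) (le_ucn_two.2 ⟨le_rfl, le_inf (der_le _) ?_⟩)
    refine (der_mono le_top).trans (le_of_forall_syl fun p hp hd => ?_)
    obtain ⟨X, hX, hc⟩ := exists_card_prime_le hp hd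
    refine ⟨X, syl_of_not_dvd hX (pGrp_of_card_prime hp hc) fun hd' => h.der_sqfree hs hp ?_,
      (minNml_of_prime (hc ▸ hp) (h2.nml_sub hX hD).nrm).cents_nil le_top (fitting_nil _)
        (fitting_nml _)⟩
    rw [← card_mul_relIndex hX, hc, sq]
    exact Nat.mul_dvd_mul_left _ hd'

end Cfsg.Agent.H1
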