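import Mathlib
import Cfsg.Agent.H8.Dih
import Cfsg.Agent.H3.QD

/-!
Columns of the principal `2`-block of a group with semidihedral Sylow `2`-subgroups.
-/

set_option autoImplicit false

namespace Cfsg.Agent.H1.Sw

open Cfsg H9 H8 Subgroup
open Cfsg.Agent.H7 (ip ind)
open scoped ComplexConjugate

local notation:max "𝐙 " x:max => Subgroup.centralizer (Singleton.singleton x : Set _)
local notation:max "𝐂 " Q:max => Subgroup.centralizer (SetLike.coe Q)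
local notation:max "𝐍 " Q:max => Subgroup.normalizer (SetLike.coe Q)

variable {M : Ideal AlgInt} [hMm : M.IsMaximal] {G : Type*} [Group G] [Finite G]

section Grp
variable {P : Sylow 2 G} {a b : G} {m : ℕ} (h : H3.MCS (P : Subgroup G) a b m)
include h

omit [Finite G] in
theorem sd_conj {u : G} (hu : u ∈ zpowers a) : b * u * b⁻¹ = u ^ ((2 : ℤ) ^ (m - 1) - 1) := by
  obtain ⟨k, rfl⟩ := hu
  have e : b * a * b⁻¹ = a ^ ((2 : ℤ) ^ (m - 1) - 1) := by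
    rw [h.sd, zpow_sub_one, show ((2 : ℤ) ^ (m - 1)) = ((2 ^ (m - 1) : ℕ) : ℤ) by push_cast; rfl,
      zpow_natCast]
    exact ((Commute.refl a).pow_right _).inv_left.eq
  show b * a ^ k * b⁻¹ = _
  rw [← conj_zpow, e, ← zpow_mul, ← zpow_mul, mul_comm]

theorem sd_sylow {u : G} (hu : u ∈ zpowers a) (h1 : u ∉ zpowers (a ^ 2 ^ (m - 1))) :
    H4.IsSylowIn 2 (zpowers a) (𝐙 u) := by
  have h2 := (H4.IsSylowIn.sylow_of_le P (h.nml_of_le (zpowers_le.2 hu)).2).inf_of_normal_le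
    (centralizer_le_normalizer _) (H1.le_normalizer_centralizer le_rfl)
  rw [centralizer_zpowers] at h2
  have h3 := h.cen1_of_mem hu h1
  exact h3 ▸ h2

theorem sd_hasNPC {u : G} (hu : u ∈ zpowers a) (h1 : u ∉ zpowers (a ^ 2 ^ (m - 1))) :
    HasNormalPComplement 2 (𝐙 u) :=
  H6.hasNPC_two_of_isSylowIn (sd_sylow h hu h1) inferInstance

theorem sd_lamP (hM : IsPModular 2 M) {u : G} (hu : u ∈ zpowers a)
    (h1 : u ∉ zpowers (a ^ 2 ^ (m - 1))) : lamP M (𝐙 u) = 2 ^ m := by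
  rw [lamP_of_hasNPC hM (sd_hasNPC h hu h1), ← (sd_sylow h hu h1).card_eq, h.card_a]
  simp

theorem sd_fusion {u v : G} (hu : u ∈ zpowers a) (hv : v ∈ zpowers a) :
    IsConj u v ↔ v = u ∨ v = u ^ ((2 : ℤ) ^ (m - 1) - 1) := by
  refine ⟨fun hc => ?_, ?_⟩
  · obtain ⟨g, rfl⟩ := isConj_iff.1 hc
    have hg : g ∈ 𝐍 (zpowers u) :=
      H3.mem_nrm_zpowers (H6.mem_zpowers_of_orderOf_dvd hv hu (orderOf_conj' _ _).dvd)
    have hP := H4.IsSylowIn.sylow_of_le P (h.nml_of_le (zpowers_le.2 hu)).2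
    obtain ⟨x, hx, e⟩ := hP.exists_conj_le (isPGroup_zpowers (orderOf_pPart (p := 2) g))
      (zpowers_le.2 (pPart_mem hg))
    have hs := H4.conj_smul_le_iff.1 e _ (mem_zpowers (pPart 2 g))
    obtain ⟨k, hk⟩ := pElt_of_mem P.2 (h.le hu)
    have h1 : Commute (pReg 2 g) u := H6.commute_of_odd_of_two_pow (pReg_mem hg)
      ((not_dvd_iff_coprime _).1 (not_dvd_orderOf_pReg g)) hk
    have h2 : g * u * g⁻¹ = pPart 2 g * u * (pPart 2 g)⁻¹ := by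
      conv_lhs => rw [← pPart_mul_pReg 2 g]
      rw [mul_assoc (pPart 2 g), h1.eq]
      group
    obtain ⟨i, hi⟩ := (mem_normalizer_iff.1 hx u).1 (mem_zpowers u)
    have hi : u ^ i = x * u * x⁻¹ := hi
    have h3 : ∀ s ∈ (P : Subgroup G), ∀ w ∈ zpowers a,
        s * w * s⁻¹ = w ^ (1 : ℤ) ∨ s * w * s⁻¹ = w ^ ((2 : ℤ) ^ (m - 1) - 1) := fun s hs w hw => by
      by_cases e' : s ∈ zpowers a
      · exact Or.inl (by rw [zpow_one]; exact mul_inv_eq_iff_eq_mul.2 (H3.comm_of_mem_zpowers e' hw))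
      · exact Or.inr ((h.conj_eq hs e' hw).trans (sd_conj h hw))
    have h4 : ∀ n : ℤ, x * pPart 2 g * x⁻¹ * u ^ i * (x * pPart 2 g * x⁻¹)⁻¹ = (u ^ i) ^ n →
        pPart 2 g * u * (pPart 2 g)⁻¹ = u ^ n := fun n e => by
      rw [hi, conj_zpow] at e
      calc _ = x⁻¹ * (x * pPart 2 g * x⁻¹ * (x * u * x⁻¹) * (x * pPart 2 g * x⁻¹)⁻¹) * x := by group
        _ = _ := by rw [e]; group
    rw [h2]
    rcases h3 _ hs _ (zpow_mem hu i) with e | e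
    exacts [Or.inl (by simpa using h4 _ e), Or.inr (h4 _ e)]
  · rintro (rfl | rfl)
    exacts [IsConj.refl _, isConj_iff.2 ⟨b, sd_conj h hu⟩]

theorem sd_colW_zero (hM : IsPModular 2 M) {θ : zpowers a → ℂ} (h0 : θ 1 = 0)
    (ht : θ ⟨_, h.z_mem⟩ = 0) {g : G} (hg : pPart 2 g ^ 2 = 1) :
    colW M (zpowers a).subtype θ g = 0 :=
  colW_eq_zero _ hM (P.2.to_le h.le) fun z hz => by
    obtain ⟨x, hx⟩ := isConj_iff.1 hz
    have : (z : G) ^ 2 = 1 := by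
      rw [show (z : G) = _ from hx.symm, conj_pow, hg]; simp
    rcases h.eq_one_or z.2 this with e | e
    · rwa [show z = 1 from Subtype.ext e]
    · rwa [show z = ⟨_, h.z_mem⟩ from Subtype.ext e]

theorem sd_colW (hM : IsPModular 2 M) {θ : zpowers a → ℂ} (h0 : θ 1 = 0)
    (ht : θ ⟨_, h.z_mem⟩ = 0) (u : zpowers a) :
    colW M (zpowers a).subtype θ u = θ u + θ (u ^ ((2 : ℤ) ^ (m - 1) - 1)) := by
  classical
  have := Fintype.ofFinite (zpowers a)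
  have hP : IsPGroup 2 (zpowers a) := P.2.to_le h.le
  have hc := (h.commute_iff u.2)
  have he : (u : G) ^ ((2 : ℤ) ^ (m - 1) - 1) = u ↔ (u : G) ∈ zpowers (a ^ 2 ^ (m - 1)) := by
    rw [← sd_conj h u.2, ← hc, mul_inv_eq_iff_eq_mul, eq_comm]
  by_cases h1 : (u : G) ∈ zpowers (a ^ 2 ^ (m - 1))
  · have h2 : θ u = 0 := by
      rcases h.mem_z_iff.1 h1 with e | e
      · rwa [show u = 1 from Subtype.ext e]
      · rwa [show u = ⟨_, h.z_mem⟩ from Subtype.ext e]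
    rw [show u ^ ((2 : ℤ) ^ (m - 1) - 1) = u from Subtype.ext (he.2 h1), h2, add_zero]
    refine sd_colW_zero h hM h0 ht ?_
    rw [pPart_of_pElt (pElt_of_mem hP u.2)]
    rcases h.mem_z_iff.1 h1 with e | e <;> rw [e]
    exacts [one_pow _, h.z_sq]
  rw [colW_apply _ hM hP θ (pElt_of_mem hP u.2), sd_lamP h hM u.2 h1, h.card_a,
    show Finset.univ.filter (fun z : zpowers a => IsConj (u : G) ((zpowers a).subtype z)) =
      {u, u ^ ((2 : ℤ) ^ (m - 1) - 1)} by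
      ext z
      simp only [Finset.mem_filter, Finset.mem_univ, true_and, Finset.mem_insert,
        Finset.mem_singleton, Subtype.ext_iff]
      exact sd_fusion h u.2 z.2, Finset.sum_pair fun e' => h1 (he.1 (congrArg Subtype.val e').symm)]
  simp

theorem sd_gram (hM : IsPModular 2 M) {θ : zpowers a → ℂ} (h0 : θ 1 = 0)
    (ht : θ ⟨_, h.z_mem⟩ = 0) (η : zpowers a → ℂ) :
    ip (colW M (zpowers a).subtype θ) (colW M (zpowers a).subtype η) =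
      ip θ η + ip (fun u => θ (u ^ ((2 : ℤ) ^ (m - 1) - 1))) η := by
  rw [ip_colW_colW, ← H7.ip_add_left]
  exact congrArg (ip · η) (funext (sd_colW h hM h0 ht))

end Grp

omit [Finite G] in
theorem etaF_zpow {a : G} {lam : zpowers a →* ℂˣ} (j r : ℤ) (u : zpowers a) :
    etaF lam j (u ^ r) = etaF lam (j * r) u := by
  simp [etaF, ← zpow_mul, mul_comm]

section Main
variable {P : Sylow 2 G} {a b : G} {m : ℕ} (h : H3.MCS (P : Subgroup G) a b m)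
  (hM : IsPModular 2 M) {lam : zpowers a →* ℂˣ} {ζ : ℂ}
  (hζ : IsPrimitiveRoot ζ (2 ^ m)) (hl : (lam ⟨a, mem_zpowers a⟩ : ℂ) = ζ)

include h hζ hl in
theorem lam_t : (lam ⟨_, h.z_mem⟩ : ℂ) = -1 := by
  have h3 := h.three_le
  rw [show (⟨_, h.z_mem⟩ : zpowers a) = ⟨a, mem_zpowers a⟩ ^ 2 ^ (m - 1) from rfl, map_pow,
    Units.val_pow_eq_pow_val, hl]
  exact (IsPrimitiveRoot.pow (by positivity) hζ (by
    rw [← pow_succ, Nat.sub_add_cancel (by omega)])).eq_neg_one_of_two_right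

include h hζ hl in
theorem etaF_t (j : ℤ) : etaF lam j ⟨_, h.z_mem⟩ = 1 - (-1) ^ j := by
  simp [etaF, lam_t h hζ hl]

include h hζ hl in
theorem etaF_t_even (j : ℤ) : etaF lam (2 * j) ⟨_, h.z_mem⟩ = 0 := by
  rw [etaF_t h hζ hl, zpow_mul]; simp

include h hM hζ hl

theorem sdW_zero (j : ℤ) {g : G} (hg : pPart 2 g ^ 2 = 1) : dihW M lam (2 * j) g = 0 :=
  sd_colW_zero h hM (etaF_one _) (etaF_t_even h hζ hl j) hg

omit [Finite G] hM hMm in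
theorem etaF_even (j : ℤ) : etaF lam (2 * j * (2 ^ (m - 1) - 1)) = etaF lam (-(2 * j)) := by
  have h3 := h.three_le
  ext u
  rw [etaF, etaF, (lam_zpow_eq_iff hζ hl _ (-(2 * j))).2 ⟨j, by
    obtain ⟨k, rfl⟩ : ∃ k, m = k + 1 := ⟨m - 1, by omega⟩
    simp [pow_succ]; ring⟩]

theorem sdW_apply (j : ℤ) (u : zpowers a) :
    dihW M lam (2 * j) u = etaF lam (2 * j) u + etaF lam (-(2 * j)) u := by
  rw [dihW, sd_colW h hM (etaF_one _) (etaF_t_even h hζ hl j), etaF_zpow, etaF_even h hζ hl]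

theorem sdW_neg (j : ℤ) : dihW M lam (2 * -j) = dihW M lam (2 * j) := by
  refine sub_eq_zero.1 (H7.eq_zero_of_ip_self ?_)
  rw [dihW, dihW, ← colW_sub, sd_gram h hM (by simp [etaF_one])
    (by rw [Pi.sub_apply, etaF_t_even h hζ hl, etaF_t_even h hζ hl, sub_self]), ← H7.ip_add_left]
  refine (congrArg (ip · _) (funext fun u => ?_)).trans (H7.ip_zero_left _)
  simp only [Pi.add_apply, Pi.sub_apply, etaF_zpow, etaF_even h hζ hl]
  simp

theorem sdW_sub (j : ℤ) : dihW M lam (2 * (2 ^ (m - 1) - j)) = dihW M lam (2 * j) := by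
  have h3 := h.three_le
  rw [← sdW_neg h hM hζ hl j, dihW, dihW]
  congr 1
  ext u
  rw [etaF, etaF, (lam_zpow_eq_iff hζ hl _ (2 * -j)).2 ⟨1, by
    obtain ⟨k, rfl⟩ : ∃ k, m = k + 1 := ⟨m - 1, by omega⟩
    simp [pow_succ]; ring⟩]

variable [Fintype G]

omit hM hMm [Finite G] [Fintype G] hζ hl in
theorem dvd_two_mul (x : ℤ) : ((2 ^ m : ℕ) : ℤ) ∣ 2 * x ↔ 2 ^ (m - 1) ∣ x := by
  have h3 := h.three_le
  obtain ⟨k, rfl⟩ : ∃ k, m = k + 1 := ⟨m - 1, by omega⟩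
  rw [Nat.add_sub_cancel, pow_succ']
  push_cast
  exact mul_dvd_mul_iff_left two_ne_zero

theorem sdW_gram {i j : ℤ} (hi : ¬ 2 ^ (m - 1) ∣ i) (hj : ¬ 2 ^ (m - 1) ∣ j) :
    cz (dihW M lam (2 * i)) ⬝ᵥ cz (dihW M lam (2 * j)) =
      2 + (if 2 ^ (m - 1) ∣ i - j then 1 else 0) + if 2 ^ (m - 1) ∣ i + j then 1 else 0 := by
  apply Int.cast_injective (α := ℂ)
  rw [cz_dot (isGen_dihW _) (isGen_dihW _), dihW, dihW,
    sd_gram h hM (etaF_one _) (etaF_t_even h hζ hl i)]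
  simp only [etaF_zpow, etaF_even h hζ hl, ip_etaF hζ hl, ← neg_add', dvd_neg, ← mul_sub,
    ← mul_add, dvd_two_mul h, hi, hj]
  simp
  ring

omit hM hMm in
theorem sd_apply {χ : IrrCharacter G} (hχ : χ ∈ principalBlock M G) {u : zpowers a} (hu : u ≠ 1) :
    (χ : G → ℂ) u = -∑ j ∈ Finset.range (2 ^ m), (lam u : ℂ) ^ j * cz (dihW M lam j) χ := by
  rw [apply_eq_sum_etaF h.ord hζ hl (fun u => (χ : G → ℂ) u) hu]
  congr 1
  refine Finset.sum_congr rfl fun j _ => ?_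
  rw [← map_intCast (starRingEnd ℂ), cz_spec (isGen_dihW _), dihW, ip_colW_of_mem _ _ hχ,
    H7.ip_conj_symm]
  rfl

theorem sd_struct [DecidableEq (IrrCharacter G)] : ∃ (χ₁ χ₂ χ₃ : IrrCharacter G)
    (k : Fin (2 ^ (m - 2) - 1) → IrrCharacter G) (δ₁ δ₂ δ₃ : ℤ), (δ₁ = 1 ∨ δ₁ = -1) ∧
      (δ₂ = 1 ∨ δ₂ = -1) ∧ (δ₃ = 1 ∨ δ₃ = -1) ∧ Function.Injective k ∧ χ₁ ≠ irrOne G ∧
      χ₂ ≠ irrOne G ∧ χ₃ ≠ irrOne G ∧ χ₁ ≠ χ₂ ∧ χ₁ ≠ χ₃ ∧ χ₂ ≠ χ₃ ∧
      (∀ j, k j ≠ χ₁ ∧ k j ≠ χ₂ ∧ k j ≠ χ₃ ∧ k j ≠ irrOne G) ∧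
      cz (dihW M lam (2 * (2 ^ (m - 2) : ℕ))) = Pi.single (irrOne G) 1 +
        (Pi.single χ₁ δ₁ + Pi.single χ₂ δ₂ + Pi.single χ₃ δ₃) ∧
      ∀ j : Fin (2 ^ (m - 2) - 1), cz (dihW M lam (2 * ((j : ℕ) + 1 : ℕ))) =
        Pi.single (irrOne G) 1 + (Pi.single χ₁ δ₁ + Pi.single (k j) (-δ₁)) := by
  obtain ⟨r, hr, hN⟩ : ∃ r : ℕ, 2 ^ (m - 2) = 2 * r + 2 ∧ (2 : ℤ) ^ (m - 1) = 4 * r + 4 := by
    obtain ⟨k, rfl⟩ := Nat.exists_eq_add_of_le' h.three_le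
    obtain ⟨r, hr⟩ := Nat.exists_eq_succ_of_ne_zero (pow_ne_zero k two_ne_zero)
    exact ⟨r, by simp [pow_succ, hr]; ring, by
      rw [show k + 3 - 1 = k + 2 by omega, pow_add, show (2 : ℤ) ^ k = r + 1 by exact_mod_cast hr]
      ring⟩
  have h0 : ∀ x : ℤ, x ≠ 0 → -(4 * r + 4) < x → x < 4 * r + 4 → ¬ (2 : ℤ) ^ (m - 1) ∣ x :=
    fun x h1 h2 h3 e => h1 (Int.eq_zero_of_abs_lt_dvd e (by rw [hN, abs_lt]; omega))
  have hone : ∀ i : ℤ, ¬ 2 ^ (m - 1) ∣ i → cz (dihW M lam (2 * i)) (irrOne G) = 1 := fun i hi =>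
    cz_dihW_one hζ hl fun e => hi ((dvd_two_mul h i).1 (by exact_mod_cast e))
  have h1 : ∀ i j : ℤ, ¬ 2 ^ (m - 1) ∣ i → ¬ 2 ^ (m - 1) ∣ j →
      (cz (dihW M lam (2 * i)) - Pi.single (irrOne G) 1) ⬝ᵥ
        (cz (dihW M lam (2 * j)) - Pi.single (irrOne G) 1) =
        1 + (if 2 ^ (m - 1) ∣ i - j then 1 else 0) + if 2 ^ (m - 1) ∣ i + j then 1 else 0 :=
    fun i j hi hj => by
    simp [sub_dotProduct, dotProduct_sub, sdW_gram h hM hζ hl hi hj, hone i hi, hone j hj]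
    ring
  have h2 : ∀ i : ℤ, (cz (dihW M lam (2 * i)) - Pi.single (irrOne G) 1) ⬝ᵥ
      (fun χ : IrrCharacter G => (charDegree (χ : G → ℂ) : ℤ)) = -1 := fun i => by
    apply Int.cast_injective (α := ℂ)
    rw [sub_dotProduct, Int.cast_sub, cz_dot_deg (isGen_dihW _),
      sdW_zero h hM hζ hl i (by rw [pPart_eq_one_iff.2 (by simp), one_pow])]
    simp [← irr_one_eq]
  have : Nonempty (Fin (2 ^ (m - 2) - 1)) := ⟨⟨0, by omega⟩⟩
  have h3 : ¬ (2 : ℤ) ^ (m - 1) ∣ (2 ^ (m - 2) : ℕ) := h0 _ (by omega) (by omega) (by omega)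
  have h4 : ∀ j : Fin (2 ^ (m - 2) - 1), ¬ (2 : ℤ) ^ (m - 1) ∣ ((j : ℕ) + 1 : ℕ) := fun j =>
    h0 _ (by omega) (by omega) (by omega)
  obtain ⟨χ₁, χ₂, χ₃, k, δ₁, δ₂, δ₃, a1, a2, a3, a4, a5, a6, a7, a8, a9, a10⟩ := star_lemma
    (κ := Fin (2 ^ (m - 2) - 1))
    (c := cz (dihW M lam (2 * (2 ^ (m - 2) : ℕ))) - Pi.single (irrOne G) 1)
    (b := fun j => cz (dihW M lam (2 * ((j : ℕ) + 1 : ℕ))) - Pi.single (irrOne G) 1)
    (fun j j' e => by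
      have : (j : ℕ) ≠ j' := fun e' => e (Fin.ext e')
      by_contra! hc
      have a0 := hc ⟨0, by omega⟩
      have a1 := hc ⟨1, by omega⟩
      have a2 := hc ⟨2, by omega⟩
      simp only [ne_eq, Fin.ext_iff] at a0 a1 a2
      omega)
    (by rw [h1 _ _ h3 h3, if_pos (by simp), if_pos ⟨1, by omega⟩]; rfl)
    (fun j => by rw [h1 _ _ (h4 j) (h4 j), if_pos (by simp), if_neg (h0 _ (by omega) (by omega)
      (by omega))]; rfl)
    (fun j k e => by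
      have : (j : ℕ) ≠ k := fun e' => e (Fin.ext e')
      rw [h1 _ _ (h4 j) (h4 k), if_neg (h0 _ (by omega) (by omega) (by omega)),
        if_neg (h0 _ (by omega) (by omega) (by omega))]; rfl)
    (fun j => by rw [h1 _ _ (h4 j) h3, if_neg (h0 _ (by omega) (by omega) (by omega)),
        if_neg (h0 _ (by omega) (by omega) (by omega))]; rfl) (h2 _) (fun j => h2 _)
    fun χ => by exact_mod_cast Nat.pos_of_ne_zero (charDegree_irr_ne_zero χ)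
  have b1 := congrFun a9 (irrOne G)
  rw [Pi.sub_apply, hone _ h3] at b1
  refine ⟨χ₁, χ₂, χ₃, k, δ₁, δ₂, δ₃, a1, a2, a3, a4, ?_, ?_, ?_, a5, a6, a7,
    fun j => ⟨(a8 j).1, (a8 j).2.1, (a8 j).2.2, fun e => ?_⟩, sub_eq_iff_eq_add'.1 a9,
    fun j => sub_eq_iff_eq_add'.1 (a10 j)⟩
  · rintro rfl; simp [a5, a6] at b1; omega
  · rintro rfl; simp [a5.symm, a7] at b1; omega
  · rintro rfl; simp [a6.symm, a7.symm] at b1; omega
  · have b2 := congrFun (a10 j) (irrOne G)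
    rw [Pi.sub_apply, hone _ (h4 j)] at b2
    simp [← e, (a8 j).1] at b2
    omega

end Main

end Cfsg.Agent.H1.Sw
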