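import Mathlib
import Cfsg.Agent.H1.Sw1

/-!
The characters in the even columns of the principal `2`-block (semidihedral case).
-/

set_option autoImplicit false

namespace Cfsg.Agent.H1.Sw

open Cfsg H9 H8 Subgroup
open Cfsg.Agent.H7 (ip ind)
open scoped ComplexConjugate

theorem sum_sq_le_dot {ι : Type*} [Fintype ι] (v : ι → ℤ) (s : Finset ι) :
    ∑ i ∈ s, v i * v i ≤ v ⬝ᵥ v :=
  Finset.sum_le_sum_of_subset_of_nonneg (Finset.subset_univ s) fun i _ _ => mul_self_nonneg (v i)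

theorem three_sq_le {ι : Type*} [Fintype ι] [DecidableEq ι] (v : ι → ℤ) {x y z : ι} (h1 : x ≠ y)
    (h2 : x ≠ z) (h3 : y ≠ z) : v x * v x + v y * v y + v z * v z ≤ v ⬝ᵥ v := by
  have := sum_sq_le_dot v {x, y, z}
  rwa [Finset.sum_insert (by simp [h1, h2]), Finset.sum_pair h3, ← add_assoc] at this

theorem vec_D {ι : Type*} [Fintype ι] [DecidableEq ι] {v : ι → ℤ} (h : v ⬝ᵥ v ≤ 2) {y z w x : ι}
    (h1 : y ≠ z) (h2 : y ≠ w) (h3 : z ≠ w) (h4 : x ≠ y) (h5 : x ≠ z) (h6 : x ≠ w) {δ₁ δ₂ δ₃ : ℤ}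
    (s₁ : δ₁ = 1 ∨ δ₁ = -1) (s₂ : δ₂ = 1 ∨ δ₂ = -1) (s₃ : δ₃ = 1 ∨ δ₃ = -1)
    (e1 : v y * δ₁ + v z * δ₂ + v w * δ₃ = 0) (e2 : v y * δ₁ + v x * -δ₁ = 0) :
    v y = 0 ∧ (v z = 0 ∧ v w = 0 ∨ v z ≠ 0 ∧ v = Pi.single z (v z) + Pi.single w (v w)) := by
  have p : ∀ n : ℤ, n ≠ 0 → 1 ≤ n * n := fun n hn => by nlinarith [mul_self_pos.2 hn]
  have hy : v y = 0 := by
    by_contra hy
    have hx : v x ≠ 0 := fun e => by rcases s₁ with rfl | rfl <;> omega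
    by_cases hz : v z = 0
    · have hw : v w ≠ 0 := fun e => by rcases s₁ with rfl | rfl <;> simp [hz, e] at e1 <;> omega
      linarith [three_sq_le v h4 h6 h2, p _ hx, p _ hy, p _ hw]
    · linarith [three_sq_le v h4 h5 h1, p _ hx, p _ hy, p _ hz]
  refine ⟨hy, ?_⟩
  by_cases hz : v z = 0
  · exact Or.inl ⟨hz, by rcases s₃ with rfl | rfl <;> simp [hz, hy] at e1 <;> omega⟩
  have hw : v w ≠ 0 := fun e => by rcases s₂ with rfl | rfl <;> simp [hy, e] at e1 <;> omega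
  refine Or.inr ⟨hz, funext fun i => ?_⟩
  by_cases a1 : i = z
  · simp [a1, h3]
  by_cases a2 : i = w
  · simp [a2, h3.symm]
  have : v i = 0 := by_contra fun e => by
    linarith [three_sq_le v a1 a2 h3, p _ e, p _ hz, p _ hw]
  simp [a1, a2, this]

theorem sum_range_two_mul {A : Type*} [AddCommMonoid A] (f : ℕ → A) (n : ℕ) :
    ∑ j ∈ Finset.range (2 * n), f j =
      ∑ j ∈ Finset.range n, f (2 * j) + ∑ j ∈ Finset.range n, f (2 * j + 1) := by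
  induction n with
  | zero => simp
  | succ n ih =>
    rw [Nat.mul_succ, Finset.sum_range_succ, Finset.sum_range_succ, ih, Finset.sum_range_succ,
      Finset.sum_range_succ]
    abel

variable {M : Ideal AlgInt} [hMm : M.IsMaximal] {G : Type*} [Group G] [Fintype G]
  [DecidableEq (IrrCharacter G)]

omit [DecidableEq (IrrCharacter G)] in
theorem cz_sub {θ φ : G → ℂ} (hθ : IsGeneralizedCharacter G θ) (hφ : IsGeneralizedCharacter G φ) :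
    cz (θ - φ) = cz θ - cz φ := funext fun χ => by
  apply Int.cast_injective (α := ℂ)
  rw [Pi.sub_apply, Int.cast_sub, cz_spec hθ, cz_spec hφ, cz_spec (H6.isGen_sub hθ hφ),
    H7.ip_sub_left]

variable (M) in
/-- The characters occurring in the even columns. -/
structure SDB {a : G} (lam : zpowers a →* ℂˣ) (m : ℕ) where
  χ₁ : IrrCharacter G
  χ₂ : IrrCharacter G
  χ₃ : IrrCharacter G
  k : Fin (2 ^ (m - 2) - 1) → IrrCharacter G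
  δ₁ : ℤ
  δ₂ : ℤ
  δ₃ : ℤ
  s₁ : δ₁ = 1 ∨ δ₁ = -1
  s₂ : δ₂ = 1 ∨ δ₂ = -1
  s₃ : δ₃ = 1 ∨ δ₃ = -1
  inj : Function.Injective k
  n₁ : χ₁ ≠ irrOne G
  n₂ : χ₂ ≠ irrOne G
  n₃ : χ₃ ≠ irrOne G
  n₁₂ : χ₁ ≠ χ₂
  n₁₃ : χ₁ ≠ χ₃
  n₂₃ : χ₂ ≠ χ₃
  nk : ∀ j, k j ≠ χ₁ ∧ k j ≠ χ₂ ∧ k j ≠ χ₃ ∧ k j ≠ irrOne G
  mid : cz (dihW M lam (2 * (2 ^ (m - 2) : ℕ))) = Pi.single (irrOne G) 1 +
    (Pi.single χ₁ δ₁ + Pi.single χ₂ δ₂ + Pi.single χ₃ δ₃)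
  col : ∀ j : Fin (2 ^ (m - 2) - 1), cz (dihW M lam (2 * ((j : ℕ) + 1 : ℕ))) =
    Pi.single (irrOne G) 1 + (Pi.single χ₁ δ₁ + Pi.single (k j) (-δ₁))

variable {P : Sylow 2 G} {a b : G} {m : ℕ} (h : H3.MCS (P : Subgroup G) a b m)
  (hM : IsPModular 2 M) {lam : zpowers a →* ℂˣ} {ζ : ℂ}
  (hζ : IsPrimitiveRoot ζ (2 ^ m)) (hl : (lam ⟨a, mem_zpowers a⟩ : ℂ) = ζ)

include h hM hζ hl in
theorem nonempty_SDB : Nonempty (SDB M lam m) := by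
  obtain ⟨χ₁, χ₂, χ₃, k, δ₁, δ₂, δ₃, a1, a2, a3, a4, a5, a6, a7, a8, a9, a10, a11, a12, a13⟩ :=
    sd_struct h hM hζ hl
  exact ⟨⟨χ₁, χ₂, χ₃, k, δ₁, δ₂, δ₃, a1, a2, a3, a4, a5, a6, a7, a8, a9, a10, a11, a12, a13⟩⟩

omit [DecidableEq (IrrCharacter G)] hMm in
theorem cz_W_zero : cz (dihW M lam (2 * (0 : ℕ))) = 0 := funext fun χ => by
  simp [cz, dihW, show etaF lam 0 = 0 by ext; simp [etaF], colW, H7.ind_zero, blockPart_zero,
    H7.ip_zero_left]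

omit [DecidableEq (IrrCharacter G)] hMm in
theorem mem_of_cz {j : ℤ} {χ : IrrCharacter G} (e : cz (dihW M lam j) χ ≠ 0) :
    χ ∈ principalBlock M G :=
  mem_of_ip_colW _ (by rw [← dihW, ← cz_spec (isGen_dihW _)]; exact_mod_cast e)

namespace SDB
variable (D : SDB M lam m)

/-- Interchange the second and the third character. -/
def swap : SDB M lam m :=
  { D with
    χ₂ := D.χ₃, χ₃ := D.χ₂, δ₂ := D.δ₃, δ₃ := D.δ₂, s₂ := D.s₃, s₃ := D.s₂, n₂ := D.n₃, n₃ := D.n₂,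
    n₁₂ := D.n₁₃, n₁₃ := D.n₁₂, n₂₃ := D.n₂₃.symm,
    nk := fun j => ⟨(D.nk j).1, (D.nk j).2.2.1, (D.nk j).2.1, (D.nk j).2.2.2⟩
    mid := by rw [D.mid]; abel }

omit hMm

theorem mid₁ : cz (dihW M lam (2 * (2 ^ (m - 2) : ℕ))) D.χ₁ = D.δ₁ := by
  rw [D.mid]; simp [D.n₁, D.n₁₂, D.n₁₃]
theorem mid₂ : cz (dihW M lam (2 * (2 ^ (m - 2) : ℕ))) D.χ₂ = D.δ₂ := by
  rw [D.mid]; simp [D.n₂, D.n₁₂.symm, D.n₂₃]
theorem mid₃ : cz (dihW M lam (2 * (2 ^ (m - 2) : ℕ))) D.χ₃ = D.δ₃ := by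
  rw [D.mid]; simp [D.n₃, D.n₁₃.symm, D.n₂₃.symm]
theorem mem₁ : D.χ₁ ∈ principalBlock M G := mem_of_cz (by rw [D.mid₁]; have := D.s₁; omega)
theorem mem₂ : D.χ₂ ∈ principalBlock M G := mem_of_cz (by rw [D.mid₂]; have := D.s₂; omega)
theorem mem₃ : D.χ₃ ∈ principalBlock M G := mem_of_cz (by rw [D.mid₃]; have := D.s₃; omega)
theorem colk (j : Fin (2 ^ (m - 2) - 1)) :
    cz (dihW M lam (2 * ((j : ℕ) + 1 : ℕ))) (D.k j) = -D.δ₁ := by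
  rw [D.col]; simp [D.nk j]
theorem memk (j) : D.k j ∈ principalBlock M G := mem_of_cz (by rw [D.colk]; have := D.s₁; omega)

theorem mid_apply (g : G) : dihW M lam (2 * (2 ^ (m - 2) : ℕ)) g =
    1 + D.δ₁ * (D.χ₁ : G → ℂ) g + D.δ₂ * (D.χ₂ : G → ℂ) g + D.δ₃ * (D.χ₃ : G → ℂ) g := by
  rw [apply_eq_sum_cz (isGen_dihW _)]
  simp only [D.mid, Pi.add_apply, Int.cast_add, add_mul, Finset.sum_add_distrib,
    sum_single_mul, irrOne_apply]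
  push_cast
  ring

theorem col_apply (j : Fin (2 ^ (m - 2) - 1)) (g : G) :
    dihW M lam (2 * ((j : ℕ) + 1 : ℕ)) g =
    1 + D.δ₁ * (D.χ₁ : G → ℂ) g - D.δ₁ * (D.k j : G → ℂ) g := by
  rw [apply_eq_sum_cz (isGen_dihW _)]
  simp only [D.col, Pi.add_apply, Int.cast_add, add_mul, Finset.sum_add_distrib,
    sum_single_mul, irrOne_apply]
  push_cast
  ring

include hMm h hM hζ hl

theorem even_col {j : ℕ} (hj : j < 2 ^ (m - 1)) (e : j ≠ 0) (e' : j ≠ 2 ^ (m - 2)) :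
    ∃ i, cz (dihW M lam (2 * (j : ℕ))) =
      Pi.single (irrOne G) 1 + (Pi.single D.χ₁ D.δ₁ + Pi.single (D.k i) (-D.δ₁)) := by
  have h3 := h.three_le
  have hN : 2 ^ (m - 1) = 2 * 2 ^ (m - 2) := by
    rw [← pow_succ']; congr 1; omega
  by_cases h1 : j < 2 ^ (m - 2)
  · exact ⟨⟨j - 1, by omega⟩, by rw [← D.col, Nat.sub_add_cancel (by omega)]⟩
  · refine ⟨⟨2 ^ (m - 1) - j - 1, by omega⟩, ?_⟩
    rw [← D.col, Nat.sub_add_cancel (by omega), Nat.cast_sub hj.le, Nat.cast_pow, Nat.cast_ofNat,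
      sdW_sub h hM hζ hl]

theorem mid_zero {g : G} (hg : pPart 2 g ^ 2 = 1) :
    1 + D.δ₁ * (D.χ₁ : G → ℂ) g + D.δ₂ * (D.χ₂ : G → ℂ) g + D.δ₃ * (D.χ₃ : G → ℂ) g = 0 := by
  rw [← D.mid_apply, sdW_zero h hM hζ hl _ hg]

theorem col_zero (j) {g : G} (hg : pPart 2 g ^ 2 = 1) :
    1 + D.δ₁ * (D.χ₁ : G → ℂ) g - D.δ₁ * (D.k j : G → ℂ) g = 0 := by
  rw [← D.col_apply, sdW_zero h hM hζ hl _ hg]

theorem sum₁ : ∑ j ∈ Finset.range (2 ^ (m - 1)), cz (dihW M lam (2 * (j : ℕ))) D.χ₁ =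
    (2 ^ (m - 1) - 1) * D.δ₁ := by
  rw [Finset.range_eq_Ico, Finset.sum_eq_sum_Ico_succ_bot (by positivity), cz_W_zero,
    Finset.sum_congr rfl (g := fun _ => D.δ₁)]
  · simp [Nat.one_le_two_pow]
  intro j hj
  rw [Finset.mem_Ico] at hj
  by_cases e' : j = 2 ^ (m - 2)
  · rw [e', D.mid₁]
  obtain ⟨i, hi⟩ := D.even_col h hM hζ hl hj.2 (by omega) e'
  simp [hi, D.n₁, (D.nk i).1.symm]

theorem cz_other {χ : IrrCharacter G} (e1 : χ ≠ irrOne G) (e2 : χ ≠ D.χ₁) (e3 : ∀ i, D.k i ≠ χ)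
    {j : ℕ} (hj : j < 2 ^ (m - 1)) (e' : j ≠ 2 ^ (m - 2)) : cz (dihW M lam (2 * (j : ℕ))) χ = 0 := by
  by_cases e : j = 0
  · rw [e, cz_W_zero]; rfl
  obtain ⟨i, hi⟩ := D.even_col h hM hζ hl hj e e'
  simp [hi, e1, e2, (e3 i).symm]

theorem sum₂ : ∑ j ∈ Finset.range (2 ^ (m - 1)), cz (dihW M lam (2 * (j : ℕ))) D.χ₂ = D.δ₂ := by
  have h3 := h.three_le
  rw [Finset.sum_eq_single_of_mem (2 ^ (m - 2))
    (Finset.mem_range.2 (Nat.pow_lt_pow_right one_lt_two (by omega))), D.mid₂]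
  exact fun j hj e => D.cz_other h hM hζ hl D.n₂ D.n₁₂.symm (fun i => (D.nk i).2.1)
    (Finset.mem_range.1 hj) e

theorem other_apply {χ : IrrCharacter G} (hχ : χ ∈ principalBlock M G) (e1 : χ ≠ irrOne G)
    (e2 : χ ≠ D.χ₁) (e3 : χ ≠ D.χ₂) (e4 : χ ≠ D.χ₃) (e5 : ∀ i, D.k i ≠ χ) {u : zpowers a}
    (h1 : u ≠ 1) (h2 : ⟨_, h.z_mem⟩ * u ≠ 1) :
    (χ : G → ℂ) u + (χ : G → ℂ) (a ^ 2 ^ (m - 1) * u) = 0 := by
  have h3 := h.three_le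
  have hN : 2 ^ m = 2 * 2 ^ (m - 1) := by
    rw [← pow_succ']; congr 1; omega
  have := sd_apply h hζ hl hχ h2
  rw [coe_mul] at this
  rw [this, sd_apply h hζ hl hχ h1, ← neg_add, ← Finset.sum_add_distrib, hN,
    sum_range_two_mul, Finset.sum_eq_zero, Finset.sum_eq_zero]
  · simp
  · intro j _
    simp [lam_t h hζ hl, pow_succ]
  · intro j hj
    have : cz (dihW M lam (2 * (j : ℕ))) χ = 0 := by
      by_cases e : j = 2 ^ (m - 2)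
      · rw [e, D.mid]; simp [e1, e2, e3, e4]
      · exact D.cz_other h hM hζ hl e1 e2 e5 (Finset.mem_range.1 hj) e
    simp [this]

omit D [DecidableEq (IrrCharacter G)] hM hMm in
theorem apply_t {χ : IrrCharacter G} (hχ : χ ∈ principalBlock M G)
    (hc : ∀ j : ℕ, cz (dihW M lam (2 * j + 1)) χ = cz (dihW M lam 1) χ) :
    (χ : G → ℂ) (a ^ 2 ^ (m - 1)) = ((2 ^ (m - 1) * cz (dihW M lam 1) χ -
      ∑ j ∈ Finset.range (2 ^ (m - 1)), cz (dihW M lam (2 * (j : ℕ))) χ : ℤ) : ℂ) := by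
  have h3 := h.three_le
  have hN : 2 ^ m = 2 * 2 ^ (m - 1) := by
    rw [← pow_succ']; congr 1; omega
  have := sd_apply h hζ hl hχ (u := ⟨_, h.z_mem⟩) fun e => h.z_ne (congrArg Subtype.val e)
  rw [show (χ : G → ℂ) _ = _ from this, hN, sum_range_two_mul]
  simp [lam_t h hζ hl, pow_succ, hc]
  ring

theorem odd_col (j : ℕ) : cz (dihW M lam (2 * j + 1)) D.χ₁ = cz (dihW M lam 1) D.χ₁ ∧
    (cz (dihW M lam (2 * j + 1)) D.χ₂ = cz (dihW M lam 1) D.χ₂ ∧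
      cz (dihW M lam (2 * j + 1)) D.χ₃ = cz (dihW M lam 1) D.χ₃ ∨
    ∀ g : G, pPart 2 g ^ 2 = 1 → D.δ₂ * (D.χ₂ : G → ℂ) g = D.δ₃ * (D.χ₃ : G → ℂ) g) := by
  have h3 := h.three_le
  have hodd : ∀ x : ℤ, Odd x → ¬ ((2 ^ m : ℕ) : ℤ) ∣ x := fun x hx e =>
    Int.not_even_iff_odd.2 hx (even_iff_two_dvd.2 (by
      refine dvd_trans ?_ e
      exact_mod_cast dvd_pow_self 2 (by omega)))
  have hr : Odd ((2 : ℤ) ^ (m - 1) - 1) :=
    (Even.pow_of_ne_zero even_two (by omega)).sub_odd odd_one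
  have hi : Odd (2 * (j : ℤ) + 1) := odd_two_mul_add_one _
  have hfix : ∀ x : ℤ, Odd x → ¬ ((2 ^ m : ℕ) : ℤ) ∣ x * (2 ^ (m - 1) - 1) - x := fun x hx e => by
    obtain ⟨k, rfl⟩ : ∃ k, m = k + 3 := ⟨m - 3, by omega⟩
    rw [show x * (2 ^ (k + 3 - 1) - 1) - x = 2 * (x * (2 * 2 ^ k - 1)) by
      rw [show k + 3 - 1 = k + 2 by omega]; ring, dvd_two_mul h] at e
    have : Odd (x * (2 * 2 ^ k - 1)) := hx.mul ((even_two_mul _).sub_odd odd_one)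
    exact Int.not_even_iff_odd.2 this (even_iff_two_dvd.2
      (dvd_trans (dvd_pow_self 2 (by omega)) e))
  set θ := etaF lam (2 * j + 1) - etaF lam 1 with hθ
  have h0 : θ 1 = 0 := by simp [hθ, etaF_one]
  have ht : θ ⟨_, h.z_mem⟩ = 0 := by
    rw [hθ, Pi.sub_apply, etaF_t h hζ hl, etaF_t h hζ hl, hi.neg_one_zpow]; simp
  have hW : colW M (zpowers a).subtype θ = dihW M lam (2 * j + 1) - dihW M lam 1 := colW_sub _ _ _
  have hg : IsGeneralizedCharacter G (colW M (zpowers a).subtype θ) :=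
    hW ▸ H6.isGen_sub (isGen_dihW _) (isGen_dihW _)
  have hb : (fun u => θ (u ^ ((2 : ℤ) ^ (m - 1) - 1))) =
      etaF lam ((2 * j + 1) * (2 ^ (m - 1) - 1)) - etaF lam (1 * (2 ^ (m - 1) - 1)) :=
    funext fun u => by simp only [hθ, Pi.sub_apply, etaF_zpow]
  have hcz : cz (colW M (zpowers a).subtype θ) = cz (dihW M lam (2 * j + 1)) - cz (dihW M lam 1) := by
    rw [hW, cz_sub (isGen_dihW _) (isGen_dihW _)]
  have h1 : cz (colW M (zpowers a).subtype θ) ⬝ᵥ cz (colW M (zpowers a).subtype θ) ≤ 2 := by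
    have := cz_dot hg hg
    rw [sd_gram h hM h0 ht, hb, hθ] at this
    simp only [H7.ip_sub_left, H7.ip_sub_right, ip_etaF hζ hl, hfix _ hi, hfix _ odd_one,
      hodd _ hi, hodd _ odd_one, hodd _ (hi.mul hr), hodd _ (odd_one.mul hr), sub_self, dvd_zero,
      if_true, if_false] at this
    rw [← hθ] at this
    generalize cz (colW M (zpowers a).subtype θ) ⬝ᵥ cz (colW M (zpowers a).subtype θ) = n at this ⊢
    split_ifs at this <;> norm_num at this <;> norm_cast at this <;> omega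
  have h2 : ∀ i : ℤ, cz (colW M (zpowers a).subtype θ) ⬝ᵥ cz (dihW M lam (2 * i)) = 0 := fun i => by
    apply Int.cast_injective (α := ℂ)
    rw [cz_dot hg (isGen_dihW _), dihW, sd_gram h hM h0 ht, hb, hθ]
    simp only [H7.ip_sub_left, ip_etaF hζ hl, hodd _ hi, hodd _ odd_one, hodd _ (hi.mul hr),
      hodd _ (odd_one.mul hr), hodd _ (hi.sub_even (even_two_mul i)),
      hodd _ (odd_one.sub_even (even_two_mul i)), hodd _ ((hi.mul hr).sub_even (even_two_mul i)),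
      hodd _ ((odd_one.mul hr).sub_even (even_two_mul i)), if_false]
    simp
  have h4 : cz (colW M (zpowers a).subtype θ) (irrOne G) = 0 := by
    rw [hcz, Pi.sub_apply, cz_dihW_one hζ hl (by exact_mod_cast hodd _ hi),
      cz_dihW_one hζ hl (by exact_mod_cast hodd _ odd_one), sub_self]
  have hpos : 0 < 2 ^ (m - 2) - 1 := by
    have := Nat.pow_le_pow_right two_pos (show 1 ≤ m - 2 by omega)
    omega
  have h5 := h2 (2 ^ (m - 2) : ℕ)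
  have h6 := h2 (((⟨0, hpos⟩ : Fin _) : ℕ) + 1 : ℕ)
  rw [D.mid] at h5
  rw [D.col] at h6
  simp only [dotProduct_add, dotProduct_single, h4, zero_mul, zero_add] at h5 h6
  obtain ⟨b1, b2⟩ := vec_D h1 D.n₁₂ D.n₁₃ D.n₂₃ (D.nk _).1 (D.nk _).2.1 (D.nk _).2.2.1 D.s₁ D.s₂ D.s₃
    h5 h6
  rw [b1, zero_mul, zero_add] at h5
  refine ⟨by rwa [hcz, Pi.sub_apply, sub_eq_zero] at b1, b2.imp (fun e => by
    simpa only [hcz, Pi.sub_apply, sub_eq_zero] using e) fun e g hg' => ?_⟩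
  have h7 := apply_eq_sum_cz hg g
  rw [sd_colW_zero h hM h0 ht hg', e.2] at h7
  simp only [Pi.add_apply, Int.cast_add, add_mul, Finset.sum_add_distrib, sum_single_mul] at h7
  have h8 : (cz (colW M (zpowers a).subtype θ) D.χ₂ : ℂ) ≠ 0 := by exact_mod_cast e.1
  have h9 := congrArg (Int.cast : ℤ → ℂ) h5
  push_cast at h9
  apply mul_left_cancel₀ h8
  rcases D.s₂ with e2 | e2 <;> rcases D.s₃ with e3 | e3 <;> simp only [e2, e3] at h9 ⊢ <;>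
    push_cast at h9 ⊢
  · linear_combination -h7 - (D.χ₃ : G → ℂ) g * h9
  · linear_combination -h7 + (D.χ₃ : G → ℂ) g * h9
  · linear_combination h7 + (D.χ₃ : G → ℂ) g * h9
  · linear_combination h7 - (D.χ₃ : G → ℂ) g * h9

theorem cong₁ : ∃ n : ℤ, D.δ₁ * (D.χ₁ : G → ℂ) (a ^ 2 ^ (m - 1)) = ((1 + 2 ^ (m - 1) * n : ℤ) : ℂ) := by
  refine ⟨D.δ₁ * cz (dihW M lam 1) D.χ₁ - 1, ?_⟩
  rw [apply_t h hζ hl D.mem₁ fun j => (D.odd_col h hM hζ hl j).1, D.sum₁ h hM hζ hl]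
  rcases D.s₁ with e | e <;> simp only [e] <;> push_cast <;> ring

theorem cong₂ (hc : ∀ j : ℕ, cz (dihW M lam (2 * j + 1)) D.χ₂ = cz (dihW M lam 1) D.χ₂) :
    ∃ n : ℤ, -D.δ₂ * (D.χ₂ : G → ℂ) (a ^ 2 ^ (m - 1)) = ((1 + 2 ^ (m - 1) * n : ℤ) : ℂ) := by
  refine ⟨-D.δ₂ * cz (dihW M lam 1) D.χ₂, ?_⟩
  rw [apply_t h hζ hl D.mem₂ hc, D.sum₂ h hM hζ hl]
  rcases D.s₂ with e | e <;> simp only [e] <;> push_cast <;> ring

theorem cong₂₃ : ((∃ n : ℤ, -D.δ₂ * (D.χ₂ : G → ℂ) (a ^ 2 ^ (m - 1)) =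
      ((1 + 2 ^ (m - 1) * n : ℤ) : ℂ)) ∧
    ∃ n : ℤ, -D.δ₃ * (D.χ₃ : G → ℂ) (a ^ 2 ^ (m - 1)) = ((1 + 2 ^ (m - 1) * n : ℤ) : ℂ)) ∨
    ∀ g : G, pPart 2 g ^ 2 = 1 → D.δ₂ * (D.χ₂ : G → ℂ) g = D.δ₃ * (D.χ₃ : G → ℂ) g := by
  refine or_iff_not_imp_right.2 fun hn => ?_
  have := fun j => (D.odd_col h hM hζ hl j).2.resolve_right hn
  exact ⟨D.cong₂ h hM hζ hl fun j => (this j).1, D.swap.cong₂ h hM hζ hl fun j => (this j).2⟩

end SDB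

end Cfsg.Agent.H1.Sw
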