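import Mathlib
import Cfsg.Agent.H1.Sw2
import Cfsg.Agent.H7.GlP

/-!
The principal `2`-block of the centralizer of an involution (semidihedral case).
-/

set_option autoImplicit false

namespace Cfsg.Agent.H1.Sw

open Cfsg H9 H8 Subgroup
open Cfsg.Agent.H7 (ip ind)
open scoped ComplexConjugate

local notation:max "𝐙 " x:max => Subgroup.centralizer (Singleton.singleton x : Set _)

variable {M : Ideal AlgInt} [hMm : M.IsMaximal] {G : Type*} [Group G] [Fintype G]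

omit hMm in
theorem irr_pm (χ : IrrCharacter G) {t : G} (hc : ∀ x, t * x = x * t) (h2 : t * t = 1) :
    (∀ x, (χ : G → ℂ) (t * x) = (χ : G → ℂ) x) ∨ ∀ x, (χ : G → ℂ) (t * x) = -(χ : G → ℂ) x := by
  have h1 := irr_central_mul χ hc (t * 1)
  rw [irr_central_mul χ hc 1, ← mul_assoc, h2, one_mul, ← mul_assoc, eq_comm,
    mul_eq_right₀ (by rw [irr_one_eq]; exact_mod_cast charDegree_irr_ne_zero χ),
    mul_self_eq_one_iff] at h1
  exact h1.imp (fun e x => by rw [irr_central_mul χ hc, e, one_mul])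
    fun e x => by rw [irr_central_mul χ hc, e, neg_one_mul]

omit hMm in
theorem ip_eq_zero_of_shift {t : G} {φ ψ : G → ℂ} (h1 : ∀ x, φ (t * x) = φ x)
    (h2 : ∀ x, ψ (t * x) = -ψ x) : ip φ ψ = 0 := by
  have := H7.ip_comp_equiv (Equiv.mulLeft t) φ ψ
  simp only [Equiv.coe_mulLeft, h1, h2] at this
  rw [show (fun x => -ψ x) = -ψ from rfl, H7.ip_neg_right] at this
  linear_combination -this / 2

variable [DecidableEq (IrrCharacter G)]
variable {P : Sylow 2 G} {a b : G} {m : ℕ} (h : H3.MCS (P : Subgroup G) a b m)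
  (hM : IsPModular 2 M) {lam : zpowers a →* ℂˣ} {ζ : ℂ}
  (hζ : IsPrimitiveRoot ζ (2 ^ m)) (hl : (lam ⟨a, mem_zpowers a⟩ : ℂ) = ζ)
  (hc : ∀ x, a ^ 2 ^ (m - 1) * x = x * a ^ 2 ^ (m - 1))

include h hc

omit [DecidableEq (IrrCharacter G)] in
include hM in
theorem nf_ne_zero {χ : IrrCharacter G} (hχ : χ ∈ principalBlock M G)
    (hn : ∀ x, (χ : G → ℂ) (a ^ 2 ^ (m - 1) * x) = (χ : G → ℂ) x) :
    (χ : G → ℂ) (a ^ 2 ^ (m - 2)) ≠ 0 := by
  have hz : zpowers (a ^ 2 ^ (m - 1)) ≤ center G := zpowers_le.2 (mem_center_iff.2 fun x => (hc x).symm)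
  have : (zpowers (a ^ 2 ^ (m - 1))).Normal := ⟨fun n hn g => by
    rwa [mem_center_iff.1 (hz hn) g, mul_inv_cancel_right]⟩
  have hf := QuotientGroup.mk'_surjective (zpowers (a ^ 2 ^ (m - 1)))
  obtain ⟨ψ, rfl⟩ := exists_inflIrr_eq _ hf (χ := χ) (by
    rw [QuotientGroup.ker_mk']; exact zpowers_le.2 (H6.mem_charKer.2 hn))
  rw [inflIrr_mem_principal_of_central hM _ hf (by
    rw [QuotientGroup.ker_mk']; exact isPGroup_zpowers ⟨1, h.ord_z⟩)
    (by rwa [QuotientGroup.ker_mk'])] at hχ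
  refine principal_ne_zero hM hχ (not_dvd_index_centralizer_of_mem (P.mapSurjective hf) ?_)
  rintro _ ⟨s, hs, rfl⟩
  rw [← map_mul, ← map_mul]
  by_cases e : s ∈ zpowers a
  · rw [H3.comm_of_mem_zpowers e h.y_mem]
  refine QuotientGroup.eq.2 ?_
  have h1 := (h.toMC.out hs e).conj_pow_pow (k := m - 2) (by have := h.three_le; omega)
  rw [mul_inv_eq_iff_eq_mul.1 h1, show ((a ^ 2 ^ (m - 2))⁻¹ * s)⁻¹ * (a ^ 2 ^ (m - 2) * s) =
    s⁻¹ * (a ^ 2 ^ (m - 2)) ^ 2 * s by group, h.y_sq, mul_assoc, hc, inv_mul_cancel_left]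
  exact mem_zpowers _

omit [DecidableEq (IrrCharacter G)] hMm in
include hζ hl in
theorem nf_of_cz {χ : IrrCharacter G} {j : ℤ} (e : cz (dihW M lam (2 * j)) χ ≠ 0) (x : G) :
    (χ : G → ℂ) (a ^ 2 ^ (m - 1) * x) = (χ : G → ℂ) x := by
  refine ((irr_pm χ hc h.z_mul).resolve_right fun e' => e ?_) x
  apply Int.cast_injective (α := ℂ)
  have := Fintype.ofFinite (zpowers a)
  rw [cz_spec (isGen_dihW _), dihW, ip_colW_of_mem _ _ (mem_of_cz e), Int.cast_zero]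
  refine ip_eq_zero_of_shift (t := ⟨_, h.z_mem⟩) (fun u => ?_) fun u => e' u
  simp [etaF, lam_t h hζ hl, zpow_mul]

namespace SDB
variable (D : SDB M lam m)
include hζ hl

omit hMm in
theorem nf₁ (x : G) : (D.χ₁ : G → ℂ) (a ^ 2 ^ (m - 1) * x) = (D.χ₁ : G → ℂ) x :=
  nf_of_cz h hζ hl hc (by rw [D.mid₁]; have := D.s₁; omega) x
omit hMm in
theorem nf₂ (x : G) : (D.χ₂ : G → ℂ) (a ^ 2 ^ (m - 1) * x) = (D.χ₂ : G → ℂ) x :=
  nf_of_cz h hζ hl hc (by rw [D.mid₂]; have := D.s₂; omega) x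
omit hMm in
theorem nf₃ (x : G) : (D.χ₃ : G → ℂ) (a ^ 2 ^ (m - 1) * x) = (D.χ₃ : G → ℂ) x :=
  nf_of_cz h hζ hl hc (by rw [D.mid₃]; have := D.s₃; omega) x
omit hMm in
theorem nfk (j) (x : G) : (D.k j : G → ℂ) (a ^ 2 ^ (m - 1) * x) = (D.k j : G → ℂ) x :=
  nf_of_cz h hζ hl hc (by rw [D.colk]; have := D.s₁; omega) x

include hM

theorem nf_cases {χ : IrrCharacter G} (hχ : χ ∈ principalBlock M G)
    (hn : ∀ x, (χ : G → ℂ) (a ^ 2 ^ (m - 1) * x) = (χ : G → ℂ) x) :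
    χ = irrOne G ∨ χ = D.χ₁ ∨ χ = D.χ₂ ∨ χ = D.χ₃ ∨ ∃ j, D.k j = χ := by
  by_contra! e
  have := D.other_apply h hM hζ hl hχ e.1 e.2.1 e.2.2.1 e.2.2.2.1 e.2.2.2.2 (u := ⟨_, h.y_mem⟩)
    (fun e => h.y_not_mem (by rw [show a ^ 2 ^ (m - 2) = 1 from congrArg Subtype.val e]; simp))
    fun e => h.y_not_mem (by
      have e' : a ^ 2 ^ (m - 1) * a ^ 2 ^ (m - 2) = 1 := congrArg Subtype.val e
      rw [eq_inv_of_mul_eq_one_right e']; simp)
  rw [hn, ← two_mul, mul_eq_zero] at this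
  exact nf_ne_zero h hM hc hχ hn (this.resolve_left two_ne_zero)

theorem sum_nf (F : IrrCharacter G → ℂ)
    (hF : ∀ χ : IrrCharacter G, (∀ x, (χ : G → ℂ) (a ^ 2 ^ (m - 1) * x) = -(χ : G → ℂ) x) → F χ = 0) :
    ∑ χ ∈ bs (principalBlock M G), F χ =
      F (irrOne G) + F D.χ₁ + F D.χ₂ + F D.χ₃ + ∑ j, F (D.k j) := by
  rw [← Finset.sum_subset (s₁ := insert (irrOne G) (insert D.χ₁ (insert D.χ₂ (insert D.χ₃
    (Finset.univ.image D.k))))), Finset.sum_insert (by simp [D.n₁.symm, D.n₂.symm, D.n₃.symm, D.nk]),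
    Finset.sum_insert (by simp [D.n₁₂, D.n₁₃, D.nk]), Finset.sum_insert (by simp [D.n₂₃, D.nk]),
    Finset.sum_insert (by simp [D.nk]), Finset.sum_image fun i _ j _ e => D.inj e]
  · ring
  · intro χ hχ
    simp only [Finset.mem_insert, Finset.mem_image, Finset.mem_univ, true_and] at hχ
    rcases hχ with rfl | rfl | rfl | rfl | ⟨j, rfl⟩ <;> rw [mem_bs]
    exacts [irrOne_mem_principalBlock, D.mem₁, D.mem₂, D.mem₃, D.memk j]
  · intro χ hχ hn
    refine hF χ ((irr_pm χ hc h.z_mul).resolve_left fun e => hn ?_)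
    simpa using D.nf_cases h hM hζ hl hc (mem_bs.1 hχ) e

end SDB

section Sgn
variable (hQ : H3.OA 2 (zpowers (a ^ 2 ^ (m - 2)) ⊔ zpowers (a * b)))
include hQ
omit [DecidableEq (IrrCharacter G)] hMm

theorem exists_sgn : ∃ sg : G →* ℂˣ, (∀ k ∈ pResidual 2 G, sg k = 1) ∧ sg b = -1 ∧ sg a = -1 ∧
    ∀ g, g ∈ pResidual 2 G ∨ b * g ∈ pResidual 2 G := by
  have hT : ¬ H3.OA 2 (zpowers (a ^ 2 ^ (m - 1)) ⊔ zpowers b) := fun ho => by
    obtain ⟨x, hx⟩ := isConj_iff.1 (h.oa_four h.sq ho).1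
    rw [← hc, mul_inv_cancel_right] at hx
    exact h.nmem (hx ▸ h.z_mem)
  have h1 := h.res_q (H3.syl_coe P) hT hQ
  have h2 := (h.case_q (H3.syl_coe P) hT hQ).1
  have hb : b ∉ pResidual 2 G := fun e => h.b_not_mem (h1 ▸ ⟨h.b_mem, e⟩)
  have hab : a * b ∈ pResidual 2 G := (h1.ge (mem_sup_right (mem_zpowers _))).2
  have h3 : ∀ g, g ∈ pResidual 2 G ∨ b * g ∈ pResidual 2 G := fun g =>
    or_iff_not_imp_left.2 fun e => (mul_mem_iff_of_index_two h2).2 (by simp [hb, e])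
  have hbb : b * b = 1 := by rw [← sq, h.sq]
  obtain ⟨sg, e1, e2⟩ := H6.exists_linear_of_cyclic_quotient (pResidual 2 G) b (fun g => by
    by_cases e : g ∈ pResidual 2 G
    · exact ⟨g, e, 1, one_mem _, by simp⟩
    · exact ⟨g * b, (mul_mem_iff_of_index_two h2).2 (by simp [hb, e]), b, mem_zpowers b, by
        rw [mul_assoc, hbb, mul_one]⟩) (-1) fun j hj => by
      rcases Nat.even_or_odd j with e | ⟨k, rfl⟩
      · exact e.neg_one_pow
      · rw [pow_succ, pow_mul, h.sq, one_pow, one_mul] at hj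
        exact (hb hj).elim
  refine ⟨sg, e1, e2, ?_, h3⟩
  have := e1 _ hab
  rw [map_mul, e2] at this
  simpa [neg_eq_iff_eq_neg] using this

end Sgn

omit hc in
include hM hζ hl in
theorem exists_SDB_sgn {sg : G →* ℂˣ} (h1 : ∀ k ∈ pResidual 2 G, sg k = 1) (ha : sg a = -1) :
    ∃ D : SDB M lam m, D.δ₂ = -1 ∧ (D.χ₂ : G → ℂ) = fun g => (sg g : ℂ) := by
  have h3 := h.three_le
  obtain ⟨D⟩ := nonempty_SDB h hM hζ hl
  set σ : IrrCharacter G := ⟨_, H7.irr_of_hom sg⟩ with hσ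
  have hmem : σ ∈ principalBlock M G := mem_principal_of_forall_reg hM fun y hy => by
    simp [hσ, h1 y (H4.mem_pResidual ((not_dvd_iff_coprime _).1 hy))]
  have hres : (fun z : zpowers a => (σ : G → ℂ) ((zpowers a).subtype z)) =
      (fun _ => 1) - etaF lam (2 * (2 ^ (m - 2) : ℕ)) := by
    funext ⟨_, k, rfl⟩
    have e : ζ ^ (2 * ((2 ^ (m - 2) : ℕ) : ℤ)) = -1 := by
      rw [← lam_t h hζ hl, show (⟨_, h.z_mem⟩ : zpowers a) = ⟨a, mem_zpowers a⟩ ^ 2 ^ (m - 1) from rfl,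
        map_pow, Units.val_pow_eq_pow_val, hl, ← zpow_natCast, show m - 1 = m - 2 + 1 by omega,
        pow_succ']
      push_cast
      rfl
    rw [Pi.sub_apply, etaF, show (⟨a ^ k, _⟩ : zpowers a) = ⟨a, mem_zpowers a⟩ ^ k from rfl, map_zpow,
      map_zpow]
    simp only [hσ, map_zpow, coe_subtype, ha, MonoidHom.zpow_apply, Units.val_zpow_eq_zpow_val, hl, e]
    simp
  have hcz : ∀ j : ℤ, ¬ (2 : ℤ) ^ (m - 1) ∣ j → cz (dihW M lam (2 * j)) σ =
      -if (2 : ℤ) ^ (m - 1) ∣ j - (2 ^ (m - 2) : ℕ) then 1 else 0 := fun j hj => by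
    apply Int.cast_injective (α := ℂ)
    rw [cz_spec (isGen_dihW _), dihW, ip_colW_of_mem _ _ hmem, hres, H7.ip_sub_right,
      ip_etaF_one hζ hl (by rwa [dvd_two_mul h]), ip_etaF hζ hl]
    simp only [← mul_sub, dvd_two_mul h, hj]
    rw [if_neg fun e => by
      have := Int.le_of_dvd (by positivity) e
      have := Nat.pow_lt_pow_right one_lt_two (show m - 2 < m - 1 by omega)
      norm_cast at *
      omega]
    simp
  have hlt : 2 ^ (m - 1) = 2 * 2 ^ (m - 2) := by rw [← pow_succ']; congr 1; omega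
  have hpos : 2 ≤ 2 ^ (m - 2) := Nat.pow_le_pow_right two_pos (show 1 ≤ m - 2 by omega)
  have hlt' : (2 : ℤ) ^ (m - 1) = 2 * (2 ^ (m - 2) : ℕ) := by exact_mod_cast hlt
  have e1 := hcz (2 ^ (m - 2) : ℕ) fun e => by
    have := Int.le_of_dvd (by positivity) e
    omega
  have e2 := hcz (((⟨0, by omega⟩ : Fin (2 ^ (m - 2) - 1)) : ℕ) + 1 : ℕ) fun e => by
    have := Int.le_of_dvd (by positivity) e
    simp at this
    omega
  rw [if_pos (by simp)] at e1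
  rw [if_neg fun e => by
    have := Int.eq_zero_of_abs_lt_dvd e (by rw [abs_lt]; simp only; omega)
    simp only at this
    omega] at e2
  have n0 : σ ≠ irrOne G := fun e => by
    have := congrFun (congrArg Subtype.val e) a
    simp [hσ, ha, irrOne_apply] at this
    norm_num at this
  have n1 : σ ≠ D.χ₁ := fun e => by
    rw [D.col, e] at e2
    have := D.s₁
    simp [D.n₁, (D.nk _).1.symm] at e2
    omega
  by_cases n2 : σ = D.χ₂
  · exact ⟨D, by rw [← D.mid₂, ← n2, e1], by rw [← n2]⟩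
  by_cases n3 : σ = D.χ₃
  · exact ⟨D.swap, by show D.δ₃ = -1; rw [← D.mid₃, ← n3, e1], by show (D.χ₃ : G → ℂ) = _; rw [← n3]⟩
  rw [D.mid] at e1
  simp [n0, n1, n2, n3] at e1

end Cfsg.Agent.H1.Sw
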