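import Mathlib
import Cfsg.Agent.H1.Sw3

/-!
The principal `2`-block of the centralizer of an involution (semidihedral case), continued.
-/

set_option autoImplicit false

namespace Cfsg.Agent.H1.Sw

open Cfsg H9 H8 Subgroup
open Cfsg.Agent.H7 (ip ind)
open scoped ComplexConjugate

local notation:max "𝐙 " x:max => Subgroup.centralizer (Singleton.singleton x : Set _)

variable {M : Ideal AlgInt} [hMm : M.IsMaximal] {G : Type*} [Group G] [Fintype G]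

omit hMm in
theorem deg_dvd_index_mul (χ : IrrCharacter G) {g : G} {δ d n : ℤ} (hδ : δ = 1 ∨ δ = -1)
    (h1 : δ * (χ : G → ℂ) 1 = d) (hn : δ * (χ : G → ℂ) g = n) : d ∣ (𝐙 g).index * n := by
  have h0 : (d : ℂ) ≠ 0 := by
    rw [← h1]
    exact mul_ne_zero (by rcases hδ with rfl | rfl <;> simp) (irr_one_ne_zero χ)
  refine H6.int_dvd_of_isIntegral_div (by exact_mod_cast h0) ?_
  convert isIntegral_centralChar χ g using 1
  rw [centralChar, div_eq_div_iff h0 (irr_one_ne_zero χ), ← h1]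
  push_cast
  rw [← hn]
  ring

variable [DecidableEq (IrrCharacter G)]
variable {P : Sylow 2 G} {a b : G} {m : ℕ} (h : H3.MCS (P : Subgroup G) a b m)
  (hM : IsPModular 2 M) {lam : zpowers a →* ℂˣ} {ζ : ℂ}
  (hζ : IsPrimitiveRoot ζ (2 ^ m)) (hl : (lam ⟨a, mem_zpowers a⟩ : ℂ) = ζ)
  (hc : ∀ x, a ^ 2 ^ (m - 1) * x = x * a ^ 2 ^ (m - 1))

omit [DecidableEq (IrrCharacter G)] in
theorem sq_pPart_odd {y : G} (hy : ¬ 2 ∣ orderOf y) : pPart 2 y ^ 2 = 1 := by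
  rw [pPart_eq_one_iff.2 hy, one_pow]

namespace SDB
variable (D : SDB M lam m)

/-- The first character with its sign. -/
def e (g : G) : ℂ := D.δ₁ * (D.χ₁ : G → ℂ) g
/-- First projective function. -/
noncomputable def Φa : G → ℂ := (fun _ => 1) + (D.χ₂ : G → ℂ) + (D.δ₁ : ℂ) • ∑ j, (D.k j : G → ℂ)
/-- Second projective function. -/
noncomputable def Φb : G → ℂ := (D.δ₁ : ℂ) • (D.χ₁ : G → ℂ) - (D.δ₃ : ℂ) • (D.χ₃ : G → ℂ) +
  (D.δ₁ : ℂ) • ∑ j, (D.k j : G → ℂ)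

omit hMm in
theorem isGen_Φa : IsGeneralizedCharacter G D.Φa :=
  H6.isGen_add (H6.isGen_add H6.isGen_one (H6.isGen_of_irr D.χ₂.2))
    (H6.isGen_intCast_smul _ (H6.isGen_sum _ fun j _ => H6.isGen_of_irr (D.k j).2))

omit hMm in
theorem isGen_Φb : IsGeneralizedCharacter G D.Φb :=
  H6.isGen_add (H6.isGen_sub (H6.isGen_intCast_smul _ (H6.isGen_of_irr D.χ₁.2))
    (H6.isGen_intCast_smul _ (H6.isGen_of_irr D.χ₃.2)))
    (H6.isGen_intCast_smul _ (H6.isGen_sum _ fun j _ => H6.isGen_of_irr (D.k j).2))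

omit hMm in
theorem sq₁ : (D.δ₁ : ℂ) * D.δ₁ = 1 := by rcases D.s₁ with e | e <;> simp [e]
omit hMm in
theorem sq₂ : (D.δ₂ : ℂ) * D.δ₂ = 1 := by rcases D.s₂ with e | e <;> simp [e]
omit hMm in
theorem sq₃ : (D.δ₃ : ℂ) * D.δ₃ = 1 := by rcases D.s₃ with e | e <;> simp [e]

variable {sg : G →* ℂˣ} (h1 : ∀ k ∈ pResidual 2 G, sg k = 1) (hb : sg b = -1)
  (h3 : ∀ g, g ∈ pResidual 2 G ∨ b * g ∈ pResidual 2 G) (hδ : D.δ₂ = -1)
  (hσ : (D.χ₂ : G → ℂ) = fun g => (sg g : ℂ))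

omit hMm in
include h1 hσ in
theorem odd₂ {y : G} (hy : ¬ 2 ∣ orderOf y) : (D.χ₂ : G → ℂ) y = 1 := by
  simp [hσ, h1 y (H4.mem_pResidual ((not_dvd_iff_coprime _).1 hy))]

include h hM hζ hl in
theorem oddk (j) {y : G} (hy : pPart 2 y ^ 2 = 1) : (D.k j : G → ℂ) y = D.δ₁ * (1 + D.e y) := by
  have := D.col_zero h hM hζ hl j hy
  rw [e]
  linear_combination -D.δ₁ * this - (D.k j : G → ℂ) y * D.sq₁

include h hM hζ hl h1 hσ hδ in
theorem odd₃ {y : G} (hy : ¬ 2 ∣ orderOf y) : (D.χ₃ : G → ℂ) y = -D.δ₃ * D.e y := by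
  have := D.mid_zero h hM hζ hl (sq_pPart_odd hy)
  rw [D.odd₂ h1 hσ hy, hδ] at this
  push_cast at this
  rw [e]
  linear_combination D.δ₃ * this - (D.χ₃ : G → ℂ) y * D.sq₃

omit hMm in
theorem odd₁ (y : G) : (D.χ₁ : G → ℂ) y = D.δ₁ * D.e y := by
  rw [e, ← mul_assoc, D.sq₁, one_mul]

omit hMm in
include h h1 hb h3 hσ in
theorem nonconst : ∃ y : G, ¬ 2 ∣ orderOf y ∧ D.e y ≠ D.e 1 := by
  by_contra! hn
  have hk : pResidual 2 G ≤ H6.charKer (D.χ₁ : G → ℂ) := (closure_le _).2 fun y hy =>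
    (H6.mem_charKer_iff_irr D.χ₁.2).2 (by
      rw [D.odd₁, D.odd₁ 1, hn y ((not_dvd_iff_coprime _).2 hy)])
  have hbb : b * b = 1 := by rw [← sq, h.sq]
  have e : (D.χ₁ : G → ℂ) = (((D.χ₁ : G → ℂ) 1 + (D.χ₁ : G → ℂ) b) / 2) • (irrOne G : G → ℂ) +
      (((D.χ₁ : G → ℂ) 1 - (D.χ₁ : G → ℂ) b) / 2) • (D.χ₂ : G → ℂ) := funext fun g => by
    rcases h3 g with e | e
    · simp only [Pi.add_apply, Pi.smul_apply, hσ, h1 g e, irrOne_apply,
        H6.apply_eq_of_mem_charKer (hk e)]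
      simp
      ring
    · have e1 := h1 _ e
      rw [map_mul, hb, neg_one_mul, neg_eq_iff_eq_neg] at e1
      have e2 := H6.apply_mul_of_mem_charKer' (irr_isClassFunction D.χ₁) (hk e) b
      rw [← mul_assoc, hbb, one_mul] at e2
      simp only [Pi.add_apply, Pi.smul_apply, hσ, e1, irrOne_apply, e2]
      simp
      ring
  have := H7.ip_irr_self D.χ₁.2
  nth_rw 1 [e] at this
  rw [H7.ip_add_left, H7.ip_smul_left, H7.ip_smul_left, ip_irr_irr, ip_irr_irr, if_neg D.n₁.symm,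
    if_neg D.n₁₂.symm] at this
  simp at this

include h hM hζ hl hc h1 hσ hδ

theorem sum_col (g : G) {y : G} (hy : ¬ 2 ∣ orderOf y) :
    ∑ χ ∈ bs (principalBlock M G), (χ : G → ℂ) g * conj ((χ : G → ℂ) y) +
      ∑ χ ∈ bs (principalBlock M G), (χ : G → ℂ) g * conj ((χ : G → ℂ) (a ^ 2 ^ (m - 1) * y)) =
      2 * (D.Φa g + D.Φb g * conj (D.e y)) := by
  rw [← Finset.sum_add_distrib, D.sum_nf h hM hζ hl hc _ fun χ hχ => by simp [hχ]]
  simp only [D.nf₁ h hζ hl hc, D.nf₂ h hζ hl hc, D.nf₃ h hζ hl hc, D.nfk h hζ hl hc, irrOne_apply,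
    D.odd₁ y, D.odd₂ h1 hσ hy, D.odd₃ h hM hζ hl h1 hδ hσ hy,
    D.oddk h hM hζ hl _ (sq_pPart_odd hy), Φa, Φb, Pi.add_apply, Pi.sub_apply, Pi.smul_apply,
    Finset.sum_apply, smul_eq_mul, ← two_mul, ← Finset.mul_sum, ← Finset.sum_mul, map_mul,
    map_add, map_one, map_neg, map_intCast]
  ring

omit [DecidableEq (IrrCharacter G)] hM hζ hl h1 hσ hδ in
theorem pPart_t_mul (g : G) : pPart 2 (a ^ 2 ^ (m - 1) * g) = a ^ 2 ^ (m - 1) * pPart 2 g := by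
  have := pPart_mul (pElt_mul ⟨1, h.ord_z⟩ (orderOf_pPart (p := 2) g) (hc _))
    (not_dvd_orderOf_pReg (p := 2) g) (Commute.mul_left (hc _) (commute_pPart_pReg g))
  rwa [mul_assoc, pPart_mul_pReg] at this

theorem gram {c y : G} (hcc : ¬ 2 ∣ orderOf c) (hy : ¬ 2 ∣ orderOf y) :
    ∑ χ ∈ bs (principalBlock M G), (χ : G → ℂ) c * conj ((χ : G → ℂ) y) =
      2 * (2 + 2 * D.e c * conj (D.e y) + (2 ^ (m - 2) - 1) * ((1 + D.e c) * (1 + conj (D.e y)))) := by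
  classical
  have := D.sum_col h hM hζ hl hc h1 hδ hσ c hy
  rw [bs_eq_filter, block_orthogonality hM ub_principal (h := _ * y) (by
    rw [pPart_t_mul h hc, pPart_eq_one_iff.2 hy, pPart_eq_one_iff.2 hcc, mul_one, isConj_one_right]
    exact h.z_ne), add_zero, ← bs_eq_filter] at this
  rw [this]
  simp only [D.odd₁ c, D.odd₂ h1 hσ hcc, D.odd₃ h hM hζ hl h1 hδ hσ hcc,
    D.oddk h hM hζ hl _ (sq_pPart_odd hcc), Φa, Φb, Pi.add_apply, Pi.sub_apply, Pi.smul_apply,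
    Finset.sum_apply, smul_eq_mul, Finset.sum_const, Finset.card_univ, Fintype.card_fin,
    nsmul_eq_mul, Nat.cast_sub Nat.one_le_two_pow]
  push_cast
  linear_combination 2 * ((2 ^ (m - 2) - 1) * (1 + D.e c) * (1 + conj (D.e y)) +
    D.e c * conj (D.e y)) * D.sq₁ + 2 * D.e c * conj (D.e y) * D.sq₃

include hb h3

theorem vanish {g : G} (e1 : pPart 2 g ≠ 1) (e2 : pPart 2 g ≠ a ^ 2 ^ (m - 1)) :
    D.Φa g = 0 ∧ D.Φb g = 0 := by
  classical
  have key : ∀ y : G, ¬ 2 ∣ orderOf y → D.Φa g + D.Φb g * conj (D.e y) = 0 := fun y hy => by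
    have := D.sum_col h hM hζ hl hc h1 hδ hσ g hy
    rw [bs_eq_filter, block_orthogonality hM ub_principal (h := _ * y) (by
      rw [pPart_t_mul h hc, pPart_eq_one_iff.2 hy, mul_one]
      intro e
      obtain ⟨x, hx⟩ := isConj_iff.1 e.symm
      rw [← hc, mul_inv_cancel_right] at hx
      exact e2 hx.symm), block_orthogonality hM ub_principal (by
        rwa [pPart_eq_one_iff.2 hy, isConj_one_left])] at this
    linear_combination -this / 2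
  obtain ⟨y, hy, hn⟩ := D.nonconst h h1 hb h3 hσ
  have k1 := key y hy
  have k2 := key 1 (by simp)
  have : D.Φb g = 0 := by
    refine (mul_eq_zero.1 (show D.Φb g * conj (D.e y - D.e 1) = 0 by
      rw [map_sub]; linear_combination k1 - k2)).resolve_right ?_
    rwa [map_eq_zero, sub_eq_zero]
  exact ⟨by simpa [this] using k1, this⟩

theorem val_b : D.e b = -1 ∧ (∀ j, (D.k j : G → ℂ) b = 0) ∧ D.δ₃ * (D.χ₃ : G → ℂ) b = -1 := by
  have h3' := h.three_le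
  have hp : pPart 2 b = b := pPart_of_pElt ⟨1, h.ord_b_two h.sq⟩
  obtain ⟨v1, v2⟩ := D.vanish h hM hζ hl hc h1 hb h3 hδ hσ (g := b) (by rw [hp]; exact h.b_ne)
    (by rw [hp]; exact fun e => h.nmem (e ▸ h.z_mem))
  have hk := fun j => D.oddk h hM hζ hl j (y := b) (by rw [hp, h.sq])
  simp only [Φa, Φb, Pi.add_apply, Pi.sub_apply, Pi.smul_apply, Finset.sum_apply, smul_eq_mul, hk,
    hσ, hb, Finset.sum_const, Finset.card_univ, Fintype.card_fin, nsmul_eq_mul] at v1 v2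
  have hn : ((2 ^ (m - 2) - 1 : ℕ) : ℂ) ≠ 0 := by
    have := Nat.pow_le_pow_right two_pos (show 1 ≤ m - 2 by omega)
    exact Nat.cast_ne_zero.2 (by omega)
  have e1 : D.e b = -1 := by
    refine eq_neg_of_add_eq_zero_right (mul_left_cancel₀ hn ?_)
    push_cast at v1
    linear_combination v1 - ((2 ^ (m - 2) - 1 : ℕ) : ℂ) * (1 + D.e b) * D.sq₁
  refine ⟨e1, fun j => by simp [hk, e1], ?_⟩
  rw [e1] at v2
  rw [e] at e1
  linear_combination e1 - v2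

theorem exists_dec {F : G → ℂ} (hF : IsGeneralizedCharacter G F)
    (hB : ∀ y, ¬ 2 ∣ orderOf y → blockPart (principalBlock M G) F y = F y) :
    ∃ d : ℤ × ℤ, ∀ y, ¬ 2 ∣ orderOf y → F y = d.1 + d.2 * D.e y := by
  classical
  set T : G → ℂ := fun g => if pPart 2 g = 1 ∨ pPart 2 g = a ^ 2 ^ (m - 1) then F (pReg 2 g) else 0
    with hT
  have hsh : ∀ g, T (a ^ 2 ^ (m - 1) * g) = T g := fun g => by
    simp only [hT, pPart_t_mul h hc, pReg_mul_left (p := 2) ⟨1, h.ord_z⟩ (hc g), mul_eq_left]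
    congr 1
    rw [or_comm, mul_eq_one_iff_eq_inv', h.z_inv]
  have hip : ∀ Φ : G → ℂ, IsGeneralizedCharacter G Φ →
      (∀ g, pPart 2 g ≠ 1 → pPart 2 g ≠ a ^ 2 ^ (m - 1) → Φ g = 0) → ∃ n : ℤ, ip T Φ = n :=
    fun Φ hΦ h0 => by
      obtain ⟨n, hn⟩ := H7.ip_gen_int (isGen_comp_pReg (p := 2) hF) hΦ
      refine ⟨n, hn ▸ ?_⟩
      rw [H7.ip_def, H7.ip_def]
      congr 1
      refine Finset.sum_congr rfl fun g _ => ?_
      by_cases e : pPart 2 g = 1 ∨ pPart 2 g = a ^ 2 ^ (m - 1)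
      · simp only [hT, if_pos e]
      · rw [h0 g (fun e' => e (Or.inl e')) fun e' => e (Or.inr e')]; simp
  obtain ⟨d₁, e₁⟩ := hip _ D.isGen_Φa fun g e e' => (D.vanish h hM hζ hl hc h1 hb h3 hδ hσ e e').1
  obtain ⟨d₂, e₂⟩ := hip _ D.isGen_Φb fun g e e' => (D.vanish h hM hζ hl hc h1 hb h3 hδ hσ e e').2
  refine ⟨(d₁, d₂), fun y hy => ?_⟩
  rw [← hB y hy, blockPart_congr_reg hM ub_principal (φ := T) (fun z hz => by
    simp [hT, pPart_eq_one_iff.2 hz, pReg_of_not_dvd hz]) hy, blockPart_eq_bs, Finset.sum_apply,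
    D.sum_nf h hM hζ hl hc _ fun χ hχ => by simp [ip_eq_zero_of_shift hsh hχ], ← e₁, ← e₂]
  simp only [Φa, Φb, H7.ip_add_right, H7.ip_sub_right, H7.ip_smul_right, H7.ip_sum_right,
    Pi.smul_apply, smul_eq_mul, D.odd₁ y, D.odd₂ h1 hσ hy,
    D.odd₃ h hM hζ hl h1 hδ hσ hy, D.oddk h hM hζ hl _ (sq_pPart_odd hy), ← Finset.sum_mul,
    map_intCast, show (irrOne G : G → ℂ) = fun _ => 1 from rfl]
  ring

theorem pair_mid : H6.pairSum b b (dihW M lam (2 * (2 ^ (m - 2) : ℕ))) = 0 := by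
  obtain ⟨v1, -, v3⟩ := D.val_b h hM hζ hl hc h1 hb h3 hδ hσ
  refine mul_left_cancel₀ (mul_ne_zero (H7.card_ne_zero' (𝐙 b)) (H7.card_ne_zero' (𝐙 b))) ?_
  rw [dihW, H6.card_mul_pairSum_eq_sum _ _ (cf_colW _ _), mul_zero]
  simp only [← H7.ip_eq_classInner, ← cz_spec (isGen_colW _ (isGen_etaF _))]
  have := D.mid
  rw [dihW] at this
  simp only [this, Pi.add_apply, Int.cast_add, add_mul, Finset.sum_add_distrib, sum_single_mul,
    irrOne_apply, hσ, hb, hδ, map_one, D.odd₁ b, D.odd₁ 1, v1,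
    D.odd₃ h hM hζ hl h1 hδ hσ (y := 1) (by simp)]
  have e3 : (D.χ₃ : G → ℂ) b = -D.δ₃ := by linear_combination D.δ₃ * v3 - (D.χ₃ : G → ℂ) b * D.sq₃
  have e0 : D.e 1 ≠ 0 := fun e => irr_one_ne_zero D.χ₁ (by rw [D.odd₁, e, mul_zero])
  rw [e3]
  rcases D.s₁ with e | e <;> rcases D.s₃ with e' | e' <;> simp [e, e']

theorem pair_col (j : Fin (2 ^ (m - 2) - 1)) : (Nat.card (𝐙 b) : ℂ) * Nat.card (𝐙 b) *
    H6.pairSum b b (dihW M lam (2 * ((j : ℕ) + 1 : ℕ))) = (Nat.card G : ℂ) ^ 2 * (1 + 1 / D.e 1) := by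
  obtain ⟨v1, v2, -⟩ := D.val_b h hM hζ hl hc h1 hb h3 hδ hσ
  rw [dihW, H6.card_mul_pairSum_eq_sum _ _ (cf_colW _ _)]
  simp only [← H7.ip_eq_classInner, ← cz_spec (isGen_colW _ (isGen_etaF _))]
  have := D.col j
  rw [dihW] at this
  simp only [this, Pi.add_apply, Int.cast_add, add_mul, Finset.sum_add_distrib, sum_single_mul,
    irrOne_apply, D.odd₁ b, D.odd₁ 1, v1, v2]
  rcases D.s₁ with e | e <;> simp [e]

theorem deg_eq {q : ℤ} (hq : D.e 1 = -q) (ho : Odd q) {χ : IrrCharacter G}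
    (hχ : χ ∈ principalBlock M G) (ht : (χ : G → ℂ) (a ^ 2 ^ (m - 1)) = (χ : G → ℂ) 1) {p : ℕ}
    (hp : charDegree (χ : G → ℂ) = p) (hp1 : p ≠ 1) (hp2 : Odd p) :
    (q = p ∨ q = -p) ∧ ((χ : G → ℂ) b = 1 ∨ (χ : G → ℂ) b = -1) := by
  obtain ⟨v1, -, v3⟩ := D.val_b h hM hζ hl hc h1 hb h3 hδ hσ
  have hd : (χ : G → ℂ) 1 = p := by rw [irr_one_eq, hp]
  rcases D.nf_cases h hM hζ hl hc hχ (H6.mem_charKer.1 ((H6.mem_charKer_iff_irr χ.2).2 ht)) with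
    rfl | rfl | rfl | rfl | ⟨j, rfl⟩
  · simp at hd; exact (hp1 (by exact_mod_cast hd.symm)).elim
  · rw [D.odd₁, hq] at hd
    rw [D.odd₁, v1]
    rcases D.s₁ with e | e <;> simp only [e] at hd ⊢ <;> norm_cast at hd <;> simp <;> omega
  · simp [hσ] at hd; exact (hp1 (by exact_mod_cast hd.symm)).elim
  · rw [D.odd₃ h hM hζ hl h1 hδ hσ (by simp), hq] at hd
    rcases D.s₃ with e | e <;> simp only [e] at hd v3 ⊢ <;> norm_cast at hd <;> simp at v3 <;>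
      simp [v3] <;> omega
  · rw [D.oddk h hM hζ hl j (sq_pPart_odd (by simp)), hq] at hd
    obtain ⟨r, rfl⟩ := ho
    obtain ⟨s, rfl⟩ := hp2
    rcases D.s₁ with e | e <;> simp only [e] at hd <;> norm_cast at hd <;> omega

end SDB

end Cfsg.Agent.H1.Sw
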