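import Mathlib
import Cfsg.Agent.H1.Sw4
import Cfsg.Agent.H3.ABG

/-!
The values of the characters of the principal `2`-block on the section of an involution
(semidihedral case).
-/

set_option autoImplicit false

namespace Cfsg.Agent.H1.Sw

open Cfsg H9 H8 Subgroup
open Cfsg.Agent.H7 (ip ind)
open scoped ComplexConjugate

local notation:max "𝐙 " x:max => Subgroup.centralizer (Singleton.singleton x : Set _)

theorem int_aux {k A B C : ℤ} (hk : 1 ≤ k) (e4 : A = B + C)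
    (h3 : 1 + (1 + 4 * k * A) ^ 2 + (1 + 4 * k * B) ^ 2 + (1 + 4 * k * C) ^ 2 +
      (2 + 4 * k * A) ^ 2 ≤ 16 * k) : A = 0 ∧ B = 0 ∧ C = 0 := by
  have h4 : ∀ x : ℤ, x ≠ 0 → 8 * k ≤ (1 + 4 * k * x) ^ 2 := fun x hx => by
    rcases lt_or_gt_of_ne hx with e | e
    · have : 1 + 4 * k * x ≤ -(4 * k - 1) := by nlinarith
      nlinarith
    · have : 4 * k - 1 ≤ 1 + 4 * k * x := by nlinarith
      nlinarith
  have hA0 : A = 0 := by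
    by_contra e
    by_cases e' : B = 0
    · linarith [h4 A e, h4 C (by omega), sq_nonneg (1 + 4 * k * B), sq_nonneg (2 + 4 * k * A)]
    · linarith [h4 A e, h4 B e', sq_nonneg (1 + 4 * k * C), sq_nonneg (2 + 4 * k * A)]
  have hB0 : B = 0 := by
    by_contra e
    linarith [h4 B e, h4 C (by omega), sq_nonneg (1 + 4 * k * A), sq_nonneg (2 + 4 * k * A)]
  omega

theorem int_core {n y₁ y₂ z₁ z₂ w₁ w₂ : ℤ} (hn : 2 ≤ n) (he : 2 ∣ n) (r₁ : z₁ + w₁ = 1 + y₁)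
    (r₂ : z₂ + w₂ = y₂) (hQ : ∀ α β : ℤ, α ^ 2 + (α * y₁ + β * y₂) ^ 2 + (α * z₁ + β * z₂) ^ 2 +
      (α * w₁ + β * w₂) ^ 2 + (α * (1 + y₁) + β * y₂) ^ 2 ≤
        α ^ 2 * (2 * n + 2) + 2 * α * β * (2 * n - 2) + β ^ 2 * (2 * n + 2))
    (c₁ : 2 * n ∣ y₁ + y₂ - 1)
    (c₂ : 2 * n ∣ z₁ + z₂ - 1 ∧ 2 * n ∣ w₁ + w₂ - 1 ∨ z₁ = w₁ ∧ z₂ = w₂) :
    y₁ = 0 ∧ y₂ = 1 ∧ (z₁ = 1 ∧ z₂ = 0 ∧ w₁ = 0 ∧ w₂ = 1 ∨ z₁ = 0 ∧ z₂ = 1 ∧ w₁ = 1 ∧ w₂ = 0) := by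
  obtain ⟨Y, rfl⟩ : ∃ Y, y₁ = Y + y₂ := ⟨y₁ - y₂, by ring⟩
  obtain ⟨Z, rfl⟩ : ∃ Z, z₁ = Z + z₂ := ⟨z₁ - z₂, by ring⟩
  obtain ⟨W, rfl⟩ : ∃ W, w₁ = W + w₂ := ⟨w₁ - w₂, by ring⟩
  have h1 : 1 + Y ^ 2 + Z ^ 2 + W ^ 2 + (1 + Y) ^ 2 ≤ 8 := by linarith [hQ 1 (-1)]
  have h2 := hQ 1 1
  obtain ⟨k, rfl⟩ := he
  obtain ⟨A, hA⟩ := c₁
  have hA4 : 4 ∣ Y + y₂ + y₂ - 1 := ⟨k * A, by rw [hA]; ring⟩
  have b1 : -3 < Y := by nlinarith [sq_nonneg Z, sq_nonneg W]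
  have b2 : Y < 2 := by nlinarith [sq_nonneg Z, sq_nonneg W]
  have b3 : -3 < Z := by nlinarith [sq_nonneg Y, sq_nonneg W, sq_nonneg (1 + Y)]
  have b4 : Z < 3 := by nlinarith [sq_nonneg Y, sq_nonneg W, sq_nonneg (1 + Y)]
  have hY : Y = 1 ∨ Y = -1 := by omega
  rcases hY with rfl | rfl
  · exfalso
    have hZ : Z = 1 := by
      have : W = 2 - Z := by omega
      subst this
      nlinarith
    have hW : W = 1 := by omega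
    subst hZ hW
    have hy : y₂ + 1 ≠ 0 := by omega
    have h3 : ∀ s : ℤ, 8 * s * (y₂ + 1) ≤ 4 * k + 2 := fun s => by
      have := hQ s (1 - s)
      rw [show w₂ = y₂ - z₂ by omega] at this
      linarith [sq_nonneg y₂, sq_nonneg z₂, sq_nonneg (y₂ - z₂)]
    have h4 : 1 ≤ (y₂ + 1) ^ 2 := by nlinarith [sq_pos_of_pos (abs_pos.2 hy), sq_abs (y₂ + 1)]
    have h5 := h3 ((y₂ + 1) * (4 * k + 3))
    have h6 := mul_le_mul_of_nonneg_right h4 (show 0 ≤ 4 * k + 3 by omega)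
    linarith
  rcases c₂ with ⟨⟨B, hB⟩, C, hC⟩ | ⟨e1, e2⟩
  · have hB4 : 4 ∣ Z + z₂ + z₂ - 1 := ⟨k * B, by rw [hB]; ring⟩
    have hZ : Z = 1 ∨ Z = -1 := by omega
    have e1 : -1 + y₂ + y₂ = 1 + 4 * k * A := by linarith
    have e2 : Z + z₂ + z₂ = 1 + 4 * k * B := by linarith
    have e3 : W + w₂ + w₂ = 1 + 4 * k * C := by linarith
    have e4 : A = B + C := by
      have : k * (A - B - C) = 0 := by linarith
      rcases mul_eq_zero.1 this with e | e <;> omega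
    have h3 : 1 + (1 + 4 * k * A) ^ 2 + (1 + 4 * k * B) ^ 2 + (1 + 4 * k * C) ^ 2 +
        (2 + 4 * k * A) ^ 2 ≤ 16 * k := by
      rw [← e1, ← e2, ← e3, show 2 + 4 * k * A = y₂ + y₂ by linarith]
      linarith
    obtain ⟨hA0, hB0, hC0⟩ := int_aux (by omega) e4 h3
    subst hA0 hB0 hC0
    omega
  · omega

theorem coeff_zero {A B x y : ℂ} (hxy : x ≠ y) (h1 : A + B * x = 0) (h2 : A + B * y = 0) :
    A = 0 ∧ B = 0 := by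
  have : B = 0 := (mul_eq_zero.1 (show B * (x - y) = 0 by linear_combination h1 - h2)).resolve_right
    (sub_ne_zero.2 hxy)
  exact ⟨by simpa [this] using h1, this⟩

variable {M : Ideal AlgInt} [hMm : M.IsMaximal] {G : Type*} [Group G] [Fintype G]
variable {P : Sylow 2 G} {a b : G} {m : ℕ} (h : H3.MCS (P : Subgroup G) a b m)
  (hM : IsPModular 2 M) {lam : zpowers a →* ℂˣ} {ζ : ℂ}
  (hζ : IsPrimitiveRoot ζ (2 ^ m)) (hl : (lam ⟨a, mem_zpowers a⟩ : ℂ) = ζ)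

include h hM hζ hl in
theorem local_data (hc : ∀ x, a ^ 2 ^ (m - 1) * x = x * a ^ 2 ^ (m - 1))
    (hQ : H3.OA 2 (zpowers (a ^ 2 ^ (m - 2)) ⊔ zpowers (a * b))) :
    ∃ (e : G → ℂ) (q : ℤ), e 1 = -q ∧ 2 ^ (m - 1) ∣ q + 1 ∧ (∃ y, ¬ 2 ∣ orderOf y ∧ e y ≠ e 1) ∧
      (∀ F : G → ℂ, IsGeneralizedCharacter G F →
        (∀ y, ¬ 2 ∣ orderOf y → blockPart (principalBlock M G) F y = F y) →
        ∃ d : ℤ × ℤ, ∀ y, ¬ 2 ∣ orderOf y → F y = d.1 + d.2 * e y) ∧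
      (∀ c y : G, ¬ 2 ∣ orderOf c → ¬ 2 ∣ orderOf y →
        ∑ χ ∈ bs (principalBlock M G), (χ : G → ℂ) c * conj ((χ : G → ℂ) y) =
          2 * (2 + 2 * e c * conj (e y) + (2 ^ (m - 2) - 1) * ((1 + e c) * (1 + conj (e y))))) ∧
      H6.pairSum b b (dihW M lam (2 * (2 ^ (m - 2) : ℕ))) = 0 ∧
      H6.pairSum b b (dihW M lam (2 * (1 : ℕ))) = ((𝐙 b).index : ℂ) ^ 2 * (1 - 1 / q) ∧
      q ∣ (𝐙 b).index ∧ q - 1 ∣ Nat.card G ∧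
      ∀ χ : IrrCharacter G, χ ∈ principalBlock M G →
        (χ : G → ℂ) (a ^ 2 ^ (m - 1)) = (χ : G → ℂ) 1 → ∀ p : ℕ, charDegree (χ : G → ℂ) = p →
        p ≠ 1 → Odd p → (q = p ∨ q = -p) ∧ ((χ : G → ℂ) b = 1 ∨ (χ : G → ℂ) b = -1) := by
  classical
  have h3' := h.three_le
  obtain ⟨sg, h1, hb, ha, h3⟩ := exists_sgn h hc hQ
  obtain ⟨D, hδ, hσ⟩ := exists_SDB_sgn h hM hζ hl h1 ha
  obtain ⟨n, hn⟩ := D.cong₁ h hM hζ hl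
  have h0 := D.nf₁ h hζ hl hc 1
  rw [mul_one] at h0
  have he : D.e 1 = -((-(1 + 2 ^ (m - 1) * n) : ℤ) : ℂ) := by rw [SDB.e, ← h0, hn]; simp
  have hpos : 0 < 2 ^ (m - 2) - 1 := by
    have := Nat.pow_le_pow_right two_pos (show 1 ≤ m - 2 by omega)
    omega
  have hv := D.val_b h hM hζ hl hc h1 hb h3 hδ hσ
  refine ⟨D.e, _, he, ⟨-n, by ring⟩, D.nonconst h h1 hb h3 hσ,
    fun F => D.exists_dec h hM hζ hl hc h1 hb h3 hδ hσ, fun c y => D.gram h hM hζ hl hc h1 hδ hσ,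
    D.pair_mid h hM hζ hl hc h1 hb h3 hδ hσ, ?_, ?_, ?_, fun χ hχ ht p =>
      D.deg_eq h hM hζ hl hc h1 hb h3 hδ hσ he (Odd.neg (odd_one.add_even
        ((Even.pow_of_ne_zero even_two (by omega)).mul_right n))) hχ ht⟩
  · refine mul_left_cancel₀ (mul_ne_zero (H7.card_ne_zero' (𝐙 b)) (H7.card_ne_zero' (𝐙 b))) ?_
    have := D.pair_col h hM hζ hl hc h1 hb h3 hδ hσ ⟨0, hpos⟩
    rw [show _ = _ from this, he, ← (𝐙 b).index_mul_card, div_neg]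
    push_cast
    ring
  · have := deg_dvd_index_mul D.χ₁ (g := b) (n := -1) D.s₁ (d := 1 + 2 ^ (m - 1) * n)
      (by rw [← h0, hn]) (by exact_mod_cast hv.1)
    rwa [mul_neg_one, dvd_neg, ← neg_dvd] at this
  · have h4 := D.oddk h hM hζ hl ⟨0, hpos⟩ (y := 1) (sq_pPart_odd (by simp))
    rw [he, irr_one_eq] at h4
    have h5 : ((charDegree (D.k ⟨0, hpos⟩ : G → ℂ) : ℕ) : ℤ) ∣ Nat.card G := by
      exact_mod_cast charDegree_dvd_card _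
    generalize -(1 + 2 ^ (m - 1) * n) = q at h4 ⊢
    refine dvd_trans ⟨-D.δ₁, ?_⟩ h5
    apply Int.cast_injective (α := ℂ)
    push_cast
    linear_combination h4

omit hMm in
include h in
theorem exists_conj_mem (hQ : H3.OA 2 (zpowers (a ^ 2 ^ (m - 2)) ⊔ zpowers (a * b))) {w : G}
    (hw : ∃ k : ℕ, orderOf w = 2 ^ k) (h2 : w ^ 2 ≠ 1) : ∃ x, x * w * x⁻¹ ∈ zpowers a := by
  obtain ⟨x, hx⟩ := H20.exists_conj_mem_sylow (isPGroup_zpowers hw) P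
  have h1 := hx w (mem_zpowers w)
  by_cases e : x * w * x⁻¹ ∈ zpowers a
  · exact ⟨x, e⟩
  obtain ⟨g, -, hg⟩ := h.conj_four h1 e (by rw [conj_pow]; simpa)
  obtain ⟨y, hy⟩ := isConj_iff.1 (h.ab.oa_eight h.three_le hQ).1
  refine ⟨y⁻¹ * g⁻¹ * x, ?_⟩
  rw [show y⁻¹ * g⁻¹ * x * w * (y⁻¹ * g⁻¹ * x)⁻¹ = y⁻¹ * (g⁻¹ * (x * w * x⁻¹) * g) * y by group,
    ← hg, ← hy]
  simp [mul_assoc]

omit [Fintype G] in
include hl in
theorem etaF_apply (j k : ℤ) : etaF lam j ⟨a ^ k, k, rfl⟩ = 1 - (ζ ^ k) ^ j := by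
  rw [etaF, show (⟨a ^ k, _⟩ : zpowers a) = ⟨a, mem_zpowers a⟩ ^ k from rfl, MonoidHom.zpow_apply,
    map_zpow, ← hl]
  simp

include h hM hζ hl in
theorem sdW_val (j k : ℤ) {g : G} (hg : pPart 2 g = a ^ k) (h2 : (a ^ k) ^ 2 ≠ 1) :
    dihW M lam (2 * j) g = 1 - (ζ ^ k) ^ (2 * j) + (1 - (ζ ^ k) ^ (-(2 * j))) := by
  rw [dihW, colW_eq_pPart _ hM _ (hg ▸ sd_hasNPC h ⟨k, rfl⟩ fun e => h2 (by
    rcases h.mem_z_iff.1 e with e | e <;> rw [e]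
    exacts [one_pow _, h.z_sq])), hg, ← etaF_apply hl, ← etaF_apply hl, ← sdW_apply h hM hζ hl]
  rfl

end Cfsg.Agent.H1.Sw
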