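import Mathlib
import Cfsg.Agent.H1.Sw5

/-!
Order formulas for groups with semidihedral Sylow `2`-subgroups and no subgroup of index two.
-/

set_option autoImplicit false

namespace Cfsg.Agent.H1.Sw

open Cfsg H9 H8 Subgroup
open Cfsg.Agent.H7 (ip ind)
open scoped ComplexConjugate

local notation:max "𝐙 " x:max => Subgroup.centralizer (Singleton.singleton x : Set _)

variable {M : Ideal AlgInt} [hMm : M.IsMaximal] {G : Type*} [Group G] [Fintype G]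
variable {P : Sylow 2 G} {a b : G} {m : ℕ} (h : H3.MCS (P : Subgroup G) a b m)
  (hM : IsPModular 2 M) {lam : zpowers a →* ℂˣ} {ζ : ℂ}
  (hζ : IsPrimitiveRoot ζ (2 ^ m)) (hl : (lam ⟨a, mem_zpowers a⟩ : ℂ) = ζ)
  (hres : (P : Subgroup G) ≤ pResidual 2 G)

omit hMm
include h

theorem sd_le : (P : Subgroup G) ≤ 𝐙 (a ^ 2 ^ (m - 1)) := fun s hs =>
  mem_centralizer_singleton_iff.2 (h.z_cen s hs)

theorem sd_so : H3.MCS (P.subtype (sd_le h) : Subgroup (𝐙 (a ^ 2 ^ (m - 1))))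
    ⟨a, sd_le h h.a_mem⟩ ⟨b, sd_le h h.b_mem⟩ m := h.so (sd_le h)

theorem sd_cen (x : 𝐙 (a ^ 2 ^ (m - 1))) :
    (⟨a, sd_le h h.a_mem⟩ : 𝐙 (a ^ 2 ^ (m - 1))) ^ 2 ^ (m - 1) * x =
      x * ⟨a, sd_le h h.a_mem⟩ ^ 2 ^ (m - 1) :=
  Subtype.ext (mem_centralizer_singleton_iff.1 x.2).symm

include hres in
theorem sd_oa : H3.OA 2 (zpowers ((⟨a, sd_le h h.a_mem⟩ : 𝐙 (a ^ 2 ^ (m - 1))) ^ 2 ^ (m - 2)) ⊔
    zpowers ((⟨a, sd_le h h.a_mem⟩ : 𝐙 (a ^ 2 ^ (m - 1))) * ⟨b, sd_le h h.b_mem⟩)) := by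
  have hK := sd_le h
  have h8 := h.ab.q8 h.ab_sq
  have := (h.oa_of_le_res (H3.syl_coe P) hres).2.so ((h.ab.sub_le _).trans hK) fun g hg => by
    have e := h8.eq_z_of_sq (FT.conj_mem hg (h8.le h8.z_mem))
      (by rw [conj_pow, h8.z_sq, mul_one, mul_inv_cancel]) (FT.conj_ne_one.2 h8.z_ne)
    rw [h.y_sq'] at e
    exact FT.mem_cen1.2 (mul_inv_eq_iff_eq_mul.1 e)
  rwa [FT.so_sup ((zpowers_le.2 (h.le h.y_mem)).trans hK) ((zpowers_le.2 h.ab.b_mem).trans hK),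
    H3.so_zpowers (hK (h.le h.y_mem)), H3.so_zpowers (hK h.ab.b_mem)] at this

include hres in
theorem sd_one {s : G} (hs : orderOf s = 2) : IsConj s (a ^ 2 ^ (m - 1)) :=
  (h.cls2_one (H3.syl_coe P) (h.oa_of_le_res (H3.syl_coe P) hres).1 hs).symm

include hMm hM hζ hl hres in
theorem pair_transfer [inst : Fintype (𝐙 (a ^ 2 ^ (m - 1)))]
    {lam' : zpowers (⟨a, sd_le h h.a_mem⟩ : 𝐙 (a ^ 2 ^ (m - 1))) →* ℂˣ}
    (hl' : (lam' ⟨_, mem_zpowers _⟩ : ℂ) = ζ) (j : ℤ) :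
    H6.pairSum (a ^ 2 ^ (m - 1)) (a ^ 2 ^ (m - 1)) (dihW M lam (2 * j)) =
      (𝐙 (a ^ 2 ^ (m - 1))).index * H6.pairSum (⟨b, sd_le h h.b_mem⟩ : 𝐙 (a ^ 2 ^ (m - 1)))
        ⟨b, sd_le h h.b_mem⟩ (dihW M lam' (2 * j)) := by
  classical
  have h' := sd_so h
  have hcf : IsClassFunction G (dihW M lam (2 * j)) := cf_colW _ _
  have hcf' : IsClassFunction _ (dihW M lam' (2 * j)) := cf_colW _ _
  have key : ∀ g : 𝐙 (a ^ 2 ^ (m - 1)), (if a ^ 2 ^ (m - 1) ∈ zpowers (g : G) then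
      dihW M lam (2 * j) g else 0) = dihW M lam' (2 * j) g := fun g => by
    by_cases e : pPart 2 g ^ 2 = 1
    · rw [sdW_zero h' hM hζ hl' j e, sdW_zero h hM hζ hl j (by
        rw [pPart_coe]; exact congrArg Subtype.val e), ite_self]
    obtain ⟨x, k, hk⟩ := exists_conj_mem h' (sd_oa h hres) (orderOf_pPart (p := 2) g) e
    have hk : (⟨a, sd_le h h.a_mem⟩ : 𝐙 (a ^ 2 ^ (m - 1))) ^ k = pPart 2 (x * g * x⁻¹) :=
      hk.trans (pPart_conj _ _).symm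
    have e' : ((⟨a, sd_le h h.a_mem⟩ : 𝐙 (a ^ 2 ^ (m - 1))) ^ k) ^ 2 ≠ 1 := by
      rw [hk, pPart_conj, conj_pow]; simpa
    have hk' : pPart 2 ((x : G) * g * (x : G)⁻¹) = a ^ k :=
      (pPart_coe _ (x * g * x⁻¹)).trans (congrArg Subtype.val hk.symm)
    have e'' : (a ^ k) ^ 2 ≠ 1 := fun e0 => e' (Subtype.ext e0)
    rw [if_pos, ← hcf g x, ← hcf' g x, sdW_val h hM hζ hl j k hk' e'',
      sdW_val h' hM hζ hl' j k hk.symm e']
    have h1 : a ^ 2 ^ (m - 1) ∈ zpowers (a ^ k) :=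
      h.z_mem_of_ne (zpowers_le.2 ⟨k, rfl⟩) (by
        rw [Ne, zpowers_eq_bot]; exact fun e0 => e'' (by rw [e0, one_pow]))
    have h2 := H6.conj_mem_zpowers_conj (zpowers_le.2 (hk' ▸ pPart_mem_zpowers _) h1) (x : G)⁻¹
    rwa [show (x : G)⁻¹ * (x * g * (x : G)⁻¹) * (x : G)⁻¹⁻¹ = g by group,
      mem_centralizer_singleton_iff.1 (inv_mem x.2), mul_inv_cancel_right] at h2
  rw [eq_indFun_of_one_class h.ord_z (fun s => sd_one h hres) hcf fun g hg =>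
    sdW_zero h hM hζ hl j (sq_pPart_odd hg), H6.pairSum_indFun_of_inverts _ h.z_mul h.z_mul _
    fun c hc x _ e => by
      obtain ⟨k, hk⟩ := Subgroup.mem_zpowers_iff.1
        (show a ^ 2 ^ (m - 1) ∈ Subgroup.zpowers (c : G) from by_contra fun h => hc (if_neg h))
      rw [Subgroup.mem_centralizer_singleton_iff, ← mul_inv_eq_iff_eq_mul, ← hk,
        H20.conj_zpow_of_inverts e, zpow_neg, hk, h.z_inv]]
  congr 1
  simp only [key]
  rw [H6.pairSumIn, H6.pairSum]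
  symm
  refine Finset.sum_subset (fun p hp => ?_) fun p hp hn => ?_
  · simp only [Finset.mem_filter, Finset.mem_univ, true_and] at hp ⊢
    have h1 := (sd_one h hres (h.ord_b_two h.sq)).symm
    exact ⟨h1.trans ((𝐙 _).subtype.map_isConj hp.1), h1.trans ((𝐙 _).subtype.map_isConj hp.2)⟩
  simp only [Finset.mem_filter, Finset.mem_univ, true_and] at hp hn
  have h1 : ∀ x : 𝐙 (a ^ 2 ^ (m - 1)), IsConj (a ^ 2 ^ (m - 1)) (x : G) → x ^ 2 = 1 ∧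
      (x = ⟨a, sd_le h h.a_mem⟩ ^ 2 ^ (m - 1) ∨ IsConj ⟨b, sd_le h h.b_mem⟩ x) := fun x hx => by
    have h2 : orderOf x = 2 := by
      obtain ⟨y, hy⟩ := isConj_iff.1 hx
      rw [← orderOf_coe, ← hy, orderOf_conj', h.ord_z]
    refine ⟨orderOf_dvd_iff_pow_eq_one.1 h2.dvd, (h'.cls_two (H3.syl_coe _) h2).imp_left fun e => ?_⟩
    obtain ⟨y, rfl⟩ := isConj_iff.1 e
    rw [← sd_cen h, mul_inv_cancel_right]
  have h2 : (p.1 * p.2) ^ 2 = 1 := by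
    rw [Commute.mul_pow, (h1 _ hp.1).1, (h1 _ hp.2).1, one_mul]
    rcases (h1 _ hp.1).2 with e | e
    · rw [e]; exact sd_cen h _
    rcases (h1 _ hp.2).2 with e' | e'
    · rw [e']; exact (sd_cen h _).symm
    exact (hn ⟨e, e'⟩).elim
  refine sdW_zero h' hM hζ hl' j ?_
  exact orderOf_dvd_iff_pow_eq_one.1 ((orderOf_dvd_of_mem_zpowers (pPart_mem_zpowers _)).trans
    (orderOf_dvd_iff_pow_eq_one.2 h2))

variable [DecidableEq (IrrCharacter G)]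

include hMm hM hζ hl in
theorem exists_vals {e : 𝐙 (a ^ 2 ^ (m - 1)) → ℂ} {q : ℤ} (he : e 1 = -q)
    (hq : 2 ^ (m - 1) ∣ q + 1) (hy : ∃ y, ¬ 2 ∣ orderOf y ∧ e y ≠ e 1)
    (hd : ∀ F : 𝐙 (a ^ 2 ^ (m - 1)) → ℂ, IsGeneralizedCharacter _ F →
      (∀ y, ¬ 2 ∣ orderOf y → blockPart (principalBlock M _) F y = F y) →
      ∃ d : ℤ × ℤ, ∀ y, ¬ 2 ∣ orderOf y → F y = d.1 + d.2 * e y)
    (hg : ∀ c y : 𝐙 (a ^ 2 ^ (m - 1)), ¬ 2 ∣ orderOf c → ¬ 2 ∣ orderOf y →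
      ∑ χ ∈ bs (principalBlock M (𝐙 (a ^ 2 ^ (m - 1)))), (χ : _ → ℂ) c * conj ((χ : _ → ℂ) y) =
        2 * (2 + 2 * e c * conj (e y) + (2 ^ (m - 2) - 1) * ((1 + e c) * (1 + conj (e y))))) :
    ∃ D : SDB M lam m, D.δ₁ * (D.χ₁ : G → ℂ) (a ^ 2 ^ (m - 1)) = (-q : ℤ) ∧
      (-D.δ₂ : ℤ) * (D.χ₂ : G → ℂ) (a ^ 2 ^ (m - 1)) = (1 : ℤ) ∧
      (-D.δ₃ : ℤ) * (D.χ₃ : G → ℂ) (a ^ 2 ^ (m - 1)) = (-q : ℤ) := by
  classical
  have h3 := h.three_le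
  obtain ⟨D⟩ := nonempty_SDB h hM hζ hl
  have hd' : ∀ χ : IrrCharacter G, ∃ d : ℤ × ℤ, χ ∈ principalBlock M G →
      ∀ y : 𝐙 (a ^ 2 ^ (m - 1)), ¬ 2 ∣ orderOf y →
        (χ : G → ℂ) (a ^ 2 ^ (m - 1) * y) = d.1 + d.2 * e y := fun χ => by
    by_cases hχ : χ ∈ principalBlock M G
    · obtain ⟨d, hd⟩ := hd (fun c => (χ : G → ℂ) (a ^ 2 ^ (m - 1) * c))
        (isGen_central_mul (H6.isGen_comp (𝐙 _).subtype (H6.isGen_of_irr χ.2)) (selfC_comm _)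
          (Subtype.ext h.z_mul)) fun y hy => by
          rw [← principal_section hM ⟨1, h.ord_z⟩ hy (irr_isClassFunction χ), blockPart_of_mem hχ]
      exact ⟨d, fun _ => hd⟩
    · exact ⟨0, fun e => (hχ e).elim⟩
  choose d hd' using hd'
  obtain ⟨y, hy, hne⟩ := hy
  have o1 : ¬ 2 ∣ orderOf (1 : 𝐙 (a ^ 2 ^ (m - 1))) := by simp
  have hz : ∀ {A B : ℤ}, (∀ y : 𝐙 (a ^ 2 ^ (m - 1)), ¬ 2 ∣ orderOf y → A + B * e y = 0) →
      A = 0 ∧ B = 0 := fun hA => by exact_mod_cast coeff_zero hne (hA y hy) (hA 1 o1)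
  have hp : ∀ y : 𝐙 (a ^ 2 ^ (m - 1)), ¬ 2 ∣ orderOf y → pPart 2 (a ^ 2 ^ (m - 1) * y) ^ 2 = 1 :=
    fun y hy => by
      rw [pPart_mul ⟨1, h.ord_z⟩ (by rwa [orderOf_coe])
        (mem_centralizer_singleton_iff_commute.1 y.2), h.z_sq]
  have hG : ∀ c y : 𝐙 (a ^ 2 ^ (m - 1)), ¬ 2 ∣ orderOf c → ¬ 2 ∣ orderOf y →
      (((∑ χ ∈ bs (principalBlock M G), (d χ).1 * (d χ).1 : ℤ) : ℂ) - (2 * 2 ^ (m - 2) + 2) +
        (((∑ χ ∈ bs (principalBlock M G), (d χ).1 * (d χ).2 : ℤ) : ℂ) - (2 * 2 ^ (m - 2) - 2)) *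
          conj (e y)) +
      ((((∑ χ ∈ bs (principalBlock M G), (d χ).1 * (d χ).2 : ℤ) : ℂ) - (2 * 2 ^ (m - 2) - 2)) +
        (((∑ χ ∈ bs (principalBlock M G), (d χ).2 * (d χ).2 : ℤ) : ℂ) - (2 * 2 ^ (m - 2) + 2)) *
          conj (e y)) * e c = 0 := fun c y hc hy => by
    have h1 := sum_principal_section hM ⟨1, h.ord_z⟩ hy hc
    rw [← bs_eq_filter, ← bs_eq_filter, hg c y hc hy, Finset.sum_congr rfl (g := fun χ =>
      (d χ).1 * (d χ).1 + (d χ).1 * (d χ).2 * conj (e y) + (d χ).1 * (d χ).2 * e c +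
        (d χ).2 * (d χ).2 * (conj (e y) * e c)) fun χ hχ => by
          rw [hd' χ (mem_bs.1 hχ) c hc, hd' χ (mem_bs.1 hχ) y hy]
          simp only [map_add, map_mul, map_intCast]
          ring] at h1
    simp only [Finset.sum_add_distrib, ← Finset.sum_mul] at h1
    push_cast
    linear_combination h1
  have hG1 := fun y' hy' => coeff_zero hne (hG y y' hy hy') (hG 1 y' o1 hy')
  have hne' : conj (e y) ≠ conj (e 1) := fun e => hne ((RingHom.injective _) e)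
  obtain ⟨g1, g2⟩ := coeff_zero hne' (hG1 y hy).1 (hG1 1 o1).1
  have g3 := (coeff_zero hne' (hG1 y hy).2 (hG1 1 o1).2).2
  rw [sub_eq_zero] at g1 g2 g3
  norm_cast at g1 g2 g3
  rw [Int.subNatNat_eq_coe] at g2
  have hpos : 2 ≤ 2 ^ (m - 2) := Nat.pow_le_pow_right two_pos (show 1 ≤ m - 2 by omega)
  have d0 := hz (A := (d (irrOne G)).1 - 1) (B := (d (irrOne G)).2) fun y hy => by
    have := hd' _ irrOne_mem_principalBlock y hy
    rw [irrOne_apply] at this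
    push_cast
    linear_combination -this
  have dm := hz (A := 1 + D.δ₁ * (d D.χ₁).1 + D.δ₂ * (d D.χ₂).1 + D.δ₃ * (d D.χ₃).1)
    (B := D.δ₁ * (d D.χ₁).2 + D.δ₂ * (d D.χ₂).2 + D.δ₃ * (d D.χ₃).2) fun y hy => by
      have := D.mid_zero h hM hζ hl (hp y hy)
      rw [hd' _ D.mem₁ y hy, hd' _ D.mem₂ y hy, hd' _ D.mem₃ y hy] at this
      push_cast
      linear_combination this
  set j : Fin (2 ^ (m - 2) - 1) := ⟨0, by omega⟩
  have dk := hz (A := 1 + D.δ₁ * (d D.χ₁).1 - D.δ₁ * (d (D.k j)).1)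
    (B := D.δ₁ * (d D.χ₁).2 - D.δ₁ * (d (D.k j)).2) fun y hy => by
      have := D.col_zero h hM hζ hl j (hp y hy)
      rw [hd' _ D.mem₁ y hy, hd' _ (D.memk j) y hy] at this
      push_cast
      linear_combination this
  have hN : (2 : ℤ) ^ (m - 1) = 2 * (2 ^ (m - 2) : ℕ) := by
    push_cast; rw [← pow_succ']; congr 1; omega
  have hc : ∀ (χ : IrrCharacter G) (δ : ℤ), χ ∈ principalBlock M G →
      (∃ n : ℤ, δ * (χ : G → ℂ) (a ^ 2 ^ (m - 1)) = ((1 + 2 ^ (m - 1) * n : ℤ) : ℂ)) →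
      2 * ((2 ^ (m - 2) : ℕ) : ℤ) ∣ δ * (d χ).1 + δ * (d χ).2 - 1 := fun χ δ hχ ⟨n, hn⟩ => by
    have := hd' χ hχ 1 o1
    rw [coe_one, mul_one, he] at this
    rw [this] at hn
    norm_cast at hn
    rw [← hN, show δ * (d χ).1 + δ * (d χ).2 - 1 = 2 ^ (m - 1) * n + (q + 1) * (δ * (d χ).2) by
      push_cast at hn; linear_combination hn]
    exact dvd_add (dvd_mul_right _ _) (hq.mul_right _)
  have main := int_core (n := (2 ^ (m - 2) : ℕ)) (y₁ := D.δ₁ * (d D.χ₁).1) (y₂ := D.δ₁ * (d D.χ₁).2)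
    (z₁ := -D.δ₂ * (d D.χ₂).1) (z₂ := -D.δ₂ * (d D.χ₂).2) (w₁ := -D.δ₃ * (d D.χ₃).1)
    (w₂ := -D.δ₃ * (d D.χ₃).2) (by exact_mod_cast hpos)
    (by exact_mod_cast dvd_pow_self 2 (show m - 2 ≠ 0 by omega)) (by linarith [dm.1])
    (by linarith [dm.2]) (fun α β => by
      have h1 := Finset.sum_le_sum_of_subset_of_nonneg (f := fun χ => (α * (d χ).1 + β * (d χ).2) ^ 2)
        (s := {irrOne G, D.χ₁, D.χ₂, D.χ₃, D.k j}) (t := bs (principalBlock M G)) (fun χ hχ => by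
          simp only [Finset.mem_insert, Finset.mem_singleton] at hχ
          rcases hχ with rfl | rfl | rfl | rfl | rfl <;> rw [mem_bs]
          exacts [irrOne_mem_principalBlock, D.mem₁, D.mem₂, D.mem₃, D.memk j])
        fun _ _ _ => sq_nonneg _
      rw [Finset.sum_insert (by simp [D.n₁.symm, D.n₂.symm, D.n₃.symm, (D.nk j).2.2.2.symm]),
        Finset.sum_insert (by simp [D.n₁₂, D.n₁₃, (D.nk j).1.symm]),
        Finset.sum_insert (by simp [D.n₂₃, (D.nk j).2.1.symm]),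
        Finset.sum_pair (D.nk j).2.2.1.symm, Finset.sum_congr (s₁ := bs _) rfl (g := fun χ =>
          α ^ 2 * ((d χ).1 * (d χ).1) + 2 * α * β * ((d χ).1 * (d χ).2) +
            β ^ 2 * ((d χ).2 * (d χ).2)) fun χ _ => by ring] at h1
      simp only [Finset.sum_add_distrib, ← Finset.mul_sum, g1, g2, g3, sub_eq_zero.1 d0.1,
        d0.2] at h1
      rw [show 1 + D.δ₁ * (d D.χ₁).1 = D.δ₁ * (d (D.k j)).1 by linarith [dk.1]]
      nth_rw 2 [show D.δ₁ * (d D.χ₁).2 = D.δ₁ * (d (D.k j)).2 by linarith [dk.2]]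
      push_cast at h1 ⊢
      rcases D.s₁ with e1 | e1 <;> rcases D.s₂ with e2 | e2 <;> rcases D.s₃ with e3 | e3 <;>
        simp only [e1, e2, e3] <;> linarith)
    (hc _ _ D.mem₁ (D.cong₁ h hM hζ hl)) ((D.cong₂₃ h hM hζ hl).imp (fun e =>
      ⟨hc _ _ D.mem₂ (by simpa using e.1), hc _ _ D.mem₃ (by simpa using e.2)⟩) fun e => by
        have := hz (A := D.δ₂ * (d D.χ₂).1 - D.δ₃ * (d D.χ₃).1)
          (B := D.δ₂ * (d D.χ₂).2 - D.δ₃ * (d D.χ₃).2) fun y hy => by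
            have := e _ (hp y hy)
            rw [hd' _ D.mem₂ y hy, hd' _ D.mem₃ y hy] at this
            push_cast
            linear_combination this
        exact ⟨by linarith [this.1], by linarith [this.2]⟩)
  have hv : ∀ (χ : IrrCharacter G) (δ u v : ℤ), χ ∈ principalBlock M G → δ * (d χ).1 = u →
      δ * (d χ).2 = v → δ * (χ : G → ℂ) (a ^ 2 ^ (m - 1)) = (u - v * q : ℤ) :=
    fun χ δ u v hχ e1 e2 => by
      have := hd' χ hχ 1 o1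
      rw [coe_one, mul_one, he] at this
      rw [this, ← e1, ← e2]
      push_cast
      ring
  obtain ⟨m1, m2, ⟨m3, m4, m5, m6⟩ | ⟨m3, m4, m5, m6⟩⟩ := main
  · exact ⟨D, by simpa using hv _ _ _ _ D.mem₁ m1 m2, by simpa using hv _ _ _ _ D.mem₂ m3 m4,
      by simpa using hv _ _ _ _ D.mem₃ m5 m6⟩
  · exact ⟨D.swap, by simpa [SDB.swap] using hv _ _ _ _ D.mem₁ m1 m2,
      by simpa [SDB.swap] using hv _ _ _ _ D.mem₃ m5 m6,
      by simpa [SDB.swap] using hv _ _ _ _ D.mem₂ m3 m4⟩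

end Cfsg.Agent.H1.Sw
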